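/-
Project LS (standard subgroups of type `L₃(4)` with odd centre and noncyclic centraliser): definitions, symmetries and
the first steps of the proof as propositions.
-/
import Cfsg.Agent.L34.Defs
import Cfsg.Agent.Even.Amb2

set_option autoImplicit false
set_option linter.unusedSectionVars false
open Cfsg Subgroup CL.Even CL.Grp CL.L34
open scoped commutatorElement

namespace CL.LS

universe u v

theorem f4_add (a : F4) : a + a = 0 := by revert a; decide +kernel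
theorem f4_cube {a : F4} : a ≠ 0 → a * a * a = 1 := by revert a; decide +kernel
theorem f4_mul_eq_zero {a b : F4} : a * b = 0 ↔ a = 0 ∨ b = 0 := by revert a b; decide +kernel
theorem f4_cases (a : F4) : a = 0 ∨ a = 1 ∨ a = om ∨ a = om * om := by revert a; decide +kernel

/-- The model inside `L₃(4)`. -/
structure PM {P : Type v} [Group P] (ι : Heis F4 →* P) (h w1 w2 : P) : Prop where
  inj : Function.Injective ι
  syl : IsSylowIn 2 ι.range ⊤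
  h3 : h ^ 3 = 1
  ah : Act ι h (dg om om)
  aw1 : ∀ a c, w1 * ι ⟨a, 0, c⟩ * w1⁻¹ = ι ⟨c, 0, a⟩
  aw2 : ∀ b c, w2 * ι ⟨0, b, c⟩ * w2⁻¹ = ι ⟨0, c, b⟩
  gen : ⊤ ≤ ι.range ⊔ closure {h, w1, w2}
  cz : ∀ a c, c ≠ 0 → a * ι ⟨0, 0, c⟩ = ι ⟨0, 0, c⟩ * a → ∃ p, ι p * a = 1

/-- Automorphisms which are trivial on `U / V` are induced by `U`. -/
def PT {P : Type v} [Group P] (ι : Heis F4 →* P) : Prop :=
  ∀ β : MulAut P, (∀ p, ∃ c, β (ι p) = ι (p * ⟨0, 0, c⟩)) → ∃ p, ∀ x, ι p * β x * (ι p)⁻¹ = x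

/-- A standard subgroup `A` of type `L₃(4)`, `U = ι.range` Sylow in `A`, `R` Sylow in `K = C(A)`. -/
structure SD (G : Type u) [Group G] where
  A : Subgroup G
  R : Subgroup G
  ι : Heis F4 →* G
  h : G
  w1 : G
  w2 : G
  inj : Function.Injective ι
  mem : ∀ p, ι p ∈ A
  sylU : IsSylowIn 2 ι.range A
  quasi : ∀ D : Subgroup G, A ≤ 𝒩(D) → D ⊓ A ≤ 𝒞(A) ∨ A ≤ D
  oddZ : ∀ a ∈ A, a ∈ 𝒞(A) → Odd (orderOf a)
  hA : h ∈ A
  ho : Odd (orderOf h)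
  h3 : h ^ 3 ∈ 𝒞(A)
  ah : Act ι h (dg om om)
  w1A : w1 ∈ A
  aw1 : ∀ a c, w1 * ι ⟨a, 0, c⟩ * w1⁻¹ = ι ⟨c, 0, a⟩
  w2A : w2 ∈ A
  aw2 : ∀ b c, w2 * ι ⟨0, b, c⟩ * w2⁻¹ = ι ⟨0, c, b⟩
  gen : A ≤ ι.range ⊔ closure {h, w1, w2}
  cz : ∀ a ∈ A, ∀ c, c ≠ 0 → a * ι ⟨0, 0, c⟩ = ι ⟨0, 0, c⟩ * a → ∃ p, ι p * a ∈ 𝒞(A)
  cT : ∀ n ∈ 𝒩(A), (∀ p, ∃ c, n * ι p * n⁻¹ = ι (p * ⟨0, 0, c⟩)) → ∃ p, ι p * n ∈ 𝒞(A)
  tight : ∀ g, ∀ t ∈ 𝒞(A), t * t = 1 → t ≠ 1 → t ∈ cj g 𝒞(A) → g ∈ 𝒩(A)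
  nocomm : ∀ g, ¬ cj g A ≤ 𝒞(A)
  sylR : IsSylowIn 2 R 𝒞(A)
  four : ∃ x ∈ R, ∃ y ∈ R, x * x = 1 ∧ y * y = 1 ∧ x * y = y * x ∧ x ≠ 1 ∧ y ≠ 1 ∧ x ≠ y

/-- the embedding of `F4 × F4` as `{(a, 0, c)}` -/
def i1 : Multiplicative (F4 × F4) →* Heis F4 where
  toFun e := ⟨e.toAdd.1, 0, e.toAdd.2⟩
  map_one' := rfl
  map_mul' x y := Heis.ext rfl (by simp) (by simp)

/-- the centre -/
def i0 : Multiplicative F4 →* Heis F4 where
  toFun e := ⟨0, 0, e.toAdd⟩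
  map_one' := rfl
  map_mul' x y := Heis.ext (by simp) (by simp) (by simp)

/-- rescaling of the first coordinate -/
def sc (κ : F4) : Heis F4 →* Heis F4 where
  toFun p := ⟨κ * p.a, p.b, κ * p.c⟩
  map_one' := by simp [Heis.one_def]
  map_mul' p q := Heis.ext (by simp [mul_add]) rfl (by simp [mul_add, mul_assoc])

theorem sc_apply (κ : F4) (p : Heis F4) : sc κ p = ⟨κ * p.a, p.b, κ * p.c⟩ := rfl

namespace SD

variable {G : Type u} [Group G] (S : SD G)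

/-- `K = C(A)` -/
abbrev K : Subgroup G := 𝒞(S.A)
/-- `N = N(A)` -/
abbrev N : Subgroup G := 𝒩(S.A)
/-- the Sylow subgroup of `A` -/
abbrev U : Subgroup G := S.ι.range
/-- elements of `V = Z(U)` -/
abbrev v (c : F4) : G := S.ι ⟨0, 0, c⟩
/-- elements of `E₁` -/
abbrev e1 (a c : F4) : G := S.ι ⟨a, 0, c⟩
/-- elements of `E₂` -/
abbrev e2 (b c : F4) : G := S.ι ⟨0, b, c⟩
/-- the central involution -/
abbrev z : G := S.ι ⟨0, 0, 1⟩
/-- `V = Z(U)` -/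
def V : Subgroup G := (S.ι.comp i0).range
/-- `E₁` -/
def E1 : Subgroup G := (S.ι.comp i1).range
/-- `E₂` -/
def E2 : Subgroup G := ((S.ι.comp gr).comp i1).range
/-- `F = V × R` -/
def F : Subgroup G := S.V ⊔ S.R

theorem mem_V {x : G} : x ∈ S.V ↔ ∃ c, x = S.v c :=
  ⟨fun ⟨c, e⟩ => ⟨c.toAdd, e.symm⟩, fun ⟨c, e⟩ => ⟨Multiplicative.ofAdd c, e.symm⟩⟩
theorem mem_E1 {x : G} : x ∈ S.E1 ↔ ∃ a c, x = S.e1 a c :=
  ⟨fun ⟨c, e⟩ => ⟨c.toAdd.1, c.toAdd.2, e.symm⟩, fun ⟨a, c, e⟩ => ⟨Multiplicative.ofAdd (a, c), e.symm⟩⟩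
theorem mem_E2 {x : G} : x ∈ S.E2 ↔ ∃ b c, x = S.e2 b c :=
  ⟨fun ⟨c, e⟩ => ⟨c.toAdd.1, c.toAdd.2, e.symm.trans (congrArg S.ι (gr_A _ _))⟩,
    fun ⟨a, c, e⟩ => ⟨Multiplicative.ofAdd (a, c), (congrArg S.ι (gr_A _ _)).trans e.symm⟩⟩
theorem mem_U {x : G} : x ∈ S.U ↔ ∃ p, x = S.ι p := ⟨fun ⟨p, e⟩ => ⟨p, e.symm⟩, fun ⟨p, e⟩ => ⟨p, e.symm⟩⟩

/-- an involution in a conjugate of `K` -/
def Root (t : G) : Prop := t * t = 1 ∧ t ≠ 1 ∧ ∃ g, t ∈ cj g S.K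

theorem Root.conj {S : SD G} {t : G} (h : S.Root t) (g : G) : S.Root (g * t * g⁻¹) := by
  obtain ⟨h1, h2, k, h3⟩ := h
  exact ⟨by rw [show g * t * g⁻¹ * (g * t * g⁻¹) = g * (t * t) * g⁻¹ by group, h1]; group,
    fun e => h2 (conj_eq_one_iff.1 e), g * k, cj_mul g k _ ▸ conj_mem_cj g h3⟩

theorem root_conj {t : G} (g : G) : S.Root (g * t * g⁻¹) ↔ S.Root t :=
  ⟨fun h => by simpa [mul_assoc] using h.conj g⁻¹, fun h => h.conj g⟩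

/-- two conjugates of `K` containing the same involution -/
theorem tight' {t g g' : G} (h1 : t * t = 1) (h2 : t ≠ 1) (hg : t ∈ cj g S.K) (hg' : t ∈ cj g' S.K) :
    g⁻¹ * g' ∈ S.N := by
  refine S.tight _ (g⁻¹ * t * g) (mem_cj.1 hg)
    (by rw [show g⁻¹ * t * g * (g⁻¹ * t * g) = g⁻¹ * (t * t) * g by group, h1]; group)
    (fun e => h2 (by rw [show t = g * (g⁻¹ * t * g) * g⁻¹ by group, e]; group)) ?_
  rw [mem_cj] at hg' ⊢
  simpa [mul_assoc] using hg'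

theorem N_le_NK : S.N ≤ 𝒩(S.K) := norm_le_norm_cent _

theorem cj_K_eq {t g g' : G} (h1 : t * t = 1) (h2 : t ≠ 1) (hg : t ∈ cj g S.K) (hg' : t ∈ cj g' S.K) :
    cj g' S.K = cj g S.K ∧ cj g' S.A = cj g S.A := by
  have h := S.tight' h1 h2 hg hg'
  rw [show g' = g * (g⁻¹ * g') by group, cj_mul g, cj_mul g, cj_eq h, cj_eq (S.N_le_NK h)]
  exact ⟨rfl, rfl⟩

/-- the centraliser of a root normalises the corresponding conjugate of `A` -/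
theorem mem_N_of_comm {t g x : G} (h1 : t * t = 1) (h2 : t ≠ 1) (hg : t ∈ cj g S.K) (hx : x * t = t * x) :
    g⁻¹ * x * g ∈ S.N := by
  have h : t ∈ cj (x * g) S.K := by
    rw [cj_mul, mem_cj, mul_assoc, ← hx, inv_mul_cancel_left]; exact hg
  simpa [mul_assoc] using S.tight' h1 h2 hg h

theorem mem_N_of_comm' {t x : G} (h1 : t * t = 1) (h2 : t ≠ 1) (ht : t ∈ S.K) (hx : x * t = t * x) : x ∈ S.N := by
  simpa using S.mem_N_of_comm h1 h2 (g := 1) (by rwa [cj_one]) hx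

theorem ι_K {p : Heis F4} (h : S.ι p ∈ S.K) : p = 1 := by
  have h4 : S.ι p ^ 2 ^ 2 = 1 := by
    rw [← map_pow, (by decide +kernel : ∀ q : Heis F4, q ^ 2 ^ 2 = 1) p, map_one]
  exact S.inj ((eq_one_of_coprime_of_pow (p := 2) (Nat.coprime_two_right.2 (S.oddZ _ (S.mem p) h)) h4).trans
    (map_one _).symm)

/-- The conjugate data. -/
def conj (g : G) : SD G where
  A := cj g S.A
  R := cj g S.R
  ι := (MulAut.conj g).toMonoidHom.comp S.ι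
  h := g * S.h * g⁻¹
  w1 := g * S.w1 * g⁻¹
  w2 := g * S.w2 * g⁻¹
  inj := (MulAut.conj g).injective.comp S.inj
  mem p := conj_mem_cj g (S.mem p)
  sylU := by rw [MonoidHom.range_comp]; exact syl_cj S.sylU g
  quasi D hD := by
    have := S.quasi (cj g⁻¹ D) (by rw [← cj_norm, ← cj_le_iff]; exact hD)
    rw [← cj_le_iff] at this
    refine this.imp_left fun e => ?_
    rw [← cj_cent, le_cj_iff, cj_inf, cj_inv_cj]; exact e
  oddZ a h1 h2 := by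
    rw [← cj_cent, mem_cj] at h2
    have := S.oddZ _ (mem_cj.1 h1) h2
    rwa [show g⁻¹ * a * g = MulAut.conj g⁻¹ a by simp, MulEquiv.orderOf_eq] at this
  hA := conj_mem_cj g S.hA
  ho := by rw [show g * S.h * g⁻¹ = MulAut.conj g S.h from rfl, MulEquiv.orderOf_eq]; exact S.ho
  h3 := by rw [conj_pow, ← cj_cent]; exact conj_mem_cj g S.h3
  ah p := by simp [← S.ah p, mul_assoc]
  w1A := conj_mem_cj g S.w1A
  aw1 a c := by simp [← S.aw1 a c, mul_assoc]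
  w2A := conj_mem_cj g S.w2A
  aw2 a c := by simp [← S.aw2 a c, mul_assoc]
  gen := by
    have := cj_mono g S.gen
    rw [cj_sup, MonoidHom.map_closure] at this
    rw [MonoidHom.range_comp]
    simpa [Set.image_insert_eq] using this
  cz a ha c hc e := by
    obtain ⟨p, hp⟩ := S.cz _ (mem_cj.1 ha) c hc (by
      have e' : a * (g * S.ι ⟨0, 0, c⟩ * g⁻¹) = g * S.ι ⟨0, 0, c⟩ * g⁻¹ * a := e
      calc g⁻¹ * a * g * S.ι ⟨0, 0, c⟩ = g⁻¹ * (a * (g * S.ι ⟨0, 0, c⟩ * g⁻¹)) * g := by group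
        _ = _ := by rw [e']; group)
    exact ⟨p, by rw [← cj_cent, mem_cj]; simpa [mul_assoc] using hp⟩
  cT n hn e := by
    rw [← cj_norm, mem_cj] at hn
    obtain ⟨p, hp⟩ := S.cT _ hn fun p => (e p).imp fun c e' => by
      have e'' : n * (g * S.ι p * g⁻¹) * n⁻¹ = g * S.ι (p * ⟨0, 0, c⟩) * g⁻¹ := e'
      calc g⁻¹ * n * g * S.ι p * (g⁻¹ * n * g)⁻¹ = g⁻¹ * (n * (g * S.ι p * g⁻¹) * n⁻¹) * g := by group
        _ = _ := by rw [e'']; group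
    exact ⟨p, by rw [← cj_cent, mem_cj]; simpa [mul_assoc] using hp⟩
  tight k t h1 h2 h3 h4 := by
    rw [← cj_cent] at h1 h4
    rw [← cj_mul] at h4
    rw [← cj_norm, mem_cj]
    simpa [mul_assoc] using S.tight' h2 h3 h1 h4
  nocomm k h := S.nocomm (g⁻¹ * k * g) (by rwa [cj_mul, cj_mul, cj_le_iff, inv_inv, cj_cent])
  sylR := by rw [← cj_cent]; exact syl_cj S.sylR g
  four := by
    obtain ⟨x, hx, y, hy, a1, a2, a3, a4, a5, a6⟩ := S.four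
    refine ⟨_, conj_mem_cj g hx, _, conj_mem_cj g hy, ?_, ?_, ?_, fun e => a4 (conj_eq_one_iff.1 e),
      fun e => a5 (conj_eq_one_iff.1 e), fun e => a6 (by simpa using e)⟩
    · rw [show g * x * g⁻¹ * (g * x * g⁻¹) = g * (x * x) * g⁻¹ by group, a1]; group
    · rw [show g * y * g⁻¹ * (g * y * g⁻¹) = g * (y * y) * g⁻¹ by group, a2]; group
    · rw [show g * x * g⁻¹ * (g * y * g⁻¹) = g * (x * y) * g⁻¹ by group, a3]; group

theorem conj_ι (g : G) (p : Heis F4) : (S.conj g).ι p = g * S.ι p * g⁻¹ := rfl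
theorem conj_A (g : G) : (S.conj g).A = cj g S.A := rfl
theorem conj_R (g : G) : (S.conj g).R = cj g S.R := rfl
theorem conj_K (g : G) : (S.conj g).K = cj g S.K := (cj_cent _ _).symm
theorem conj_N (g : G) : (S.conj g).N = cj g S.N := (cj_norm _ _).symm
theorem conj_U (g : G) : (S.conj g).U = cj g S.U := MonoidHom.range_comp _ _
theorem conj_V (g : G) : (S.conj g).V = cj g S.V :=
  MonoidHom.range_comp (MulAut.conj g).toMonoidHom (S.ι.comp i0)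
theorem conj_E1 (g : G) : (S.conj g).E1 = cj g S.E1 :=
  MonoidHom.range_comp (MulAut.conj g).toMonoidHom (S.ι.comp i1)
theorem conj_E2 (g : G) : (S.conj g).E2 = cj g S.E2 :=
  MonoidHom.range_comp (MulAut.conj g).toMonoidHom ((S.ι.comp gr).comp i1)

theorem range_comp_eq {f : Heis F4 →* Heis F4} (hf : Function.Surjective f) : (S.ι.comp f).range = S.ι.range := by
  rw [MonoidHom.range_comp, MonoidHom.range_eq_top.2 hf, ← MonoidHom.range_eq_map]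

/-- The symmetry exchanging `E₁` and `E₂`. -/
def sw : SD G where
  A := S.A
  R := S.R
  ι := S.ι.comp gr
  h := S.h
  w1 := S.w2
  w2 := S.w1
  inj := S.inj.comp (Function.LeftInverse.injective gr_gr)
  mem p := S.mem _
  sylU := by rw [S.range_comp_eq (Function.RightInverse.surjective gr_gr)]; exact S.sylU
  quasi := S.quasi
  oddZ := S.oddZ
  hA := S.hA
  ho := S.ho
  h3 := S.h3
  ah p := (S.ah _).trans (congrArg S.ι ((by decide +kernel : ∀ p, dg om om (gr p) = gr (dg om om p)) p))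
  w1A := S.w2A
  aw1 := by simpa only [MonoidHom.comp_apply, gr_A] using S.aw2
  w2A := S.w1A
  aw2 := by simpa only [MonoidHom.comp_apply, gr_B] using S.aw1
  gen := by rw [S.range_comp_eq (Function.RightInverse.surjective gr_gr), Set.pair_comm]; exact S.gen
  cz a ha c hc e := by
    obtain ⟨p, hp⟩ := S.cz a ha c hc (by simpa only [MonoidHom.comp_apply, gr_A] using e)
    exact ⟨gr p, by simpa only [MonoidHom.comp_apply, gr_gr] using hp⟩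
  cT n hn e := by
    obtain ⟨p, hp⟩ := S.cT n hn fun p => by
      obtain ⟨c, e⟩ := e (gr p)
      simp only [MonoidHom.comp_apply, map_mul, gr_gr, gr_A] at e
      exact ⟨c, by rw [e, map_mul]⟩
    exact ⟨gr p, by simpa only [MonoidHom.comp_apply, gr_gr] using hp⟩
  tight := S.tight
  nocomm := S.nocomm
  sylR := S.sylR
  four := S.four

theorem sw_ι (a b c : F4) : S.sw.ι ⟨a, b, c⟩ = S.ι ⟨b, a, c + a * b⟩ := rfl
theorem sw_v (c : F4) : S.sw.v c = S.v c := congrArg S.ι (gr_A 0 c)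
theorem sw_e1 (a c : F4) : S.sw.e1 a c = S.e2 a c := congrArg S.ι (gr_A a c)
theorem sw_e2 (a c : F4) : S.sw.e2 a c = S.e1 a c := congrArg S.ι (gr_B a c)
theorem sw_U : S.sw.U = S.U := S.range_comp_eq (Function.RightInverse.surjective gr_gr)
theorem sw_V : S.sw.V = S.V := by ext x; simp only [mem_V, sw_v]
theorem sw_E1 : S.sw.E1 = S.E2 := rfl
theorem sw_E2 : S.sw.E2 = S.E1 := by ext x; simp only [mem_E1, mem_E2, sw_e2]
theorem sw_F : S.sw.F = S.F := by rw [F, sw_V]; rfl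
theorem sw_sw_ι : S.sw.sw.ι = S.ι := MonoidHom.ext fun p => congrArg S.ι (gr_gr p)

/-- Rescaling by `ω`: three applications give back the coordinates of `S`. -/
def scale : SD G where
  A := S.A
  R := S.R
  ι := S.ι.comp (sc om)
  h := S.h
  w1 := S.w1
  w2 := S.h⁻¹ * S.w2
  inj := S.inj.comp (by decide +kernel : Function.Injective (sc om))
  mem p := S.mem _
  sylU := by rw [S.range_comp_eq (by decide +kernel : Function.Surjective (sc om))]; exact S.sylU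
  quasi := S.quasi
  oddZ := S.oddZ
  hA := S.hA
  ho := S.ho
  h3 := S.h3
  ah p := (S.ah _).trans (congrArg S.ι ((by decide +kernel : ∀ p, dg om om (sc om p) = sc om (dg om om p)) p))
  w1A := S.w1A
  aw1 a c := S.aw1 _ _
  w2A := S.A.mul_mem (S.A.inv_mem S.hA) S.w2A
  aw2 b c := by
    have e1 := S.aw2 b (om * c)
    have e2 := S.ah (sc om ⟨0, c, b⟩)
    rw [(by decide +kernel : ∀ b c, dg om om (sc om ⟨0, c, b⟩) = ⟨0, om * c, b⟩), ← e1] at e2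
    have e3 : sc om ⟨0, b, c⟩ = ⟨0, b, om * c⟩ := by simp [sc_apply]
    rw [MonoidHom.comp_apply, MonoidHom.comp_apply, e3]
    calc _ = S.h⁻¹ * (S.w2 * S.ι ⟨0, b, om * c⟩ * S.w2⁻¹) * S.h := by group
      _ = _ := by rw [← e2]; group
  gen := by
    rw [S.range_comp_eq (by decide +kernel : Function.Surjective (sc om))]
    refine S.gen.trans (sup_le_sup_left ((closure_le _).2 ?_) _)
    have a1 : S.h ∈ closure {S.h, S.w1, S.h⁻¹ * S.w2} := subset_closure (by simp)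
    rintro _ (rfl | rfl | rfl)
    · exact a1
    · exact subset_closure (by simp)
    · simpa using mul_mem a1 (subset_closure (by simp) : S.h⁻¹ * S.w2 ∈ closure {S.h, S.w1, S.h⁻¹ * S.w2})
  cz a ha c hc e := by
    have e3 : sc om ⟨0, 0, c⟩ = ⟨0, 0, om * c⟩ := by simp [sc_apply]
    rw [MonoidHom.comp_apply, e3] at e
    obtain ⟨p, hp⟩ := S.cz a ha _ (fun h => hc ((f4_mul_eq_zero.1 h).resolve_left (by decide +kernel))) e
    obtain ⟨q, rfl⟩ := (by decide +kernel : Function.Surjective (sc om)) p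
    exact ⟨q, hp⟩
  cT n hn e := by
    obtain ⟨p, hp⟩ := S.cT n hn fun p => by
      obtain ⟨q, rfl⟩ := (by decide +kernel : Function.Surjective (sc om)) p
      obtain ⟨c, e⟩ := e q
      refine ⟨om * c, e.trans ?_⟩
      rw [MonoidHom.comp_apply, map_mul]
      simp [sc_apply]
    obtain ⟨q, rfl⟩ := (by decide +kernel : Function.Surjective (sc om)) p
    exact ⟨q, hp⟩
  tight := S.tight
  nocomm := S.nocomm
  sylR := S.sylR
  four := S.four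

theorem scale_ι (a b c : F4) : S.scale.ι ⟨a, b, c⟩ = S.ι ⟨om * a, b, om * c⟩ := rfl

/-- The global situation. -/
structure GD (X : Subgroup G) : Prop where
  normal : X.Normal
  simple : IsSimpleGroup X
  le : S.A ≤ X
  cent : 𝒞(X) = ⊥
  ne : ¬ S.A.Normal

/-- Elementary consequences of the axioms. -/
structure Bas1 : Prop where
  cls : ∀ a ∈ S.A, a * a = 1 → a ≠ 1 → ∃ m ∈ S.A, m * a * m⁻¹ = S.z
  split : ∀ s ∈ S.A ⊔ S.K, s * s = 1 → ∃ a ∈ S.A, ∃ k ∈ S.K, s = a * k ∧ a * a = 1 ∧ k * k = 1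
  nU : ∀ n ∈ S.N, ∀ c c', c ≠ 0 → n * S.v c * n⁻¹ = S.v c' → n ∈ 𝒩(S.U)
  cU : ∀ n ∈ S.N, n ∈ 𝒞(S.U) → ∃ c, S.v c * n ∈ S.K
  cE1 : ∀ n ∈ S.N, n ∈ 𝒞(S.E1) → ∃ a c, S.e1 a c * n ∈ S.K
  cE2 : ∀ n ∈ S.N, n ∈ 𝒞(S.E2) → ∃ b c, S.e2 b c * n ∈ S.K
  cv : ∀ s ∈ S.A ⊔ S.K, ∀ c, c ≠ 0 → s * S.v c = S.v c * s → ∃ p, ∃ k ∈ S.K, s = S.ι p * k
  sl2 : ∀ t l, ¬ (t = 0 ∧ l = 0) → ∃ m ∈ S.A, ∃ p q, p * l + q * t = 1 ∧
    ∀ a c, m * S.e1 a c * m⁻¹ = S.e1 (p * a + t * c) (q * a + l * c)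

/-- The derived group of `N` and the elementary abelian subgroups of `N`. -/
structure Bas2 : Prop where
  der : ∀ s ∈ ⁅S.N, S.N⁆, s * s = 1 → s ∈ S.A ⊔ S.K
  e16 : ∀ E ≤ S.N, (∀ x ∈ E, x * x = 1) → Nat.card E ≤ 16 * Nat.card (E ⊓ S.K : Subgroup G) ∧
    (Nat.card E = 16 * Nat.card (E ⊓ S.K : Subgroup G) →
      ∃ m ∈ S.A, E ⊔ S.K = cj m S.E1 ⊔ S.K ∨ E ⊔ S.K = cj m S.E2 ⊔ S.K)

/-- Outer involutions. -/
structure Bas3 : Prop where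
  out : ∀ s ∈ S.N, s * s = 1 → s ∉ S.A ⊔ S.K → ∃ y ∈ S.A, y ∈ ⁅centralizer {s}, centralizer {s}⁆ ∧ y * y = 1 ∧ y ≠ 1 ∧
    ∃ m ∈ S.A, m * s * m⁻¹ = s * y
  outV : ∀ s ∈ S.N, s * s = 1 → s ∈ 𝒞(S.V) → s ∉ S.A ⊔ S.K → S.V ≤ ⁅centralizer {s}, centralizer {s}⁆
  three : ∀ x ∈ S.N, ∀ y ∈ S.N, x ∈ 𝒞(S.V) → y ∈ 𝒞(S.V) → x * x = 1 → y * y = 1 → x * y = y * x →
    x ∈ S.A ⊔ S.K ∨ y ∈ S.A ⊔ S.K ∨ x * y ∈ S.A ⊔ S.K
  tsq : ∀ g ∈ S.N, (∀ p, ∃ c, g * S.ι p * g⁻¹ = S.ι (gr p * ⟨0, 0, c⟩)) → ∀ c, g * g = S.v c → c = 0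

/-- No involution of `A` is a root. -/
def NoV : Prop := ∀ a ∈ S.A, ¬ S.Root a

/-- `R` is a four-group, `C_K(R) = R × O`; the root groups in `E₁ R` and `E₂ R`. -/
structure BD (ρ : F4 → G) (O : Subgroup G) : Prop where
  noV : S.NoV
  add : ∀ r r', ρ (r + r') = ρ r * ρ r'
  inj : Function.Injective ρ
  memR : ∀ x, x ∈ S.R ↔ ∃ r, x = ρ r
  ex : ∃ g ∈ 𝒩(S.U), ∀ r, ∃ r', g * ρ r * g⁻¹ = ρ r' * S.v r'
  rg1 : ∀ a c, ∃ g, ∀ r, ρ r * S.e1 (r * a) (r * c) ∈ cj g S.K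
  rg2 : ∀ b c, ∃ g, ∀ r, ρ r * S.e2 (r * b) (r * c) ∈ cj g S.K
  O_le : O ≤ S.K ⊓ 𝒞(S.R)
  O_odd : Odd (Nat.card O)
  O_dec : ∀ k ∈ S.K, k ∈ 𝒞(S.R) → ∃ r, ∃ o ∈ O, k = ρ r * o

theorem BD.sw {S : SD G} {ρ : F4 → G} {O : Subgroup G} (h : S.BD ρ O) : S.sw.BD ρ O :=
  ⟨h.noV, h.add, h.inj, h.memR, by simpa only [sw_U, sw_v] using h.ex, by simp only [sw_e1]; exact h.rg2,
    by simp only [sw_e2]; exact h.rg1, h.O_le, h.O_odd, h.O_dec⟩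

/-- An element centralising `U` and `O` which moves `R`. -/
def TrE (ρ : F4 → G) (O : Subgroup G) : Prop := ∃ y ∈ 𝒞(S.U) ⊓ 𝒞(O), ∀ r, y * ρ r * y⁻¹ = ρ r * S.v r

theorem TrE.sw {S : SD G} {ρ : F4 → G} {O : Subgroup G} (h : S.TrE ρ O) : S.sw.TrE ρ O := by
  simpa only [TrE, sw_U, sw_v] using h

/-- The group `Q₁` of order `2 ^ 10`. -/
structure QD (ρ : F4 → G) (O Q : Subgroup G) (τ : G → F4 × F4) : Prop where
  two : IsPGroup 2 Q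
  cE : Q ≤ 𝒞(S.E1)
  cO : Q ≤ 𝒞(O)
  act : ∀ q ∈ Q, ∀ r, q * ρ r * q⁻¹ = ρ r * S.e1 (r * (τ q).1) (r * (τ q).2)
  onto : ∀ e, ∃ q ∈ Q, τ q = e
  ker : ∀ q ∈ Q, τ q = 0 → ∃ a c r, q = S.e1 a c * ρ r
  mem : ∀ g ∈ 𝒞(S.E1), Two g → (∀ r, ∃ a c, g * ρ r * g⁻¹ = ρ r * S.e1 a c) → g ∈ Q

/-- The involutions `x l`. -/
structure XD (ρ : F4 → G) (O : Subgroup G) (x : F4 → G) : Prop where
  add : ∀ l l', x (l + l') = x l * x l'
  cU : ∀ l, x l ∈ 𝒞(S.U)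
  cO : ∀ l, x l ∈ 𝒞(O)
  act : ∀ l r, x l * ρ r * (x l)⁻¹ = ρ r * S.v (l * r)
  hx : ∀ l, S.h * x l * S.h⁻¹ = x (om * om * l)

theorem XD.sw {S : SD G} {ρ x : F4 → G} {O : Subgroup G} (h : S.XD ρ O x) : S.sw.XD ρ O x :=
  ⟨h.add, by simpa only [sw_U] using h.cU, h.cO, by simpa only [sw_v] using h.act, h.hx⟩

end SD

/-- coordinates `(a, b, r, l)` on `W / V` -/
abbrev M4 : Type := F4 × F4 × F4 × F4

theorem m4_add (y : M4) : y + y = 0 := by revert y; decide +kernel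

/-- the square map -/
def qf (y : M4) : F4 := y.1 * y.2.1 + y.2.2.1 * y.2.2.2
/-- the commutator map -/
def bf (y y' : M4) : F4 := y.1 * y'.2.1 + y'.1 * y.2.1 + y.2.2.1 * y'.2.2.2 + y'.2.2.1 * y.2.2.2
/-- the action of `Q₁` -/
def Xa (s t : F4) (y : M4) : M4 :=
  (y.1 + s * y.2.2.2 + t * y.2.2.1 + s * t * y.2.1, y.2.1, y.2.2.1 + s * y.2.1, y.2.2.2 + t * y.2.1)
/-- `a ↔ b` -/
def sw4 (y : M4) : M4 := (y.2.1, y.1, y.2.2)

namespace SD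
variable {G : Type u} [Group G] (S : SD G)

/-- the elements of `W` -/
def m (ρ x : F4 → G) (y : M4) (c : F4) : G := S.ι ⟨y.1, y.2.1, c⟩ * ρ y.2.2.1 * x y.2.2.2

theorem sw_m (ρ x : F4 → G) (y : M4) (c : F4) : S.sw.m ρ x y c = S.m ρ x (sw4 y) (c + y.1 * y.2.1) := rfl

/-- `g` acts on `W / V` as `f` -/
def Ac (ρ x : F4 → G) (g : G) (f : M4 → M4) : Prop := ∀ y c, ∃ c', g * S.m ρ x y c * g⁻¹ = S.m ρ x (f y) c'

section Api
variable {S} {ρ x : F4 → G} {O : Subgroup G}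

theorem BD.zero (h : S.BD ρ O) : ρ 0 = 1 := by
  have e := h.add 0 0
  rw [add_zero] at e
  exact mul_eq_left.mp e.symm
theorem BD.sq (h : S.BD ρ O) (r : F4) : ρ r * ρ r = 1 := by rw [← h.add, f4_add, h.zero]
theorem BD.ne_one (h : S.BD ρ O) {r : F4} (hr : r ≠ 0) : ρ r ≠ 1 := fun e => hr (h.inj (e.trans h.zero.symm))
theorem BD.memK (h : S.BD ρ O) (r : F4) : ρ r ∈ S.K := S.sylR.le ((h.memR _).2 ⟨r, rfl⟩)
theorem BD.comm (h : S.BD ρ O) (r : F4) {a : G} (ha : a ∈ S.A) : a * ρ r = ρ r * a := comm_of_mem (h.memK r) ha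
theorem XD.zero (h : S.XD ρ O x) : x 0 = 1 := by
  have e := h.add 0 0
  rw [add_zero] at e
  exact mul_eq_left.mp e.symm
theorem XD.sq (h : S.XD ρ O x) (l : F4) : x l * x l = 1 := by rw [← h.add, f4_add, h.zero]
theorem XD.comm (h : S.XD ρ O x) (l : F4) (p : Heis F4) : S.ι p * x l = x l * S.ι p := comm_of_mem (h.cU l) ⟨p, rfl⟩

theorem m_mul (hb : S.BD ρ O) (hx : S.XD ρ O x) (y y' : M4) (c c' : F4) :
    S.m ρ x y c * S.m ρ x y' c' = S.m ρ x (y + y') (c + c' + y.1 * y'.2.1 + y.2.2.2 * y'.2.2.1) := by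
  obtain ⟨a, b, r, l⟩ := y
  obtain ⟨a', b', r', l'⟩ := y'
  have e1 : x l * ρ r' = ρ r' * S.v (l * r') * x l := by rw [← hx.act]; group
  have e2 : S.ι ⟨a + a', b + b', c + c' + a * b' + l * r'⟩ = S.ι ⟨a, b, c⟩ * S.ι ⟨a', b', c'⟩ * S.v (l * r') := by
    rw [← map_mul, ← map_mul]; simp [Heis.mul_def]
  simp only [m, Prod.mk_add_mk, e2, hb.add, hx.add]
  calc _ = S.ι ⟨a, b, c⟩ * ρ r * (x l * S.ι ⟨a', b', c'⟩) * ρ r' * x l' := by group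
    _ = S.ι ⟨a, b, c⟩ * (ρ r * S.ι ⟨a', b', c'⟩) * (x l * ρ r') * x l' := by rw [← hx.comm]; group
    _ = S.ι ⟨a, b, c⟩ * S.ι ⟨a', b', c'⟩ * (ρ r * ρ r' * S.v (l * r')) * (x l * x l') := by
      rw [← hb.comm r (S.mem _), e1]; group
    _ = _ := by rw [← hb.add, ← hb.comm _ (S.mem _), hb.add]; group

theorem m_u (hb : S.BD ρ O) (hx : S.XD ρ O x) (a b c : F4) : S.m ρ x (a, b, 0, 0) c = S.ι ⟨a, b, c⟩ := by
  simp [m, hb.zero, hx.zero]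
theorem m_zero (hb : S.BD ρ O) (hx : S.XD ρ O x) (c : F4) : S.m ρ x 0 c = S.v c := m_u hb hx 0 0 c
theorem m_ρ (hx : S.XD ρ O x) (r : F4) : S.m ρ x (0, 0, r, 0) 0 = ρ r := by simp [m, hx.zero, ← Heis.one_def]
theorem m_x (hb : S.BD ρ O) (l : F4) : S.m ρ x (0, 0, 0, l) 0 = x l := by simp [m, hb.zero, ← Heis.one_def]

theorem m_sq (hb : S.BD ρ O) (hx : S.XD ρ O x) (y : M4) (c : F4) : S.m ρ x y c * S.m ρ x y c = S.v (qf y) := by
  rw [m_mul hb hx, ← m_zero hb hx, m4_add, f4_add, zero_add, qf, mul_comm y.2.2.2]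

theorem m_comm (hb : S.BD ρ O) (hx : S.XD ρ O x) (y y' : M4) (c c' : F4) :
    S.m ρ x y c * S.m ρ x y' c' = S.m ρ x y' c' * S.m ρ x y c * S.v (bf y y') := by
  rw [← m_zero hb hx, m_mul hb hx, m_mul hb hx, m_mul hb hx, add_zero, add_comm y]
  congr 1
  simp only [bf, Prod.fst_zero, Prod.snd_zero]
  linear_combination (-1) * f4_add (y'.1 * y.2.1) + (-1) * f4_add (y'.2.2.2 * y.2.2.1)

theorem m_v (hb : S.BD ρ O) (hx : S.XD ρ O x) (y : M4) (c c' : F4) : S.m ρ x y c * S.v c' = S.m ρ x y (c + c') := by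
  rw [← m_zero hb hx, m_mul hb hx]; simp

theorem v_m (hb : S.BD ρ O) (hx : S.XD ρ O x) (y : M4) (c c' : F4) : S.v c' * S.m ρ x y c = S.m ρ x y (c + c') := by
  rw [← m_zero hb hx, m_mul hb hx]; simp [add_comm]

theorem m_eq_one (hb : S.BD ρ O) (hx : S.XD ρ O x) {y : M4} {c : F4} (e : S.m ρ x y c = 1) : y = 0 ∧ c = 0 := by
  obtain ⟨a, b, r, l⟩ := y
  have e0 := m_comm hb hx (a, b, r, l) (0, 0, 1, 0) c 0
  rw [e, one_mul, mul_one, left_eq_mul, ← map_one S.ι] at e0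
  obtain rfl : l = 0 := by simpa [bf] using congrArg Heis.c (S.inj e0)
  simp only [m, hx.zero, mul_one] at e
  have e1 := S.ι_K (p := ⟨a, b, c⟩) (by rw [eq_inv_of_mul_eq_one_left e]; exact inv_mem (hb.memK r))
  rw [e1, map_one, one_mul, ← hb.zero] at e
  obtain rfl := hb.inj e
  obtain ⟨rfl, rfl, rfl⟩ := Heis.mk.inj e1
  exact ⟨rfl, rfl⟩

theorem m_inj (hb : S.BD ρ O) (hx : S.XD ρ O x) {y y' : M4} {c c' : F4} (e : S.m ρ x y c = S.m ρ x y' c') :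
    y = y' ∧ c = c' := by
  have e1 := m_sq hb hx y c
  nth_rewrite 2 [e] at e1
  have e2 := congrArg (· * S.v (qf y)) e1
  simp only [m_mul hb hx, m_v hb hx] at e2
  rw [← map_mul, show (⟨0, 0, qf y⟩ * ⟨0, 0, qf y⟩ : Heis F4) = 1 by simp [Heis.mul_def, Heis.one_def, f4_add],
    map_one] at e2
  obtain ⟨h1, h2⟩ := m_eq_one hb hx e2
  obtain rfl : y = y' := by rw [← add_zero y, ← m4_add y', ← add_assoc, h1, zero_add]
  refine ⟨rfl, ?_⟩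
  rw [qf] at h2
  linear_combination h2 - f4_add (y.1 * y.2.1) - f4_add (y.2.2.1 * y.2.2.2) - f4_add c'

theorem Ac.mul {g g' : G} {f f' : M4 → M4} (h : S.Ac ρ x g f) (h' : S.Ac ρ x g' f') : S.Ac ρ x (g * g') (f ∘ f') :=
  fun y c => by
    obtain ⟨c1, e1⟩ := h' y c
    obtain ⟨c2, e2⟩ := h (f' y) c1
    exact ⟨c2, by rw [Function.comp, ← e2, ← e1]; group⟩

theorem Ac.of_sw {g : G} {f : M4 → M4} (h : S.sw.Ac ρ x g f) : S.Ac ρ x g (sw4 ∘ f ∘ sw4) := fun y c => by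
  obtain ⟨c', e⟩ := h (sw4 y) (c + y.2.1 * y.1)
  rw [sw_m, sw_m] at e
  exact ⟨_, by rw [Function.comp, Function.comp, ← e]; simp [sw4, add_assoc, f4_add]⟩

theorem Ac.m (hb : S.BD ρ O) (hx : S.XD ρ O x) (y0 : M4) (c0 : F4) : S.Ac ρ x (S.m ρ x y0 c0) id := fun y c =>
  ⟨c + bf y0 y, by rw [m_comm hb hx, ← m_v hb hx, id, mul_assoc (S.m ρ x y c), m_v hb hx, ← v_m hb hx]; group⟩

theorem Ac.unique (hb : S.BD ρ O) (hx : S.XD ρ O x) {g : G} {f f' : M4 → M4} (h : S.Ac ρ x g f) (h' : S.Ac ρ x g f') :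
    f = f' := funext fun y => by
  obtain ⟨c1, e1⟩ := h y 0
  obtain ⟨c2, e2⟩ := h' y 0
  exact (m_inj hb hx (e1.symm.trans e2)).1

end Api

/-- the action of `Q₁` on `W / V` and the squares in `Q₁` -/
structure AX (ρ x : F4 → G) (Q : Subgroup G) (τ : G → F4 × F4) (κ : F4) : Prop where
  ac : ∀ q ∈ Q, S.Ac ρ x q (Xa (κ * (τ q).1 * (τ q).1) (τ q).1)
  ker : ∀ q ∈ Q, (τ q).1 = 0 → ∃ a r c, q = S.m ρ x (a, 0, r, (τ q).2) c
  sq : ∀ q ∈ Q, ∃ β, q * q = S.e1 (β * (τ q).1) (β * (τ q).2)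
  inv : ∀ e, ∃ d ∈ Q, d * d = 1 ∧ τ d = e
  cx : ∀ d ∈ Q, d * d = 1 → (τ d).1 ≠ 0 → ∀ l, d * x l * d⁻¹ =
    x l * S.e1 (κ * (τ d).1 * l * (τ d).1) (κ * (τ d).1 * l * (l + (τ d).2))

end SD

/-- All the data after normalisation. -/
structure WS (G : Type u) [Group G] extends SD G where
  ρ : F4 → G
  x : F4 → G
  O : Subgroup G
  Q1 : Subgroup G
  Q2 : Subgroup G
  τ1 : G → F4 × F4
  τ2 : G → F4 × F4
  bd : toSD.BD ρ O
  xd : toSD.XD ρ O x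
  q1 : toSD.QD ρ O Q1 τ1
  q2 : toSD.sw.QD ρ O Q2 τ2
  a1 : toSD.AX ρ x Q1 τ1 1
  a2 : toSD.sw.AX ρ x Q2 τ2 1

/-! ### The jobs, first part -/

/-- M1: the matrices -/
def M1S : Prop := ∀ (F : Type v) [Field F] [Fintype F], Fintype.card F = 4 →
  ∃ (ι : Heis F4 →* Matrix.ProjectiveSpecialLinearGroup (Fin 3) F) (h w1 w2 : _), PM ι h w1 w2

/-- M2: automorphisms -/
def M2S : Prop := ∀ (F : Type v) [Field F] [Fintype F], Fintype.card F = 4 →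
  ∀ ι : Heis F4 →* Matrix.ProjectiveSpecialLinearGroup (Fin 3) F, Function.Injective ι → IsSylowIn 2 ι.range ⊤ → PT ι

/-- L: the local data -/
def LoadS : Prop := ∀ (G : Type u) [Group G] [Finite G] (A : Subgroup G), IsStandardSubgroup A →
  Odd (Nat.card (center A)) → ¬ PRankLE 2 1 𝒞(A) → ∀ (P : Type v) [Group P] (ι : Heis F4 →* P) (h w1 w2 : P),
  PM ι h w1 w2 → PT ι → Nonempty (A ⧸ center A ≃* P) → ∃ S : SD G, S.A = A

/-- automorphisms of the Heisenberg group -/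
def AutH : Prop := ∀ f : MulAut (Heis F4), ∃ l m i j, l ≠ 0 ∧ m ≠ 0 ∧
  (∀ p, ∃ c, f p = dg l m (th i j p) * ⟨0, 0, c⟩) ∧ ∀ c, f ⟨0, 0, c⟩ = dg l m (th i j ⟨0, 0, c⟩)

/-- BAS1 -/
def Bas1S : Prop := ∀ (G : Type u) [Group G] [Finite G] (S : SD G), S.Bas1
/-- BAS2 -/
def Bas2S : Prop := AutH → ∀ (G : Type u) [Group G] [Finite G] (S : SD G), S.Bas1 → S.Bas2
/-- BAS3 -/
def Bas3S : Prop := AutH → ∀ (G : Type u) [Group G] [Finite G] (S : SD G), S.Bas1 → S.Bas3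

/-- the basic facts for all data in `G` -/
def HB (G : Type u) [Group G] : Prop := ∀ S : SD G, S.Bas1 ∧ S.Bas2 ∧ S.Bas3

/-- A -/
def AS : Prop := ∀ (G : Type u) [Group G] [Finite G] (S : SD G) (X : Subgroup G), HB G → S.GD X →
  ∃ r ∈ S.R, r * r = 1 ∧ S.Root (S.z * r)
/-- NOV -/
def NoVS : Prop := ∀ (G : Type u) [Group G] [Finite G] (S : SD G), HB G → S.NoV
/-- B -/
def BS : Prop := ∀ (G : Type u) [Group G] [Finite G] (S : SD G), HB G → S.NoV →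
  (∃ r ∈ S.R, r * r = 1 ∧ S.Root (S.z * r)) → ∃ ρ O, S.BD ρ O
/-- C1 -/
def C1S : Prop := AutH → ∀ (G : Type u) [Group G] [Finite G] (S : SD G) ρ O, S.Bas1 → S.BD ρ O → S.TrE ρ O
/-- C2 -/
def C2S : Prop := ∀ (G : Type u) [Group G] [Finite G] (S : SD G) ρ O, S.Bas1 → S.BD ρ O → S.TrE ρ O →
  ∃ Q τ, S.QD ρ O Q τ
/-- C3 -/
def C3S : Prop := ∀ (G : Type u) [Group G] [Finite G] (S : SD G) ρ O Q τ, S.Bas1 → S.BD ρ O → S.TrE ρ O →
  S.QD ρ O Q τ → ∃ x, S.XD ρ O x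
/-- C4 -/
def C4S : Prop := ∀ (G : Type u) [Group G] [Finite G] (S : SD G) ρ O Q τ x, S.Bas1 → S.BD ρ O →
  S.QD ρ O Q τ → S.XD ρ O x → ∃ κ, S.AX ρ x Q τ κ
/-- C5 -/
def C5S : Prop := ∀ (G : Type u) [Group G] [Finite G] (S : SD G) ρ O x Q1 τ1 Q2 τ2 κ1 κ2, S.BD ρ O → S.XD ρ O x →
  S.QD ρ O Q1 τ1 → S.sw.QD ρ O Q2 τ2 → S.AX ρ x Q1 τ1 κ1 → S.sw.AX ρ x Q2 τ2 κ2 → κ1 ≠ 0 ∧ κ2 = κ1 * κ1
/-- C6: rescaling -/
def C6S : Prop := ∀ (G : Type u) [Group G] (S : SD G) ρ O x Q1 τ1 Q2 τ2 κ1 κ2, S.BD ρ O → S.XD ρ O x →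
  S.QD ρ O Q1 τ1 → S.sw.QD ρ O Q2 τ2 → S.AX ρ x Q1 τ1 κ1 → S.sw.AX ρ x Q2 τ2 κ2 →
  ∃ x' τ1' τ2', S.scale.BD ρ O ∧ S.scale.XD ρ O x' ∧ S.scale.QD ρ O Q1 τ1' ∧ S.scale.sw.QD ρ O Q2 τ2' ∧
    S.scale.AX ρ x' Q1 τ1' (om * om * κ1) ∧ S.scale.sw.AX ρ x' Q2 τ2' (om * κ2)

end CL.LS
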