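/-
Project LS, second part: the module `W / V`, the groups `C(V)`, `Q`, `C(z)`; the remaining steps as propositions.
-/
import Cfsg.Agent.LS.Defs
import Cfsg.Agent.Grp.CoresPi
import Cfsg.Prelude.Def_Spor_Suz

set_option autoImplicit false
set_option linter.unusedSectionVars false
open Cfsg Subgroup CL.Even CL.Grp CL.L34 Equiv
open scoped commutatorElement

namespace CL.LS

universe u v

/-- `W / V` is the quotient of the permutation module `F4 ^ 5` by the constants. -/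
def ev (f : Fin 5 → F4) : M4 :=
  (f 0 + f 2 + f 3 + f 4, f 1 + f 2 + f 3 + f 4, f 2 + om * f 3 + om * om * f 4, f 2 + om * om * f 3 + om * f 4)
/-- a section of `ev` -/
def co (y : M4) : Fin 5 → F4 :=
  ![y.1 + om * y.2.2.1 + om * om * y.2.2.2, y.2.1 + om * y.2.2.1 + om * om * y.2.2.2,
    om * om * y.2.2.1 + om * y.2.2.2, y.2.2.1 + y.2.2.2, 0]
/-- the action of `S₅` -/
def pm (π : Perm (Fin 5)) (y : M4) : M4 := ev fun i => co y (π⁻¹ i)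
/-- the semilinear involution -/
def Jm (y : M4) : M4 := (y.1 * y.1, y.2.1 * y.2.1, y.2.2.2 * y.2.2.2, y.2.2.1 * y.2.2.1)
/-- the five points -/
def pt (i : Fin 5) : M4 := ev fun k => if k = i then 1 else 0
/-- the `F2`-form `P` -/
abbrev Herm (y : M4) : Prop := Jm y = y
/-- the vectors on the five points -/
abbrev OmV (y : M4) : Prop := ∃ i, ∃ ζ : F4, ζ ≠ 0 ∧ y = ζ • pt i
/-- the root vectors -/
abbrev RV (y : M4) : Prop := qf y = 0 ∧ y ≠ 0 ∧ ¬ OmV y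
/-- the general form of the action of `N(W)` -/
def gam (ζ : F4) (ε : Bool) (π : Perm (Fin 5)) (y : M4) : M4 := ζ • cond ε (Jm (pm π y)) (pm π y)
/-- `a ↔ b`, `r ↔ l` -/
def sx (y : M4) : M4 := (y.2.1, y.1, y.2.2.2, y.2.2.1)

theorem om_sq : om * om = om + 1 := by decide +kernel
theorem two_f4 : (2 : F4) = 0 := by decide +kernel
theorem ev_co (y : M4) : ev (co y) = y := by revert y; decide +kernel
theorem ev_surj (y : M4) : ∃ f, ev f = y := ⟨_, ev_co y⟩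
theorem ev_add (f g : Fin 5 → F4) : ev (f + g) = ev f + ev g := by
  simp only [ev, Pi.add_apply, Prod.mk_add_mk, Prod.mk.injEq]
  exact ⟨by ring, by ring, by ring, by ring⟩
theorem ev_smul (c : F4) (f : Fin 5 → F4) : ev (c • f) = c • ev f := by
  simp only [ev, Pi.smul_apply, Prod.smul_mk, smul_eq_mul, Prod.mk.injEq]
  exact ⟨by ring, by ring, by ring, by ring⟩
theorem ev_const (c : F4) : ev (fun _ => c) = 0 := by revert c; decide +kernel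
theorem co_ev (f : Fin 5 → F4) (i : Fin 5) : co (ev f) i = f i + f 4 := by
  have key : ∀ a b c d e : F4, ∀ i, co (ev ![a, b, c, d, e]) i = ![a, b, c, d, e] i + e := by decide +kernel
  have e : f = ![f 0, f 1, f 2, f 3, f 4] := by funext k; fin_cases k <;> rfl
  rw [e]; exact key _ _ _ _ _ i
theorem pm_ev (π : Perm (Fin 5)) (f : Fin 5 → F4) : pm π (ev f) = ev fun i => f (π⁻¹ i) := by
  have e : (fun i => co (ev f) (π⁻¹ i)) = (fun i => f (π⁻¹ i)) + fun _ => f 4 := funext fun i => co_ev f _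
  rw [pm, e, ev_add, ev_const, add_zero]
theorem pm_one (y : M4) : pm 1 y = y := ev_co y
theorem pm_mul (π σ : Perm (Fin 5)) (y : M4) : pm (π * σ) y = pm π (pm σ y) := by rw [pm, pm.eq_1 σ, pm_ev]; rfl
theorem pm_add (π : Perm (Fin 5)) (y y' : M4) : pm π (y + y') = pm π y + pm π y' := by
  obtain ⟨f, rfl⟩ := ev_surj y
  obtain ⟨g, rfl⟩ := ev_surj y'
  rw [← ev_add, pm_ev, pm_ev, pm_ev, ← ev_add]; rfl
theorem pm_smul (π : Perm (Fin 5)) (c : F4) (y : M4) : pm π (c • y) = c • pm π y := by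
  obtain ⟨f, rfl⟩ := ev_surj y
  rw [← ev_smul, pm_ev, pm_ev, ← ev_smul]; rfl
theorem pm_pt (π : Perm (Fin 5)) (i : Fin 5) : pm π (pt i) = pt (π i) := by
  rw [pt, pm_ev, pt]
  exact congrArg ev (funext fun k => by simp only [Perm.inv_eq_iff_eq])
theorem pt_inj : Function.Injective pt := by decide +kernel
theorem pm_faithful {π σ : Perm (Fin 5)} (h : ∀ i, pm π (pt i) = pm σ (pt i)) : π = σ :=
  Perm.ext fun i => pt_inj (by rw [← pm_pt, h, pm_pt])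
theorem Jm_ev (f : Fin 5 → F4) : Jm (ev f) = ev fun i => f i * f i := by
  simp only [Jm, ev, Prod.mk.injEq]
  have key : ∀ a b c : F4, (a + om * om * b + om * c) * (a + om * om * b + om * c) =
      a * a + om * (b * b) + om * om * (c * c) := by decide +kernel
  have key' : ∀ a b c : F4, (a + om * b + om * om * c) * (a + om * b + om * om * c) =
      a * a + om * om * (b * b) + om * (c * c) := by decide +kernel
  have k4 : ∀ a b c d : F4, (a + b + c + d) * (a + b + c + d) = a * a + b * b + c * c + d * d := by decide +kernel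
  exact ⟨k4 _ _ _ _, k4 _ _ _ _, key _ _ _, key' _ _ _⟩
theorem Jm_pm (π : Perm (Fin 5)) (y : M4) : Jm (pm π y) = pm π (Jm y) := by
  obtain ⟨f, rfl⟩ := ev_surj y
  rw [pm_ev, Jm_ev, Jm_ev, pm_ev]
theorem Jm_Jm (y : M4) : Jm (Jm y) = y := by revert y; decide +kernel
theorem herm_pt (i : Fin 5) : Herm (pt i) := by revert i; decide +kernel
theorem pt_zero : pt 0 = (1, 0, 0, 0) := by decide +kernel
theorem pt_one : pt 1 = (0, 1, 0, 0) := by decide +kernel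
theorem pm_swap (y : M4) : pm (swap 0 1) y = sw4 y := by revert y; decide +kernel
/-- the four-group fixing the point `0` -/
def xp (t : F4) : Perm (Fin 5) :=
  if t = 0 then 1 else if t = 1 then swap 1 2 * swap 3 4 else if t = om then swap 1 4 * swap 2 3 else swap 1 3 * swap 2 4
theorem pm_xp (t : F4) (y : M4) : pm (xp t) y = Xa (1 * t * t) t y := by revert t y; decide +kernel
theorem pm_sx (y : M4) : pm (swap 0 1 * swap 3 4) y = sx y := by revert y; decide +kernel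
theorem gam_ff (π : Perm (Fin 5)) : gam 1 false π = pm π := funext fun y => one_smul _ _
theorem gam_tt (π : Perm (Fin 5)) (y : M4) : gam 1 true π y = Jm (pm π y) := one_smul _ _

/-- The configuration left over by Goldschmidt's theorem. -/
structure Cfg {G : Type u} [Group G] (H Z B B1 U : Subgroup G) (c : G) : Prop where
  ZB : Z ≤ B1
  ZU : Z ≤ U
  B1_le : B1 ≤ B
  U_le : U ≤ B
  sup : B ≤ B1 ⊔ U
  inf : B1 ⊓ U ≤ Z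
  comm : B1 ≤ 𝒞(U)
  four : ∃ x ∈ B1, ∃ y ∈ B1, x ∉ Z ∧ y ∉ Z ∧ x * y ∉ Z
  sq : ∀ x ∈ B1, x ∉ Z → x * x = c
  mv : ∀ g ∈ H ⊓ 𝒩(B), g ∈ 𝒩(U) ∨ cj g B1 ≤ U

namespace WS

variable {G : Type u} [Group G] (S : WS G)

theorem v_zero : S.v 0 = 1 := map_one S.ι

/-- the elements of `W` -/
abbrev mm (y : M4) (c : F4) : G := S.toSD.m S.ρ S.x y c
/-- `g` acts on `W / V` as `f` -/
abbrev Ac (g : G) (f : M4 → M4) : Prop := S.toSD.Ac S.ρ S.x g f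

/-- `W = O₂(N(V))`, of order `2 ^ 10` -/
def W : Subgroup G where
  carrier := {g | ∃ y c, g = S.mm y c}
  mul_mem' := by rintro _ _ ⟨y, c, rfl⟩ ⟨y', c', rfl⟩; exact ⟨_, _, SD.m_mul S.bd S.xd _ _ _ _⟩
  one_mem' := ⟨0, 0, ((SD.m_zero S.bd S.xd 0).trans (map_one S.ι)).symm⟩
  inv_mem' := by
    rintro _ ⟨y, c, rfl⟩
    refine ⟨y, c + qf y, inv_eq_of_mul_eq_one_right ?_⟩
    rw [mm, mm, ← SD.m_v S.bd S.xd, ← mul_assoc, SD.m_sq S.bd S.xd, ← map_mul, ← map_one S.ι]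
    simp [Heis.mul_def, Heis.one_def, f4_add]

theorem mem_W {g : G} : g ∈ S.W ↔ ∃ y c, g = S.mm y c := Iff.rfl
theorem mm_mem (y : M4) (c : F4) : S.mm y c ∈ S.W := ⟨y, c, rfl⟩
theorem ι_mem (p : Heis F4) : S.ι p ∈ S.W := ⟨(p.a, p.b, 0, 0), p.c, (SD.m_u S.bd S.xd _ _ _).symm⟩
theorem ρ_mem (r : F4) : S.ρ r ∈ S.W := ⟨_, _, (SD.m_ρ S.xd r).symm⟩
theorem x_mem (l : F4) : S.x l ∈ S.W := ⟨_, _, (SD.m_x S.bd l).symm⟩

/-- the group generated by `Q₁` and `Q₂` -/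
def Hs : Subgroup G := S.Q1 ⊔ S.Q2
/-- `C(z)` -/
abbrev Cz : Subgroup G := centralizer {S.z}

theorem V_le_E1 : S.V ≤ S.E1 := fun _ h => (S.mem_V.1 h).elim fun c e => S.mem_E1.2 ⟨0, c, e⟩
theorem V_le_E2 : S.V ≤ S.E2 := fun _ h => (S.mem_V.1 h).elim fun c e => S.mem_E2.2 ⟨0, c, e⟩
theorem Hs_cV : S.Hs ≤ 𝒞(S.V) := sup_le (S.q1.cE.trans (cent_mono S.V_le_E1)) (S.q2.cE.trans (cent_mono S.V_le_E2))
theorem Hs_cO : S.Hs ≤ 𝒞(S.O) := sup_le S.q1.cO S.q2.cO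
theorem cV_le_Cz : 𝒞(S.V) ≤ S.Cz := fun _ h =>
  mem_centralizer_singleton_iff.2 (comm_of_mem h (S.mem_V.2 ⟨1, rfl⟩)).symm
theorem A_cO : S.A ≤ 𝒞(S.O) := fun _ ha _ ho => (comm_of_mem (S.bd.O_le ho).1 ha).symm
theorem W_cO : S.W ≤ 𝒞(S.O) := by
  rintro _ ⟨y, c, rfl⟩
  exact mul_mem (mul_mem (S.A_cO (S.mem _)) fun _ ho =>
    (comm_of_mem (S.bd.O_le ho).2 ((S.bd.memR _).2 ⟨_, rfl⟩)).symm) (S.xd.cO _)
theorem W_cV : S.W ≤ 𝒞(S.V) := by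
  rintro _ ⟨y, c, rfl⟩ _ h
  obtain ⟨c', rfl⟩ := S.mem_V.1 h
  rw [mm, SD.m_v S.bd S.xd, SD.v_m S.bd S.xd]
theorem W_pow {w : G} (h : w ∈ S.W) : w ^ 2 ^ 2 = 1 := by
  obtain ⟨y, c, rfl⟩ := h
  rw [show 2 ^ 2 = 2 * 2 from rfl, pow_mul, pow_two (S.mm y c), mm, SD.m_sq S.bd S.xd, pow_two, ← map_mul, ← map_one S.ι]
  simp [Heis.mul_def, Heis.one_def, f4_add]
theorem W_two : IsPGroup 2 S.W := isPGroup_iff_forall.2 fun _ h => ⟨2, S.W_pow h⟩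

variable {S} in
theorem Ac.norm [Finite G] {g : G} {f : M4 → M4} (h : S.Ac g f) : g ∈ 𝒩(S.W) :=
  mem_norm_of_cj_le (by
    rintro _ ⟨_, ⟨y, c, rfl⟩, rfl⟩
    exact (h y c).elim fun c' e => ⟨_, c', e⟩)

variable {S} in
theorem Ac.inv [Finite G] {g : G} {f f' : M4 → M4} (h : S.Ac g f) (hf : ∀ y, f' (f y) = y) : S.Ac g⁻¹ f' := fun y c => by
  obtain ⟨y1, c1, e⟩ := conj_mem' h.norm (S.mm_mem y c)
  obtain ⟨c2, e2⟩ := h y1 c1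
  have e3 : S.mm y c = S.mm (f y1) c2 := by rw [mm, mm, ← e2, ← mm, ← mm, ← e]; group
  exact ⟨c1, by rw [inv_inv, ← mm, e, (SD.m_inj S.bd S.xd e3).1, hf]⟩

theorem Q1_ac {q : G} (hq : q ∈ S.Q1) : S.Ac q (pm (xp (S.τ1 q).1)) := (funext (pm_xp _) :) ▸ S.a1.ac q hq
theorem Q2_ac {q : G} (hq : q ∈ S.Q2) : S.Ac q (pm (swap 0 1 * xp (S.τ2 q).1 * swap 0 1)) := by
  convert (S.a2.ac q hq).of_sw using 1
  funext y
  simp only [pm_mul, pm_swap, pm_xp, Function.comp]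
theorem Hs_nW [Finite G] : S.Hs ≤ 𝒩(S.W) := sup_le (fun _ h => (S.Q1_ac h).norm) fun _ h => (S.Q2_ac h).norm

/-- an element of `O` times a commuting 2-element -/
theorem eq_one_of_two [Finite G] {a o : G} (ho : o ∈ S.O) (hc : a ∈ 𝒞(S.O)) (ha : Two a) (h : Two (a * o)) : o = 1 := by
  obtain ⟨k, hk⟩ := ha
  obtain ⟨n, hn⟩ := h
  have h1 : (a * o) ^ 2 ^ (k + n) = 1 := by rw [pow_add, mul_comm, pow_mul, hn, one_pow]
  rw [(show Commute a o from (comm_of_mem hc ho).symm).mul_pow, pow_add, pow_mul, hk, one_pow, one_mul, ← pow_add] at h1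
  exact eq_one_of_coprime_of_pow (p := 2)
    (Nat.coprime_two_right.2 (S.bd.O_odd.of_dvd_nat (orderOf_dvd_natCard _ ho))) h1

theorem mem_Q1 (a r l c : F4) : S.mm (a, 0, r, l) c ∈ S.Q1 := by
  refine S.q1.mem _ (fun _ h => ?_) ⟨2, S.W_pow (S.mm_mem _ _)⟩ fun r' => ⟨0, bf (a, 0, r, l) (0, 0, r', 0), ?_⟩
  · obtain ⟨a', c', rfl⟩ := S.mem_E1.1 h
    rw [SD.e1, ← SD.m_u S.bd S.xd, SD.m_comm S.bd S.xd]
    simp [bf, S.v_zero]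
  · rw [← SD.m_ρ S.xd, mm, SD.m_comm S.bd S.xd, mul_assoc _ (SD.m _ _ _ _ _), SD.m_v S.bd S.xd, ← SD.v_m S.bd S.xd]
    group

theorem e2_mem_Q2 (b c : F4) : S.e2 b c ∈ S.Q2 := by
  refine S.q2.mem _ (fun _ h => ?_) ⟨2, S.W_pow (S.ι_mem _)⟩ fun r' => ⟨0, 0, ?_⟩
  · obtain ⟨a', c', rfl⟩ := S.mem_E2.1 h
    rw [← map_mul, ← map_mul]
    simp [Heis.mul_def, add_comm]
  · rw [S.bd.comm _ (S.mem _), SD.e1, ← Heis.one_def, map_one]; group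

theorem W_le_Hs : S.W ≤ S.Hs := by
  rintro _ ⟨⟨a, b, r, l⟩, c, rfl⟩
  have e := SD.m_mul S.bd S.xd (0, b, 0, 0) (a, 0, r, l) 0 c
  simp only [Prod.mk_add_mk, zero_add, add_zero, mul_zero, zero_mul, SD.m_u S.bd S.xd] at e
  rw [mm, ← e]
  exact mul_mem (mem_sup_right (S.e2_mem_Q2 b 0)) (mem_sup_left (S.mem_Q1 a r l c))

/-- centralisers in `K`; subgroups of odd order normalised by `W` -/
structure WF1 : Prop where
  ck : ∀ r, r ≠ 0 → ∀ k ∈ S.K, k * S.ρ r = S.ρ r * k → ∃ r', ∃ o ∈ S.O, k = S.ρ r' * o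
  ol : ∀ Y : Subgroup G, Odd (Nat.card Y) → S.W ≤ 𝒩(Y) → Y ≤ S.Cz → Y ≤ S.O

/-- the kernel of the action on `W / V`; the normaliser of `F` -/
structure WF2 : Prop where
  ker : ∀ n ∈ 𝒞(S.V), S.Ac n id → ∃ w ∈ S.W, ∃ o ∈ S.O, n = w * o
  tr : ∀ n ∈ 𝒩(S.F), ∃ l, S.x l * n ∈ 𝒩(S.R)
  nF : 𝒩(S.F) ≤ 𝒩(S.W)
  lin : ∀ g, (∀ r, ∃ c, g * S.ρ r * g⁻¹ = S.ρ r * S.v c) → ∃ l, ∀ r, g * S.ρ r * g⁻¹ = S.ρ r * S.v (l * r)
  card1 : Nat.card S.Q1 = 2 ^ 10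
  hsX : ∀ X : Subgroup G, X.Normal → S.A ≤ X → S.Hs ≤ X

/-- `A₅` is realised; the roots in `W` -/
structure WF3 : Prop where
  real : ∀ π, Perm.sign π = 1 → ∃ g ∈ S.Hs, S.Ac g (pm π)
  wconj : ∀ y, y ≠ 0 → ∀ c c', ∃ w ∈ S.W, w * S.mm y c * w⁻¹ = S.mm y c'
  root : ∀ y c, S.Root (S.mm y c) ↔ RV y
  rconj : ∀ y c, RV y → ∃ g ∈ S.Hs, g * S.ρ 1 * g⁻¹ = S.mm y c
  cls : ∀ n ∈ 𝒩(S.W), ∃ ζ ε π, ζ ≠ 0 ∧ S.Ac n (gam ζ ε π) ∧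
    ∀ c, n * S.v c * n⁻¹ = S.v (ζ * ζ * cond ε (c * c) c)

/-- all the facts on `W` -/
structure WF : Prop extends S.WF1, S.WF2, S.WF3

/-- the element interchanging `R` and `{x l}` -/
structure ND (n : G) : Prop where
  mem : n ∈ S.Hs
  ac : S.Ac n sx
  ne2 : ∀ b c, n * S.e2 b c * n⁻¹ = S.e1 b (c + b * b)
  nρ : ∀ r, n * S.ρ r * n⁻¹ = S.x r

/-- elements of `C(V)` acting as double transpositions -/
def DT : Prop := ∀ y ∈ 𝒞(S.V), y * y ∈ S.V → ∀ π, S.Ac y (pm π) → π ≠ 1 → Perm.sign π = 1 →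
  y * y = 1 ∧ (∃ g, y ∈ cj g S.K ∧ S.V ≤ cj g S.A) ∧ ¬ ∃ g ∈ 𝒞(S.V), y = g * S.ρ 1 * g⁻¹

/-- involutions of `C(V)` acting as transpositions -/
def RF : Prop := ∀ y ∈ 𝒞(S.V), y * y = 1 → ∀ π, S.Ac y (pm π) → Perm.sign π = -1 → ∃ k ∈ S.Hs, k * y * k⁻¹ ∈ 𝒞(S.R)

/-- involutions which centralise a root of `W` -/
def FX : Prop := ∀ y ∈ S.Cz ⊓ 𝒩(S.V), y * y = 1 → ∀ ε π, S.Ac y (gam 1 ε π) → π ≠ 1 →
  (ε = false → Perm.sign π = -1) → ∃ y0 c, RV y0 ∧ y * S.mm y0 c = S.mm y0 c * y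

/-- `W` is normal in `N(V)` -/
def CV : Prop := 𝒩(S.V) ≤ 𝒩(S.W)

/-- roots centralising `V` -/
def LR : Prop := ∀ t, S.Root t → t ∈ 𝒞(S.V) → ∃ g, t ∈ cj g S.K ∧ S.V ≤ cj g S.A ⊔ cj g S.K

/-- the element `j` -/
structure JD (j : G) : Prop where
  cO : j ∈ 𝒞(S.O)
  ac : S.Ac j Jm
  jv : ∀ c, j * S.v c * j⁻¹ = S.v (c * c)
  fix : ∀ y c, Herm y → j * S.mm y c * j⁻¹ = S.mm y c ∨ j * S.mm y c * j⁻¹ = S.mm y (c + 1)
  sq : j * j = 1 ∨ j * j = S.z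

/-- an element of `C(z)` moving `V` -/
def KD : Prop := ∃ k ∈ S.Cz, ∃ c, k * S.v om * k⁻¹ = S.e1 1 c

/-- the extraspecial group -/
structure QE (j : G) (Q : Subgroup G) : Prop where
  jd : S.JD j
  mem : ∀ g, g ∈ Q ↔ ∃ y c, Herm y ∧ (g = S.mm y c ∨ g = S.mm y c * j)
  sq : ∀ g ∈ Q, g * g = 1 ∨ g * g = S.z
  cmt : ∀ g ∈ Q, ∀ g' ∈ Q, ⁅g, g'⁆ = 1 ∨ ⁅g, g'⁆ = S.z
  card : Nat.card Q = 2 ^ 7
  extra : IsExtraspecial 2 Q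
  cen : ∀ g ∈ Q, g ∈ 𝒞(Q) → g = 1 ∨ g = S.z
  cz : Q ≤ S.Cz
  cO : Q ≤ 𝒞(S.O)
  cm : ∀ g ∈ S.Cz ⊓ 𝒩(S.V), (∀ y c, Herm y → ⁅g, S.mm y c⁆ = 1 ∨ ⁅g, S.mm y c⁆ = S.z) → ∃ q ∈ Q, ∃ o ∈ S.O, g = q * o
  nH : S.Cz ⊓ 𝒩(S.V) ≤ 𝒩(Q)
  fixW : ∀ g ∈ Q, (∀ w ∈ S.W, ⁅g, w⁆ = 1 ∨ ⁅g, w⁆ = S.z) → g ∈ S.V
  jq : ∀ g ∈ S.Cz ⊓ 𝒩(S.V), g * g = 1 → S.Ac g Jm → g ∈ Q

/-- conjugates of `V` in `E₁` -/
def A0 : Prop := ∀ k ∈ S.Cz, ∀ a c, k * S.v om * k⁻¹ = S.e1 a c → a = 0 ∨ a = 1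

/-- conjugates of `V` normalising `V` -/
def A1 (Q : Subgroup G) : Prop := ∀ k ∈ S.Cz, k * S.v om * k⁻¹ ∈ 𝒩(S.V) → k * S.v om * k⁻¹ ∈ Q

/-- the conjugates of `V` in `Q` -/
structure AD (Q : Subgroup G) : Prop where
  gen : ∀ Y : Subgroup G, S.z ∈ Y → (∀ k ∈ S.Cz, k * S.v om * k⁻¹ ∈ Q → k * S.v om * k⁻¹ ∈ Y) →
    ∀ y c, Herm y → S.mm y c ∈ Y
  a2 : ∀ k ∈ S.Cz, k * S.v om * k⁻¹ ∈ 𝒩(S.V) → k * S.v om * k⁻¹ ∈ Q ∧ k ∈ 𝒩(Q)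
  fix : ∀ P ≤ S.Cz ⊓ 𝒩(Q), IsPGroup 2 P → ∃ k ∈ S.Cz ⊓ 𝒩(Q), cj k P ≤ 𝒩(S.V)
  nc : ∀ B1 U c, ¬ Cfg S.Cz (zpowers S.z) Q B1 U c

/-- the structure of `C(z)` -/
structure ZD (Q : Subgroup G) : Prop where
  nQ : S.Cz ≤ 𝒩(Q)
  cQ : ∀ g ∈ 𝒞(Q), ∃ o ∈ S.O, g = o ∨ g = S.z * o
  nO : S.Cz ≤ 𝒩(S.O)
  syl : ∃ T, IsSylowIn 2 T ⊤ ∧ T ≤ S.Cz ∧ S.z ∈ T

/-- every involution of `C(z)` commutes with a root whose component contains `z` -/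
def Beta : Prop := ∀ b ∈ S.Cz, b * b = 1 → ∃ s g, s ∈ cj g S.K ∧ s * s = 1 ∧ s ≠ 1 ∧ S.z ∈ cj g S.A ∧ s * b = b * s

/-- conjugates of `z` and `ρ 1` in `C(z)` -/
def Pts : Prop := ∀ g, g * S.z * g⁻¹ ∈ S.Cz ∨ g * S.ρ 1 * g⁻¹ ∈ S.Cz → g ∈ 𝒩(S.O)

end WS

/-! ### The jobs, second part -/

/-- GS: a relative form of Goldschmidt's theorem -/
def GS : Prop := ∀ (G : Type u) [Group G] [Finite G] (H Z B : Subgroup G) (D : Set G), Z ≤ B → B ≤ H → H ≤ 𝒞(Z) →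
  (∀ z ∈ Z, z * z = 1) → (∀ b ∈ B, b * b ∈ Z) → (∀ d ∈ D, d ∈ H ∧ d * d = 1 ∧ ∀ g ∈ H, g * d * g⁻¹ ∈ D) →
  (∃ d ∈ D, d ∈ B) → (∀ d ∈ D, d ∈ 𝒩(B) → d ∈ B) → (∀ d ∈ D, d ∈ B → ∀ g ∈ H, g * d * g⁻¹ ∈ B → g ∈ 𝒩(B)) →
  (∀ b ∈ B, ∀ g ∈ H, g * b * g⁻¹ ∈ 𝒩(B) → g * b * g⁻¹ ∉ B → ∃ d ∈ D, d ∈ B ∧ ⁅d, g * b * g⁻¹⁆ ∈ Z) →
  (∀ B1 U c, ¬ Cfg H Z B B1 U c) → H ≤ 𝒩(B ⊔ pPrimeCoreOf 2 H)

/-- D1 -/
def D1S : Prop := ∀ (G : Type u) [Group G] [Finite G] (S : WS G), S.Bas1 → S.WF1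
/-- D2 -/
def D2S : Prop := ∀ (G : Type u) [Group G] [Finite G] (S : WS G), S.Bas1 → S.WF2
/-- D3 -/
def D3S : Prop := ∀ (G : Type u) [Group G] [Finite G] (S : WS G), S.WF3
/-- N1 -/
def N1S : Prop := ∀ (G : Type u) [Group G] [Finite G] (S : WS G), ∃ n, S.ND n
/-- DT -/
def DTS : Prop := ∀ (G : Type u) [Group G] [Finite G] (S : WS G) n, HB G → S.WF → S.ND n → S.DT
/-- RF and FX -/
def RFS : Prop := ∀ (G : Type u) [Group G] [Finite G] (S : WS G) n, HB G → S.WF → S.ND n → S.RF ∧ S.FX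
/-- CV and LR -/
def CVS : Prop := GS.{u} → ∀ (G : Type u) [Group G] [Finite G] (S : WS G), HB G → S.WF → S.DT → S.RF → S.CV ∧ S.LR
/-- J -/
def JS : Prop := ∀ (G : Type u) [Group G] [Finite G] (S : WS G) n, S.WF → S.ND n → S.CV → (∃ j, S.JD j) ∧ S.KD
/-- QE -/
def QES : Prop := ∀ (G : Type u) [Group G] [Finite G] (S : WS G) j, S.WF → S.CV → S.JD j → ∃ Q, S.QE j Q
/-- A0 -/
def A0S : Prop := ∀ (G : Type u) [Group G] [Finite G] (S : WS G), S.WF → S.CV → S.A0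
/-- A1 -/
def A1S : Prop := ∀ (G : Type u) [Group G] [Finite G] (S : WS G) j Q, HB G → S.WF → S.CV → S.DT → S.FX → S.LR →
  S.A0 → S.QE j Q → S.A1 Q
/-- AD -/
def ADS : Prop := ∀ (G : Type u) [Group G] [Finite G] (S : WS G) j Q, S.WF → S.KD → S.QE j Q → S.A1 Q → S.AD Q
/-- ZD -/
def ZDS : Prop := GS.{u} → ∀ (G : Type u) [Group G] [Finite G] (S : WS G) j Q, S.WF → S.QE j Q → S.AD Q → S.ZD Q
/-- BETA -/
def BetaS : Prop := ∀ (G : Type u) [Group G] [Finite G] (S : WS G) j Q, S.WF → S.CV → S.DT → S.FX → S.KD →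
  S.QE j Q → S.AD Q → S.ZD Q → S.Beta
/-- PTS -/
def PtsS : Prop := ∀ (G : Type u) [Group G] [Finite G] (S : WS G) Q, HB G → S.WF → S.CV → S.ZD Q → S.Beta → S.Pts
/-- HOLT -/
def HoltS : Prop := ∀ (G : Type u) [Group G] [Finite G] (S : WS G) Q X, S.GD X → S.WF → S.ZD Q → S.Pts → S.O = ⊥
/-- FIN -/
def FinS : Prop := ∀ (G : Type u) [Group G] [Finite G] (S : WS G) j Q X, S.GD X → S.WF → S.KD → S.QE j Q → S.AD Q →
  S.ZD Q → S.O = ⊥ → Cfsg.Spor.IsoSuz X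

end CL.LS
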