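/-
Project LS: conjugates of `V` which normalise `V`.
-/
import Cfsg.Agent.LS.Defs2

set_option autoImplicit false
set_option linter.unusedSectionVars false
open Cfsg Subgroup CL.Even CL.Grp CL.L34 Equiv
open scoped commutatorElement

namespace CL.LS

universe u v

set_option synthInstance.maxSize 4000 in
theorem a1_comb : ∀ a : F4, a ≠ 0 → a ≠ 1 → ∀ N L : Finset F4,
    (∀ l ∈ L, ∃ r0, (r0 * l = 0 ∨ r0 * l = 1) ∧ ∀ t ∈ N, t * t * l + t * r0 = 0 ∨ t * t * l + t * r0 = a) →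
    ∀ R : Finset F4, (∀ r ∈ R, (∀ t ∈ N, t * r = 0 ∨ t * r = a) ∧ ∀ l ∈ L, r * l = 0 ∨ r * l = 1) →
    N.card * (L.card * R.card) < 8 := by decide +kernel

namespace WS

variable {G : Type u} [Group G] [Finite G] {S : WS G} {g k q q' : G} {a c : F4}

theorem a1_v_inj {c c' : F4} (h : S.v c = S.v c') : c = c' := congrArg Heis.c (S.inj h)

theorem a1_cV (h1 : g ∈ S.Cz) (h2 : g * S.v om = S.v om * g) : g ∈ 𝒞(S.V) := fun x hx => by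
  obtain ⟨c, rfl⟩ := S.mem_V.1 hx
  have h3 : Commute g S.z := mem_centralizer_singleton_iff.1 h1
  obtain rfl | rfl | rfl | rfl := f4_cases c
  · rw [S.v_zero, one_mul, mul_one]
  · exact h3.symm
  · exact h2.symm
  · have : S.v (om * om) = S.v om * S.z := by rw [← map_mul, om_sq]; simp [Heis.mul_def]
    rw [this]; exact (Commute.mul_right h2 h3).symm

theorem a1_pi (hW : S.WF) (hC : S.CV) (hg : g ∈ 𝒞(S.V)) : ∃ π, S.Ac g (pm π) := by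
  obtain ⟨ζ, ε, π, -, h1, h2⟩ := hW.cls g (hC (cent_le_norm _ hg))
  obtain ⟨rfl, rfl⟩ := (by decide +kernel : ∀ (ζ : F4) ε, (∀ c, c = ζ * ζ * cond ε (c * c) c) → ζ = 1 ∧ ε = false) ζ ε
    fun c => a1_v_inj ((conj_eq_of_mem hg (S.mem_V.2 ⟨c, rfl⟩)).symm.trans (h2 c))
  exact ⟨π, gam_ff π ▸ h1⟩

theorem a1_memW (hW : S.WF) (hg : g ∈ 𝒞(S.V)) (h2 : Two g) (h : S.Ac g id) : g ∈ S.W := by
  obtain ⟨w, hw, o, ho, rfl⟩ := hW.ker g hg h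
  rwa [S.eq_one_of_two ho (S.W_cO hw) ⟨2, S.W_pow hw⟩ h2, mul_one]

theorem a1_two_conj (h : Two q) (k : G) : Two (k⁻¹ * q * k) :=
  h.imp fun n e => by rw [← inv_inv k, inv_inv k⁻¹, conj_pow, e, mul_one, mul_inv_cancel]

theorem a1_tau (hq : q ∈ S.Q1) (hq' : q' ∈ S.Q1) : (S.τ1 (q * q')).1 = (S.τ1 q).1 + (S.τ1 q').1 := by
  have e : q * q' * S.ρ 1 * (q * q')⁻¹ = q * S.ρ 1 * q⁻¹ * (q * S.e1 (1 * (S.τ1 q').1) (1 * (S.τ1 q').2) * q⁻¹) := by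
    rw [show q * q' * S.ρ 1 * (q * q')⁻¹ = q * (q' * S.ρ 1 * q'⁻¹) * q⁻¹ by group, S.q1.act q' hq']; group
  rw [S.q1.act _ (mul_mem hq hq'), S.q1.act q hq, conj_eq_of_mem (S.q1.cE hq) (S.mem_E1.2 ⟨_, _, rfl⟩), mul_assoc,
    ← map_mul] at e
  simpa using congrArg Heis.a (S.inj (mul_left_cancel e))

theorem a1_V1 (hk : k ∈ S.Cz) (e : k * S.v om * k⁻¹ = S.e1 a c) (d : F4) :
    ∃ a' c', k * S.v d * k⁻¹ = S.e1 a' c' ∧ ((a' = 0 ∧ (c' = 0 ∨ c' = 1)) ∨ a' = a) := by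
  have hz : k * S.z * k⁻¹ = S.z := by rw [mem_centralizer_singleton_iff.1 hk, mul_inv_cancel_right]
  obtain rfl | rfl | rfl | rfl := f4_cases d
  · exact ⟨0, 0, by rw [S.v_zero, mul_one, mul_inv_cancel]; exact S.v_zero.symm, .inl ⟨rfl, .inl rfl⟩⟩
  · exact ⟨0, 1, hz, .inl ⟨rfl, .inr rfl⟩⟩
  · exact ⟨a, c, e, .inr rfl⟩
  · have : S.v (om * om) = S.v om * S.z := by rw [← map_mul, om_sq]; simp [Heis.mul_def]
    refine ⟨a, c + 1, ?_, .inr rfl⟩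
    rw [this, show k * (S.v om * S.z) * k⁻¹ = k * S.v om * k⁻¹ * (k * S.z * k⁻¹) by group, e, hz, ← map_mul]
    simp [Heis.mul_def]

theorem a1_Y (hW : S.WF) (hC : S.CV) (hk : k ∈ S.Cz) (e : k * S.v om * k⁻¹ = S.e1 a c) :
    ∃ Y ≤ S.Q1, 128 ≤ Nat.card Y ∧ ∀ q ∈ Y, k⁻¹ * q * k ∈ S.W := by
  have h1 : ∀ q : S.Q1, k⁻¹ * q * k ∈ 𝒞(S.V) := fun q x hx => by
    obtain ⟨d, rfl⟩ := S.mem_V.1 hx
    obtain ⟨a', c', e', -⟩ := a1_V1 hk e d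
    have := comm_of_mem (S.q1.cE q.2) (S.mem_E1.2 ⟨_, _, e'⟩)
    calc _ = k⁻¹ * (k * S.v d * k⁻¹ * q) * k := by group
      _ = _ := by rw [this]; group
  choose P hP using fun q => a1_pi hW hC (h1 q)
  let f : S.Q1 →* Perm (Fin 5) := MonoidHom.mk' P fun q q' => pm_faithful fun i => by
    have := (hP q).mul (hP q')
    rw [show k⁻¹ * q * k * (k⁻¹ * q' * k) = k⁻¹ * (q * q' : S.Q1) * k by rw [coe_mul]; group] at this
    rw [SD.Ac.unique S.bd S.xd (hP (q * q')) this, pm_mul]; rfl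
  refine ⟨f.ker.map S.Q1.subtype, map_subtype_le _, ?_, ?_⟩
  · obtain ⟨n, hn⟩ := IsPGroup.iff_card.1 (S.q1.two.of_surjective _ f.rangeRestrict_surjective)
    have h2 := card_subgroup_dvd_card f.range
    rw [hn, Nat.card_perm, Nat.card_fin] at h2
    have h3 : n ≤ 3 := by
      by_contra! h
      exact absurd ((pow_dvd_pow 2 h).trans h2) (by decide)
    have h4 := f.ker.index_mul_card
    rw [index_ker, hn, hW.card1] at h4
    rw [card_map_of_injective S.Q1.subtype_injective]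
    have := Nat.pow_le_pow_right two_pos h3
    nlinarith
  · rintro _ ⟨q, hq, rfl⟩
    refine a1_memW hW (h1 q) (a1_two_conj (isPGroup_iff_forall.1 S.q1.two q q.2) k) ?_
    have := hP q
    rwa [show P q = 1 from hq, funext pm_one] at this

theorem a1_a0 (hW : S.WF) (hC : S.CV) : S.A0 := fun k hk a c e => by
  by_contra! ha
  obtain ⟨Y, hY, hc, hw⟩ := a1_Y hW hC hk e
  have cm : ∀ q ∈ Y, ∀ q' ∈ Y, ∃ a' c', q * q' = q' * q * S.e1 a' c' ∧ ((a' = 0 ∧ (c' = 0 ∨ c' = 1)) ∨ a' = a) :=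
    fun q hq q' hq' => by
    obtain ⟨y, d, e1⟩ := hw q hq
    obtain ⟨y', d', e2⟩ := hw q' hq'
    obtain ⟨a', c', e3, h⟩ := a1_V1 hk e (bf y y')
    refine ⟨a', c', ?_, h⟩
    have := SD.m_comm S.bd S.xd y y' d d'
    rw [← mm, ← mm, ← e1, ← e2] at this
    calc _ = k * (k⁻¹ * q * k * (k⁻¹ * q' * k)) * k⁻¹ := by group
      _ = _ := by rw [this, ← e3]; group
  have sq : ∀ q ∈ Y, ∃ a' c', q * q = S.e1 a' c' ∧ ((a' = 0 ∧ (c' = 0 ∨ c' = 1)) ∨ a' = a) := fun q hq => by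
    obtain ⟨y, d, e1⟩ := hw q hq
    obtain ⟨a', c', e3, h⟩ := a1_V1 hk e (qf y)
    exact ⟨a', c', by rw [← e3, ← SD.m_sq S.bd S.xd y d, ← mm, ← e1]; group, h⟩
  have hv : ∀ d a' c', S.v d = S.e1 a' c' → ((a' = 0 ∧ (c' = 0 ∨ c' = 1)) ∨ a' = a) → d = 0 ∨ d = 1 := fun d a' c' e h => by
    obtain ⟨rfl, -, rfl⟩ := Heis.mk.inj (S.inj e)
    exact (h.resolve_right ha.1.symm).2
  have K1 : ∀ a0 r0 l0 c0, S.mm (a0, 0, r0, l0) c0 ∈ Y → ∀ q ∈ Y, (S.τ1 q).1 * (S.τ1 q).1 * l0 + (S.τ1 q).1 * r0 = 0 ∨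
      (S.τ1 q).1 * (S.τ1 q).1 * l0 + (S.τ1 q).1 * r0 = a := fun a0 r0 l0 c0 h0 q hq => by
    obtain ⟨a', c', e1, h⟩ := cm q hq _ h0
    obtain ⟨c1, e2⟩ := S.a1.ac q (hY hq) (a0, 0, r0, l0) c0
    rw [e1, mul_assoc _ q, ← comm_of_mem (S.q1.cE (hY hq)) (S.mem_E1.2 ⟨_, _, rfl⟩), ← mul_assoc, mul_inv_cancel_right,
      SD.e1, ← SD.m_u S.bd S.xd, mm, SD.m_mul S.bd S.xd] at e2
    have e3 := congrArg Prod.fst (SD.m_inj S.bd S.xd e2).1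
    simp only [Xa, Prod.mk_add_mk, one_mul, mul_zero, add_zero, add_assoc, add_right_inj] at e3
    exact e3 ▸ h.imp_left And.left
  classical
  let N : Finset F4 := {t | ∃ q ∈ Y, (S.τ1 q).1 = t}
  let L : Finset F4 := {l | ∃ a r c, S.mm (a, 0, r, l) c ∈ Y}
  let R : Finset F4 := {r | ∃ a c, S.mm (a, 0, r, 0) c ∈ Y}
  have mN : ∀ t, t ∈ N ↔ ∃ q ∈ Y, (S.τ1 q).1 = t := fun t => Finset.mem_filter_univ t
  have mL : ∀ l, l ∈ L ↔ ∃ a r c, S.mm (a, 0, r, l) c ∈ Y := fun t => Finset.mem_filter_univ t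
  have mR : ∀ r, r ∈ R ↔ ∃ a c, S.mm (a, 0, r, 0) c ∈ Y := fun t => Finset.mem_filter_univ t
  have h8 := a1_comb a ha.1 ha.2 N L (fun l hl => by
    obtain ⟨a0, r0, c0, h0⟩ := (mL l).1 hl
    obtain ⟨a', c', e1, h⟩ := sq _ h0
    rw [mm, SD.m_sq S.bd S.xd] at e1
    refine ⟨r0, by simpa only [qf, mul_zero, zero_add] using hv _ _ _ e1 h, fun t ht => ?_⟩
    obtain ⟨q, hq, rfl⟩ := (mN t).1 ht
    exact K1 _ _ _ _ h0 q hq) R fun r hr => by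
    obtain ⟨a0, c0, h0⟩ := (mR r).1 hr
    refine ⟨fun t ht => ?_, fun l hl => ?_⟩
    · obtain ⟨q, hq, rfl⟩ := (mN t).1 ht
      simpa only [mul_zero, zero_add] using K1 _ _ _ _ h0 q hq
    · obtain ⟨a1, r1, c1, h1⟩ := (mL l).1 hl
      obtain ⟨a', c', e1, h⟩ := cm _ h0 _ h1
      rw [mm, mm, SD.m_comm S.bd S.xd] at e1
      simpa only [bf, mul_zero, zero_add, add_zero] using hv _ _ _ (mul_left_cancel e1) h
  choose s1 s2 s3 using fun t : N => (mN t).1 t.2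
  choose u1 u2 u3 u4 using fun l : L => (mL l).1 l.2
  let f : N × (L × R) × F4 × F4 → G := fun p =>
    s1 p.1 * (S.mm (u1 p.2.1.1, 0, u2 p.2.1.1, p.2.1.1) (u3 p.2.1.1) * S.mm (p.2.2.1, 0, p.2.1.2, 0) p.2.2.2)
  have sub : (Y : Set G) ⊆ Set.range f := fun q hq => by
    let t : N := ⟨_, (mN _).2 ⟨q, hq, rfl⟩⟩
    have h1 : (s1 t)⁻¹ * q ∈ Y := mul_mem (inv_mem (s2 t)) hq
    have h2 := a1_tau (hY (s2 t)) (hY h1)
    rw [mul_inv_cancel_left, s3 t, left_eq_add] at h2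
    obtain ⟨a0, r0, c0, e0⟩ := S.a1.ker _ (hY h1) h2
    let l : L := ⟨_, (mL _).2 ⟨a0, r0, c0, e0 ▸ h1⟩⟩
    obtain ⟨⟨a1, b1, r1, l1⟩, c1, e1⟩ := mul_mem (inv_mem (S.mm_mem (u1 l, 0, u2 l, l) (u3 l))) (S.mem_W.2 ⟨_, _, e0⟩)
    have e2 := inv_mul_eq_iff_eq_mul.1 e1
    have e3 := (SD.m_inj S.bd S.xd (e0.symm.trans (e2.trans (SD.m_mul S.bd S.xd _ _ _ _)))).1
    simp only [Prod.mk_add_mk, Prod.mk.injEq, zero_add, l, left_eq_add] at e3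
    obtain ⟨-, rfl, -, rfl⟩ := e3
    exact ⟨(t, (l, ⟨r1, (mR _).2 ⟨a1, c1, e1 ▸ mul_mem (inv_mem (u4 l)) h1⟩⟩), a1, c1),
      (inv_mul_eq_iff_eq_mul.1 e2).symm⟩
  have := (Nat.card_mono (Set.toFinite _) sub).trans (Finite.card_range_le f)
  simp only [Nat.card_prod, card_F4, Nat.card_eq_finsetCard] at this
  have hc' : 128 ≤ Nat.card (Y : Set G) := hc
  nlinarith

end WS

theorem a0S : A0S.{u} := fun _ _ _ _ hW hC => WS.a1_a0 hW hC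

open WS in
theorem a1S : A1S.{u} := fun G _ _ S j Q hB hW hC hD hF hL h0 hQ k hk hn => by
  set y := k * S.v om * k⁻¹ with hy
  have cv : ∀ c, S.v c ∈ 𝒞(S.V) := fun c => S.W_cV (S.ι_mem _)
  have yz : y ∈ S.Cz := mul_mem (mul_mem hk (S.cV_le_Cz (cv om))) (inv_mem hk)
  have y2 : y * y = 1 := by
    rw [hy, show k * S.v om * k⁻¹ * (k * S.v om * k⁻¹) = k * (S.v om * S.v om) * k⁻¹ by group, ← map_mul]
    simp [Heis.mul_def, f4_add, ← Heis.one_def]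
  have yt : Two y := ⟨1, by rw [pow_one, sq, y2]⟩
  have yr : ¬ S.Root y := fun h => S.bd.noV _ (S.mem _) ((S.root_conj k).1 h)
  obtain ⟨ζ, ε, π, -, h1, h2⟩ := hW.cls y (hC hn)
  obtain rfl := (by decide +kernel : ∀ (ζ : F4) ε, 1 = ζ * ζ * cond ε (1 * 1) 1 → ζ = 1) ζ ε (a1_v_inj
    ((by rw [mem_centralizer_singleton_iff.1 yz, mul_inv_cancel_right] : S.v 1 = y * S.v 1 * y⁻¹).trans (h2 1)))
  have yV : ε = false → y ∈ 𝒞(S.V) := fun e x hx => by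
    obtain ⟨c, rfl⟩ := S.mem_V.1 hx
    have := h2 c
    rw [e, one_mul, one_mul, cond_false, mul_inv_eq_iff_eq_mul] at this
    exact this.symm
  by_cases hπ : π = 1
  · subst hπ
    cases ε
    · rw [gam_ff, funext pm_one] at h1
      obtain ⟨y0, c, e⟩ := a1_memW hW (yV rfl) yt h1
      refine (hQ.mem y).2 ⟨y0, c, ?_, .inl e⟩
      by_cases z0 : y0 = 0
      · rw [z0]; decide +kernel
      obtain ⟨i, ζ, hζ, rfl⟩ : OmV y0 := by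
        by_contra hn
        refine yr (e ▸ (hW.root y0 c).2 ⟨a1_v_inj (S := S) ?_, z0, hn⟩)
        rw [← SD.m_sq S.bd S.xd y0 c, ← mm, ← e, y2, S.v_zero]
      obtain ⟨σ, s1, s2⟩ := (by decide +kernel : ∀ i : Fin 5, ∃ σ : Perm (Fin 5), Perm.sign σ = 1 ∧ σ i = 0) i
      obtain ⟨k1, hk1, a1⟩ := hW.real σ s1
      obtain ⟨c', e'⟩ := a1 (ζ • pt i) c
      rw [pm_smul, pm_pt, s2, pt_zero, ← mm, ← e, hy] at e'
      simp only [Prod.smul_mk, smul_eq_mul, mul_one, mul_zero, SD.m_u S.bd S.xd] at e'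
      obtain rfl := (h0 (k1 * k) (mul_mem (S.cV_le_Cz (S.Hs_cV hk1)) hk) ζ c' (by rw [SD.e1, ← e']; group)).resolve_left hζ
      rw [one_smul]; exact herm_pt i
    · exact hQ.jq y ⟨yz, hn⟩ y2 (by convert h1 using 1; funext y; rw [gam_tt, pm_one])
  exfalso
  by_cases hs : ε = false → Perm.sign π = -1
  swap
  · obtain ⟨rfl, hs'⟩ := Classical.not_imp.1 hs
    obtain ⟨-, ⟨g, hg, -⟩, -⟩ := hD y (yV rfl) (y2 ▸ one_mem _) π (gam_ff π ▸ h1) hπ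
      ((Int.units_eq_one_or _).resolve_right hs')
    exact yr ⟨y2, fun e => absurd (a1_v_inj ((conj_eq_one_iff.1 e).trans S.v_zero.symm)) (by decide +kernel), g, hg⟩
  obtain ⟨y0, c, r0, e⟩ := hF y ⟨yz, hn⟩ y2 ε π h1 hπ hs
  have rt := (hW.root y0 c).2 r0
  obtain ⟨k1, hk1, e1⟩ := hW.rconj y0 c r0
  obtain ⟨g, g1, g2⟩ := hL _ (rt.conj k⁻¹) (a1_cV
    (mul_mem (mul_mem (inv_mem hk) (S.cV_le_Cz (S.W_cV (S.mm_mem _ _)))) (inv_mem (inv_mem hk))) (by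
      calc _ = k⁻¹ * (S.mm y0 c * y) * k := by rw [hy]; group
        _ = _ := by rw [← e, hy]; group))
  have g3 : S.mm y0 c ∈ cj (k * g) S.K := by rw [cj_mul, mem_cj]; simpa using g1
  obtain ⟨q1, q2⟩ := S.cj_K_eq rt.1 rt.2.1 (e1 ▸ conj_mem_cj k1 (S.bd.memK 1)) g3
  have g4 := conj_mem_cj k (g2 (S.mem_V.2 ⟨om, rfl⟩))
  rw [cj_sup, ← cj_mul, ← cj_mul, q1, q2, ← cj_sup, mem_cj, ← hy] at g4
  have k1z := S.cV_le_Cz (S.Hs_cV hk1)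
  obtain ⟨p, k', hk', e2⟩ := (hB S.toSD).1.cv _ g4 1 one_ne_zero
    (mem_centralizer_singleton_iff.1 (mul_mem (mul_mem (inv_mem k1z) yz) k1z))
  have e3 : S.ι p * k' * S.ρ 1 = S.ρ 1 * (S.ι p * k') := by
    rw [← e2]
    calc _ = k1⁻¹ * (y * (k1 * S.ρ 1 * k1⁻¹)) * k1 := by group
      _ = _ := by rw [e1, e, ← e1]; group
  rw [← mul_assoc, ← S.bd.comm 1 (S.mem p), mul_assoc, mul_assoc, mul_right_inj] at e3
  obtain ⟨r', o, ho, rfl⟩ := hW.ck 1 one_ne_zero k' hk' e3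
  have w1 := mul_mem (S.ι_mem p) (S.ρ_mem r')
  rw [← mul_assoc (S.ι p)] at e2
  rw [S.eq_one_of_two ho (S.W_cO w1) ⟨2, S.W_pow w1⟩ (e2 ▸ a1_two_conj yt k1), mul_one] at e2
  obtain ⟨y1, c1, e4⟩ : y ∈ S.W := by
    have := conj_mem (S.Hs_nW hk1) w1
    rwa [← e2, show k1 * (k1⁻¹ * y * k1) * k1⁻¹ = y by group] at this
  have e5 := SD.Ac.unique S.bd S.xd h1 (by rw [e4]; exact SD.Ac.m S.bd S.xd y1 c1)
  refine hπ (Perm.ext fun i => pt_inj ?_)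
  have e6 := congrFun e5 (pt i)
  cases ε
  · rwa [gam_ff, pm_pt] at e6
  · rwa [gam_tt, pm_pt, herm_pt] at e6

end CL.LS
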