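/-
Project LS: `R` is a four-group, and the root groups.
-/
import Cfsg.Agent.LS.Defs
import Cfsg.Agent.Grp.Cores
import Cfsg.Agent.Inv.StrongEmb

set_option autoImplicit false
set_option linter.unusedSectionVars false
open Cfsg Subgroup CL.Even CL.Grp CL.L34
open scoped commutatorElement

namespace CL.LS

universe u v

theorem b_d1 : ∀ p q : Heis F4, ⁅p, q⁆ = ⟨0, 0, p.a * q.b + q.a * p.b⟩ := by decide +kernel
theorem b_d2 : ∀ c : F4, ⁅(⟨c, 0, 0⟩ : Heis F4), (⟨0, 1, 0⟩ : Heis F4)⁆ = ⟨0, 0, c⟩ := by decide +kernel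
theorem b_d3 : ∀ a b : F4, a ≠ 0 → b ≠ 0 → a ≠ b → ∀ c, c = 0 ∨ c = a ∨ c = b ∨ c = a + b := by decide +kernel
theorem b_d4 : ∀ a : Multiplicative F4, a ^ 2 ^ 1 = 1 := by decide +kernel
theorem b_d5 : ∀ q : Heis F4, q * q = 1 → ∀ r : F4, r ≠ 0 →
    q = ⟨r * (r * r * q.a), 0, r * (r * r * q.c)⟩ ∨ q = ⟨0, r * (r * r * q.b), r * (r * r * q.c)⟩ := by decide +kernel
theorem b_d6 : Function.Injective i1 := by decide +kernel

variable {G : Type u} [Group G] [Finite G]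

theorem b_bot {P : Subgroup G} (hP : IsPGroup 2 P) (h : ∀ t ∈ P, t * t = 1 → t = 1) : P = ⊥ :=
  by_contra fun e => by
    obtain ⟨t, ht, o⟩ := Inv.SE.exists_inv_of_isPGroup hP e
    rw [h t ht (by rw [← sq, ← o, pow_orderOf_eq_one]), orderOf_one] at o
    exact absurd o (by decide)

theorem b_compl {R C : Subgroup G} (hR : IsSylowIn 2 R C) (hc : C ≤ 𝒞(R)) :
    ∃ O ≤ C, Odd (Nat.card O) ∧ ∀ k ∈ C, ∃ r ∈ R, ∃ o ∈ O, k = r * o := by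
  have := Fact.mk Nat.prime_two
  obtain ⟨O, h⟩ : ∃ O, IsComplement' O (hR.toSylow : Subgroup C) :=
    ⟨_, MonoidHom.ker_transferSylow_isComplement' hR.toSylow fun x _ =>
      mem_centralizer_iff.2 fun y hy => Subtype.ext (comm_of_mem (hc x.2) hy)⟩
  refine ⟨O.map C.subtype, map_subtype_le _, ?_, fun k hk => ?_⟩
  · rw [card_map_of_injective C.subtype_injective, ← h.index_eq_card]
    exact Nat.not_even_iff_odd.1 fun e => hR.toSylow.not_dvd_index e.two_dvd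
  · obtain ⟨⟨a, b⟩, e⟩ := (h.symm.existsUnique ⟨k, hk⟩).exists
    exact ⟨a.1, a.2, b.1, mem_map_of_mem _ b.2, (congrArg Subtype.val e).symm⟩

theorem b_card {H : Type} [Group H] {f : H →* G} (hf : Function.Injective f) : Nat.card f.range = Nat.card H :=
  (Nat.card_congr (MonoidHom.ofInjective hf).toEquiv).symm

theorem b_comm {a b k l : G} (h1 : Commute k b) (h2 : Commute l a) (h3 : Commute a k)
    (h5 : Commute b l) : ⁅a * k, b * l⁆ = ⁅a, b⁆ * ⁅k, l⁆ := by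
  have e : Commute ⁅k, l⁆ (b * a)⁻¹ := by
    have c1 : Commute k (b * a) := h1.mul_right h3.symm
    have c2 : Commute l (b * a) := h5.symm.mul_right h2
    exact (((c1.mul_left c2).mul_left c1.inv_left).mul_left c2.inv_left).inv_right
  calc _ = a * (k * b) * l * (b * (l * a) * k)⁻¹ := by rw [commutatorElement_def]; group
    _ = a * b * (⁅k, l⁆ * (b * a)⁻¹) := by rw [h1.eq, h2.eq, commutatorElement_def]; group
    _ = _ := by rw [e.eq, commutatorElement_def a]; group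

namespace SD

variable (S : SD G)

theorem b_AK {a k : G} (ha : a ∈ S.A) (hk : k ∈ S.K) : Commute a k := comm_of_mem hk ha
theorem b_UA : S.U ≤ S.A := S.sylU.le
theorem b_AN : S.A ≤ 𝒩(S.K) := le_normalizer.trans S.N_le_NK
theorem b_UK : S.U ⊓ S.K = ⊥ := eq_bot_iff.2 fun _ ⟨⟨_, e⟩, h⟩ => by
  subst e; rw [S.ι_K h, map_one]; exact one_mem _
theorem b_vK {c : F4} (h : S.v c ∈ S.K) : c = 0 := congrArg Heis.c (S.ι_K h)
theorem b_v0 : S.v 0 = 1 := map_one S.ι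
theorem b_vv (c c' : F4) : S.v (c + c') = S.v c * S.v c' := by rw [← map_mul]; simp [Heis.mul_def]
theorem b_vsq (c : F4) : S.v c * S.v c = 1 := by rw [← b_vv, f4_add, b_v0]
theorem b_uv (p : Heis F4) (c : F4) : Commute (S.ι p) (S.v c) := by
  rw [Commute, SemiconjBy, ← map_mul, ← map_mul]; simp [Heis.mul_def, add_comm]
theorem b_four (p : Heis F4) : S.ι p ^ 4 = 1 := by
  rw [← map_pow, (by decide +kernel : ∀ q : Heis F4, q ^ 4 = 1) p, map_one]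

theorem b_lift {a k : G} (ha : a ∈ S.A) (hk : k ∈ S.K) (h : a * k ∈ S.A) (h1 : a ^ 4 = 1) (h2 : (a * k) ^ 4 = 1) :
    k = 1 := by
  rw [(S.b_AK ha hk).mul_pow, h1, one_mul] at h2
  exact eq_one_of_coprime_of_pow (p := 2) (k := 2)
    (Nat.coprime_two_right.2 (S.oddZ _ ((mul_mem_cancel_left ha).1 h) hk)) h2

theorem b_syl : IsSylowIn 2 (S.U ⊔ S.R) (S.A ⊔ S.K) := by
  have h1 : S.U ≤ 𝒩(S.R) := (S.b_UA.trans (le_centralizer_iff.1 S.sylR.le)).trans (cent_le_norm _)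
  have h2 := sup_le_sup S.b_UA S.sylR.le
  refine ⟨h2, isPGroup_sup S.sylU.isPGroup S.sylR.isPGroup h1, fun e => ?_⟩
  have h3 := card_sup_mul_card_inf S.b_AN
  rw [← card_mul_relIndex h2, card_sup_of_inf_eq_bot h1 (eq_bot_iff.2 ((inf_le_inf_left _ S.sylR.le).trans S.b_UK.le)),
    ← card_mul_relIndex S.b_UA, ← card_mul_relIndex S.sylR.le, mul_mul_mul_comm, mul_assoc] at h3
  exact ((Nat.Prime.dvd_mul Nat.prime_two).1 (Nat.eq_of_mul_eq_mul_left (Nat.mul_pos Nat.card_pos Nat.card_pos) h3 ▸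
    e.mul_right _)).elim S.sylU.not_dvd S.sylR.not_dvd

theorem b_E1U : S.E1 ≤ S.U := fun _ hx => let ⟨_, _, e⟩ := S.mem_E1.1 hx; ⟨_, e.symm⟩

theorem b_U_le {H : Subgroup G} (h1 : S.E1 ≤ H) (h2 : S.sw.E1 ≤ H) : S.U ≤ H := by
  rintro _ ⟨⟨a, b, c⟩, rfl⟩
  rw [show (⟨a, b, c⟩ : Heis F4) = ⟨0, b, 0⟩ * ⟨a, 0, c⟩ by simp [Heis.mul_def], map_mul]
  exact mul_mem (h2 (S.mem_E2.2 ⟨b, 0, rfl⟩)) (h1 (S.mem_E1.2 ⟨a, c, rfl⟩))

theorem b_E1sq {x : G} (hx : x ∈ S.E1) : x * x = 1 := by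
  obtain ⟨a, c, rfl⟩ := S.mem_E1.1 hx
  rw [← map_mul, ← map_one S.ι]; simp [Heis.mul_def, Heis.one_def, f4_add]

theorem b_E1 {T : SD G} (hT : T.Bas2) (h1 : S.U ≤ T.N) (h2 : S.U ⊓ T.K = ⊥) : S.E1 ≤ T.A ⊔ T.K := by
  obtain ⟨m, hm, e⟩ := (hT.e16 S.E1 (S.b_E1U.trans h1) fun _ => S.b_E1sq).2 (by
    rw [eq_bot_iff.2 ((inf_le_inf_right _ S.b_E1U).trans h2.le), card_bot, E1,
      b_card (f := S.ι.comp i1) (S.inj.comp b_d6), Nat.card_eq_fintype_card]; rfl)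
  exact le_sup_left.trans (e.elim (fun e => e.le.trans (sup_le_sup_right (cj_le_of_mem (T.b_E1U.trans T.b_UA) hm) _))
    fun e => e.le.trans (sup_le_sup_right (cj_le_of_mem (T.sw.b_E1U.trans T.sw.b_UA) hm) _))

theorem b_noV (hV : S.NoV) {a g : G} (ha : a ∈ S.A) (h : a ∈ cj g S.K) (e : a * a = 1) : a = 1 :=
  by_contra fun n => hV a ha ⟨e, n, g, h⟩

theorem b_key (hB : HB G) (hV : S.NoV) {g r : G} {c0 : F4} (hc : c0 ≠ 0) (hr : r ∈ S.R) (h1 : r * r = 1)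
    (hs : S.v c0 * r ∈ cj g S.K) : ∃ g, (S.conj g).U ≤ S.U ⊔ cj g S.K ∧ S.U ≤ 𝒩(cj g S.K) ∧
      (∀ t ∈ S.K, t ∈ cj g S.K → t * t = 1 → t = 1) ∧ ∀ x ∈ S.R, x * r = r * x → ∃ c, x * S.v c ∈ cj g S.K := by
  have := Fact.mk Nat.prime_two
  have rK := S.sylR.le hr
  have s1 : S.v c0 * r ∉ S.K := fun h => hc (S.b_vK ((mul_mem_cancel_right rK).1 h))
  have s2 : S.v c0 * r * (S.v c0 * r) = 1 := by
    rw [mul_assoc, ← mul_assoc r, ← (S.b_AK (S.mem _) rK).eq, mul_assoc, h1, mul_one, b_vsq]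
  have s3 : ∀ g, S.v c0 * r ∈ cj g S.K → ∀ x, Commute x (S.v c0) → Commute x r → x ∈ (S.conj g).N := fun g hg x a b => by
    rw [conj_N, mem_cj]
    exact S.mem_N_of_comm s2 (fun e => s1 (e ▸ one_mem _)) hg (a.mul_right b).eq
  have s4 : ∀ g, S.v c0 * r ∈ cj g S.K → S.U ≤ (S.conj g).N := fun g hg x ⟨p, e⟩ =>
    e ▸ s3 g hg _ (S.b_uv p c0) (S.b_AK (S.mem p) rK)
  have s5 : ∀ g, S.U ⊓ (S.conj g).K = ⊥ := fun g => b_bot S.sylU.isPGroup.to_inf_left fun t ht =>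
    S.b_noV hV (S.b_UA ht.1) (S.conj_K g ▸ ht.2)
  obtain ⟨n, hn, s6⟩ := syl_conj_le (S.conj g).b_syl S.sylU.isPGroup (S.b_U_le (S.b_E1 (hB _).2.1 (s4 g hs) (s5 g))
    (S.sw.b_E1 (hB _).2.1 (S.sw_U ▸ s4 g hs) (S.sw_U ▸ s5 g)))
  have s7 : cj (n⁻¹ * g) S.K = cj g S.K := by
    rw [cj_mul, ← conj_K, cj_eq (inv_mem ((sup_le (S.conj g).b_AN le_normalizer :) hn))]
  have s8 : S.U ≤ (S.conj (n⁻¹ * g)).U ⊔ (S.conj (n⁻¹ * g)).K := by
    rw [conj_U, conj_K, cj_mul, cj_mul, ← cj_sup, ← cj_le_iff, ← S.conj_U g, ← S.conj_K g]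
    exact s6.trans (sup_le_sup_left (S.conj g).sylR.le _)
  rw [← s7] at hs
  generalize n⁻¹ * g = g at hs s8
  have t1 := (s4 g hs).trans (S.conj g).N_le_NK
  have t2 : (S.conj g).U ≤ S.U ⊔ (S.conj g).K := le_sup_left.trans (eq_of_le_of_card_ge (sup_le s8 le_sup_right) (by
    rw [card_sup_of_inf_eq_bot t1 (s5 g), card_sup_of_inf_eq_bot ((S.conj g).b_UA.trans (S.conj g).b_AN) (S.conj g).b_UK,
      b_card S.inj, b_card (S.conj g).inj])).ge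
  refine ⟨g, S.conj_K g ▸ t2, S.conj_K g ▸ t1, fun t a1 a2 a3 => by_contra fun a4 =>
    s1 (by rwa [(S.cj_K_eq a3 a4 ((cj_one _).ge a1) a2).1, cj_one] at hs), fun x hx e => ?_⟩
  have xN := s3 g hs x (S.b_AK (S.mem _) (S.sylR.le hx)).symm e
  rw [← conj_K]
  generalize S.conj g = T at *
  have t3 : ∀ p, ∃ q, ∃ k ∈ T.K, T.ι p * k = S.ι q := fun p => by
    obtain ⟨_, ⟨q, rfl⟩, k, hk, e⟩ := (mem_sup_nr t1).1 (t2 ⟨p, rfl⟩)
    exact ⟨q, k⁻¹, inv_mem hk, by rw [← e, mul_inv_cancel_right]⟩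
  obtain ⟨c, t4⟩ := (hB T).1.cU x xN (mem_centralizer_iff.2 (by
    rintro _ ⟨p, rfl⟩
    obtain ⟨q, k, hk, e⟩ := t3 p
    have e1 : x * T.ι p * x⁻¹ = T.ι p * (k * (x * k⁻¹ * x⁻¹)) := by
      rw [← mul_assoc, e, eq_mul_inv_of_mul_eq e, ← conj_mul, ← (S.b_AK (S.mem q) (S.sylR.le hx)).eq,
        mul_inv_cancel_right]
    rw [T.b_lift (T.mem p) (mul_mem hk (conj_mem (T.N_le_NK xN) (inv_mem hk))) (e1 ▸ conj_mem xN (T.mem p))
      (T.b_four p) (by rw [← e1, conj_pow, T.b_four]; group), mul_one] at e1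
    exact (mul_inv_eq_iff_eq_mul.1 e1).symm))
  obtain ⟨p, k, hk, e1⟩ := t3 ⟨c, 0, 0⟩
  obtain ⟨q, l, hl, e2⟩ := t3 ⟨0, 1, 0⟩
  have e3 := b_comm (T.b_AK (T.mem ⟨0, 1, 0⟩) hk).symm (T.b_AK (T.mem ⟨c, 0, 0⟩) hl).symm (T.b_AK (T.mem _) hk)
    (T.b_AK (T.mem _) hl)
  rw [e1, e2, ← map_commutatorElement, ← map_commutatorElement,
    b_d1 p, b_d2] at e3
  have t5 : ⁅k, l⁆ ∈ T.K := mul_mem (mul_mem (mul_mem hk hl) (inv_mem hk)) (inv_mem hl)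
  refine ⟨p.a * q.b + q.a * p.b, ?_⟩
  rw [← (S.b_AK (S.mem _) (S.sylR.le hx)).eq, e3, (T.b_AK (T.mem _) t5).eq, mul_assoc]
  exact mul_mem t5 t4

theorem b_rg (hB : S.Bas1) {ρ : F4 → G} {g : G} (h1 : ∀ r, ρ r ∈ S.K) (h2 : ∀ r, ρ r * S.v r ∈ cj g S.K) (a c : F4) :
    ∃ g, ∀ r, ρ r * S.e1 (r * a) (r * c) ∈ cj g S.K := by
  by_cases e : a = 0 ∧ c = 0
  · exact ⟨1, fun r => by rw [e.1, e.2, mul_zero, cj_one, show S.e1 0 0 = 1 from S.b_v0, mul_one]; exact h1 r⟩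
  obtain ⟨m, hm, p, q, -, h3⟩ := hB.sl2 a c e
  refine ⟨m * g, fun r => ?_⟩
  have := conj_mem_cj m (h2 r)
  rwa [← conj_mul, h3, (S.b_AK hm (h1 r)).eq, mul_inv_cancel_right, ← cj_mul, mul_zero, mul_zero, zero_add, zero_add,
    mul_comm a, mul_comm c] at this

end SD

theorem bS : BS.{u} := by
  rintro G _ _ S hB hV ⟨r, hr, r1, -, -, g, hg⟩
  have := Fact.mk Nat.prime_two
  obtain ⟨k, -, -, k1, k2⟩ := S.b_key hB hV (by decide +kernel) hr r1 hg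
  obtain ⟨x, x1, y, y1, x2, y2, -, x3, y3, xy⟩ := S.four
  obtain ⟨t, t1, t2, t3⟩ : ∃ t ∈ S.R ⊓ 𝒞(S.R), t * t = 1 ∧ t ≠ 1 := by
    by_contra! a
    exact inf_cent_ne_bot S.sylR.isPGroup S.sylR.isPGroup le_normalizer (fun e => x3 (mem_bot.1 (e.le x1)))
      (b_bot S.sylR.isPGroup.to_inf_left a)
  obtain ⟨c, hc⟩ := k2 t t1.1 (t1.2 r hr).symm
  have zc : ∀ c, ∀ x ∈ S.R, S.v c * x = x * S.v c := fun c x hx => S.b_AK (S.mem _) (S.sylR.le hx)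
  obtain ⟨g, g1, g0, g2, g3⟩ := S.b_key hB hV (fun e => t3 (k1 t (S.sylR.le t1.1) (by
    rwa [e, S.b_v0, mul_one] at hc) t2)) t1.1 t2 (zc c t t1.1 ▸ hc)
  choose! φ hφ using fun x hx => g3 x hx (t1.2 x hx)
  have uq : ∀ x ∈ S.R, ∀ c, x * S.v c ∈ cj g S.K → φ x = c := fun x hx c h => by
    have e := S.b_noV hV (S.mem ⟨0, 0, φ x + c⟩) (g := g) (by
      have := mul_mem (inv_mem (hφ x hx)) h
      rwa [mul_inv_rev, mul_assoc, inv_mul_cancel_left, inv_eq_of_mul_eq_one_right (S.b_vsq _), ← S.b_vv] at this)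
      (S.b_vsq _)
    rw [← add_zero (φ x), ← f4_add c, ← add_assoc, S.b_vK (c := φ x + c) (e.symm.subst (one_mem S.K)), zero_add]
  have ad : ∀ x ∈ S.R, ∀ y ∈ S.R, φ (x * y) = φ x + φ y := fun x hx y hy => uq _ (mul_mem hx hy) _ (by
    have := mul_mem (hφ x hx) (hφ y hy)
    rwa [mul_assoc, ← mul_assoc (S.v _), zc _ y hy, mul_assoc, ← S.b_vv, ← mul_assoc] at this)
  have φ1 : φ 1 = 0 := uq 1 (one_mem _) 0 (by rw [S.b_v0, one_mul]; exact one_mem _)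
  have inj : ∀ x ∈ S.R, ∀ y ∈ S.R, φ x = φ y → x = y := fun x hx y hy e => by
    have h1 := mul_mem (hφ x hx) (inv_mem (hφ y hy))
    rw [e, mul_inv_rev, mul_assoc, mul_inv_cancel_left] at h1
    exact mul_inv_eq_one.1 (mem_bot.1 ((b_bot (P := S.R ⊓ cj g S.K) S.sylR.isPGroup.to_inf_left fun t ht =>
      g2 t (S.sylR.le ht.1) ht.2).le ⟨S.R.mul_mem hx (inv_mem hy), h1⟩))
  choose ρ ρ1 ρ2 using show ∀ c, ∃ w ∈ S.R, φ w = c from fun c => by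
    rcases b_d3 (φ x) (φ y)
      (fun e => x3 (inj _ x1 _ (one_mem _) (e.trans φ1.symm))) (fun e => y3 (inj _ y1 _ (one_mem _) (e.trans φ1.symm)))
      (fun e => xy (inj _ x1 _ y1 e)) c with rfl | rfl | rfl | rfl
    exacts [⟨1, one_mem _, φ1⟩, ⟨x, x1, rfl⟩, ⟨y, y1, rfl⟩, ⟨_, mul_mem x1 y1, ad x x1 y y1⟩]
  have add : ∀ r r', ρ (r + r') = ρ r * ρ r' := fun r r' =>
    inj _ (ρ1 _) _ (mul_mem (ρ1 _) (ρ1 _)) (by rw [ad _ (ρ1 _) _ (ρ1 _), ρ2, ρ2, ρ2])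
  have memR : ∀ x, x ∈ S.R ↔ ∃ r, x = ρ r := fun x =>
    ⟨fun h => ⟨φ x, inj _ h _ (ρ1 _) (ρ2 _).symm⟩, fun ⟨r, e⟩ => e ▸ ρ1 r⟩
  have ρK : ∀ r, ρ r ∈ S.K := fun r => S.sylR.le (ρ1 r)
  have ρ0 : ρ 0 = 1 := inj _ (ρ1 _) _ (one_mem _) ((ρ2 _).trans φ1.symm)
  have ρv : ∀ r, ρ r * S.v r ∈ cj g S.K := fun r => by simpa only [ρ2] using hφ _ (ρ1 r)
  have rg1 := S.b_rg (hB S).1 ρK ρv
  have rg2 := S.sw.b_rg (hB _).1 ρK (g := g) fun r => S.sw_v r ▸ ρv r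
  simp only [SD.sw_e1] at rg2
  have RR : S.R ≤ 𝒞(S.R) := fun a ha => mem_centralizer_iff.2 fun b hb => by
    obtain ⟨r, rfl⟩ := (memR a).1 ha
    obtain ⟨r', rfl⟩ := (memR b).1 hb
    rw [← add, ← add, add_comm]
  obtain ⟨O, O1, O2, O3⟩ := b_compl (S.sylR.of_le (le_inf S.sylR.le RR) inf_le_left) inf_le_right
  let δ : Multiplicative F4 →* G := MonoidHom.mk' (fun r => ρ r.toAdd * S.v r.toAdd) fun a b => by
    rw [toAdd_mul, add, S.b_vv, mul_assoc, mul_assoc, ← mul_assoc (S.v _), zc _ _ (ρ1 _), mul_assoc]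
  have δ1 : IsSylowIn 2 δ.range (cj g S.K) := (syl_cj S.sylR g).of_card_le
    (isPGroup_iff_forall.2 (by
      rintro _ ⟨a, rfl⟩
      exact ⟨1, by rw [← map_pow, b_d4, map_one]⟩))
    (by rintro _ ⟨a, rfl⟩; exact ρv _) (by
      rw [card_cj, b_card ((injective_iff_map_eq_one δ).2 fun a e => S.b_vK (c := a.toAdd)
        ((mul_mem_cancel_left (ρK a.toAdd)).1 (e ▸ one_mem _ : δ a ∈ S.K)))]
      exact Nat.card_le_card_of_injective (fun x : S.R => Multiplicative.ofAdd (φ x)) fun a b e =>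
        Subtype.ext (inj _ a.2 _ b.2 e))
  have key : ∀ e ∈ (S.conj g).U, e * e = 1 → e ∈ S.U := fun e he e1 => by
    obtain ⟨_, ⟨p, rfl⟩, k, hk, e2⟩ := (mem_sup_nr g0).1 (g1 he)
    have a1 : ∀ k ∈ cj g S.K, Commute e k := fun k hk => (S.conj g).b_AK ((S.conj g).b_UA he) (S.conj_K g ▸ hk)
    have a2 : k ^ 2 ^ 2 = 1 := by
      have := S.b_four p
      rwa [eq_mul_inv_of_mul_eq e2, (a1 k hk).inv_right.mul_pow, show e ^ 4 = (e * e) ^ 2 by rw [← sq, ← pow_mul], e1, one_pow,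
        one_mul, inv_pow, inv_eq_one] at this
    obtain ⟨a, rfl⟩ := (δ1.eq_of_le (isPGroup_sup' δ1.isPGroup (isPGroup_zpowers a2) (zpowers_le.2 (cent_le_norm _
      (mem_centralizer_iff.2 (by
        rintro _ ⟨a, rfl⟩
        rw [eq_inv_mul_of_mul_eq e2]
        exact (((S.b_AK (S.mem p) (ρK _)).mul_right (S.b_uv p _)).inv_left.mul_left (a1 _ (ρv _))).symm.eq)))))
      le_sup_left (sup_le δ1.le (zpowers_le.2 hk))).le (mem_sup_right (mem_zpowers k))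
    generalize hr : a.toAdd = r
    have e3 : e = ρ r * S.ι (p * ⟨0, 0, r⟩) := by
      rw [← e2, map_mul, ← mul_assoc, ← (S.b_AK (S.mem p) (ρK r)).eq, mul_assoc, ← hr]; rfl
    by_cases r0 : r = 0
    · rw [e3, r0, ρ0, one_mul]; exact ⟨_, rfl⟩
    generalize p * ⟨0, 0, r⟩ = q at e3
    have e4 : q * q = 1 := S.inj (by
      rwa [e3, mul_assoc, ← mul_assoc (S.ι q), (S.b_AK (S.mem q) (ρK r)).eq, mul_assoc, ← mul_assoc, ← add, f4_add, ρ0,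
        one_mul, ← map_mul, ← map_one S.ι] at e1)
    obtain ⟨g', e5⟩ : ∃ g', e ∈ cj g' S.K := by
      rcases b_d5 q e4 r r0 with h | h
      · exact (rg1 _ _).imp fun g' h' => by rw [e3, h]; exact h' r
      · exact (rg2 _ _).imp fun g' h' => by rw [e3, h]; exact h' r
    by_contra n
    exact hV _ (mem_cj.1 ((S.conj g).b_UA he)) (by
      simpa using SD.Root.conj (S := S) ⟨e1, fun e => n (e ▸ one_mem _), g', e5⟩ g⁻¹)
  have gU : cj g S.U ≤ S.U := S.conj_U g ▸ (S.conj g).b_U_le (fun e he => key e ((S.conj g).b_E1U he) ((S.conj g).b_E1sq he))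
    fun e he => key e ((S.conj g).sw_U ▸ (S.conj g).sw.b_E1U he) ((S.conj g).sw.b_E1sq he)
  obtain ⟨k, hk, e⟩ := syl_conj (syl_cj S.sylR g) δ1
  refine ⟨ρ, O, hV, add, fun a b e => by rw [← ρ2 a, e, ρ2], memR, ⟨k * g, mem_norm_of_cj_le ?_, fun r => ?_⟩, rg1, rg2, O1,
    O2, fun k k1 k2 => ?_⟩
  · rw [cj_mul, ← S.conj_U, cj_eq_of_mem_cent (cent_mono (S.conj g).b_UA ((S.conj_K g).ge hk)), S.conj_U]; exact gU
  · obtain ⟨a, ha⟩ := e.le (cj_mul k g S.R ▸ conj_mem_cj (k * g) (ρ1 r))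
    exact ⟨a.toAdd, ha.symm⟩
  · obtain ⟨_, a1, o, a2, rfl⟩ := O3 k ⟨k1, k2⟩
    obtain ⟨r, rfl⟩ := (memR _).1 a1
    exact ⟨r, o, a2, rfl⟩

end CL.LS

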