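/-
Project LS: the automorphisms of the Heisenberg group over `F4` and the elementary facts `Bas1`.
-/
import Cfsg.Agent.LS.Defs

set_option autoImplicit false
set_option linter.unusedSectionVars false
open Cfsg Subgroup CL.Even CL.Grp CL.L34
open scoped commutatorElement

namespace CL.LS

universe u v

/-- the additive map with the values `x`, `y` at `1`, `ω` -/
def bas1_lin (x y a : F4) : F4 := if a = 0 then 0 else if a = 1 then x else if a = om then y else x + y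

theorem bas1_lin_eq {g : F4 → F4} (h : ∀ a b, g (a + b) = g a + g b) (a : F4) : g a = bas1_lin (g 1) (g om) a := by
  have h0 : g 0 = 0 := by simpa using h 0 0
  rcases f4_cases a with rfl | rfl | rfl | rfl
  · exact h0
  · rfl
  · rfl
  · rw [(by decide +kernel : om * om = 1 + om), h]; rfl

set_option synthInstance.maxSize 4000 in
set_option synthInstance.maxHeartbeats 400000 in
theorem bas1_key : ∀ A1 B1 : F4, A1 * B1 = 0 → ∀ A2 B2 : F4, A2 * B2 = 0 → ∀ A3 B3 : F4, A3 * B3 = 0 →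
    ∀ A4 B4 : F4, A4 * B4 = 0 → ∀ g1 : F4, g1 = (A1 + A3) * (B1 + B3) → ∀ g2 : F4, g2 = (A2 + A3) * (B2 + B3) →
    (∀ c, bas1_lin g1 g2 c = 0 → c = 0) →
    (∀ a b, bas1_lin g1 g2 (a * b) = (bas1_lin A1 A2 a + bas1_lin A3 A4 b) * (bas1_lin B1 B2 a + bas1_lin B3 B4 b)) →
    ∃ l m i j, l ≠ 0 ∧ m ≠ 0 ∧ (∀ a b, (dg l m (th i j ⟨a, b, 0⟩)).a = bas1_lin A1 A2 a + bas1_lin A3 A4 b ∧
      (dg l m (th i j ⟨a, b, 0⟩)).b = bas1_lin B1 B2 a + bas1_lin B3 B4 b) ∧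
      ∀ c, dg l m (th i j ⟨0, 0, c⟩) = ⟨0, 0, bas1_lin g1 g2 c⟩ := by
  decide +kernel

theorem bas1_cen : ∀ p : Heis F4, p * ⟨1, 0, 0⟩ = ⟨1, 0, 0⟩ * p → p * ⟨0, 1, 0⟩ = ⟨0, 1, 0⟩ * p → p = ⟨0, 0, p.c⟩ := by
  decide +kernel

theorem autH : AutH := fun f => by
  have hz : ∀ c, f ⟨0, 0, c⟩ = ⟨0, 0, (f ⟨0, 0, c⟩).c⟩ := fun c => by
    have : ∀ q, f ⟨0, 0, c⟩ * q = q * f ⟨0, 0, c⟩ := fun q => by
      obtain ⟨q, rfl⟩ := f.surjective q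
      rw [← map_mul, ← map_mul]
      simp [Heis.mul_def, add_comm]
    exact bas1_cen _ (this _) (this _)
  have dec : ∀ a b c : F4, f ⟨a, b, c⟩ = f ⟨0, b, 0⟩ * f ⟨a, 0, 0⟩ * f ⟨0, 0, c⟩ := fun a b c => by
    rw [← map_mul, ← map_mul]; simp [Heis.mul_def]
  have e1 : ∀ a a' : F4, f ⟨a + a', 0, 0⟩ = f ⟨a, 0, 0⟩ * f ⟨a', 0, 0⟩ := fun a a' => by
    rw [← map_mul]; simp [Heis.mul_def]
  have e2 : ∀ a a' : F4, f ⟨0, a + a', 0⟩ = f ⟨0, a, 0⟩ * f ⟨0, a', 0⟩ := fun a a' => by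
    rw [← map_mul]; simp [Heis.mul_def]
  have e3 : ∀ a a' : F4, f ⟨0, 0, a + a'⟩ = f ⟨0, 0, a⟩ * f ⟨0, 0, a'⟩ := fun a a' => by
    rw [← map_mul]; simp [Heis.mul_def]
  have l1 := bas1_lin_eq (g := fun a => (f ⟨a, 0, 0⟩).a) fun a a' => by simp only [e1, Heis.mul_a]
  have l2 := bas1_lin_eq (g := fun a => (f ⟨a, 0, 0⟩).b) fun a a' => by simp only [e1, Heis.mul_b]
  have l3 := bas1_lin_eq (g := fun a => (f ⟨0, a, 0⟩).a) fun a a' => by simp only [e2, Heis.mul_a]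
  have l4 := bas1_lin_eq (g := fun a => (f ⟨0, a, 0⟩).b) fun a a' => by simp only [e2, Heis.mul_b]
  have l5 := bas1_lin_eq (g := fun a => (f ⟨0, 0, a⟩).c) fun a a' => by
    simp only [e3, Heis.mul_c]; rw [hz a]; simp
  have ha : ∀ a b c : F4, (f ⟨a, b, c⟩).a = (f ⟨a, 0, 0⟩).a + (f ⟨0, b, 0⟩).a := fun a b c => by
    rw [dec, hz]; simp [add_comm]
  have hb : ∀ a b c : F4, (f ⟨a, b, c⟩).b = (f ⟨a, 0, 0⟩).b + (f ⟨0, b, 0⟩).b := fun a b c => by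
    rw [dec, hz]; simp [add_comm]
  have sq : ∀ a b : F4, (f ⟨0, 0, a * b⟩).c = (f ⟨a, b, 0⟩).a * (f ⟨a, b, 0⟩).b := fun a b => by
    rw [show (⟨0, 0, a * b⟩ : Heis F4) = ⟨a, b, 0⟩ * ⟨a, b, 0⟩ by simp [Heis.mul_def, f4_add], map_mul]
    simp [f4_add]
  have z0 : (f ⟨0, 0, 0⟩).c = 0 := by rw [← Heis.one_def, map_one]; rfl
  obtain ⟨l, m, i, j, hl, hm, k1, k2⟩ := bas1_key _ _ (by rw [← sq 1 0, mul_zero, z0]) _ _
    (by rw [← sq om 0, mul_zero, z0]) _ _ (by rw [← sq 0 1, zero_mul, z0]) _ _ (by rw [← sq 0 om, zero_mul, z0])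
    (f ⟨0, 0, 1⟩).c (by rw [← ha 1 1 0, ← hb 1 1 0, ← sq, mul_one]) (f ⟨0, 0, om⟩).c
    (by rw [← ha om 1 0, ← hb om 1 0, ← sq, mul_one])
    (fun c hc => by
      rw [← l5] at hc
      have := hz c
      rw [hc, ← Heis.one_def, map_eq_one_iff f f.injective] at this
      exact congrArg Heis.c this)
    (fun a b => by rw [← l1, ← l2, ← l3, ← l4, ← l5, sq, ha, hb])
  refine ⟨l, m, i, j, hl, hm, fun ⟨a, b, c⟩ => ?_, fun c => by rw [k2, ← l5, ← hz]⟩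
  obtain ⟨k3, k4⟩ := k1 a b
  rw [← l1, ← l3, ← ha a b c] at k3
  rw [← l2, ← l4, ← hb a b c] at k4
  refine ⟨(f ⟨a, b, c⟩).c - (dg l m (th i j ⟨a, b, c⟩)).c, Heis.ext ?_ ?_ (by simp)⟩
  · rw [← k3]; cases i <;> cases j <;> simp [dg, th, fr, gr_apply]
  · rw [← k4]; cases i <;> cases j <;> simp [dg, th, fr, gr_apply]

namespace SD
variable {G : Type u} [Group G] (S : SD G)

theorem bas1_pow4 (p : Heis F4) : S.ι p ^ 2 ^ 2 = 1 := by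
  rw [← map_pow, (by decide +kernel : ∀ q : Heis F4, q ^ 2 ^ 2 = 1) p, map_one]

/-- LIFT -/
theorem bas1_lift {a a' : G} (ha : a ∈ S.A) (ha' : a' ∈ S.A) (hk : a⁻¹ * a' ∈ S.K) (h4 : a ^ 2 ^ 2 = 1)
    (h4' : a' ^ 2 ^ 2 = 1) : a = a' := by
  have hc : Commute a (a⁻¹ * a') := comm_of_mem hk ha
  have e := hc.mul_pow (2 ^ 2)
  rw [mul_inv_cancel_left, h4, h4', one_mul] at e
  exact inv_mul_eq_one.1 (eq_one_of_coprime_of_pow (p := 2)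
    (Nat.coprime_two_right.2 (S.oddZ _ (mul_mem (inv_mem ha) ha') hk)) e.symm)

theorem bas1_dg {t : F4} (ht : t ≠ 0) : ∃ m ∈ S.A, Act S.ι m (dg t t) := by
  rcases f4_cases t with rfl | rfl | rfl | rfl
  · exact absurd rfl ht
  · exact ⟨1, one_mem _, fun p => by simp [dg]⟩
  · exact ⟨S.h, S.hA, S.ah⟩
  · refine ⟨S.h * S.h, mul_mem S.hA S.hA, fun p => ?_⟩
    rw [(by decide +kernel : ∀ p, dg (om * om) (om * om) p = dg om om (dg om om p)), ← S.ah, ← S.ah]; group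

theorem bas1_sl2 (t l : F4) (h : ¬ (t = 0 ∧ l = 0)) : ∃ m ∈ S.A, ∃ p q, p * l + q * t = 1 ∧
    ∀ a c, m * S.e1 a c * m⁻¹ = S.e1 (p * a + t * c) (q * a + l * c) := by
  by_cases ht : t = 0
  · have hl : l ≠ 0 := fun e => h ⟨ht, e⟩
    obtain ⟨m, hm, e⟩ := S.bas1_dg (t := l * l) fun e => hl (by simpa [f4_mul_eq_zero] using e)
    refine ⟨m, hm, l * l, 0, by simpa using f4_cube hl, fun a c => (e _).trans (congrArg S.ι ?_)⟩
    subst ht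
    clear e h hl
    revert l a c; decide +kernel
  · obtain ⟨m, hm, e⟩ := S.bas1_dg ht
    refine ⟨S.e2 (l * t * t) 0 * m * S.w1, mul_mem (mul_mem (S.mem _) hm) S.w1A, 0, t * t,
      by simpa using f4_cube ht, fun a c => ?_⟩
    calc _ = S.e2 (l * t * t) 0 * (m * (S.w1 * S.e1 a c * S.w1⁻¹) * m⁻¹) * (S.e2 (l * t * t) 0)⁻¹ := by group
      _ = _ := by
        rw [S.aw1, e, ← map_inv, ← map_mul, ← map_mul]
        refine congrArg S.ι ?_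
        clear e h
        revert t l a c; decide +kernel

theorem bas1_cls1 (t l : F4) (h : ¬ (t = 0 ∧ l = 0)) : ∃ m ∈ S.A, m * S.e1 t l * m⁻¹ = S.z := by
  obtain ⟨m, hm, p, q, -, e⟩ := S.bas1_sl2 t l h
  have e1 := e 0 1
  simp only [mul_zero, mul_one, zero_add] at e1
  exact ⟨m⁻¹, inv_mem hm, by rw [← e1]; group⟩

theorem bas1_AK : S.A ≤ 𝒩(S.K) := le_normalizer.trans S.N_le_NK

theorem bas1_split (s : G) (hs : s ∈ S.A ⊔ S.K) (h : s * s = 1) :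
    ∃ a ∈ S.A, ∃ k ∈ S.K, s = a * k ∧ a * a = 1 ∧ k * k = 1 := by
  obtain ⟨a, ha, k, hk, rfl⟩ := (mem_sup_nr S.bas1_AK).1 hs
  have hc : a * k = k * a := comm_of_mem hk ha
  have e : a * a * (k * k) = 1 := by rw [← h, mul_assoc, mul_assoc, ← mul_assoc k a, ← hc, mul_assoc]
  have hK : a * a ∈ S.K := by rw [eq_inv_of_mul_eq_one_left e]; exact inv_mem (mul_mem hk hk)
  obtain ⟨n, hn⟩ := S.oddZ _ (mul_mem ha ha) hK
  have tA : (a * a) ^ (n + 1) ∈ S.A := pow_mem (mul_mem ha ha) _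
  have tK : (a * a) ^ (n + 1) ∈ S.K := pow_mem hK _
  have tt : (a * a) ^ (n + 1) * (a * a) ^ (n + 1) = a * a := by
    rw [← pow_add, show n + 1 + (n + 1) = (2 * n + 1) + 1 by ring, ← hn, pow_succ, pow_orderOf_eq_one, one_mul]
  generalize (a * a) ^ (n + 1) = t at tA tK tt
  have c1 : a * t⁻¹ = t⁻¹ * a := comm_of_mem (inv_mem tK) ha
  have c2 : t * k = k * t := comm_of_mem hk tA
  refine ⟨a * t⁻¹, mul_mem ha (inv_mem tA), t * k, mul_mem tK hk, by group, ?_, ?_⟩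
  · calc _ = a * (t⁻¹ * a) * t⁻¹ := by group
      _ = a * a * (t * t)⁻¹ := by rw [← c1]; group
      _ = 1 := by rw [tt]; group
  · calc _ = t * (k * t) * k := by group
      _ = t * t * (k * k) := by rw [← c2]; group
      _ = 1 := by rw [tt, e]

theorem bas1_cv (s : G) (hs : s ∈ S.A ⊔ S.K) (c : F4) (hc : c ≠ 0) (h : s * S.v c = S.v c * s) :
    ∃ p, ∃ k ∈ S.K, s = S.ι p * k := by
  obtain ⟨a, ha, k, hk, rfl⟩ := (mem_sup_nr S.bas1_AK).1 hs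
  obtain ⟨p, hp⟩ := S.cz a ha c hc (by
    rw [mul_assoc, ← comm_of_mem hk (S.mem _), ← mul_assoc, ← mul_assoc] at h
    exact mul_right_cancel h)
  exact ⟨p⁻¹, _, mul_mem hp hk, by rw [map_inv]; group⟩

theorem bas1_cU (n : G) (hn : n ∈ S.N) (h : n ∈ 𝒞(S.U)) : ∃ c, S.v c * n ∈ S.K := by
  obtain ⟨p, hp⟩ := S.cT n hn fun p => ⟨0, by rw [← Heis.one_def, mul_one]; exact conj_eq_of_mem h ⟨p, rfl⟩⟩
  have e : ∀ q, p * q = q * p := fun q => S.inj (by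
    have e1 := comm_of_mem hp (S.mem q)
    rw [mul_assoc, ← comm_of_mem h ⟨q, rfl⟩, ← mul_assoc, ← mul_assoc] at e1
    rw [map_mul, map_mul, mul_right_cancel e1])
  exact ⟨p.c, by rw [v, ← bas1_cen p (e _) (e _)]; exact hp⟩

variable [Finite G]

theorem bas1_cls (a : G) (ha : a ∈ S.A) (h : a * a = 1) (h1 : a ≠ 1) : ∃ m ∈ S.A, m * a * m⁻¹ = S.z := by
  have : Fact (Nat.Prime 2) := ⟨Nat.prime_two⟩
  obtain ⟨g, hg, e⟩ := syl_conj_le S.sylU (isPGroup_zpowers (k := 1) (x := a) (by rw [pow_one, sq, h]))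
    (zpowers_le.2 ha)
  obtain ⟨⟨x, y, c⟩, hp⟩ := e (conj_mem_cj g (mem_zpowers a))
  have e1 : (⟨x, y, c⟩ * ⟨x, y, c⟩ : Heis F4) = 1 := S.inj (by
    rw [map_mul, hp, map_one, show g * a * g⁻¹ * (g * a * g⁻¹) = g * (a * a) * g⁻¹ by group, h]; group)
  have e2 : ¬ (x = 0 ∧ y = 0 ∧ c = 0) := by
    rintro ⟨rfl, rfl, rfl⟩
    rw [← Heis.one_def, map_one] at hp
    exact h1 (conj_eq_one_iff.1 hp.symm)
  have e3 : x * y = 0 := by simpa [f4_add] using congrArg Heis.c e1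
  have e4 : ∃ m ∈ S.A, m * S.ι ⟨x, y, c⟩ * m⁻¹ = S.z := by
    rcases f4_mul_eq_zero.1 e3 with rfl | rfl
    · have := S.sw.bas1_cls1 y c fun e => e2 ⟨rfl, e⟩
      simp only [sw_e1] at this
      exact this
    · exact S.bas1_cls1 x c fun e => e2 ⟨e.1, rfl, e.2⟩
  obtain ⟨m, hm, e5⟩ := e4
  exact ⟨m * g, mul_mem hm hg, by rw [← e5, hp]; group⟩

theorem bas1_nU (n : G) (hn : n ∈ S.N) (c c' : F4) (hc : c ≠ 0) (h : n * S.v c * n⁻¹ = S.v c') : n ∈ 𝒩(S.U) := by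
  have hc' : c' ≠ 0 := by
    rintro rfl
    rw [v, v, ← Heis.one_def, map_one, conj_eq_one_iff, map_eq_one_iff _ S.inj] at h
    exact hc (congrArg Heis.c h)
  refine mem_norm_of_cj_le fun x hx => ?_
  obtain ⟨q, hq⟩ := mem_cj.1 hx
  obtain rfl : x = n * S.ι q * n⁻¹ := by rw [hq]; group
  have hA := conj_mem hn (S.mem q)
  obtain ⟨p, hp⟩ := S.cz _ hA c' hc' (by
    have e : S.ι q * S.v c = S.v c * S.ι q := by
      rw [← map_mul, ← map_mul]; simp [Heis.mul_def, add_comm]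
    rw [← v, ← h]
    calc _ = n * (S.ι q * S.v c) * n⁻¹ := by group
      _ = _ := by rw [e]; group)
  exact ⟨p⁻¹, S.bas1_lift (S.mem _) hA (by rwa [map_inv, inv_inv]) (S.bas1_pow4 _)
    (by rw [conj_pow, S.bas1_pow4]; group)⟩

theorem bas1_cE1 (n : G) (hn : n ∈ S.N) (h : n ∈ 𝒞(S.E1)) : ∃ a c, S.e1 a c * n ∈ S.K := by
  have fix : ∀ a c, n * S.e1 a c * n⁻¹ = S.e1 a c := fun a c => conj_eq_of_mem h (S.mem_E1.2 ⟨a, c, rfl⟩)
  have hU := S.bas1_nU n hn 1 1 (by decide +kernel) (fix 0 1)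
  obtain ⟨p, hp⟩ := S.cT n hn fun ⟨a, b, c⟩ => by
    by_cases hb : b = 0
    · exact ⟨0, by rw [← Heis.one_def, mul_one, hb]; exact fix a c⟩
    obtain ⟨q, hq⟩ := conj_mem hU (⟨⟨a, b, c⟩, rfl⟩ : S.ι ⟨a, b, c⟩ ∈ S.U)
    have k : ∀ r : Heis F4, r.b = 0 → n * S.ι r * n⁻¹ = S.ι r := fun ⟨x, y, z⟩ e => by
      obtain rfl : y = 0 := e
      exact fix x z
    have e1 : q * q = ⟨a, b, c⟩ * ⟨a, b, c⟩ := S.inj (by
      rw [← k (⟨a, b, c⟩ * ⟨a, b, c⟩) (f4_add b), map_mul, map_mul, hq]; group)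
    have e2 : q * ⟨1, 0, 0⟩ * q⁻¹ = ⟨a, b, c⟩ * ⟨1, 0, 0⟩ * ⟨a, b, c⟩⁻¹ := S.inj (by
      rw [← k (⟨a, b, c⟩ * ⟨1, 0, 0⟩ * ⟨a, b, c⟩⁻¹) (by simp), map_mul, map_mul, map_mul, map_mul, map_inv, map_inv, hq]
      nth_rewrite 1 [← k ⟨1, 0, 0⟩ rfl]
      group)
    rw [← hq]
    exact ((by decide +kernel : ∀ p : Heis F4, p.b ≠ 0 → ∀ q : Heis F4, q * q = p * p →
      q * ⟨1, 0, 0⟩ * q⁻¹ = p * ⟨1, 0, 0⟩ * p⁻¹ → ∃ c, q = p * ⟨0, 0, c⟩) _ hb q e1 e2).imp fun c e => congrArg S.ι e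
  have e : p * ⟨1, 0, 0⟩ = ⟨1, 0, 0⟩ * p := S.inj (by
    have e1 := comm_of_mem hp (S.mem ⟨1, 0, 0⟩)
    rw [mul_assoc, ← comm_of_mem h (S.mem_E1.2 ⟨1, 0, rfl⟩), ← mul_assoc, ← mul_assoc] at e1
    rw [map_mul, map_mul, mul_right_cancel e1])
  exact ⟨p.a, p.c, by
    rw [e1, ← (by decide +kernel : ∀ p : Heis F4, p * ⟨1, 0, 0⟩ = ⟨1, 0, 0⟩ * p → p = ⟨p.a, 0, p.c⟩) p e]; exact hp⟩

end SD

theorem bas1S : Bas1S.{u} := fun _ _ _ S =>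
  ⟨S.bas1_cls, S.bas1_split, S.bas1_nU, S.bas1_cU, S.bas1_cE1,
    fun n hn h => by
      have := S.sw.bas1_cE1 n hn h
      simp only [SD.sw_e1] at this
      exact this, S.bas1_cv, S.bas1_sl2⟩

end CL.LS
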