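/-
Project LS: the derived group of `N(A)` and the elementary abelian subgroups of `N(A)`.
-/
import Cfsg.Agent.LS.Defs

set_option autoImplicit false
set_option linter.unusedSectionVars false
open Cfsg Subgroup CL.Even CL.Grp CL.L34
open scoped commutatorElement

namespace CL.LS

universe u

/-- the action on `U / V` -/
def bas2mo (l m : F4) (i j : Bool) (x : F4 × F4) : F4 × F4 :=
  ((dg l m (th i j ⟨x.1, x.2, 0⟩)).a, (dg l m (th i j ⟨x.1, x.2, 0⟩)).b)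

theorem bas2_mul : ∀ l ≠ 0, ∀ m ≠ 0, ∀ l' ≠ 0, ∀ m' ≠ 0, ∀ i j i' j', ∃ L ≠ 0, ∃ M ≠ 0, ∀ x,
    bas2mo l m i j (bas2mo l' m' i' j' x) = bas2mo L M (i ^^ i') (j ^^ j') x := by decide +kernel

theorem bas2_uniq : ∀ l ≠ 0, ∀ m ≠ 0, ∀ l' m' i j i' j', (∀ x, bas2mo l m i j x = bas2mo l' m' i' j' x) →
    i = i' ∧ j = j' := by decide +kernel

theorem bas2_cube : ∀ l ≠ 0, ∀ m ≠ 0, ∀ x,
    bas2mo l m false false (bas2mo l m false false (bas2mo l m false false x)) = x := by decide +kernel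

theorem bas2_one : ∀ x, bas2mo 1 1 false false x = x := by decide +kernel

theorem bas2_j : ∀ l ≠ 0, ∀ m ≠ 0, ∀ i, ∀ p : Heis F4, p * p = 1 → bas2mo l m i true (p.a, p.b) = (p.a, p.b) →
    p.a = 0 ∧ p.b = 0 := by decide +kernel

set_option synthInstance.maxSize 100000 in
set_option synthInstance.maxHeartbeats 400000 in
theorem bas2_i : ∀ l ≠ 0, ∀ m ≠ 0, ∀ a b a' b' : F4, a * b = 0 → a' * b' = 0 → a * b' = a' * b →
    bas2mo l m true false (a, b) = (a, b) → bas2mo l m true false (a', b') = (a', b') → ¬ (a' = 0 ∧ b' = 0) →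
    (a = 0 ∧ b = 0) ∨ (a + a' = 0 ∧ b + b' = 0) := by decide +kernel

theorem bas2_c2 : ∀ l ≠ 0, ∀ m ≠ 0, ∀ j, (Finset.univ.filter fun p : Heis F4 =>
    (p.a = 0 ∧ p.b = 0) ∧ dg l m (th true j p) = p).card ≤ 2 := by decide +kernel

theorem bas2_sq {p : Heis F4} (h : p * p = 1) : p.a * p.b = 0 := by simpa [f4_add] using congrArg Heis.c h

theorem bas2_cm {p q : Heis F4} (h : p * q = q * p) : p.a * q.b = q.a * p.b := by
  simpa [add_comm] using congrArg Heis.c h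

theorem bas2_card (W : Subgroup (Heis F4)) (X : Finset (Heis F4)) (h : ∀ p ∈ W, p ∈ X) :
    Nat.card W ≤ X.card ∧ (X.card ≤ Nat.card W → ∀ p ∈ X, p ∈ W) := by
  have h' : (W : Set (Heis F4)) ⊆ X := h
  rw [← Set.ncard_coe_finset X]
  exact ⟨Set.ncard_le_ncard h', fun e => (Set.eq_of_subset_of_ncard_le h' e).ge⟩

variable {G : Type u} [Group G]

theorem bas2_index {X : Type} [Finite X] {E T : Subgroup G} (f : E → X) (h : ∀ x y, f x = f y → (x : G)⁻¹ * y ∈ T) :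
    T.relIndex E ≤ Nat.card X :=
  Nat.card_le_card_of_injective (fun q : E ⧸ T.subgroupOf E => f q.out) fun a b e => by
    rw [← QuotientGroup.out_eq' a, ← QuotientGroup.out_eq' b, QuotientGroup.eq]; exact h _ _ e

namespace SD

variable {S : SD G} {n n' : G} {f f' : F4 × F4 → F4 × F4} {i j i' j' : Bool}

/-- `n` acts on `U / V` as `f` -/
def Bas2Ac (S : SD G) (n : G) (f : F4 × F4 → F4 × F4) : Prop :=
  ∀ p, ∃ q, n * S.ι p * n⁻¹ = S.ι q ∧ (q.a, q.b) = f (p.a, p.b)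

/-- the type of `n` -/
def Bas2Ty (S : SD G) (n : G) (i j : Bool) : Prop := ∃ l ≠ 0, ∃ m ≠ 0, S.Bas2Ac n (bas2mo l m i j) ∧
  ((i = false ∧ j = false) ∨ ∀ c, n * S.v c * n⁻¹ = S.ι (dg l m (th i j ⟨0, 0, c⟩)))

theorem Bas2Ac.mul (h : S.Bas2Ac n f) (h' : S.Bas2Ac n' f') : S.Bas2Ac (n * n') fun x => f (f' x) := fun p => by
  obtain ⟨q, e1, e2⟩ := h' p
  obtain ⟨r, e3, e4⟩ := h q
  exact ⟨r, by rw [← e3, ← e1]; group, by rw [e4, e2]⟩

theorem Bas2Ac.uniq (h : S.Bas2Ac n f) (h' : S.Bas2Ac n f') (x : F4 × F4) : f x = f' x := by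
  obtain ⟨q, e1, e2⟩ := h ⟨x.1, x.2, 0⟩
  obtain ⟨r, e3, e4⟩ := h' ⟨x.1, x.2, 0⟩
  rw [← e2, ← e4, S.inj (e1.symm.trans e3)]

theorem bas2_ty (hA : AutH) (hn : n ∈ 𝒩(S.U)) : ∃ i j, S.Bas2Ty n i j := by
  let e := MonoidHom.ofInjective S.inj
  obtain ⟨l, m, i, j, h1, h2, h3, h4⟩ := hA ((e.trans (S.U.normalizerMonoidHom ⟨n, hn⟩)).trans e.symm)
  have k : ∀ p, S.ι (((e.trans (S.U.normalizerMonoidHom ⟨n, hn⟩)).trans e.symm) p) = n * S.ι p * n⁻¹ := fun p =>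
    MonoidHom.apply_ofInjective_symm S.inj _
  refine ⟨i, j, l, h1, m, h2, fun p => ⟨_, (k p).symm, ?_⟩, .inr fun c => by rw [← k, h4]⟩
  obtain ⟨c, e⟩ := h3 p
  rw [e]
  cases i <;> cases j <;> simp [bas2mo, dg, th, fr, gr_apply]

theorem Bas2Ty.xor (h : S.Bas2Ty n i j) (h' : S.Bas2Ty n' i' j') {a b : Bool} (k : S.Bas2Ty (n * n') a b) :
    a = (i ^^ i') ∧ b = (j ^^ j') := by
  obtain ⟨l, l0, m, m0, h, -⟩ := h
  obtain ⟨l', l0', m', m0', h', -⟩ := h'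
  obtain ⟨L, L0, M, M0, k, -⟩ := k
  obtain ⟨L', -, M', -, e⟩ := bas2_mul l l0 m m0 l' l0' m' m0' i j i' j'
  exact bas2_uniq L L0 M M0 L' M' _ _ _ _ fun x => (k.uniq (h.mul h') x).trans (e x)

theorem bas2_ty_one : S.Bas2Ty 1 false false :=
  ⟨1, by decide +kernel, 1, by decide +kernel, fun p => ⟨p, by simp, (bas2_one _).symm⟩, .inl ⟨rfl, rfl⟩⟩

theorem Bas2Ty.cube (h : S.Bas2Ty n false false) (hn : n ∈ S.N) : n ^ 3 ∈ S.U ⊔ S.K := by
  obtain ⟨l, l0, m, m0, h, -⟩ := h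
  obtain ⟨p, hp⟩ := S.cT _ (pow_mem hn 3) fun p => by
    obtain ⟨q, e1, e2⟩ := h.mul (h.mul h) p
    simp only [bas2_cube l l0 m m0, Prod.mk.injEq] at e2
    exact ⟨q.c - p.c, by rw [pow_three, e1]; congr 1; ext <;> simp [e2]⟩
  simpa using mul_mem (mem_sup_left (S.U.inv_mem ⟨p, rfl⟩)) (mem_sup_right hp)

variable [Finite G]

theorem bas2_der (hA : AutH) {s : G} (hs : s ∈ ⁅S.N, S.N⁆) (h2 : s * s = 1) : s ∈ S.A ⊔ S.K := by
  let D : Subgroup G :=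
    { carrier := {n | n ∈ S.N ⊓ 𝒩(S.U) ∧ S.Bas2Ty n false false}
      one_mem' := ⟨one_mem _, bas2_ty_one⟩
      mul_mem' := fun {a b} ha hb => by
        obtain ⟨i, j, k⟩ := bas2_ty hA (mul_mem ha.1.2 hb.1.2)
        obtain ⟨rfl, rfl⟩ := ha.2.xor hb.2 k
        exact ⟨mul_mem ha.1 hb.1, k⟩
      inv_mem' := fun {a} ha => by
        obtain ⟨i, j, k⟩ := bas2_ty hA (inv_mem ha.1.2)
        obtain ⟨e1, e2⟩ := ha.2.xor k ((mul_inv_cancel a).symm ▸ bas2_ty_one)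
        obtain rfl : i = false := by simpa using e1
        obtain rfl : j = false := by simpa using e2
        exact ⟨inv_mem ha.1, k⟩ }
  have h1 : ⁅S.N, S.N⁆ ≤ D ⊔ S.A := commutator_le.2 fun x hx y hy => by
    obtain ⟨n, hn, a, ha, rfl⟩ := frattini_mul S.sylU le_normalizer le_rfl hx
    obtain ⟨n', hn', a', ha', rfl⟩ := frattini_mul S.sylU le_normalizer le_rfl hy
    have h3 := mul_mem (mul_mem (mul_mem hn hn') (inv_mem hn)) (inv_mem hn')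
    obtain ⟨i, j, k⟩ := bas2_ty hA hn.2
    obtain ⟨i', j', k'⟩ := bas2_ty hA hn'.2
    obtain ⟨i1, j1, k1⟩ := bas2_ty hA h3.2
    obtain ⟨i2, j2, k2⟩ := bas2_ty hA (mul_mem hn.2 hn'.2)
    obtain ⟨i3, j3, k3⟩ := bas2_ty hA (mul_mem hn'.2 hn.2)
    obtain ⟨e1, e2⟩ := k1.xor k3 (by rwa [show n * n' * n⁻¹ * n'⁻¹ * (n' * n) = n * n' by group])
    obtain ⟨rfl, rfl⟩ := k.xor k' k2
    obtain ⟨rfl, rfl⟩ := k'.xor k k3
    obtain rfl : i1 = false := by revert e1; cases i <;> cases i' <;> simp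
    obtain rfl : j1 = false := by revert e2; cases j <;> cases j' <;> simp
    rw [show ⁅n * a, n' * a'⁆ = n * n' * n⁻¹ * n'⁻¹ *
      (n' * n * (n'⁻¹ * a * n' * a' * a⁻¹ * (n⁻¹ * a'⁻¹ * n)) * (n' * n)⁻¹) by rw [commutatorElement_def]; group]
    exact mul_mem (mem_sup_left ⟨h3, k1⟩) (mem_sup_right (conj_mem (mul_mem hn'.1 hn.1) (mul_mem (mul_mem
      (mul_mem (conj_mem' hn'.1 ha) ha') (inv_mem ha)) (conj_mem' hn.1 (inv_mem ha')))))
  obtain ⟨n, hn, a, ha, rfl⟩ := (mem_sup_nr (H := D) fun n hn => hn.1.1).1 (h1 hs)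
  obtain ⟨a', ha', e⟩ := exists_mul_pow_eq hn.1.1 ha 3
  rw [pow_three, h2, mul_one] at e
  exact e ▸ mul_mem (sup_le_sup_right S.sylU.le _ (hn.2.cube hn.1.1)) (mem_sup_left ha')

theorem bas2_eq {p q : Heis F4} {x : G} (h : (S.ι p)⁻¹ * x ∈ S.K) (h' : (S.ι q)⁻¹ * x ∈ S.K) : p = q :=
  inv_mul_eq_one.1 (S.ι_K (by simpa [mul_assoc] using mul_mem h (inv_mem h')))

theorem bas2_ex {x : G} (h : x ∈ S.U ⊔ S.K) : ∃ p, (S.ι p)⁻¹ * x ∈ S.K := by
  obtain ⟨_, ⟨p, rfl⟩, k, hk, rfl⟩ := (mem_sup_nr (S.sylU.le.trans (le_normalizer.trans S.N_le_NK))).1 h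
  exact ⟨p, by simpa using hk⟩

theorem bas2_W (E : Subgroup G) : ∃ W : Subgroup (Heis F4), S.K.relIndex (E ⊓ (S.U ⊔ S.K)) = Nat.card W ∧
    ∀ p, p ∈ W ↔ ∃ x ∈ E, (S.ι p)⁻¹ * x ∈ S.K := by
  choose π hπ using fun x : (E ⊓ (S.U ⊔ S.K) : Subgroup G) => bas2_ex x.2.2
  let f := MonoidHom.mk' π fun x y => bas2_eq (hπ _) (by
    rw [map_mul, mul_inv_rev, coe_mul, mul_assoc, ← mul_assoc _ (x : G), ← mul_assoc,
      comm_of_mem (hπ x) (inv_mem (S.mem _)), mul_assoc]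
    exact mul_mem (hπ x) (hπ y))
  refine ⟨f.range, (congrArg index (Subgroup.ext fun x => ⟨fun h => bas2_eq (hπ x) (by simpa using mem_subgroupOf.1 h),
    fun h => mem_subgroupOf.2 (by simpa [show π x = 1 from h] using hπ x)⟩)).trans (index_ker f), fun p => ⟨?_, fun ⟨x, hx, h⟩ => ⟨⟨x, hx, ?_⟩,
      bas2_eq (hπ _) h⟩⟩⟩
  · rintro ⟨x, rfl⟩
    exact ⟨x, x.2.1, hπ x⟩
  · simpa using mul_mem (mem_sup_left (S := S.U) ⟨p, rfl⟩) (mem_sup_right h)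

theorem bas2_core (hA : AutH) {E : Subgroup G} (h1 : E ≤ S.N) (h2 : E ≤ 𝒩(S.U)) (h3 : ∀ x ∈ E, x * x = 1) :
    S.K.relIndex E ≤ 16 ∧ (S.K.relIndex E = 16 → E ⊔ S.K = S.E1 ⊔ S.K ∨ E ⊔ S.K = S.E2 ⊔ S.K) := by
  obtain ⟨W, e, hW⟩ := bas2_W (S := S) E
  have e1 : S.K.relIndex E = Nat.card W * (S.U ⊔ S.K).relIndex E := by
    rw [← e, inf_comm, relIndex_inf_mul_relIndex, inf_of_le_left le_sup_right]
  have iv : ∀ x ∈ E, x⁻¹ = x := fun x hx => inv_eq_of_mul_eq_one_left (h3 x hx)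
  have fx : ∀ s ∈ E, ∀ p ∈ W, s * S.ι p * s⁻¹ = S.ι p := fun s hs p hp => by
    obtain ⟨x, hx, k⟩ := (hW p).1 hp
    obtain ⟨q, e⟩ := conj_mem (h2 hs) (show S.ι p ∈ S.U from ⟨p, rfl⟩)
    rw [← e, bas2_eq (p := q) (q := p) (by
      have := conj_mem (S.N_le_NK (h1 hs)) k
      rwa [← conj_mul, show s * x * s⁻¹ = x by rw [← iv _ (mul_mem hs hx), mul_inv_rev, iv x hx, iv s hs, mul_assoc,
        h3 s hs, mul_one], ← conj_inv, ← e] at this) k]
  have sq : ∀ p ∈ W, p * p = 1 := fun p hp => by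
    obtain ⟨x, hx, k⟩ := (hW p).1 hp
    refine S.ι_K (inv_mem_iff.1 ?_)
    have := mul_mem k k
    rwa [← mul_assoc, ← comm_of_mem k (inv_mem (S.mem p)), mul_assoc, mul_assoc, h3 x hx, mul_one, ← mul_inv_rev,
      ← map_mul] at this
  have cm : ∀ p ∈ W, ∀ q ∈ W, p.a * q.b = q.a * p.b := fun p hp q hq => bas2_cm (by
    rw [← inv_eq_of_mul_eq_one_left (sq _ (mul_mem hp hq)), mul_inv_rev, inv_eq_of_mul_eq_one_left (sq p hp),
      inv_eq_of_mul_eq_one_left (sq q hq)])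
  choose i j ty using fun x : E => bas2_ty hA (h2 x.2)
  have t0 : ∀ x : E, i x = false → j x = false → (x : G) ∈ S.U ⊔ S.K := fun x a b => by
    have := ty x
    rw [a, b] at this
    have := this.cube (h1 x.2)
    rwa [pow_three, h3 x x.2, mul_one] at this
  have t1 : ∀ x y : E, i x = i y → j x = j y → (x : G)⁻¹ * y ∈ S.U ⊔ S.K := fun x y a b => by
    obtain ⟨c, d⟩ := (ty x).xor (ty y) (ty (x * y))
    rw [iv x x.2]
    exact t0 (x * y) (by simp [c, a]) (by simp [d, b])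
  have fa : ∀ {x : E} {f}, S.Bas2Ac x f → ∀ p ∈ W, f (p.a, p.b) = (p.a, p.b) := fun {x f} h p hp => by
    obtain ⟨q, a, b⟩ := h p
    rw [← b, S.inj (a.symm.trans (fx x x.2 p hp))]
  have fj : ∀ x : E, j x = true → ∀ p ∈ W, p.a = 0 ∧ p.b = 0 := fun x a p hp => by
    obtain ⟨l, l0, m, m0, h, -⟩ := ty x
    exact bas2_j l l0 m m0 _ p (sq p hp) (a ▸ fa h p hp)
  have fi : ∀ x : E, i x = true → ∃ X : Finset (Heis F4), X.card ≤ 2 ∧ ∀ p ∈ W, p.a = 0 ∧ p.b = 0 → p ∈ X := fun x a => by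
    obtain ⟨l, l0, m, m0, -, h | h⟩ := ty x
    · simp [a] at h
    refine ⟨_, bas2_c2 l l0 m m0 (j x), fun ⟨a', b', c⟩ hp ⟨u, v⟩ => Finset.mem_filter.2 ⟨Finset.mem_univ _, ⟨u, v⟩, ?_⟩⟩
    obtain rfl : a' = 0 := u
    obtain rfl : b' = 0 := v
    exact S.inj ((a ▸ h c).symm.trans (fx x x.2 _ hp))
  suffices h : E ≤ S.U ⊔ S.K ∨ S.K.relIndex E ≤ 8 by
    rcases h with h | h; swap
    · omega
    rw [e1, relIndex_eq_one.2 h, mul_one]
    have fin : ∀ (X : Finset (Heis F4)) (F : Subgroup G), X.card = 16 → (∀ x, x ∈ F ↔ ∃ p ∈ X, x = S.ι p) →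
        (∀ p ∈ W, p ∈ X) → Nat.card W ≤ 16 ∧ (Nat.card W = 16 → E ⊔ S.K = F ⊔ S.K) := fun X F a b c =>
      ⟨a ▸ (bas2_card W X c).1, fun d => le_antisymm (sup_le (fun x hx => by
        obtain ⟨p, hp⟩ := bas2_ex (h hx)
        simpa using mul_mem (mem_sup_left ((b _).2 ⟨p, c p ((hW p).2 ⟨x, hx, hp⟩), rfl⟩)) (mem_sup_right hp))
        le_sup_right) (sup_le (fun x hx => by
        obtain ⟨p, hp, rfl⟩ := (b x).1 hx
        obtain ⟨y, hy, k⟩ := (hW p).1 ((bas2_card W X c).2 (by omega) p hp)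
        simpa using mul_mem (mem_sup_left hy) (mem_sup_right (inv_mem k))) le_sup_right)⟩
    by_cases h4 : ∀ p ∈ W, p.a = 0
    · refine (fin (Finset.univ.filter fun p => p.a = 0) S.E2 (by decide +kernel) (fun x => S.mem_E2.trans
        ⟨fun ⟨b, c, e⟩ => ⟨⟨0, b, c⟩, by simp, e⟩, fun ⟨⟨a, b, c⟩, u, e⟩ => ⟨b, c, ?_⟩⟩) (by simpa using h4)).imp_right
        fun h e => .inr (h e)
      rw [e, show a = 0 by simpa using u]
    · push Not at h4
      obtain ⟨q, hq, q0⟩ := h4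
      refine (fin (Finset.univ.filter fun p => p.b = 0) S.E1 (by decide +kernel) (fun x => S.mem_E1.trans
        ⟨fun ⟨b, c, e⟩ => ⟨⟨b, 0, c⟩, by simp, e⟩, fun ⟨⟨a, b, c⟩, u, e⟩ => ⟨a, c, ?_⟩⟩) fun p hp => ?_).imp_right
        fun h e => .inl (h e)
      · rw [e, show b = 0 by simpa using u]
      · have := cm q hq p hp
        rw [(f4_mul_eq_zero.1 (bas2_sq (sq q hq))).resolve_left q0, mul_zero] at this
        simpa using (f4_mul_eq_zero.1 this).resolve_left q0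
  rw [e1]
  by_cases a : ∃ x, i x = true <;> by_cases b : ∃ x, j x = true
  · obtain ⟨x, a⟩ := a
    obtain ⟨y, b⟩ := b
    obtain ⟨X, c, d⟩ := fi x a
    have := bas2_index (fun x => (i x, j x)) fun x y e => t1 x y (congrArg Prod.fst e) (congrArg Prod.snd e)
    exact .inr (Nat.mul_le_mul ((bas2_card W X fun p hp => d p hp (fj y b p hp)).1.trans c) (this.trans (by simp : _ ≤ 4)))
  · obtain ⟨x, a⟩ := a
    replace b : ∀ x, j x = false := by simpa using b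
    obtain ⟨X, c, d⟩ := fi x a
    have := bas2_index i fun x y e => t1 x y e (by rw [b, b])
    refine .inr (Nat.mul_le_mul (?_ : _ ≤ 4) (this.trans (by simp : _ ≤ 2)))
    by_cases h4 : ∀ p ∈ W, p.a = 0 ∧ p.b = 0
    · exact (bas2_card W X fun p hp => d p hp (h4 p hp)).1.trans (by omega)
    obtain ⟨q, hq, q0⟩ : ∃ q ∈ W, ¬ (q.a = 0 ∧ q.b = 0) := by simpa only [not_forall, exists_prop] using h4
    obtain ⟨l, l0, m, m0, h, -⟩ := ty x
    rw [a, b] at h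
    refine (bas2_card W (X ∪ X.image (· * q⁻¹)) fun p hp => Finset.mem_union.2 ((bas2_i l l0 m m0 _ _ _ _
      (bas2_sq (sq p hp)) (bas2_sq (sq q hq)) (cm p hp q hq) (fa h p hp) (fa h q hq) q0).imp (d p hp) fun e =>
        Finset.mem_image.2 ⟨_, d _ (mul_mem hp hq) e, mul_inv_cancel_right p q⟩)).1.trans
      ((Finset.card_union_le _ _).trans ?_)
    have := Finset.card_image_le (s := X) (f := (· * q⁻¹))
    omega
  · obtain ⟨y, b⟩ := b
    replace a : ∀ x, i x = false := by simpa using a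
    have := bas2_index j fun x y e => t1 x y (by rw [a, a]) e
    exact .inr (Nat.mul_le_mul ((bas2_card W (Finset.univ.filter fun p => p.a = 0 ∧ p.b = 0)
      (by simpa using fj y b)).1.trans (by decide +kernel : _ ≤ 4)) (this.trans (by simp : _ ≤ 2)))
  · exact .inl fun x hx => t0 ⟨x, hx⟩ (by simpa using mt (fun h => ⟨_, h⟩) a) (by simpa using mt (fun h => ⟨_, h⟩) b)

end SD

theorem bas2S : Bas2S.{u} := fun hA G _ _ S _ => ⟨fun _ => SD.bas2_der hA, fun E h1 h2 => by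
  obtain ⟨P, hP, h3⟩ := exists_isSylowIn_ge (p := 2) (H := E ⊔ S.A)
    (isPGroup_iff_forall.2 fun x hx => ⟨1, by rw [pow_one, sq, h2 x hx]⟩) le_sup_left
  obtain ⟨m, hm, e⟩ := syl_conj S.sylU (syl_inf_of_norm hP le_sup_right (hP.le.trans (sup_le h1 le_normalizer)))
  have := SD.bas2_core (S := S.conj m) hA (by rwa [SD.conj_N, cj_eq (le_normalizer (le_normalizer hm))])
    (by rw [SD.conj_U, e]; exact le_norm_inf (le_norm_of_le h3) h1) h2
  rw [SD.conj_K, cj_eq (S.N_le_NK (le_normalizer hm)), SD.conj_E1, SD.conj_E2] at this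
  have e1 : Nat.card E = S.K.relIndex E * Nat.card (E ⊓ S.K : Subgroup G) := by
    rw [relIndex, ← index_mul_card (S.K.subgroupOf E), ← inf_subgroupOf_left,
      Nat.card_congr (subgroupOfEquivOfLe inf_le_left).toEquiv]
  rw [e1]
  exact ⟨Nat.mul_le_mul_right _ this.1, fun h => ⟨m, hm, this.2 (Nat.eq_of_mul_eq_mul_right Nat.card_pos h)⟩⟩⟩

end CL.LS
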