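/-
Project LS: outer involutions of `N(A)`.
-/
import Cfsg.Agent.LS.Defs

set_option autoImplicit false
set_option linter.unusedSectionVars false
open Cfsg Subgroup CL.Even CL.Grp CL.L34
open scoped commutatorElement

namespace CL.LS

universe u

theorem bas3_comm (p q : Heis F4) : p * q * p⁻¹ * q⁻¹ = ⟨0, 0, p.a * q.b - q.a * p.b⟩ :=
  Heis.ext (by simp) (by simp) (by simp; ring)

theorem bas3_adj (e e' p : Heis F4) (h1 : e.a - e'.a = p.a) (h2 : e.b - e'.b = p.b) :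
    ∃ c, e * ⟨0, 0, c⟩ * e'⁻¹ = p :=
  ⟨p.c - (e * e'⁻¹).c, Heis.ext (by simp [← h1, sub_eq_add_neg]) (by simp [← h2, sub_eq_add_neg]) (by simp; ring)⟩

theorem bas3_vv (c c' : F4) : (⟨0, 0, c⟩ * ⟨0, 0, c'⟩ : Heis F4) = ⟨0, 0, c + c'⟩ := by simp [Heis.mul_def]

/-- the identity or the Frobenius map -/
def bas3Sg (i : Bool) (c : F4) : F4 := cond i (c * c) c

/-- the action on `U / V` -/
def bas3Ta (l m : F4) (i j : Bool) (x : F4 × F4) : F4 × F4 :=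
  cond j (l * bas3Sg i x.2, m * bas3Sg i x.1) (l * bas3Sg i x.1, m * bas3Sg i x.2)

set_option synthInstance.maxSize 1000 in
theorem bas3_d : ∀ (l m : F4) (j : Bool), l ≠ 0 → m ≠ 0 → (∀ x, bas3Ta l m true j (bas3Ta l m true j x) = x) →
    ∃ x x', bas3Ta l m true j x = x ∧ bas3Ta l m true j x' = x' ∧ x.1 * x'.2 - x'.1 * x.2 = l * m * (l * m) := by
  decide +kernel

theorem bas3_aut (hA : AutH) (f : MulAut (Heis F4)) : ∃ l m i j, l ≠ 0 ∧ m ≠ 0 ∧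
    (∀ p, ((f p).a, (f p).b) = bas3Ta l m i j (p.a, p.b)) ∧ ∀ c, f ⟨0, 0, c⟩ = ⟨0, 0, l * m * bas3Sg i c⟩ := by
  obtain ⟨l, m, i, j, h1, h2, h3, h4⟩ := hA f
  refine ⟨l, m, i, j, h1, h2, fun p => ?_, fun c => ?_⟩
  · obtain ⟨c, e⟩ := h3 p
    rw [e]
    cases i <;> cases j <;> simp [bas3Ta, bas3Sg, dg, th, fr, gr_apply]
  · rw [h4]
    cases i <;> cases j <;> simp [bas3Sg, dg, th, fr, gr_apply]

theorem bas3_fix {f : MulAut (Heis F4)} {n a b : F4} (hn : n ≠ 0) (h2 : ∀ p, f (f p) = p)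
    (hv : ∀ c, f ⟨0, 0, c⟩ = ⟨0, 0, n * (c * c)⟩) (ha : (f ⟨a, b, 0⟩).a = a) (hb : (f ⟨a, b, 0⟩).b = b) :
    ∃ c, f ⟨a, b, c⟩ = ⟨a, b, c⟩ := by
  have e0 : ∀ c c' : F4, (⟨a, b, c⟩ * ⟨0, 0, c'⟩ : Heis F4) = ⟨a, b, c + c'⟩ := fun c c' => by simp [Heis.mul_def]
  obtain ⟨d, hd⟩ : ∃ d, f ⟨a, b, 0⟩ = ⟨a, b, d⟩ := ⟨_, Heis.ext ha hb rfl⟩
  have e : ∀ c, f ⟨a, b, c⟩ = ⟨a, b, d + n * (c * c)⟩ := fun c => by
    rw [← zero_add c, ← e0, map_mul, hd, hv, e0, zero_add]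
  have e1 := h2 ⟨a, b, 0⟩
  rw [hd, e] at e1
  obtain ⟨c, hc⟩ := (by decide +kernel : ∀ n d : F4, n ≠ 0 → d + n * (d * d) = 0 → ∃ c, d + n * (c * c) = c) n d hn
    (congrArg Heis.c e1)
  exact ⟨c, by rw [e, hc]⟩

variable {G : Type u} [Group G] {S : SD G} {g g' : G} {l m : F4}

theorem bas3_mul {f f' : Heis F4 → Heis F4} (h : Act S.ι g f) (h' : Act S.ι g' f') : Act S.ι (g * g') (f ∘ f') :=
  fun p => by rw [Function.comp, ← h, ← h']; group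

theorem bas3_inv {f f' : Heis F4 → Heis F4} (h : Act S.ι g f) (e : ∀ p, f (f' p) = p) : Act S.ι g⁻¹ f' :=
  fun p => by rw [← e p, ← h, e]; group

theorem bas3_act (hg : ∀ p, ∃ q, g * S.ι p * g⁻¹ = S.ι q) : ∃ f : MulAut (Heis F4), Act S.ι g f := by
  choose f hf using hg
  let F : Heis F4 →* Heis F4 := MonoidHom.mk' f fun p q => S.inj (by rw [map_mul, ← hf, ← hf, ← hf, map_mul, conj_mul])
  refine ⟨MulEquiv.ofBijective F (Finite.injective_iff_bijective.1 fun p q e => S.inj ?_), hf⟩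
  have : g * S.ι p * g⁻¹ = g * S.ι q * g⁻¹ := by rw [hf, hf]; exact congrArg S.ι e
  simpa using this

theorem bas3_act' (hg : g ∈ 𝒩(S.U)) : ∃ f : MulAut (Heis F4), Act S.ι g f :=
  bas3_act fun p => S.mem_U.1 (conj_mem hg ⟨p, rfl⟩)

theorem bas3_sq {f : Heis F4 → Heis F4} (h : Act S.ι g f) (gg : g * g = 1) (p : Heis F4) : f (f p) = p :=
  S.inj (by simpa [gg] using (bas3_mul h h p).symm)

theorem bas3_tr {f : Heis F4 → Heis F4} (hg : g ∈ S.N) (h : Act S.ι g f) (e : ∀ p, (f p).a = p.a ∧ (f p).b = p.b) :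
    ∃ p, S.ι p * g ∈ S.K :=
  S.cT g hg fun p => ⟨(f p).c - p.c, (h p).trans (congrArg S.ι
    (Heis.ext (by simp [(e p).1]) (by simp [(e p).2]) (by simp)))⟩

theorem bas3_inner {f : Heis F4 → Heis F4} (hg : g ∈ S.N) (h : Act S.ι g f) (gg : g * g = 1)
    (e : ∀ p, (f p).a = l * p.a ∧ (f p).b = m * p.b) : g ∈ S.A ⊔ S.K := by
  have d : ∀ l : F4, l * (l * 1) = 1 → l = 1 := by decide +kernel
  have e1 := bas3_sq h gg ⟨1, 1, 0⟩
  obtain rfl := d l (by rw [← (e ⟨1, 1, 0⟩).1, ← (e _).1, e1])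
  obtain rfl := d m (by rw [← (e ⟨1, 1, 0⟩).2, ← (e _).2, e1])
  obtain ⟨p, hp⟩ := bas3_tr hg h (by simpa using e)
  simpa using mul_mem (mem_sup_left (inv_mem (S.mem p))) (mem_sup_right hp : _ ∈ S.A ⊔ S.K)

/-- `g` exchanges `E₁` and `E₂` and centralises `V` -/
structure Bas3Ty (S : SD G) (g : G) (f : MulAut (Heis F4)) (l m : F4) : Prop where
  act : Act S.ι g f
  lm : l * m = 1
  co : ∀ p, (f p).a = l * p.b ∧ (f p).b = m * p.a

namespace Bas3Ty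

variable {f : MulAut (Heis F4)} (h : Bas3Ty S g f l m)
include h

theorem comm (c : F4) : g * S.v c = S.v c * g := by
  have e : (⟨0, 0, c⟩ : Heis F4) = ⟨c, 0, 0⟩ * ⟨0, 1, 0⟩ * (⟨c, 0, 0⟩ : Heis F4)⁻¹ * (⟨0, 1, 0⟩ : Heis F4)⁻¹ := by
    simp [bas3_comm]
  refine mul_inv_eq_iff_eq_mul.1 ((h.act _).trans (congrArg S.ι ?_))
  rw [e, map_mul, map_mul, map_mul, map_inv, map_inv, bas3_comm, bas3_comm, (h.co _).1, (h.co _).1, (h.co _).2,
    (h.co _).2]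
  congr 1
  linear_combination (-c) * h.lm - f4_add c

theorem mul (u : Heis F4) : Bas3Ty S (S.ι u * g) (MulAut.conj u * f) l m :=
  ⟨fun p => by simp [← h.act p, mul_assoc], h.lm, fun p => by simpa using h.co p⟩

theorem cjv (gg : g * g = 1) (c : F4) : ∃ y, S.ι y * g * (S.ι y)⁻¹ = S.v c * g := by
  obtain ⟨a, rfl⟩ := (by decide +kernel : ∀ l m c : F4, l * m = 1 → ∃ a, a * (m * a) = c) l m c h.lm
  refine ⟨⟨a, 0, 0⟩ * f ⟨a, 0, 0⟩, ?_⟩
  have e := h.act (⟨a, 0, 0⟩ * f ⟨a, 0, 0⟩)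
  rw [map_mul f, bas3_sq h.act gg] at e
  have e1 := bas3_comm ⟨a, 0, 0⟩ (f ⟨a, 0, 0⟩)
  rw [(h.co _).2, mul_zero, sub_zero] at e1
  rw [SD.v, ← e1, mul_assoc (_ * _ : Heis F4), ← mul_inv_rev, map_mul S.ι (_ * _), map_inv, ← e]
  group

theorem key (hg : g ∈ S.N) {c : F4} (gg : g * g = S.v c) : ∃ e c0 g1 f1, g = S.ι e * (S.v c0 * g1) * (S.ι e)⁻¹ ∧
    g1 * g1 = 1 ∧ Bas3Ty S g1 f1 l m ∧ ∃ k ∈ S.K, g1 * S.h * g1⁻¹ = S.h * k := by
  have a1 := bas3_mul (bas3_mul (bas3_mul h.act S.ah) (bas3_inv h.act f.apply_symm_apply))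
    (bas3_inv (f' := dg (om * om) (om * om)) S.ah (by decide +kernel))
  have w3 : om * om * om = 1 := by decide +kernel
  obtain ⟨p, hp⟩ := bas3_tr (mul_mem (conj_mem (le_normalizer hg) (le_normalizer S.hA)) (inv_mem (le_normalizer S.hA)))
    a1 fun p => by
      obtain ⟨b1, b2⟩ := h.co (f.symm (dg (om * om) (om * om) p))
      rw [f.apply_symm_apply] at b1 b2
      simp only [Function.comp, h.co, dg] at b1 b2 ⊢
      exact ⟨by linear_combination (-om) * b1 + p.a * w3, by linear_combination (-om) * b2 + p.b * w3⟩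
  obtain ⟨u, hu⟩ := (by decide +kernel : ∀ p : Heis F4, ∃ u, p = (dg om om u)⁻¹ * u) p
  obtain ⟨k, hk⟩ : ∃ k, k = S.ι p * (g * S.h * g⁻¹ * S.h⁻¹) := ⟨_, rfl⟩
  rw [← hk] at hp
  have e1 : S.ι u * g * S.h * (S.ι u * g)⁻¹ = S.h * k := by
    calc _ = S.ι u * (S.ι p)⁻¹ * k * (S.h * (S.ι u)⁻¹) := by rw [hk]; group
      _ = S.ι u * (S.ι p)⁻¹ * (S.h * (S.ι u)⁻¹) * k := by
        rw [mul_assoc _ k, ← comm_of_mem hp (mul_mem S.hA (inv_mem (S.mem u))), ← mul_assoc]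
      _ = _ := by rw [hu, map_mul, map_inv, ← S.ah]; group
  have e2 : S.ι u * g * (S.ι u * g) = S.ι (u * f u * ⟨0, 0, c⟩) := by
    rw [map_mul, map_mul, ← h.act, ← show g * g = S.ι _ from gg]; group
  have e3 : u * f u * ⟨0, 0, c⟩ = 1 := by
    refine (by decide +kernel : ∀ q : Heis F4, q * (dg om om q)⁻¹ = 1 → q = 1) _ (S.ι_K ?_)
    have e4 : S.ι (u * f u * ⟨0, 0, c⟩ * (dg om om (u * f u * ⟨0, 0, c⟩))⁻¹) =
        S.h * (k * (S.ι u * g * k * (S.ι u * g)⁻¹)) * S.h⁻¹ := by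
      rw [map_mul, map_inv, ← S.ah, ← e2]
      calc _ = S.ι u * g * (S.ι u * g * S.h * (S.ι u * g)⁻¹) * (S.ι u * g)⁻¹ * S.h⁻¹ := by group
        _ = S.ι u * g * (S.h * k) * (S.ι u * g)⁻¹ * S.h⁻¹ := by rw [e1]
        _ = S.ι u * g * S.h * (S.ι u * g)⁻¹ * (S.ι u * g * k * (S.ι u * g)⁻¹) * S.h⁻¹ := by group
        _ = _ := by rw [e1]; group
    rw [e4]
    exact conj_mem (S.N_le_NK (le_normalizer S.hA))
      (mul_mem hp (conj_mem (S.N_le_NK (mul_mem (le_normalizer (S.mem u)) hg)) hp))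
  have e5 : u.a + l * u.b = 0 := by simpa [h.co] using congrArg Heis.a e3
  have h1 := h.mul u
  obtain ⟨c0, e6⟩ := bas3_adj ⟨-u.a, 0, 0⟩ ((MulAut.conj u * f) ⟨-u.a, 0, 0⟩) u⁻¹ (by rw [(h1.co _).1]; simp)
    (by rw [(h1.co _).2]; simp only [Heis.inv_b]; linear_combination m * e5 - u.b * h.lm)
  refine ⟨⟨-u.a, 0, 0⟩, c0, _, _, ?_, by rw [e2, e3, map_one], h1, k, hp, e1⟩
  calc g = S.ι u⁻¹ * (S.ι u * g) := by simp
    _ = _ := by rw [← e6, map_mul, map_mul, map_inv, ← h1.act]; group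

theorem le_comm (hg : g ∈ S.N) (gg : g * g = 1) : S.V ≤ ⁅centralizer {g}, centralizer {g}⁆ := by
  obtain ⟨e, c0, g1, f1, e1, e2, h1, k, hk, e3⟩ := h.key hg (c := 0) (gg.trans (map_one S.ι).symm)
  obtain ⟨y, e4⟩ := h1.cjv e2 c0
  have e5 : g = S.ι (e * y) * g1 * (S.ι (e * y))⁻¹ := by rw [e1, ← e4, map_mul]; group
  have e6 : g1 * (S.h * (S.h * k)) * g1⁻¹ = S.h * (S.h * k) := by
    calc _ = g1 * S.h * g1⁻¹ * (g1 * (S.h * k) * g1⁻¹) := by group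
      _ = S.h * k * (g1 * g1 * S.h * (g1 * g1)⁻¹) := by rw [← e3]; group
      _ = _ := by rw [e2, one_mul, inv_one, mul_one, mul_assoc, ← comm_of_mem hk S.hA]
  have hc : ∀ (q : Heis F4) c, S.ι q * S.v c * (S.ι q)⁻¹ = S.v c := fun q c => by
    rw [← map_inv, ← map_mul, ← map_mul]
    exact congrArg S.ι (Heis.ext (by simp) (by simp) (by simp; ring))
  intro x hx
  obtain ⟨c, rfl⟩ := S.mem_V.1 hx
  have e7 : S.v c = ⁅S.ι (e * y) * (S.h * (S.h * k)) * (S.ι (e * y))⁻¹, S.v (om * c)⁆ := by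
    have e8 : S.h * (S.h * k) * S.v (om * c) * (S.h * (S.h * k))⁻¹ = S.v (om * om * c) := by
      calc _ = S.h * (S.h * (k * S.v (om * c) * k⁻¹) * S.h⁻¹) * S.h⁻¹ := by group
        _ = _ := by
          rw [conj_eq_of_mem hk (S.mem _), S.ah, S.ah]
          exact congrArg S.ι ((by decide +kernel : ∀ c, dg om om (dg om om ⟨0, 0, om * c⟩) = ⟨0, 0, om * om * c⟩) c)
    calc _ = S.v (om * om * c) * (S.v (om * c))⁻¹ := by
          rw [← map_inv, ← map_mul]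
          exact congrArg S.ι ((by decide +kernel :
            ∀ c, (⟨0, 0, c⟩ : Heis F4) = ⟨0, 0, om * om * c⟩ * (⟨0, 0, om * c⟩ : Heis F4)⁻¹) c)
      _ = S.ι (e * y) * (S.h * (S.h * k) * (S.ι (e * y)⁻¹ * S.v (om * c) * (S.ι (e * y)⁻¹)⁻¹) *
          (S.h * (S.h * k))⁻¹) * (S.ι (e * y))⁻¹ * (S.v (om * c))⁻¹ := by rw [hc, e8, hc]
      _ = _ := by rw [commutatorElement_def, map_inv]; group
  rw [e7]
  refine commutator_mem_commutator (mem_centralizer_singleton_iff.2 ?_) (mem_centralizer_singleton_iff.2 (h.comm _).symm)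
  rw [e5]
  calc _ = S.ι (e * y) * (g1 * (S.h * (S.h * k)) * g1⁻¹ * g1) * (S.ι (e * y))⁻¹ := by rw [e6]; group
    _ = _ := by group

end Bas3Ty

theorem bas3_tyV (hA : AutH) (b : S.Bas1) (hg : g ∈ S.N) (gg : g * g = 1) (hV : g ∈ 𝒞(S.V)) (hn : g ∉ S.A ⊔ S.K) :
    ∃ f l m, Bas3Ty S g f l m := by
  have hv : ∀ c, g * S.v c * g⁻¹ = S.v c := fun c => conj_eq_of_mem hV (S.mem_V.2 ⟨c, rfl⟩)
  obtain ⟨f, hf⟩ := bas3_act' (b.nU g hg 1 1 (by decide +kernel) (hv 1))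
  obtain ⟨l, m, i, j, -, -, h3, h4⟩ := bas3_aut hA f
  obtain ⟨rfl, h5⟩ := (by decide +kernel : ∀ (n : F4) (i : Bool), (∀ c, n * bas3Sg i c = c) → i = false ∧ n = 1) _ i
    fun c => congrArg Heis.c ((h4 c).symm.trans (S.inj ((hf _).symm.trans (hv c))))
  cases j
  · exact (hn (bas3_inner hg hf gg fun p => Prod.mk.inj (h3 p))).elim
  · exact ⟨f, l, m, hf, h5, fun p => Prod.mk.inj (h3 p)⟩

theorem bas3_out (hA : AutH) (hg : g ∈ S.N) (hU : g ∈ 𝒩(S.U)) (gg : g * g = 1) (hn : g ∉ S.A ⊔ S.K) :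
    ∃ y ∈ S.A, y ∈ ⁅centralizer {g}, centralizer {g}⁆ ∧ y * y = 1 ∧ y ≠ 1 ∧ ∃ m ∈ S.A, m * g * m⁻¹ = g * y := by
  obtain ⟨f, hf⟩ := bas3_act' hU
  obtain ⟨l, m, i, j, h1, h2, h3, h4⟩ := bas3_aut hA f
  have h5 := bas3_sq hf gg
  have vv : ∀ c, S.v c * S.v c = 1 := fun c => by rw [← map_mul, bas3_vv, f4_add]; exact map_one S.ι
  have v1 : ∀ c, c ≠ 0 → S.v c ≠ 1 := fun c hc e => hc (congrArg Heis.c (S.inj (e.trans (map_one S.ι).symm)))
  have h6 : ∀ x, bas3Ta l m i j (bas3Ta l m i j x) = x := fun x => by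
    rw [← h3 ⟨x.1, x.2, 0⟩, ← h3, h5]
  cases i
  · cases j
    · exact (hn (bas3_inner hg hf gg fun p => Prod.mk.inj (h3 p))).elim
    · have h : Bas3Ty S g f l m := ⟨hf, by simpa [bas3Ta, bas3Sg] using congrArg Prod.fst (h6 (1, 0)),
        fun p => Prod.mk.inj (h3 p)⟩
      obtain ⟨y, e⟩ := h.cjv gg 1
      exact ⟨S.v 1, S.mem _, h.le_comm hg gg (S.mem_V.2 ⟨1, rfl⟩), vv 1, v1 1 (by decide +kernel), _, S.mem y,
        e.trans (h.comm 1).symm⟩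
  · obtain ⟨x, x', f1, f2, f3⟩ := bas3_d l m j h1 h2 h6
    have n1 : l * m ≠ 0 := fun e => (f4_mul_eq_zero.1 e).elim h1 h2
    have n2 : l * m * (l * m) ≠ 0 := fun e => (f4_mul_eq_zero.1 e).elim n1 n1
    have fx : ∀ x, bas3Ta l m true j x = x → ∃ c, S.ι ⟨x.1, x.2, c⟩ ∈ centralizer {g} := fun x e => by
      obtain ⟨e1, e2⟩ := Prod.mk.inj ((h3 ⟨x.1, x.2, 0⟩).trans e)
      obtain ⟨c, hc⟩ := bas3_fix n1 h5 h4 e1 e2
      exact ⟨c, mem_centralizer_singleton_iff.2 (mul_inv_eq_iff_eq_mul.1 (by rw [hf, hc])).symm⟩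
    obtain ⟨c1, m1⟩ := fx x f1
    obtain ⟨c2, m2⟩ := fx x' f2
    obtain ⟨c, hc⟩ := (by decide +kernel : ∀ n : F4, ∃ c, n * (c * c) - c = n * n) (l * m)
    refine ⟨S.v (l * m * (l * m)), S.mem _, ?_, vv _, v1 _ n2, S.v c, S.mem _, ?_⟩
    · have := commutator_mem_commutator m1 m2
      rwa [← map_commutatorElement, commutatorElement_def, bas3_comm, f3] at this
    · have e : S.v (l * m * (l * m)) = g * S.v c * g⁻¹ * (S.v c)⁻¹ := by
        rw [hf, h4, ← map_inv, ← map_mul, ← hc]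
        exact congrArg S.ι (Heis.ext (by simp) (by simp) (by simp [bas3Sg, sub_eq_add_neg]))
      rw [e, inv_eq_of_mul_eq_one_right gg]
      calc _ = g * g * S.v c * g * (S.v c)⁻¹ := by rw [gg, one_mul]
        _ = _ := by group

theorem bas3S : Bas3S.{u} := fun hA G _ _ S b => by
  refine ⟨fun s hs ss hn => ?_, fun s hs ss hV hn => ?_, fun x hx y hy xV yV xx yy xy => ?_, fun g hg h c gg => ?_⟩
  · obtain ⟨P, hP, sP⟩ := exists_isSylowIn_ge (isPGroup_zpowers (p := 2) (k := 1) (x := s) (by rw [pow_one, sq, ss]))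
      (zpowers_le.2 hs)
    obtain ⟨a, ha, e⟩ := syl_conj S.sylU (syl_inf_of_norm hP le_normalizer hP.le)
    have eA : (S.conj a).A = S.A := cj_eq (le_normalizer ha)
    have := bas3_out (S := S.conj a) (g := s) hA (by rwa [SD.N, eA])
      (by rw [SD.conj_U, e]; exact le_norm_inf le_normalizer hP.le (sP (mem_zpowers s))) ss (by rwa [SD.K, eA])
    rwa [eA] at this
  · obtain ⟨f, l, m, h⟩ := bas3_tyV hA b hs ss hV hn
    exact h.le_comm hs ss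
  · by_cases h1 : x ∈ S.A ⊔ S.K
    · exact Or.inl h1
    by_cases h2 : y ∈ S.A ⊔ S.K
    · exact Or.inr (Or.inl h2)
    obtain ⟨f, l, m, h⟩ := bas3_tyV hA b hx xx xV h1
    obtain ⟨f', l', m', h'⟩ := bas3_tyV hA b hy yy yV h2
    refine Or.inr (Or.inr (bas3_inner (l := l * m') (m := m * l') (mul_mem hx hy) (bas3_mul h.act h'.act) ?_
      fun p => by simp [h.co, h'.co, mul_assoc]))
    rw [mul_assoc, ← mul_assoc y, ← xy, mul_assoc, yy, mul_one, xx]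
  · obtain ⟨f, hf⟩ := bas3_act fun p => (h p).elim fun c e => ⟨_, e⟩
    have ty : Bas3Ty S g f 1 1 := ⟨hf, one_mul _, fun p => by
      obtain ⟨c, e⟩ := h p
      rw [S.inj ((hf p).symm.trans e)]
      simp [gr_apply]⟩
    obtain ⟨e, c0, g1, f1, e1, e2, h1, -⟩ := ty.key hg gg
    have e3 : S.v c0 * g1 * (S.v c0 * g1) = 1 := by
      rw [mul_assoc, ← mul_assoc g1, h1.comm, mul_assoc, e2, mul_one, ← map_mul, bas3_vv, f4_add]
      exact map_one S.ι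
    rw [e1, conj_mul, e3, mul_one, mul_inv_cancel, ← map_one S.ι] at gg
    exact (congrArg Heis.c (S.inj gg)).symm

end CL.LS
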