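/-
Project LS: the translation (C1) and the group `Q₁` (C2).
-/
import Cfsg.Agent.LS.Defs

set_option autoImplicit false
set_option linter.unusedSectionVars false
open Cfsg Subgroup CL.Even CL.Grp CL.L34
open scoped commutatorElement

namespace CL.LS

universe u v

variable {G : Type u} [Group G] {S : SD G} {ρ : F4 → G} {O : Subgroup G}

theorem c1_aut {g : G} (hg : g ∈ 𝒩(S.U)) : ∃ f : MulAut (Heis F4), ∀ p, S.ι (f p) = g * S.ι p * g⁻¹ := by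
  choose f hf using fun p => (conj_mem hg ⟨p, rfl⟩ : g * S.ι p * g⁻¹ ∈ S.U)
  refine ⟨MulEquiv.ofBijective (MonoidHom.mk' f fun p q => S.inj (by rw [map_mul, hf, hf, hf, map_mul]; group))
    (Finite.injective_iff_bijective.1 fun p q e => S.inj ?_), hf⟩
  have e' : S.ι (f p) = S.ι (f q) := congrArg S.ι e
  rw [hf, hf] at e'
  exact mul_left_cancel (mul_right_cancel e')

theorem c1_lin (φ : F4 → F4) (h : ∀ a b, φ (a + b) = φ a + φ b) (a : F4) :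
    φ a + om * φ (om * a) = (φ 1 + om * φ om) * a := by
  have h0 : φ 0 = 0 := by simpa using h 0 0
  have h2 : φ (om * om) = φ 1 + φ om := by rw [← h]; exact congrArg φ (by decide +kernel)
  rcases f4_cases a with rfl | rfl | rfl | rfl
  · simp [h0]
  · simp
  · rw [h2]
    exact (by decide +kernel : ∀ x y : F4, y + om * (x + y) = (x + om * y) * om) _ _
  · rw [show om * (om * om) = 1 by decide +kernel, h2]
    exact (by decide +kernel : ∀ x y : F4, x + y + om * x = (x + om * y) * (om * om)) _ _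

theorem c1_del (δ : Heis F4 → F4) (h : ∀ p q, δ (p * q) = δ p + δ q) :
    (∀ c, δ ⟨0, 0, c⟩ = 0) ∧ ∃ a0 b0, ∀ p, δ p + om * δ (dg om om p) = a0 * p.b + b0 * p.a := by
  have h0 : ∀ c, δ ⟨0, 0, c⟩ = 0 := fun c => by
    have e := h (⟨0, 1, 0⟩ * ⟨c, 0, 0⟩) ⟨0, 0, c⟩
    rw [show (⟨0, 1, 0⟩ * ⟨c, 0, 0⟩ * ⟨0, 0, c⟩ : Heis F4) = ⟨c, 0, 0⟩ * ⟨0, 1, 0⟩ by simp [Heis.mul_def], h, h,
      add_comm (δ ⟨0, 1, 0⟩)] at e
    exact left_eq_add.1 e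
  have h1 : ∀ p, δ p = δ ⟨p.a, 0, 0⟩ + δ ⟨0, p.b, 0⟩ := fun p => by
    have e := h (⟨p.a, 0, 0⟩ * ⟨0, p.b, 0⟩) ⟨0, 0, p.c - p.a * p.b⟩
    rw [h0, add_zero, h ⟨p.a, 0, 0⟩] at e
    rw [← e]
    exact congrArg δ (by simp [Heis.mul_def])
  refine ⟨h0, δ ⟨0, 1, 0⟩ + om * δ ⟨0, om, 0⟩, δ ⟨1, 0, 0⟩ + om * δ ⟨om, 0, 0⟩, fun p => ?_⟩
  rw [h1 p, h1 (dg om om p), ← c1_lin (fun a => δ ⟨a, 0, 0⟩) (fun a b => by rw [← h]; simp [Heis.mul_def]),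
    ← c1_lin (fun a => δ ⟨0, a, 0⟩) (fun a b => by rw [← h]; simp [Heis.mul_def])]
  simp only [dg]
  ring

theorem c1_O (hb : S.BD ρ O) : S.A ≤ 𝒞(O) := fun _ ha _ ho => (comm_of_mem (hb.O_le ho).1 ha).symm

theorem c1_ρ (hb : S.BD ρ O) (r : F4) : ρ r ∈ 𝒞(O) := fun _ ho =>
  (comm_of_mem (hb.O_le ho).2 ((hb.memR _).2 ⟨r, rfl⟩)).symm

theorem c1_odd (hb : S.BD ρ O) {o : G} (ho : o ∈ O) : (orderOf o).Coprime 2 :=
  Nat.coprime_two_right.2 (hb.O_odd.of_dvd_nat (orderOf_dvd_natCard _ ho))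

theorem c1_N (hb : S.BD ρ O) {n : G} (h : ∀ r, n * ρ r = ρ r * n) : n ∈ S.N :=
  S.mem_N_of_comm' (hb.sq 1) (hb.ne_one one_ne_zero) (hb.memK 1) (h 1)

theorem c1_h1 (hA : AutH) (h1 : S.Bas1) (hb : S.BD ρ O) : ∃ k ∈ 𝒞(O), (∀ r, k * (ρ r * S.v r) = ρ r * S.v r * k) ∧
    ∀ p, ∃ c, k * S.ι p * k⁻¹ = S.ι (dg om om p * ⟨0, 0, c⟩) := by
  obtain ⟨g, hg, e⟩ := hb.ex
  choose σ hσ using e
  have hs : Function.Surjective σ := Finite.injective_iff_surjective.1 fun r s e => hb.inj (by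
    have := hσ r
    rw [e, ← hσ s] at this
    exact mul_left_cancel (mul_right_cancel this))
  obtain ⟨f, hf⟩ := c1_aut hg
  obtain ⟨l, m, i, j, -, -, h2, -⟩ := hA f
  have a1 : g * S.h * g⁻¹ ∈ 𝒞(O) := fun o ho => by
    have b1 : g⁻¹ * o * g ∈ 𝒞(S.U) := conj_mem' (norm_le_norm_cent _ hg) (cent_mono S.sylU.le (hb.O_le ho).1)
    obtain ⟨c, hc⟩ := h1.cU _ (c1_N hb fun r => by
      have b2 : o * (g * ρ r * g⁻¹) = g * ρ r * g⁻¹ * o := by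
        rw [hσ]; exact mul_mem (c1_ρ hb _) (c1_O hb (S.mem _)) o ho
      calc g⁻¹ * o * g * ρ r = g⁻¹ * (o * (g * ρ r * g⁻¹)) * g := by group
        _ = _ := by rw [b2]; group) b1
    have b3 : g⁻¹ * o * g ∈ S.K := mem_of_pow_mem_of_coprime (n := 2) (by
      rw [show g⁻¹ * o * g = MulAut.conj g⁻¹ o by simp, MulEquiv.orderOf_eq]; exact c1_odd hb ho) (by
      have := pow_mem hc 2
      rwa [(show Commute (S.v c) _ from comm_of_mem b1 ⟨_, rfl⟩).mul_pow, ← map_pow,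
        (by decide +kernel : ∀ c : F4, (⟨0, 0, c⟩ : Heis F4) ^ 2 = 1), map_one, one_mul] at this)
    calc o * (g * S.h * g⁻¹) = g * (g⁻¹ * o * g * S.h) * g⁻¹ := by group
      _ = _ := by rw [← comm_of_mem b3 S.hA]; group
  have a2 : ∀ r, g * S.h * g⁻¹ * (ρ r * S.v r) = ρ r * S.v r * (g * S.h * g⁻¹) := fun r => by
    obtain ⟨s, rfl⟩ := hs r
    rw [← hσ, conj_mul, conj_mul, hb.comm s S.hA]
  have a3 : ∀ p, ∃ c, g * S.h * g⁻¹ * S.ι p * (g * S.h * g⁻¹)⁻¹ =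
      S.ι (dg (cond i (om * om) om) (cond i (om * om) om) p * ⟨0, 0, c⟩) := fun p => by
    obtain ⟨q, rfl⟩ := f.surjective p
    obtain ⟨c1, e1⟩ := h2 q
    obtain ⟨c2, e2⟩ := h2 (dg om om q)
    rw [hf, conj_inv, conj_mul, conj_mul, S.ah, ← hf, e1, e2,
      (by decide +kernel : ∀ i j q, th i j (dg om om q) = dg (cond i (om * om) om) (cond i (om * om) om) (th i j q))]
    generalize th i j q = x
    generalize cond i (om * om) om = s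
    exact ⟨c2 - s * s * c1, congrArg S.ι (by simp only [dg, Heis.mul_def, Heis.mk.injEq]; refine ⟨?_, ?_, ?_⟩ <;> ring)⟩
  cases i
  · exact ⟨_, a1, a2, a3⟩
  refine ⟨_, mul_mem a1 a1, fun r => (Commute.mul_left (a2 r) (a2 r)).eq, fun p => ?_⟩
  obtain ⟨c1, e1⟩ := a3 p
  obtain ⟨c2, e2⟩ := a3 (dg (om * om) (om * om) p * ⟨0, 0, c1⟩)
  refine ⟨om * c1 + c2, ?_⟩
  rw [← (by decide +kernel : ∀ p c1 c2, dg (om * om) (om * om) (dg (om * om) (om * om) p * ⟨0, 0, c1⟩) * ⟨0, 0, c2⟩ =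
    dg om om p * ⟨0, 0, om * c1 + c2⟩)]
  simp only [cond_true] at e1 e2
  rw [← e2, ← e1]
  group

theorem c1S : C1S.{u} := by
  intro hA G _ _ S ρ O h1 hb
  obtain ⟨k, kO, kρ, e⟩ := c1_h1 hA h1 hb
  have hi : ∀ p, S.h⁻¹ * S.ι (dg om om p) * S.h = S.ι p := fun p => by rw [← S.ah]; group
  obtain ⟨y, hy⟩ : ∃ y, y = k * S.h⁻¹ := ⟨_, rfl⟩
  have e1 : ∀ p, ∃ c, y * S.ι p * y⁻¹ = S.ι (p * ⟨0, 0, c⟩) := fun p => by
    obtain ⟨q, rfl⟩ := (by decide +kernel : Function.Surjective (dg om om)) p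
    obtain ⟨c, e⟩ := e q
    exact ⟨c, by rw [← e, ← hi q, hy]; group⟩
  choose δ hδ using e1
  obtain ⟨d0, a0, b0, d1⟩ := c1_del δ fun p q => by
    have : _ = p * ⟨0, 0, δ p⟩ * (q * ⟨0, 0, δ q⟩) :=
      S.inj ((hδ (p * q)).symm.trans (by rw [map_mul, ← conj_mul, hδ, hδ, ← map_mul]))
    have := congrArg Heis.c this
    simp only [Heis.mul_c, Heis.mul_a, Heis.mul_b, mul_zero, add_zero] at this
    linear_combination this
  have yv : ∀ c, y * S.v c * y⁻¹ = S.v c := fun c => by rw [hδ, d0]; simp [Heis.mul_def]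
  have yρ : ∀ r, y * ρ r * y⁻¹ = ρ r * S.v (om * r) := fun r => by
    have b1 : y * (ρ r * S.v (om * om * r)) * y⁻¹ = ρ r * S.v r := by
      rw [show S.v (om * om * r) = S.ι (dg om om ⟨0, 0, r⟩) by simp [dg], ← S.ah, hy]
      calc _ = k * (S.h⁻¹ * (ρ r * S.h) * S.v r) * k⁻¹ := by group
        _ = _ := by rw [← hb.comm r S.hA, inv_mul_cancel_left, kρ, mul_inv_cancel_right]
    rw [← conj_mul, yv, ← eq_mul_inv_iff_mul_eq, mul_assoc _ (S.v r), ← map_inv, ← map_mul] at b1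
    rw [b1, (by decide +kernel : ∀ r : F4, (⟨0, 0, r⟩ * ⟨0, 0, om * om * r⟩⁻¹ : Heis F4) = ⟨0, 0, om * r⟩)]
  have hc : ∀ p c, S.h⁻¹ * S.ι (dg om om p * ⟨0, 0, c⟩) * S.h = S.ι (p * ⟨0, 0, om * c⟩) := fun p c => by
    rw [← hi (p * _), (by decide +kernel : ∀ p c, dg om om (p * ⟨0, 0, om * c⟩) = dg om om p * ⟨0, 0, c⟩)]
  have yO : y ∈ 𝒞(O) := hy ▸ mul_mem kO (inv_mem (c1_O hb S.hA))
  refine ⟨S.ι ⟨a0, b0, 0⟩ * (y * (S.h⁻¹ * y * S.h)), mem_inf.2 ⟨?_, mul_mem (c1_O hb (S.mem _))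
    (mul_mem yO (mul_mem (mul_mem (inv_mem (c1_O hb S.hA)) yO) (c1_O hb S.hA)))⟩, fun r => ?_⟩
  · rintro _ ⟨p, rfl⟩
    rw [eq_comm, ← mul_inv_eq_iff_eq_mul]
    calc _ = S.ι ⟨a0, b0, 0⟩ * (y * (S.h⁻¹ * (y * (S.h * S.ι p * S.h⁻¹) * y⁻¹) * S.h) * y⁻¹) * (S.ι ⟨a0, b0, 0⟩)⁻¹ := by
          group
      _ = _ := by
        rw [S.ah, hδ, hc, map_mul, ← conj_mul (b := y), hδ, yv, ← map_mul, ← map_mul, ← map_inv, ← map_mul]
        refine congrArg S.ι ?_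
        have := d1 p
        obtain ⟨a, b, c⟩ := p
        simp only [Heis.mul_def, Heis.inv_def, Heis.mk.injEq] at this ⊢
        refine ⟨by ring, by ring, ?_⟩
        linear_combination this + f4_add (a0 * b)
  · calc _ = S.ι ⟨a0, b0, 0⟩ * (y * (S.h⁻¹ * (y * (S.h * ρ r * S.h⁻¹) * y⁻¹) * S.h) * y⁻¹) * (S.ι ⟨a0, b0, 0⟩)⁻¹ := by
          group
      _ = _ := by
        have b1 := hc 1 (om * r)
        rw [show dg om om 1 = 1 by decide +kernel, one_mul, one_mul] at b1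
        rw [hb.comm r S.hA, mul_inv_cancel_right, yρ, ← mul_assoc S.h⁻¹, hb.comm r (inv_mem S.hA), mul_assoc (ρ r),
          mul_assoc (ρ r), b1, ← conj_mul (b := y), yρ, yv, mul_assoc (ρ r), ← map_mul, ← mul_assoc, hb.comm r (S.mem _),
          mul_assoc, mul_assoc, ← map_inv, ← map_mul, ← map_mul,
          (by decide +kernel : ∀ a b r : F4, (⟨a, b, 0⟩ * (⟨0, 0, om * r⟩ * ⟨0, 0, om * (om * r)⟩ * ⟨a, b, 0⟩⁻¹) :
            Heis F4) = ⟨0, 0, r⟩)]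

/-- translation of `R` -/
def C2T (S : SD G) (ρ : F4 → G) (g : G) (e : F4 × F4) : Prop :=
  ∀ r, g * ρ r * g⁻¹ = ρ r * S.e1 (r * e.1) (r * e.2)

theorem c2_e1 (a c a' c' : F4) : S.e1 a c * S.e1 a' c' = S.e1 (a + a') (c + c') := by
  rw [← map_mul]; simp [Heis.mul_def]

theorem c2_sq (a c : F4) : S.e1 a c * S.e1 a c = 1 := by rw [c2_e1, f4_add, f4_add]; exact map_one S.ι

theorem c2_rg (hb : S.BD ρ O) {g : G} (h : ∀ r, ∃ a c, g * ρ r * g⁻¹ = ρ r * S.e1 a c) : ∃ e, C2T S ρ g e := by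
  obtain ⟨a, c, e⟩ := h 1
  obtain ⟨g', hg⟩ := hb.rg1 a c
  refine ⟨(a, c), fun r => ?_⟩
  obtain ⟨a', c', e'⟩ := h r
  have h1 := hg 1
  rw [one_mul, one_mul, ← e] at h1
  have h2 := (S.cj_K_eq (by rw [conj_mul, hb.sq]; group) (fun e => hb.ne_one one_ne_zero (conj_eq_one_iff.1 e))
    (conj_mem_cj g (hb.memK 1)) h1).1
  have h3 := mul_mem (inv_mem (h2 ▸ hg r)) (e' ▸ conj_mem_cj g (hb.memK r))
  rw [mul_inv_rev, mul_assoc, inv_mul_cancel_left, inv_eq_of_mul_eq_one_right (c2_sq _ _)] at h3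
  have h4 : S.e1 (r * a) (r * c) * S.e1 a' c' = 1 := by
    by_contra h5
    exact hb.noV _ (mul_mem (S.mem _) (S.mem _)) ⟨by rw [c2_e1, c2_sq], h5, g, h3⟩
  rw [e', ← inv_eq_of_mul_eq_one_right h4, inv_eq_of_mul_eq_one_right (c2_sq _ _)]

theorem C2T.mul {g g' : G} {e e' : F4 × F4} (hg : g ∈ 𝒞(S.E1)) (h : C2T S ρ g e) (h' : C2T S ρ g' e') :
    C2T S ρ (g * g') (e + e') := fun r => by
  rw [show g * g' * ρ r * (g * g')⁻¹ = g * (g' * ρ r * g'⁻¹) * g⁻¹ by group, h', ← conj_mul, h,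
    conj_eq_of_mem hg (S.mem_E1.2 ⟨_, _, rfl⟩), mul_assoc, c2_e1, Prod.fst_add, Prod.snd_add, mul_add, mul_add]

theorem C2T.inv {g : G} {e : F4 × F4} (hg : g ∈ 𝒞(S.E1)) (h : C2T S ρ g e) : C2T S ρ g⁻¹ e := fun r => by
  calc _ = g⁻¹ * (ρ r * S.e1 (r * e.1) (r * e.2) * S.e1 (r * e.1) (r * e.2)) * g := by
        rw [mul_assoc (ρ r), c2_sq]; group
    _ = g⁻¹ * (g * ρ r * g⁻¹) * (S.e1 (r * e.1) (r * e.2) * g) := by rw [h r]; group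
    _ = _ := by rw [comm_of_mem hg (S.mem_E1.2 ⟨_, _, rfl⟩)]; group

theorem C2T.uniq {g : G} {e e' : F4 × F4} (h : C2T S ρ g e) (h' : C2T S ρ g e') : e = e' := by
  have := S.inj (mul_left_cancel ((h 1).symm.trans (h' 1)))
  simp only [one_mul, Heis.mk.injEq, true_and] at this
  exact Prod.ext this.1 this.2

theorem c2_zero {g : G} : C2T S ρ g 0 ↔ ∀ r, g * ρ r = ρ r * g := forall_congr' fun r => by
  rw [Prod.fst_zero, Prod.snd_zero, mul_zero, show S.e1 0 0 = 1 from map_one S.ι, mul_one, mul_inv_eq_iff_eq_mul]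

theorem c2_ker (h1 : S.Bas1) (hb : S.BD ρ O) {n : G} (hn : n ∈ 𝒞(S.E1)) (h : C2T S ρ n 0) :
    ∃ a c r, ∃ o ∈ O, n = S.e1 a c * ρ r * o := by
  rw [c2_zero] at h
  obtain ⟨a, c, e⟩ := h1.cE1 n (c1_N hb h) hn
  obtain ⟨r, o, ho, e'⟩ := hb.O_dec _ e fun x hx => by
    obtain ⟨r, rfl⟩ := (hb.memR x).1 hx
    exact (Commute.mul_left (hb.comm r (S.mem _)) (h r)).eq.symm
  exact ⟨a, c, r, o, ho, by rw [mul_assoc, ← e', ← mul_assoc, c2_sq, one_mul]⟩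

theorem c2_two (hb : S.BD ρ O) {s o : G} (hs : s ∈ 𝒞(O)) (ho : o ∈ O) (h : Two s) (h' : Two (s * o)) : o = 1 := by
  obtain ⟨m, h⟩ := h
  obtain ⟨n, h'⟩ := h'
  refine eq_one_of_coprime_of_pow (k := m + n) (c1_odd hb ho) ?_
  have : (s * o) ^ 2 ^ (m + n) = 1 := by rw [pow_add, mul_comm, pow_mul, h', one_pow]
  rwa [(show Commute o s from comm_of_mem hs ho).symm.mul_pow, pow_add 2 m, pow_mul s, h, one_pow, one_mul,
    ← pow_add] at this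

theorem c2S : C2S.{u} := by
  intro G _ _ S ρ O h1 hb ⟨y, hy, yρ⟩
  classical
  let C : Subgroup G :=
    { carrier := {g | g ∈ 𝒞(S.E1) ∧ g ∈ 𝒞(O) ∧ ∃ e, C2T S ρ g e}
      one_mem' := ⟨one_mem _, one_mem _, 0, c2_zero.2 fun r => by simp⟩
      mul_mem' := fun ⟨a1, a2, _, a3⟩ ⟨b1, b2, _, b3⟩ => ⟨mul_mem a1 b1, mul_mem a2 b2, _, a3.mul a1 b3⟩
      inv_mem' := fun ⟨a1, a2, _, a3⟩ => ⟨inv_mem a1, inv_mem a2, _, a3.inv a1⟩ }
  let τ : G → F4 × F4 := fun g => if h : ∃ e, C2T S ρ g e then h.choose else 0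
  have hτ : ∀ g e, C2T S ρ g e → τ g = e := fun g e h => by
    simp only [τ, dif_pos (⟨e, h⟩ : ∃ e, C2T S ρ g e)]
    exact (Exists.choose_spec (⟨e, h⟩ : ∃ e, C2T S ρ g e)).uniq h
  have bO : ∀ a c r, S.e1 a c * ρ r ∈ 𝒞(O) := fun a c r => mul_mem (c1_O hb (S.mem _)) (c1_ρ hb r)
  have b2 : ∀ a c r, (S.e1 a c * ρ r) ^ 2 = 1 := fun a c r => by
    rw [(show Commute (S.e1 a c) _ from hb.comm r (S.mem _)).mul_pow, sq, sq, c2_sq, hb.sq, one_mul]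
  have hE : S.E1 ≤ S.A := fun x hx => by
    obtain ⟨a, c, rfl⟩ := S.mem_E1.1 hx
    exact S.mem _
  have bC : ∀ a c r, S.e1 a c * ρ r ∈ C := fun a c r => ⟨mul_mem (fun x hx => by
    obtain ⟨a', c', rfl⟩ := S.mem_E1.1 hx
    rw [c2_e1, c2_e1, add_comm a, add_comm c]) (cent_mono hE (hb.memK r)), bO a c r, 0, c2_zero.2 fun s =>
      (Commute.mul_left (hb.comm s (S.mem _)) (show ρ r * ρ s = _ by rw [← hb.add, add_comm, hb.add])).eq⟩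
  obtain ⟨Q, hQ⟩ := exists_isSylowIn 2 C
  have dec : ∀ g ∈ C, ∃ q ∈ Q, ∃ o ∈ O, q * o = g := fun g hg => by
    obtain ⟨q, hq, o, ho, e⟩ := exists_syl_mul_res hQ hg
    refine ⟨q, hq, o, res_le_of_pow (L := C) (fun x ⟨a1, _, e, a3⟩ => ⟨2, ?_⟩) ho, e⟩
    obtain ⟨a, c, r, o, ho, e'⟩ := c2_ker h1 hb (mul_mem a1 a1) (by
      have := a3.mul a1 a3
      rwa [show e + e = 0 from Prod.ext (f4_add _) (f4_add _)] at this)
    rw [show x ^ 2 ^ 2 = (x * x) ^ 2 by rw [← sq x, ← pow_mul]; rfl, e',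
      (show Commute o _ from comm_of_mem (bO a c r) ho).symm.mul_pow, b2, one_mul]
    exact pow_mem ho 2
  have tQ : ∀ q ∈ Q, Two q := isPGroup_iff_forall.1 hQ.isPGroup
  have mQ : ∀ g ∈ C, Two g → g ∈ Q := fun g hg h => by
    obtain ⟨q, hq, o, ho, rfl⟩ := dec g hg
    rwa [c2_two hb (hQ.le hq).2.1 ho (tQ q hq) h, mul_one]
  have onto : ∀ e, ∃ q ∈ Q, C2T S ρ q e := fun e => by
    by_cases he : e.1 = 0 ∧ e.2 = 0
    · exact ⟨1, one_mem _, (Prod.ext he.1 he.2 : e = 0) ▸ c2_zero.2 fun r => by simp⟩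
    obtain ⟨m, hm, p, q, -, hp⟩ := h1.sl2 _ _ he
    have a1 : C2T S ρ (m * y * m⁻¹) e := fun r => by
      rw [conj_inv, ← mul_inv_cancel_right (ρ r) m, ← hb.comm r hm, conj_mul, conj_mul, yρ, ← conj_mul, hp]
      simp [mul_comm]
    have a2 : m ∈ 𝒩(S.E1) := mem_norm_of_cj_le (by
      rintro _ ⟨x, hx, rfl⟩
      obtain ⟨a, c, rfl⟩ := S.mem_E1.1 hx
      exact S.mem_E1.2 ⟨_, _, hp a c⟩)
    obtain ⟨q, hq, o, ho, e'⟩ := dec (m * y * m⁻¹) ⟨conj_mem (norm_le_norm_cent _ a2) (fun x hx => by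
      obtain ⟨a, c, rfl⟩ := S.mem_E1.1 hx
      exact hy.1 _ ⟨_, rfl⟩), mul_mem (mul_mem (c1_O hb hm) hy.2) (inv_mem (c1_O hb hm)), e, a1⟩
    refine ⟨q, hq, fun r => ?_⟩
    rw [← a1 r, ← e', mul_assoc q o, c1_ρ hb r o ho]
    group
  refine ⟨Q, τ, hQ.isPGroup, fun q hq => (hQ.le hq).1, fun q hq => (hQ.le hq).2.1, fun q hq => ?_,
    fun e => (onto e).imp fun q h => ⟨h.1, hτ q e h.2⟩, fun q hq h => ?_, fun g hg h2 h => ?_⟩
  · obtain ⟨e, h⟩ := (hQ.le hq).2.2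
    rw [hτ q e h]
    exact h
  · obtain ⟨e, h'⟩ := (hQ.le hq).2.2
    rw [hτ q e h'] at h
    obtain ⟨a, c, r, o, ho, e'⟩ := c2_ker h1 hb (hQ.le hq).1 (h ▸ h')
    exact ⟨a, c, r, by rw [e', c2_two hb (bO a c r) ho ⟨1, b2 a c r⟩ (e' ▸ tQ q hq), mul_one]⟩
  · obtain ⟨e, h'⟩ := c2_rg hb h
    obtain ⟨q, hq, h3⟩ := onto e
    have a1 := (hQ.le hq).1
    obtain ⟨a, c, r, o, ho, e'⟩ := c2_ker h1 hb (mul_mem (inv_mem a1) hg) (by
      have := (h3.inv a1).mul (inv_mem a1) h'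
      rwa [show e + e = 0 from Prod.ext (f4_add _) (f4_add _)] at this)
    have a2 := mul_mem hq (mQ _ (bC a c r) ⟨1, b2 a c r⟩)
    rw [inv_mul_eq_iff_eq_mul, ← mul_assoc] at e'
    rwa [e', c2_two hb (hQ.le a2).2.1 ho (tQ _ a2) (e' ▸ h2), mul_one]

end CL.LS
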