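/-
Project LS: the involutions `x l`.
-/
import Cfsg.Agent.LS.Defs

set_option autoImplicit false
set_option linter.unusedSectionVars false
open Cfsg Subgroup CL.Even CL.Grp CL.L34
open scoped commutatorElement

namespace CL.LS

universe u

namespace C3

variable {G : Type u} [Group G] {S : SD G} {ρ : F4 → G} {O Q : Subgroup G} {τ : G → F4 × F4} {q q' y y' n : G}
  {t t' l l' : F4}

/-- `q ∈ Q` with `τ q = (t, l)` -/
def T (S : SD G) (ρ : F4 → G) (Q : Subgroup G) (q : G) (t l : F4) : Prop :=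
  q ∈ Q ∧ ∀ r, q * ρ r * q⁻¹ = ρ r * S.e1 (r * t) (r * l)

/-- `y ∈ Q ∩ C(U)` with `τ y = (0, l)` -/
def Y (S : SD G) (ρ : F4 → G) (Q : Subgroup G) (y : G) (l : F4) : Prop :=
  T S ρ Q y 0 l ∧ ∀ p, S.ι p * y = y * S.ι p

theorem e1_mul (a c a' c' : F4) : S.e1 a c * S.e1 a' c' = S.e1 (a + a') (c + c') := by
  rw [← map_mul]; simp [Heis.mul_def]

theorem e1_zero : S.e1 0 0 = 1 := map_one S.ι

theorem e1_sq (a c : F4) : S.e1 a c * S.e1 a c = 1 := by rw [e1_mul, f4_add, f4_add, e1_zero]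

theorem e1_inv (a c : F4) : (S.e1 a c)⁻¹ = S.e1 a c := inv_eq_of_mul_eq_one_right (e1_sq a c)

theorem h_e1 (a c : F4) : S.h * S.e1 a c * S.h⁻¹ = S.e1 (om * a) (om * om * c) := by rw [S.ah]; simp [dg]

theorem s_e1 (b a c : F4) : S.e2 b 0 * S.e1 a c * (S.e2 b 0)⁻¹ = S.e1 a (c + a * b) := by
  rw [← map_inv, ← map_mul, ← map_mul]
  exact congrArg S.ι ((by decide +kernel : ∀ b a c : F4,
    (⟨0, b, 0⟩ * ⟨a, 0, c⟩ * ⟨0, b, 0⟩⁻¹ : Heis F4) = ⟨a, 0, c + a * b⟩) b a c)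

theorem s_mul (b b' : F4) : S.e2 (b + b') 0 = S.e2 b 0 * S.e2 b' 0 := by rw [← map_mul]; simp [Heis.mul_def]

variable (hb : S.BD ρ O) (hq : S.QD ρ O Q τ)
include hb

theorem uniq {r r' a a' c c' : F4} (e : ρ r * S.e1 a c = ρ r' * S.e1 a' c') : r = r' ∧ a = a' ∧ c = c' := by
  have e1 : S.e1 a c * (S.e1 a' c')⁻¹ = (ρ r)⁻¹ * ρ r' := by rw [mul_inv_eq_iff_eq_mul, mul_assoc, ← e]; group
  have e2 := e1 ▸ S.K.mul_mem (S.K.inv_mem (hb.memK r)) (hb.memK r')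
  rw [← map_inv, ← map_mul] at e2
  have e3 := Heis.mk.inj (mul_inv_eq_one.1 (S.ι_K e2))
  rw [e3.1, e3.2.2] at e
  exact ⟨hb.inj (mul_right_cancel e), e3.1, e3.2.2⟩

include hq

omit hb in
theorem cm (h : q ∈ Q) (a c : F4) : S.e1 a c * q = q * S.e1 a c := comm_of_mem (hq.cE h) (S.mem_E1.2 ⟨a, c, rfl⟩)

omit hb in
theorem T.mul (h : T S ρ Q q t l) (h' : T S ρ Q q' t' l') : T S ρ Q (q * q') (t + t') (l + l') :=
  ⟨Q.mul_mem h.1 h'.1, fun r => by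
    calc _ = q * (q' * ρ r * q'⁻¹) * q⁻¹ := by group
      _ = q * ρ r * q⁻¹ * S.e1 (r * t') (r * l') := by
        rw [h'.2, mul_assoc _ q⁻¹, ← cm hq (Q.inv_mem h.1)]; group
      _ = _ := by rw [h.2, mul_assoc, e1_mul, mul_add, mul_add]⟩

omit hb in
theorem T.inv (h : T S ρ Q q t l) : T S ρ Q q⁻¹ t l :=
  ⟨Q.inv_mem h.1, fun r => by
    calc _ = q⁻¹ * (q * ρ r * q⁻¹ * S.e1 (r * t) (r * l)) * q := by rw [h.2, mul_assoc (ρ r), e1_sq]; group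
      _ = ρ r * q⁻¹ * (S.e1 (r * t) (r * l) * q) := by group
      _ = _ := by rw [cm hq h.1]; group⟩

theorem T.ker (h : T S ρ Q q 0 0) : ∃ r a c, q = ρ r * S.e1 a c := by
  have := uniq hb ((hq.act q h.1 1).symm.trans (h.2 1))
  simp only [one_mul] at this
  obtain ⟨a, c, r, e⟩ := hq.ker q h.1 (Prod.ext this.2.1 this.2.2)
  exact ⟨r, a, c, e.trans (hb.comm r (S.mem _))⟩

theorem T.conj (h : T S ρ Q q t l) (hn : n ∈ S.A) (h1 : ∀ a c, ∃ a' c', n * S.e1 a' c' * n⁻¹ = S.e1 a c)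
    (h2 : ∀ r, n * S.e1 (r * t) (r * l) * n⁻¹ = S.e1 (r * t') (r * l')) : T S ρ Q (n * q * n⁻¹) t' l' := by
  have h3 : ∀ r, n * q * n⁻¹ * ρ r * (n * q * n⁻¹)⁻¹ = ρ r * S.e1 (r * t') (r * l') := fun r => by
    calc _ = n * q * (n⁻¹ * ρ r) * n * q⁻¹ * n⁻¹ := by group
      _ = n * (q * ρ r * q⁻¹) * n⁻¹ := by rw [hb.comm r (S.A.inv_mem hn)]; group
      _ = _ := by rw [h.2, ← h2, ← mul_assoc, hb.comm r hn]; group
  obtain ⟨k, hk⟩ := hq.two ⟨q, h.1⟩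
  refine ⟨hq.mem _ (mem_centralizer_iff.2 fun x hx => ?_)
    ⟨k, by rw [conj_pow, show q ^ 2 ^ k = 1 from congrArg Subtype.val hk]; group⟩ fun r => ⟨_, _, h3 r⟩, h3⟩
  obtain ⟨a, c, rfl⟩ := S.mem_E1.1 hx
  obtain ⟨a', c', e⟩ := h1 a c
  rw [← e]
  calc _ = n * (S.e1 a' c' * q) * n⁻¹ := by group
    _ = _ := by rw [cm hq h.1]; group

omit hb in
theorem Y.mul (h : Y S ρ Q y l) (h' : Y S ρ Q y' l') : Y S ρ Q (y * y') (l + l') :=
  ⟨by simpa using h.1.mul hq h'.1, fun p => by rw [← mul_assoc, h.2, mul_assoc, h'.2, mul_assoc]⟩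

theorem Y.h (h : Y S ρ Q y l) : Y S ρ Q (S.h * y * S.h⁻¹) (om * om * l) := by
  refine ⟨h.1.conj hb hq S.hA (fun a c => ⟨om * om * a, om * c, (h_e1 _ _).trans ?_⟩) fun r => (h_e1 _ _).trans ?_,
    fun p => ?_⟩
  · rw [(by decide +kernel : ∀ a, om * (om * om * a) = a), (by decide +kernel : ∀ c, om * om * (om * c) = c)]
  · rw [mul_zero, mul_zero, mul_left_comm]
  · obtain ⟨p, rfl⟩ := (by decide +kernel : Function.Surjective (dg om om)) p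
    rw [← S.ah]
    calc _ = S.h * (S.ι p * y) * S.h⁻¹ := by group
      _ = _ := by rw [h.2]; group

theorem dec (h : T S ρ Q q 0 l) (hy : Y S ρ Q y l) : ∃ r a c, q = y * (ρ r * S.e1 a c) := by
  obtain ⟨r, a, c, e⟩ := T.ker hb hq (by simpa only [f4_add] using (hy.1.inv hq).mul hq h)
  exact ⟨r, a, c, by rw [← e]; group⟩

theorem nf_mul (hy : Y S ρ Q y' l') (r a c r' a' c' : F4) : y * (ρ r * S.e1 a c) * (y' * (ρ r' * S.e1 a' c')) =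
    y * y' * (ρ (r + r') * S.e1 (a + a') (r * l' + c + c')) := by
  have e := (hy.1.inv hq).2 r
  rw [mul_zero, inv_inv] at e
  calc _ = y * ρ r * (S.e1 a c * y') * ρ r' * S.e1 a' c' := by group
    _ = y * y' * (y'⁻¹ * ρ r * y' * S.e1 a c * ρ r') * S.e1 a' c' := by rw [hy.2]; group
    _ = _ := by
      rw [e, mul_assoc (ρ r), e1_mul, zero_add, mul_assoc (ρ r), hb.comm r' (S.mem _), hb.add, ← e1_mul]; group

omit hq in
theorem s_nf (hy : Y S ρ Q y l) (b r a c : F4) :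
    S.e2 b 0 * (y * (ρ r * S.e1 a c)) * (S.e2 b 0)⁻¹ = y * (ρ r * S.e1 a (c + a * b)) := by
  rw [← s_e1, ← mul_assoc, hy.2, mul_assoc y, ← mul_assoc (S.e2 b 0), hb.comm r (S.mem _)]; group

theorem nb (h : T S ρ Q q 1 0) (hy : Y S ρ Q y l) : ∃ r a c, S.e2 l 0 * q * (S.e2 l 0)⁻¹ * q⁻¹ = y * (ρ r * S.e1 a c) ∧
    y * y = S.e1 0 ((a + r) * l) := by
  have h1 : T S ρ Q (S.e2 l 0 * q * (S.e2 l 0)⁻¹) 1 l := h.conj hb hq (S.mem _)
    (fun a c => ⟨a, c + a * l, by rw [s_e1, add_assoc, f4_add, add_zero]⟩) fun r => by rw [s_e1]; simp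
  obtain ⟨r, a, c, e⟩ := dec hb hq (by simpa only [f4_add, add_zero] using h1.mul hq (h.inv hq)) hy
  refine ⟨r, a, c, e, ?_⟩
  have h2 : S.e2 l 0 * S.e2 l 0 = 1 := by rw [← s_mul, f4_add]; exact map_one S.ι
  have h3 := nf_mul (y := y) hb hq hy r a (c + a * l) r a c
  rw [← s_nf hb hy, ← e, f4_add, f4_add, hb.zero, one_mul, ← eq_inv_of_mul_eq_one_left h2,
    show r * l + (c + a * l) + c = (a + r) * l by linear_combination f4_add c] at h3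
  rw [← e1_inv, ← mul_eq_one_iff_eq_inv, ← h3]
  simp only [mul_assoc, inv_mul_cancel_left, mul_inv_cancel,
    show ∀ g, S.e2 l 0 * (S.e2 l 0 * g) = g from fun g => by rw [← mul_assoc, h2, one_mul]]

variable [Finite G]

theorem h3 (h : q ∈ Q) : S.h * (S.h * (S.h * q * S.h⁻¹) * S.h⁻¹) * S.h⁻¹ = q := by
  obtain ⟨r, o, ho, e⟩ := hb.O_dec _ S.h3 (mem_centralizer_iff.2 fun x hx => by
    obtain ⟨r, rfl⟩ := (hb.memR x).1 hx
    exact (hb.comm r (S.A.pow_mem S.hA 3)).symm)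
  have h1 : (S.h ^ 3) ^ 2 = o ^ 2 := by
    rw [e, Commute.mul_pow (comm_of_mem (hb.O_le ho).2 ((hb.memR _).2 ⟨r, rfl⟩)), sq, hb.sq, one_mul]
  obtain ⟨k, hk⟩ := S.ho
  have h2 : S.h ^ 3 = (o ^ 2) ^ (k + 1) := by
    rw [← h1, ← pow_mul _ 2, show 2 * (k + 1) = orderOf S.h + 1 by omega, pow_succ _ (orderOf S.h), ← pow_mul,
      mul_comm 3, pow_mul, pow_orderOf_eq_one, one_pow, one_mul]
  have h4 := comm_of_mem (hq.cO h) (O.pow_mem (O.pow_mem ho 2) (k + 1))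
  calc _ = S.h ^ 3 * q * (S.h ^ 3)⁻¹ := by rw [pow_three]; group
    _ = _ := by rw [h2, h4]; group

theorem exists_y (ht : S.TrE ρ O) : ∃ y, Y S ρ Q y 1 := by
  obtain ⟨y, hy, h⟩ := ht
  replace h : ∀ r, y * ρ r * y⁻¹ = ρ r * S.e1 0 r := h
  obtain ⟨n, _, ⟨k, rfl⟩, e⟩ := Nat.exists_eq_two_pow_mul_odd (orderOf_pos y).ne'
  have h1 : ∀ p, S.ι p * y = y * S.ι p := fun p => comm_of_mem hy.1 ⟨p, rfl⟩
  have h2 : ∀ r, Commute (y ^ 2) (ρ r) := fun r => mul_inv_eq_iff_eq_mul.1 (by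
    calc _ = y * (y * ρ r * y⁻¹) * y⁻¹ := by rw [sq]; group
      _ = y * ρ r * y⁻¹ * (y * S.e1 0 r * y⁻¹) := by nth_rewrite 1 [h]; group
      _ = _ := by rw [h, ← h1, mul_inv_cancel_right, mul_assoc, e1_sq, mul_one])
  have h3 : ∀ p, S.ι p * y ^ (2 * k + 1) = y ^ (2 * k + 1) * S.ι p := fun p => (Commute.pow_right (h1 p) _).eq
  have h4 : ∀ r, y ^ (2 * k + 1) * ρ r * (y ^ (2 * k + 1))⁻¹ = ρ r * S.e1 (r * 0) (r * 1) := fun r => by
    calc _ = y * ((y ^ 2) ^ k * ρ r) * ((y ^ 2) ^ k)⁻¹ * y⁻¹ := by group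
      _ = _ := by rw [((h2 r).pow_left k).eq, mul_zero, mul_one, ← h]; group
  exact ⟨_, ⟨hq.mem _ (mem_centralizer_iff.2 fun x hx => by obtain ⟨a, c, rfl⟩ := S.mem_E1.1 hx; exact h3 _)
    ⟨n, by rw [← pow_mul, mul_comm, ← e, pow_orderOf_eq_one]⟩ fun r => ⟨_, _, h4 r⟩, h4⟩, h3⟩

theorem three (ht : S.TrE ρ O) : ∃ x1 x2 x3, Y S ρ Q x1 1 ∧ Y S ρ Q x2 (om * om) ∧ Y S ρ Q x3 om ∧
    S.h * x1 * S.h⁻¹ = x2 ∧ S.h * x2 * S.h⁻¹ = x3 ∧ S.h * x3 * S.h⁻¹ = x1 ∧ x1 * x1 = 1 ∧ x1 * x2 * x3 = 1 := by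
  have w1 : om * om * 1 = om * om := mul_one _
  have w2 : om * om * (om * om) = om := by decide +kernel
  have w3 : om * om + om = 1 := by decide +kernel
  obtain ⟨q, hq1, e⟩ := hq.onto (1, 0)
  have hT : T S ρ Q q 1 0 := ⟨hq1, fun r => by simpa only [e] using hq.act q hq1 r⟩
  obtain ⟨y0, h0⟩ := exists_y hb hq ht
  have ha := w1 ▸ h0.h hb hq
  have hc := w2 ▸ ha.h hb hq
  have a0 := h3 hb hq h0.1.1
  obtain ⟨_, _, _, -, s0⟩ := nb hb hq hT h0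
  obtain ⟨_, _, _, -, sa⟩ := nb hb hq hT ha
  obtain ⟨_, _, _, -, sc⟩ := nb hb hq hT hc
  generalize ea : S.h * y0 * S.h⁻¹ = ya at *
  generalize ec : S.h * ya * S.h⁻¹ = yc at *
  have h1 := w3 ▸ ha.mul hq hc
  have h2 := w1 ▸ h1.h hb hq
  have h3 := w2 ▸ h2.h hb hq
  have e2 : S.h * (ya * yc) * S.h⁻¹ = yc * y0 := by rw [← conj_mul, ec, a0]
  have e3 : S.h * (yc * y0) * S.h⁻¹ = y0 * ya := by rw [← conj_mul, a0, ea]
  have e1 : S.h * (y0 * ya) * S.h⁻¹ = ya * yc := by rw [← conj_mul, ea, ec]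
  rw [e2] at h2 h3
  rw [e3] at h3
  obtain ⟨c, p1⟩ : ∃ c, ya * yc * (yc * y0) * (y0 * ya) = S.e1 0 c := ⟨_, by
    calc _ = ya * ((yc * yc) * (y0 * y0)) * ya := by group
      _ = _ := by rw [sc, s0, e1_mul, ← ha.2, mul_assoc, sa, e1_mul, add_zero, add_zero]⟩
  generalize ya * yc = x1 at *
  generalize yc * y0 = x2 at *
  generalize y0 * ya = x3 at *
  have p2 : x2 * x3 * x1 = S.e1 0 c := by
    calc _ = x1⁻¹ * (x1 * x2 * x3 * x1) := by group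
      _ = _ := by rw [p1, h1.2]; group
  have p3 := h_e1 (S := S) 0 c
  rw [← p1, ← conj_mul, ← conj_mul, e1, e2, e3, p2] at p3
  obtain rfl := (by decide +kernel : ∀ c, c = om * om * c → c = 0) c (Heis.mk.inj (S.inj p3)).2.2
  refine ⟨x1, x2, x3, h1, h2, h3, e2, e3, e1, ?_, p1.trans e1_zero⟩
  obtain ⟨r1, a1, c1, n1, s1⟩ := nb hb hq hT h1
  obtain ⟨r2, a2, c2, n2, s2⟩ := nb hb hq hT h2
  obtain ⟨r3, a3, c3, n3, s3⟩ := nb hb hq hT h3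
  have b2 := h_e1 (S := S) 0 ((a1 + r1) * 1)
  rw [← s1, ← conj_mul, e2, s2] at b2
  have b3 := h_e1 (S := S) 0 ((a2 + r2) * (om * om))
  rw [← s2, ← conj_mul, e3, s3] at b3
  have b4 : x3 * x1 = x2 * S.e1 0 ((a2 + r2) * (om * om)) := by
    rw [← e1_inv, ← s2]
    calc _ = x2⁻¹ * (x2 * x3 * x1) := by group
      _ = _ := by rw [p2, e1_zero]; group
  have b5 : S.e2 (om * om) 0 * q * (S.e2 (om * om) 0)⁻¹ * q⁻¹ = S.e2 1 0 * (S.e2 om 0 * q * (S.e2 om 0)⁻¹ * q⁻¹) *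
      (S.e2 1 0)⁻¹ * (S.e2 1 0 * q * (S.e2 1 0)⁻¹ * q⁻¹) := by
    rw [(by decide +kernel : om * om = 1 + om), s_mul]; group
  rw [n1, n2, n3, s_nf hb h3, nf_mul hb hq h1, b4, mul_assoc x2, mul_right_inj, ← mul_assoc, hb.comm _ (S.mem _),
    mul_assoc, e1_mul] at b5
  obtain ⟨rfl, b6, -⟩ := uniq hb b5
  rw [zero_add] at b6
  subst b6
  rw [s1, (by decide +kernel : ∀ a1 r1 a3 r3 : F4, (a3 + a1 + (r3 + r1)) * (om * om) = om * om * ((a1 + r1) * 1) →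
    (a3 + r3) * om = om * om * ((a3 + a1 + (r3 + r1)) * (om * om)) → (a1 + r1) * 1 = 0) _ _ _ _
    (Heis.mk.inj (S.inj b2)).2.2 (Heis.mk.inj (S.inj b3)).2.2]
  exact e1_zero

end C3

theorem c3S : C3S.{u} := fun G _ _ S ρ O Q τ _ hb ht hq => by
  obtain ⟨x1, x2, x3, h1, h2, h3, e1, e2, e3, s1, p⟩ := C3.three hb hq ht
  have s2 : x2 * x2 = 1 := by rw [← e1, conj_mul, s1]; group
  have s3 : x3 * x3 = 1 := by rw [← e2, conj_mul, s2]; group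
  have a1 : x3 * x1 = x2 := by
    calc _ = x1⁻¹⁻¹⁻¹ * (x1 * x3 * x1) := by group
      _ = _ := by
        rw [eq_inv_of_mul_eq_one_right p, mul_inv_rev, inv_eq_of_mul_eq_one_right s2, inv_eq_of_mul_eq_one_right s1,
          inv_eq_of_mul_eq_one_right s1, inv_eq_of_mul_eq_one_right s1, mul_assoc, mul_assoc, s1, mul_one,
          ← mul_assoc, s1, one_mul]
  have a2 : x1 * x3 = x2 := by
    rw [← inv_eq_of_mul_eq_one_right s2, ← a1, mul_inv_rev, inv_eq_of_mul_eq_one_right s1,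
      inv_eq_of_mul_eq_one_right s3]
  have a3 : ∀ g : G, g * g = 1 → ∀ a b : ZMod 2, g ^ (a + b).val = g ^ a.val * g ^ b.val := fun g e a b => by
    rw [ZMod.val_add, ← pow_add, ← pow_eq_pow_mod _ ((sq g).trans e)]
  let x : F4 → G := fun l => x1 ^ l.re.val * x3 ^ l.im.val
  have b0 : x 0 = 1 := by change x1 ^ 0 * x3 ^ 0 = 1; simp
  have b1 : x 1 = x1 := by change x1 ^ 1 * x3 ^ 0 = _; simp
  have b2 : x (om * om) = x2 := by change x1 ^ 1 * x3 ^ 1 = _; simp [a2]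
  have b3 : x om = x3 := by change x1 ^ 0 * x3 ^ 1 = _; simp
  have hY : ∀ l, C3.Y S ρ Q (x l) l := fun l => by
    rcases f4_cases l with rfl | rfl | rfl | rfl
    · exact b0 ▸ ⟨⟨one_mem _, fun r => by simp [C3.e1_zero]⟩, by simp⟩
    exacts [b1 ▸ h1, b3 ▸ h3, b2 ▸ h2]
  refine ⟨x, fun l l' => ?_, fun l => mem_centralizer_iff.2 ?_, fun l => hq.cO (hY l).1.1,
    fun l r => by rw [(hY l).1.2, mul_zero, mul_comm l], fun l => ?_⟩
  · simp only [x, QuadraticAlgebra.re_add, QuadraticAlgebra.im_add, a3 _ s1, a3 _ s3]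
    exact (Commute.pow_pow (a2.trans a1.symm) _ _).mul_mul_mul_comm _ _
  · rintro _ ⟨p, rfl⟩; exact (hY l).2 p
  · rcases f4_cases l with rfl | rfl | rfl | rfl
    · rw [mul_zero, b0]; group
    · rw [mul_one, b1, b2, e1]
    · rw [(by decide +kernel : om * om * om = 1), b3, b1, e3]
    · rw [(by decide +kernel : om * om * (om * om) = om), b2, b3, e2]

end CL.LS
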