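/-
Project LS: the action of `Q₁` on `W / V`.
-/
import Cfsg.Agent.LS.Defs

set_option autoImplicit false
set_option linter.unusedSectionVars false
open Cfsg Subgroup CL.Even CL.Grp CL.L34
open scoped commutatorElement

namespace CL.LS

universe u

namespace C4x

open SD

variable {G : Type u} [Group G] [Finite G] {S : SD G} {ρ x : F4 → G} {O Q : Subgroup G} {τ : G → F4 × F4} {q q' : G}

theorem e1_mul (a c a' c' : F4) : S.e1 a c * S.e1 a' c' = S.e1 (a + a') (c + c') := by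
  rw [← map_mul]; simp [Heis.mul_def]

theorem e1_sq (a c : F4) : S.e1 a c * S.e1 a c = 1 := by rw [e1_mul, f4_add, f4_add]; exact map_one _

theorem e2_sq (b : F4) : S.e2 b 0 * S.e2 b 0 = 1 := by
  rw [← map_mul, ← map_one S.ι]; simp [Heis.mul_def, Heis.one_def, f4_add]

theorem v_one {c : F4} (h : S.v c = 1) : c = 0 := congrArg Heis.c (S.inj (h.trans (map_one _).symm))

theorem two_of_sq {g : G} (h : g * g = 1) : Two g := ⟨1, by rwa [pow_one, sq]⟩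

variable (hb : S.BD ρ O) (hq : S.QD ρ O Q τ) (hx : S.XD ρ O x)

include hb hx in
theorem bf_zero {g u w : G} {y y' : M4} {c c' : F4} (h : g * u * g⁻¹ = S.m ρ x y c) (h' : g * w * g⁻¹ = S.m ρ x y' c')
    (e : u * w = w * u) : bf y y' = 0 := by
  have := m_comm hb hx y y' c c'
  rw [← h, ← h', conj_mul, conj_mul, e, left_eq_mul] at this
  exact v_one this

include hb hx in
theorem qf_zero {g u : G} {y : M4} {c : F4} (h : g * u * g⁻¹ = S.m ρ x y c) (e : u * u = 1) : qf y = 0 := by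
  have := m_sq hb hx y c
  rw [← h, conj_mul, e, mul_one, mul_inv_cancel] at this
  exact v_one this.symm

include hq

theorem ce (h : q ∈ Q) (a c : F4) : S.e1 a c * q = q * S.e1 a c := comm_of_mem (hq.cE h) (S.mem_E1.2 ⟨a, c, rfl⟩)

theorem tau_eq (h : q ∈ Q) {a c : F4} (e : q * ρ 1 * q⁻¹ = ρ 1 * S.e1 a c) : τ q = (a, c) := by
  have := S.inj (mul_left_cancel ((hq.act q h 1).symm.trans e))
  rw [one_mul, one_mul] at this
  exact Prod.ext (congrArg Heis.a this) (congrArg Heis.c this)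

theorem tau_mul (h : q ∈ Q) (h' : q' ∈ Q) : τ (q * q') = τ q + τ q' := tau_eq hq (mul_mem h h') (by
  calc q * q' * ρ 1 * (q * q')⁻¹ = q * (q' * ρ 1 * q'⁻¹) * q⁻¹ := by group
    _ = q * ρ 1 * q⁻¹ * (q * S.e1 (τ q').1 (τ q').2 * q⁻¹) := by rw [hq.act q' h', one_mul, one_mul]; group
    _ = _ := by rw [hq.act q h, ← ce hq h, mul_inv_cancel_right, one_mul, one_mul, mul_assoc, e1_mul])

theorem tau_one : τ 1 = 0 := tau_eq hq (one_mem _) (by simp [e1, ← Heis.one_def])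

theorem tau_inv (h : q ∈ Q) : τ q⁻¹ = τ q := by
  have := tau_mul hq (inv_mem h) h
  rw [inv_mul_cancel, tau_one hq] at this
  exact (by decide +kernel : ∀ a b : F4 × F4, 0 = a + b → a = b) _ _ this

include hb in
theorem nrm {n : G} (hn : n ∈ S.A) (f g : F4 → F4 → F4) (e : ∀ a c, n * S.e1 a c * n⁻¹ = S.e1 (f a c) (g a c))
    (h : q ∈ Q) : n * q * n⁻¹ ∈ Q ∧ τ (n * q * n⁻¹) = (f (τ q).1 (τ q).2, g (τ q).1 (τ q).2) := by
  have h1 : ∀ r, n * q * n⁻¹ * ρ r * (n * q * n⁻¹)⁻¹ =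
      ρ r * S.e1 (f (r * (τ q).1) (r * (τ q).2)) (g (r * (τ q).1) (r * (τ q).2)) := fun r => by
    calc _ = n * (q * (n⁻¹ * ρ r) * n * q⁻¹) * n⁻¹ := by group
      _ = n * (q * ρ r * q⁻¹) * n⁻¹ := by rw [hb.comm r (inv_mem hn)]; group
      _ = _ := by rw [hq.act q h, ← e, ← mul_assoc, hb.comm r hn]; group
  have h2 : n ∈ 𝒩(S.E1) := mem_normalizer_fintype fun y hy => by
    obtain ⟨a, c, rfl⟩ := S.mem_E1.1 hy
    exact S.mem_E1.2 ⟨_, _, e a c⟩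
  obtain ⟨k, hk⟩ := hq.two ⟨q, h⟩
  have h3 := hq.mem _ (conj_mem (norm_le_norm_cent _ h2) (hq.cE h))
    ⟨k, by rw [conj_pow, show q ^ 2 ^ k = 1 from congrArg Subtype.val hk]; simp⟩ fun r => ⟨_, _, h1 r⟩
  exact ⟨h3, tau_eq hq h3 (by simpa only [one_mul] using h1 1)⟩

include hx

theorem x_mem (l : F4) : x l ∈ Q := hq.mem _ (fun y hy => by
  obtain ⟨a, c, rfl⟩ := S.mem_E1.1 hy
  exact hx.comm l _) (two_of_sq (hx.sq l)) fun r => ⟨_, _, hx.act l r⟩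

theorem tau_x (l : F4) : τ (x l) = (0, l) := tau_eq hq (x_mem hq hx l) (by rw [hx.act, mul_one])

theorem ker (h : q ∈ Q) (e : (τ q).1 = 0) : ∃ a r c, q = S.m ρ x (a, 0, r, (τ q).2) c := by
  obtain ⟨a, c, r, h1⟩ := hq.ker _ (mul_mem h (x_mem hq hx (τ q).2)) (by
    rw [tau_mul hq h (x_mem hq hx _), tau_x hq hx]
    exact Prod.ext (by simpa using e) (f4_add _))
  exact ⟨a, r, c, by rw [m, ← h1, mul_assoc, hx.sq, mul_one]⟩

include hb

theorem inv (b1 : S.Bas1) (e : F4 × F4) : ∃ d ∈ Q, d * d = 1 ∧ τ d = e := by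
  by_cases h : e.1 = 0 ∧ e.2 = 0
  · exact ⟨1, one_mem _, one_mul _, (tau_one hq).trans (Prod.ext h.1.symm h.2.symm)⟩
  obtain ⟨n, hn, p, p', -, h1⟩ := b1.sl2 _ _ h
  obtain ⟨h2, h3⟩ := nrm hb hq hn _ _ h1 (x_mem hq hx 1)
  exact ⟨_, h2, by rw [conj_mul, hx.sq]; simp, by rw [h3, tau_x hq hx]; simp⟩

theorem sq' (b1 : S.Bas1) (h : q ∈ Q) : ∃ β, q * q = S.e1 (β * (τ q).1) (β * (τ q).2) := by
  obtain ⟨d, hd, d2, e⟩ := inv hb hq hx b1 (τ q)
  obtain ⟨a, c, r, h1⟩ := hq.ker _ (mul_mem hd h) (by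
    rw [tau_mul hq hd h, e]; exact Prod.ext (f4_add _) (f4_add _))
  refine ⟨r, ?_⟩
  have h2 : q = d * (S.e1 a c * ρ r) := by rw [← h1, ← mul_assoc, d2, one_mul]
  have h3 := hq.act d hd r
  rw [inv_eq_of_mul_eq_one_right d2, e] at h3
  calc q * q = q * d * (S.e1 a c * ρ r) := by rw [mul_assoc, ← h2]
    _ = d * S.e1 a c * ρ r * d * (S.e1 a c * ρ r) := by rw [h2]; group
    _ = S.e1 a c * (d * ρ r * d) * (S.e1 a c * ρ r) := by rw [← ce hq hd]; group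
    _ = S.e1 a c * (ρ r * (S.e1 (r * (τ q).1) (r * (τ q).2) * S.e1 a c)) * ρ r := by rw [h3]; group
    _ = _ := by
      rw [e1_mul, ← hb.comm r (S.mem _), ← mul_assoc, mul_assoc, hb.sq, mul_one, e1_mul, add_left_comm, f4_add,
        add_left_comm, f4_add, add_zero, add_zero]

theorem conj_x (h : q ∈ Q) (l : F4) : ∃ a c, q * x l * q⁻¹ = S.m ρ x (a, 0, 0, l) c := by
  have h1 := mul_mem (mul_mem h (x_mem hq hx l)) (inv_mem h)
  have h2 : τ (q * x l * q⁻¹) = (0, l) := by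
    rw [tau_mul hq (mul_mem h (x_mem hq hx l)) (inv_mem h), tau_mul hq h (x_mem hq hx l), tau_inv hq h, tau_x hq hx]
    exact (by decide +kernel : ∀ a b : F4 × F4, a + b + a = b) _ _
  obtain ⟨a, r, c, e⟩ := ker hq hx h1 (by rw [h2])
  rw [h2] at e
  by_cases hl : l = 0
  · exact ⟨0, 0, by rw [hl, m_x hb, hx.zero]; simp⟩
  obtain rfl : r = 0 := (f4_mul_eq_zero.1 (by simpa [qf] using qf_zero hb hx e (hx.sq l))).resolve_right hl
  exact ⟨a, c, e⟩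

theorem ac_of (h : q ∈ Q) {s c₀ : F4} (e₀ : q * x 1 * q⁻¹ = S.m ρ x (s, 0, 0, 1) c₀) : S.Ac ρ x q (Xa s (τ q).1) := by
  have h1 : ∀ b, ∃ c, q * S.e2 b 0 * q⁻¹ = S.m ρ x (s * (τ q).1 * b, b, s * b, (τ q).1 * b) c := fun b => by
    obtain ⟨h2, h3⟩ := nrm hb hq (S.mem ⟨0, b, 0⟩) (fun a _ => a) (fun a c => c + a * b) (fun a c => by
      rw [← map_inv, ← map_mul, ← map_mul]
      exact congrArg S.ι ((by decide +kernel : ∀ a b c : F4,
        (⟨0, b, 0⟩ * ⟨a, 0, c⟩ * (⟨0, b, 0⟩ : Heis F4)⁻¹ : Heis F4) = ⟨a, 0, c + a * b⟩) a b c)) h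
    have h4 : τ (S.e2 b 0 * q * (S.e2 b 0)⁻¹ * q⁻¹) = (0, (τ q).1 * b) := by
      rw [tau_mul hq h2 (inv_mem h), h3, tau_inv hq h]
      exact Prod.ext (f4_add _) ((by decide +kernel : ∀ a b : F4, a + b + a = b) _ _)
    obtain ⟨a, r, c, e⟩ := ker hq hx (mul_mem h2 (inv_mem h)) (by rw [h4])
    rw [h4, inv_eq_of_mul_eq_one_right (e2_sq b)] at e
    have e' : q * S.e2 b 0 * q⁻¹ = S.m ρ x (a, b, r, (τ q).1 * b) c := by
      calc _ = S.e2 b 0 * (S.e2 b 0 * q * S.e2 b 0 * q⁻¹) := by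
            rw [← mul_assoc, ← mul_assoc, ← mul_assoc, e2_sq, one_mul]
        _ = _ := by rw [e, e2, ← m_u hb hx, m_mul hb hx]; simp
    have h5 := bf_zero hb hx e' e₀ (hx.comm 1 _)
    have h6 := qf_zero hb hx e' (e2_sq b)
    have h7 : b = 0 → a = 0 := fun e0 => by
      rw [e0, e2, ← Heis.one_def, map_one, mul_one, mul_inv_cancel] at e'
      exact congrArg Prod.fst (m_eq_one hb hx e'.symm).1
    obtain ⟨rfl, rfl⟩ := (by decide +kernel : ∀ a b r s t : F4, bf (a, b, r, t * b) (s, 0, 0, 1) = 0 →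
      qf (a, b, r, t * b) = 0 → (b = 0 → a = 0) → a = s * t * b ∧ r = s * b) a b r s _ h5 h6 h7
    exact ⟨c, e'⟩
  rintro ⟨a, b, r, l⟩ c
  obtain ⟨c₁, e₁⟩ := h1 b
  obtain ⟨c₂, e₂⟩ := h1 1
  obtain ⟨a₃, c₃, e₃⟩ := conj_x hb hq hx h l
  obtain rfl := (by decide +kernel : ∀ a l s t : F4, bf (s * t * 1, 1, s * 1, t * 1) (a, 0, 0, l) = 0 → a = s * l)
    a₃ l s _ (bf_zero hb hx e₂ e₃ (hx.comm l _))
  have e₄ : q * ρ r * q⁻¹ = S.m ρ x (r * (τ q).1, 0, r, 0) (r * (τ q).2) := by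
    rw [hq.act q h, m, hx.zero, mul_one, hb.comm r (S.mem _)]
  have e₅ : q * S.e1 a c * q⁻¹ = S.m ρ x (a, 0, 0, 0) c := by rw [← ce hq h, mul_inv_cancel_right, m_u hb hx]
  have e₆ : S.m ρ x (a, b, r, l) c = S.e2 b 0 * S.e1 a c * ρ r * x l := by
    rw [m, ← map_mul]; simp [Heis.mul_def]
  rw [e₆, ← conj_mul (b := q), ← conj_mul (b := q), ← conj_mul (b := q), e₁, e₅, e₄, e₃, m_mul hb hx, m_mul hb hx,
    m_mul hb hx]
  refine ⟨_, congrArg (S.m ρ x · _) ?_⟩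
  simp only [Xa, Prod.mk_add_mk, Prod.mk.injEq]
  exact ⟨by ring, by ring, by ring, by ring⟩

theorem ac_same {f : M4 → M4} (h : q ∈ Q) (h' : q' ∈ Q) (e : (τ q).1 = (τ q').1) (a : S.Ac ρ x q' f) :
    S.Ac ρ x q f := by
  obtain ⟨a', r, c, h1⟩ := ker hq hx (mul_mem h (inv_mem h')) (by
    rw [tau_mul hq h (inv_mem h'), tau_inv hq h', Prod.fst_add, e, f4_add])
  have := (Ac.m hb hx (a', 0, r, (τ (q * q'⁻¹)).2) c).mul a
  rwa [← h1, inv_mul_cancel_right] at this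

theorem ac_h (h : q ∈ Q) {s : F4} (a : S.Ac ρ x q (Xa s (τ q).1)) : ∃ q' ∈ Q, (τ q').1 = om * (τ q).1 ∧
    S.Ac ρ x q' (Xa (om * om * s) (τ q').1) := by
  have e : ∀ a c, S.h * S.e1 a c * S.h⁻¹ = S.e1 (om * a) (om * om * c) := fun a c => (S.ah _).trans (by simp [dg])
  obtain ⟨h1, h2⟩ := nrm hb hq S.hA _ _ e h
  obtain ⟨c, h3⟩ := a (0, 0, 0, om) 0
  have h4 := hx.hx om
  rw [(by decide +kernel : om * om * om = 1)] at h4
  refine ⟨_, h1, by rw [h2], ac_of hb hq hx h1 (c₀ := om * om * c) ?_⟩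
  rw [m_x hb, show Xa s (τ q).1 (0, 0, 0, om) = (s * om, 0, 0, om) by simp [Xa], m, hb.zero, mul_one] at h3
  calc _ = S.h * (q * x om * q⁻¹) * S.h⁻¹ := by rw [← h4]; group
    _ = _ := by rw [h3, ← conj_mul (b := S.h), e, h4, m, hb.zero, mul_one, mul_comm s, ← mul_assoc om]

end C4x

open C4x SD in
theorem c4S : C4S.{u} := by
  intro G _ _ S ρ O Q τ x b1 hb hq hx
  obtain ⟨q₁, h₁, t₁⟩ := hq.onto (1, 0)
  obtain ⟨κ, c, e⟩ := conj_x hb hq hx h₁ 1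
  have a₁ := ac_of hb hq hx h₁ e
  obtain ⟨q₂, h₂, t₂, a₂⟩ := ac_h hb hq hx h₁ a₁
  obtain ⟨q₃, h₃, t₃, a₃⟩ := ac_h hb hq hx h₂ a₂
  rw [t₁, mul_one] at t₂
  rw [t₂] at t₃
  have ac : ∀ q ∈ Q, S.Ac ρ x q (Xa (κ * (τ q).1 * (τ q).1) (τ q).1) := fun q h => by
    rcases f4_cases (τ q).1 with t | t | t | t
    · obtain ⟨a, r, c, e⟩ := ker hq hx h t
      rw [t, show Xa (κ * 0 * 0) 0 = id from funext fun y => by simp [Xa], e]
      exact Ac.m hb hx _ _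
    · refine ac_same hb hq hx h h₁ (by rw [t, t₁]) ?_
      rw [t₁] at a₁
      rwa [t, mul_one, mul_one]
    · refine ac_same hb hq hx h h₂ (by rw [t, t₂]) ?_
      rw [t₂] at a₂
      rwa [t, show κ * om * om = om * om * κ by ring]
    · refine ac_same hb hq hx h h₃ (by rw [t, t₃]) ?_
      rw [t₃] at a₃
      rwa [t, show κ * (om * om) * (om * om) = om * om * (om * om * κ) by ring]
  refine ⟨κ, ac, fun q => ker hq hx, fun q => sq' hb hq hx b1, inv hb hq hx b1, fun d hd d2 ht l => ?_⟩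
  obtain ⟨β, h1⟩ := sq' hb hq hx b1 (mul_mem (x_mem hq hx l) hd)
  rw [tau_mul hq (x_mem hq hx l) hd, tau_x hq hx, Prod.fst_add, Prod.snd_add, zero_add] at h1
  have h2 : d * x l * d⁻¹ = x l * S.e1 (β * (τ d).1) (β * (l + (τ d).2)) := by
    rw [← h1, inv_eq_of_mul_eq_one_right d2, ← mul_assoc, ← mul_assoc, ← mul_assoc, hx.sq, one_mul]
  obtain ⟨c', h3⟩ := ac d hd (0, 0, 0, l) 0
  rw [m_x hb, h2, ← hx.comm, show S.ι ⟨β * (τ d).1, 0, β * (l + (τ d).2)⟩ * x l =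
    S.m ρ x (β * (τ d).1, 0, 0, l) (β * (l + (τ d).2)) by rw [m, hb.zero, mul_one]] at h3
  have h4 := congrArg Prod.fst (m_inj hb hx h3).1
  rw [h2, (by decide +kernel : ∀ β κ t l : F4, t ≠ 0 → β * t = (Xa (κ * t * t) t (0, 0, 0, l)).1 → β = κ * t * l)
    β κ _ l ht h4]

end CL.LS
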