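/-
Project LS: the constants `κ₁, κ₂` and the rescaling of the coordinates.
-/
import Cfsg.Agent.LS.Defs

set_option autoImplicit false
set_option linter.unusedSectionVars false
open Cfsg Subgroup CL.Even CL.Grp CL.L34
open scoped commutatorElement

namespace CL.LS

universe u v

variable {G : Type u} [Group G] {S T : SD G} {ρ x x' : F4 → G} {O Q : Subgroup G} {τ : G → F4 × F4} {k n κ κ' : F4}

/-- `T` arises from `S` by rescaling the coordinates -/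
structure C6Sc (S T : SD G) (k n : F4) : Prop where
  ι : ∀ a b c, T.ι ⟨a, b, c⟩ = S.ι ⟨k * a, n * b, k * n * c⟩
  k3 : k * k * k = 1
  n3 : n * n * n = 1

namespace C6Sc

variable (H : C6Sc S T k n)
include H

theorem ι' (a b c : F4) : S.ι ⟨a, b, c⟩ = T.ι ⟨k * k * a, n * n * b, k * n * (k * n) * c⟩ := by
  have := H.k3
  have := H.n3
  rw [H.ι]; congr 2 <;> grind

theorem U : T.U = S.U := by
  ext g; simp only [SD.mem_U]
  exact ⟨fun ⟨p, e⟩ => ⟨_, e.trans (H.ι _ _ _)⟩, fun ⟨p, e⟩ => ⟨_, e.trans (H.ι' _ _ _)⟩⟩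

theorem e1 (a c : F4) : T.e1 a c = S.e1 (k * a) (k * n * c) := by rw [SD.e1, H.ι, mul_zero]

theorem e1' (a c : F4) : S.e1 a c = T.e1 (k * k * a) (k * n * (k * n) * c) := by rw [SD.e1, H.ι', mul_zero]

theorem E1 : T.E1 = S.E1 := by
  ext g; simp only [SD.mem_E1]
  exact ⟨fun ⟨_, _, e⟩ => ⟨_, _, e.trans (H.e1 _ _)⟩, fun ⟨_, _, e⟩ => ⟨_, _, e.trans (H.e1' _ _)⟩⟩

theorem qd (h : S.QD ρ O Q τ) : T.QD ρ O Q fun q => (k * k * (τ q).1, k * n * (k * n) * (τ q).2) := by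
  have := H.k3
  have := H.n3
  refine ⟨h.two, H.E1 ▸ h.cE, h.cO, fun q hq r => ?_, fun e => ?_, fun q hq e => ?_, fun g hg h2 e =>
    h.mem g (H.E1 ▸ hg) h2 fun r => (e r).elim fun a ⟨c, e⟩ => ⟨_, _, by rw [e, H.e1]⟩⟩
  · rw [h.act q hq, H.e1']; exact congrArg _ (congrArg₂ T.e1 (by ring) (by ring))
  · obtain ⟨q, hq, e'⟩ := h.onto (k * e.1, k * n * e.2)
    exact ⟨q, hq, by rw [e']; ext1 <;> grind⟩
  · obtain ⟨e1, e2⟩ := Prod.mk.inj e
    obtain ⟨a, c, r, e'⟩ := h.ker q hq (by ext1 <;> simp only [Prod.fst_zero, Prod.snd_zero] <;> grind)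
    exact ⟨_, _, r, by rw [e', H.e1']⟩

theorem m (hx : ∀ l, x' l = x (k * n * l)) (y : M4) (c : F4) :
    T.m ρ x' y c = S.m ρ x (k * y.1, n * y.2.1, y.2.2.1, k * n * y.2.2.2) (k * n * c) := by
  rw [SD.m, SD.m, H.ι, hx]

theorem ax (hx : ∀ l, x' l = x (k * n * l)) (hκ : κ' = k * k * n * κ) (h : S.AX ρ x Q τ κ) :
    T.AX ρ x' Q (fun q => (k * k * (τ q).1, k * n * (k * n) * (τ q).2)) κ' := by
  have := H.k3
  have := H.n3
  refine ⟨fun q hq y c => ?_, fun q hq e => ?_, fun q hq => ?_, fun e => ?_, fun d hd h1 h2 l => ?_⟩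
  · obtain ⟨c', e⟩ := h.ac q hq (k * y.1, n * y.2.1, y.2.2.1, k * n * y.2.2.2) (k * n * c)
    refine ⟨k * n * (k * n) * c', ?_⟩
    rw [H.m hx, H.m hx, e]
    simp only [Xa]
    congr 1
    · congr 1
      · grind
      · congr 2 <;> grind
    · grind
  · obtain ⟨a, r, c, e'⟩ := h.ker q hq (by grind)
    refine ⟨k * k * a, r, k * n * (k * n) * c, ?_⟩
    rw [H.m hx]
    refine e'.trans ?_
    congr 1
    · congr 1
      · grind
      · congr 2 <;> grind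
    · grind
  · obtain ⟨β, e⟩ := h.sq q hq
    exact ⟨β, by rw [e, H.e1']; exact congrArg₂ T.e1 (by ring) (by ring)⟩
  · obtain ⟨q, hq, h1, e'⟩ := h.inv (k * e.1, k * n * e.2)
    exact ⟨q, hq, h1, by rw [e']; ext1 <;> grind⟩
  · rw [hx, h.cx d hd h1 (fun e => h2 (by simp only [e, mul_zero])), H.e1]
    exact congrArg _ (congrArg₂ S.e1 (by grind) (by grind))

end C6Sc

theorem c6_sc (S : SD G) : C6Sc S S.scale om 1 :=
  ⟨fun a b c => by rw [SD.scale_ι, one_mul, mul_one], by decide +kernel, by decide +kernel⟩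

theorem c6_sc' (S : SD G) : C6Sc S.sw S.scale.sw 1 om :=
  ⟨fun a b c => by rw [SD.sw_ι, SD.sw_ι, SD.scale_ι]; congr 2 <;> ring, by decide +kernel, by decide +kernel⟩

theorem c6_bd (h : S.BD ρ O) : S.scale.BD ρ O := by
  refine ⟨h.noV, h.add, h.inj, h.memR, ?_, fun a c => ?_, fun b c => ?_, h.O_le, h.O_odd, h.O_dec⟩
  · obtain ⟨g, hg, e⟩ := h.ex
    have : Finite (S.U : Set G) := (Set.finite_range S.ι).to_subtype
    have hh : S.h ∈ 𝒩(S.U) := mem_normalizer_fintype (by rintro _ ⟨p, rfl⟩; exact ⟨_, (S.ah p).symm⟩)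
    have e1 : ∀ r c, S.h * (ρ r * S.v c) * S.h⁻¹ = ρ r * S.v (om * om * c) := fun r c => by
      have : S.h * S.v c * S.h⁻¹ = S.v (om * om * c) := (S.ah _).trans (by rw [dg, mul_zero])
      rw [← mul_assoc, h.comm r S.hA, ← this]; group
    refine ⟨S.h * (S.h * g), (c6_sc S).U ▸ mul_mem hh (mul_mem hh hg), fun r => (e r).imp fun r' e => ?_⟩
    rw [SD.v, SD.scale_ι, mul_zero, (by decide +kernel : ∀ r, om * r = om * om * (om * om * r)) r', ← e1, ← e1, ← e]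
    group
  · exact (h.rg1 (om * a) (om * c)).imp fun g e r => by
      rw [SD.e1, SD.scale_ι, mul_left_comm, mul_left_comm om]; exact e r
  · exact (h.rg2 b (om * c)).imp fun g e r => by rw [SD.e2, SD.scale_ι, mul_zero, mul_left_comm om]; exact e r

theorem c6_xd (h : S.XD ρ O x) : S.scale.XD ρ O fun l => x (om * l) :=
  ⟨fun l l' => by rw [mul_add, h.add], fun l => (c6_sc S).U ▸ h.cU _, fun l => h.cO _,
    fun l r => by rw [h.act, SD.v, SD.v, SD.scale_ι, mul_zero, mul_assoc om], fun l => (h.hx _).trans (by congr 1; ring)⟩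

theorem c6S : C6S.{u} := fun _ _ S _ _ x _ _ _ _ _ _ hb hx q1 q2 a1 a2 =>
  ⟨fun l => x (om * l), _, _, c6_bd hb, c6_xd hx, (c6_sc S).qd q1, (c6_sc' S).qd q2,
    (c6_sc S).ax (fun l => by rw [mul_one]) (by ring) a1, (c6_sc' S).ax (fun l => by rw [one_mul]) (by ring) a2⟩

theorem c5_root (hb : S.BD ρ O) (hx : S.XD ρ O x) (a : F4) {r : F4} (hr : r ≠ 0) (c : F4) :
    S.Root (S.m ρ x (a, 0, r, 0) c) := by
  obtain ⟨g, e⟩ := hb.rg1 (r * r * a) (r * r * c)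
  refine ⟨by rw [SD.m_sq hb hx]; simp [qf, SD.v, ← Heis.one_def], fun e => hr (congrArg (·.2.2.1) (SD.m_eq_one hb hx e).1), g, ?_⟩
  have := e r
  rwa [← mul_assoc, ← mul_assoc, ← mul_assoc, ← mul_assoc, f4_cube hr, one_mul, one_mul, ← hb.comm r (S.mem _),
    ← mul_one (_ * ρ r), ← hx.zero] at this

theorem c5_root' (hb : S.BD ρ O) (hx : S.XD ρ O x) (b : F4) {r : F4} (hr : r ≠ 0) (c : F4) :
    S.Root (S.m ρ x (0, b, r, 0) c) := by
  have := c5_root hb.sw hx.sw b hr c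
  rw [SD.sw_m, mul_zero, add_zero] at this
  exact this

theorem c5_not (hb : S.BD ρ O) (hx : S.XD ρ O x) {g : G} {f : M4 → M4} (h : S.Ac ρ x g f) (a b : F4)
    (hr : ∀ c, S.Root (S.m ρ x (f (a, b, 0, 0)) c)) : False := by
  obtain ⟨c, e⟩ := h (a, b, 0, 0) 0
  have := hr c
  rw [← e, S.root_conj, SD.m_u hb hx] at this
  exact hb.noV _ (S.mem _) this

/-- the action of the conjugates of the `x t` if `κ = 0` -/
theorem c5_d (hb : S.BD ρ O) (hx : S.XD ρ O x) (hq : S.QD ρ O Q τ) (ha : S.AX ρ x Q τ 0) (t : F4) :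
    ∃ d : G, ∃ F : F4 → F4, (∀ b b', F (b + b') = F b + F b') ∧ ∀ a b r l c,
      d * S.m ρ x (a, b, r, l) c * d⁻¹ = S.m ρ x (a + t * r, b, r, l + t * b) (c + F b + t * b * r) := by
  by_cases ht : t = 0
  · exact ⟨1, fun _ => 0, by simp, by simp [ht]⟩
  set d := S.w1 * x t * S.w1⁻¹ with hd
  have d1 : ∀ a c, d * S.e1 a c * d⁻¹ = S.e1 a c := fun a c => by
    rw [SD.e1, ← S.aw1, hd]
    calc _ = S.w1 * (x t * S.ι ⟨c, 0, a⟩ * (x t)⁻¹) * S.w1⁻¹ := by group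
      _ = _ := by rw [← hx.comm, mul_inv_cancel_right]
  have d2 : ∀ r, d * ρ r * d⁻¹ = ρ r * S.e1 (t * r) 0 := fun r => by
    rw [SD.e1, ← S.aw1, hd]
    calc _ = S.w1 * (x t * (S.w1⁻¹ * ρ r) * S.w1 * (x t)⁻¹) * S.w1⁻¹ := by group
      _ = S.w1 * (x t * (ρ r * (S.w1⁻¹ * S.w1)) * (x t)⁻¹) * S.w1⁻¹ := by rw [hb.comm r (inv_mem S.w1A)]; group
      _ = _ := by rw [inv_mul_cancel, mul_one, hx.act, ← mul_assoc, hb.comm r S.w1A]; group
  have d3 : d * d = 1 := by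
    rw [hd, show S.w1 * x t * S.w1⁻¹ * (S.w1 * x t * S.w1⁻¹) = S.w1 * (x t * x t) * S.w1⁻¹ by group, hx.sq]; group
  have dQ : d ∈ Q := hq.mem d (mem_centralizer_iff.2 fun y hy => by
    obtain ⟨a, c, rfl⟩ := S.mem_E1.1 hy
    exact (mul_inv_eq_iff_eq_mul.1 (d1 a c)).symm) ⟨1, by rw [pow_one, sq, d3]⟩ fun r => ⟨_, _, d2 r⟩
  have d4 : (τ d).1 = t := by
    simpa using congrArg Heis.a (S.inj (mul_left_cancel ((hq.act d dQ 1).symm.trans (d2 1))))
  have d5 : ∀ l, d * x l * d⁻¹ = x l := fun l => by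
    rw [ha.cx d dQ d3 (d4 ▸ ht)]; simp [SD.e1, ← Heis.one_def]
  have d6 : ∀ b, ∃ c, d * S.m ρ x (0, b, 0, 0) 0 * d⁻¹ = S.m ρ x (0, b, 0, t * b) c := fun b => by
    simpa [Xa, d4] using ha.ac d dQ (0, b, 0, 0) 0
  choose F hF using d6
  have cm : ∀ g g' : G, d * (g * g') * d⁻¹ = d * g * d⁻¹ * (d * g' * d⁻¹) := fun _ _ => by group
  refine ⟨d, F, fun b b' => ?_, fun a b r l c => ?_⟩
  · have e := cm (S.m ρ x (0, b, 0, 0) 0) (S.m ρ x (0, b', 0, 0) 0)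
    simp only [hF, SD.m_mul hb hx, Prod.mk_add_mk, add_zero, zero_mul, mul_zero] at e
    exact (SD.m_inj hb hx e).2
  · have e : S.m ρ x (a, b, r, l) c = S.e1 a (c + a * b) * S.m ρ x (0, b, 0, 0) 0 * ρ r * x l := by
      rw [SD.m_u hb hx, ← map_mul, SD.m]; simp [Heis.mul_def, add_assoc, f4_add]
    have u : ∀ a c, S.e1 a c = S.m ρ x (a, 0, 0, 0) c := fun a c => (SD.m_u hb hx a 0 c).symm
    rw [e, cm, cm, cm, d1, d2, d5, hF, u, u, ← SD.m_ρ hx r, ← SD.m_x (x := x) hb l]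
    simp only [SD.m_mul hb hx, Prod.mk_add_mk, add_zero, zero_mul, mul_zero, zero_add]
    rw [add_comm l]; congr 1
    linear_combination f4_add (a * b)

theorem c5_add {F : F4 → F4} (h : ∀ b b', F (b + b') = F b + F b') : F 0 = 0 ∧ F (om * om) = F 1 + F om :=
  ⟨by simpa using h 0 0, by rw [← h]; congr 1⟩

theorem c5_zero {Q' : Subgroup G} {τ' : G → F4 × F4} (hb : S.BD ρ O) (hx : S.XD ρ O x) (hq : S.QD ρ O Q τ)
    (hq' : S.sw.QD ρ O Q' τ') (ha : S.AX ρ x Q τ 0) (ha' : S.sw.AX ρ x Q' τ' 0) : False := by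
  choose d F F1 F2 using c5_d hb hx hq ha
  choose d' F' F1' F2' using c5_d hb.sw hx.sw hq' ha'
  have F3 : ∀ s a b r l c, d' s * S.m ρ x (a, b, r, l) c * (d' s)⁻¹ =
      S.m ρ x (a, b + s * r, r, l + s * a) (c + F' s a) := fun s a b r l c => by
    have := F2' s b a r l (c + b * a)
    simp only [SD.sw_m, sw4, add_assoc, f4_add, add_zero] at this
    rw [this]; congr 1
    linear_combination f4_add (b * a) + f4_add (s * a * r)
  have key : ∀ s t, F t (s * om) + t * (s * om) * om + F' s (t * om) = om * (F t (s * 1) + t * (s * 1) * 1 + F' s (t * 1)) :=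
    fun s t => by
    have h1 : ∀ r, ρ r * S.v (F t (s * r) + t * (s * r) * r + F' s (t * r)) ∈ cj (d t * (d' s * (d t * d' s))) S.K := fun r => by
      have := conj_mem_cj (d t * (d' s * (d t * d' s))) (hb.memK r)
      rw [← SD.m_ρ hx r, show ∀ a b y : G, a * (b * (a * b)) * y * (a * (b * (a * b)))⁻¹ =
        a * (b * (a * (b * y * b⁻¹) * a⁻¹) * b⁻¹) * a⁻¹ from fun _ _ _ => by group, F3, F2, F3, F2] at this
      simp only [zero_add, mul_zero, add_zero, f4_add, (c5_add (F1 t)).1, (c5_add (F1' s)).1, zero_mul,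
        mul_left_comm t s, add_assoc] at this
      rwa [← SD.m_ρ hx r, SD.m_v hb hx, zero_add, mul_left_comm t s, add_assoc]
    obtain ⟨g, h2⟩ := hb.rg1 0 (F t (s * 1) + t * (s * 1) * 1 + F' s (t * 1))
    have h3 := h2 1
    rw [mul_zero, one_mul] at h3
    have h4 : ∀ r c, ρ r * S.v c = S.m ρ x (0, 0, r, 0) c := fun r c => by rw [← SD.m_ρ hx r, SD.m_v hb hx, zero_add]
    have h5 := c5_root hb hx 0 one_ne_zero (F t (s * 1) + t * (s * 1) * 1 + F' s (t * 1))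
    rw [← h4] at h5
    have h6 := mul_mem (h1 om) ((S.cj_K_eq h5.1 h5.2.1 (h1 1) h3).1 ▸ h2 om)
    rw [mul_zero, h4, h4, SD.m_mul hb hx, m4_add, SD.m_zero hb hx] at h6
    simp only [mul_zero, add_zero, zero_mul] at h6
    generalize F t (s * om) + t * (s * om) * om + F' s (t * om) = u at h6
    generalize om * (F t (s * 1) + t * (s * 1) * 1 + F' s (t * 1)) = v at h6
    by_contra hne
    refine hb.noV _ (S.mem _) ⟨?_, fun e => hne ?_, _, h6⟩
    · rw [← map_mul]; simp [Heis.mul_def, f4_add, ← Heis.one_def]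
    · have := congrArg Heis.c (S.inj (e.trans (map_one _).symm))
      rw [Heis.one_c] at this
      linear_combination this - f4_add v
  have k1 := key 1 1
  have k2 := key 1 om
  have k3 := key om 1
  have k4 := key om om
  simp only [one_mul, mul_one, (c5_add (F1 _)).2, (c5_add (F1' _)).2] at k1 k2 k3 k4
  have h2 : (1 : F4) + 1 = 0 := f4_add 1
  have hw : om * om = om + 1 := by decide +kernel
  have : om = 0 := by grind
  exact absurd this (by decide +kernel)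

theorem c5S : C5S.{u} := fun _ _ _ S ρ _ x _ _ _ _ k1 k2 hb hx q1 q2 a1 a2 => by
  have X : ∀ t, ∃ q, S.Ac ρ x q (Xa (k1 * t * t) t) := fun t => by
    obtain ⟨q, hq, e⟩ := q1.onto (t, 0)
    exact ⟨q, by simpa only [e] using a1.ac q hq⟩
  have Y : ∀ t, ∃ q, S.Ac ρ x q (sw4 ∘ Xa (k2 * t * t) t ∘ sw4) := fun t => by
    obtain ⟨q, hq, e⟩ := q2.onto (t, 0)
    exact ⟨q, by simpa only [e] using (a2.ac q hq).of_sw⟩
  choose X hX using X
  choose Y hY using Y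
  obtain ⟨rfl, rfl⟩ | h | ⟨t, b, r, hr, e⟩ | ⟨t, a, r, hr, e⟩ := (by decide +kernel : ∀ k1 k2 : F4, (k1 = 0 ∧ k2 = 0) ∨
    (k1 ≠ 0 ∧ k2 = k1 * k1) ∨
    (∃ t b r, r ≠ 0 ∧ (Xa (k1 * t * t) t ∘ sw4 ∘ Xa (k2 * 1 * 1) 1 ∘ sw4) (1, 0, 0, 0) = (0, b, r, 0)) ∨
    ∃ t a r, r ≠ 0 ∧ ((sw4 ∘ Xa (k2 * t * t) t ∘ sw4) ∘ Xa (k1 * 1 * 1) 1) (0, 1, 0, 0) = (a, 0, r, 0)) k1 k2
  · exact (c5_zero hb hx q1 q2 a1 a2).elim
  · exact h
  · exact (c5_not hb hx ((hX t).mul (hY 1)) 1 0 fun c => e ▸ c5_root' hb hx b hr c).elim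
  · exact (c5_not hb hx ((hY t).mul (hX 1)) 0 1 fun c => e ▸ c5_root hb hx a hr c).elim

end CL.LS
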