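/-
Project LS: `W` is normal in `N(V)`; the roots centralising `V`.
-/
import Cfsg.Agent.LS.Defs2

set_option autoImplicit false
set_option linter.unusedSectionVars false
open Cfsg Subgroup CL.Even CL.Grp CL.L34 Equiv
open scoped commutatorElement

namespace CL.LS

universe u

theorem cv_zeta : ∀ (ζ : F4) (ε : Bool), (∀ c : F4, c = ζ * ζ * cond ε (c * c) c) → ζ = 1 ∧ ε = false := by
  decide +kernel
set_option synthInstance.maxSize 100000 in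
set_option synthInstance.maxHeartbeats 400000 in
theorem cv_fix : ∀ π : Perm (Fin 5), π * π = 1 → Perm.sign π = -1 → ∃ y, RV y ∧ pm π y = y := by decide +kernel
theorem cv_mv : ∀ π : Perm (Fin 5), π * π = 1 → π ≠ 1 → ∃ σ : Perm (Fin 5), Perm.sign σ = 1 ∧
    π * (σ * π * σ⁻¹) * (π * (σ * π * σ⁻¹)) ≠ 1 := by decide +kernel
theorem cv_bf : ∀ y : M4, y ≠ 0 → ∀ q, ∃ y', bf y y' ≠ 0 ∧ bf y y' ≠ q := by decide +kernel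
theorem cv_bf_add (y a b : M4) : bf y (a + b) = bf y a + bf y b := by
  simp only [bf, Prod.fst_add, Prod.snd_add]; ring
theorem cv_qf_add (a b : M4) : qf (a + b) = qf a + qf b + bf a b := by
  simp only [qf, bf, Prod.fst_add, Prod.snd_add]; ring
theorem cv_m4 {a b : M4} (h : a + b = 0) : b = a := by rw [← zero_add b, ← m4_add a, add_assoc, h, add_zero]
theorem cv_bf_self : ∀ y : M4, bf y y = 0 ∧ bf y 0 = 0 := by decide +kernel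

namespace WS

variable {G : Type u} [Group G] [Finite G] {S : WS G}

theorem cv_v_inj {c c' : F4} (e : S.v c = S.v c') : c = c' := congrArg Heis.c (S.inj e)

theorem cv_vV (c : F4) : S.v c ∈ S.V := S.mem_V.2 ⟨c, rfl⟩

theorem cv_memV {y : M4} {c : F4} : S.mm y c ∈ S.V ↔ y = 0 := by
  refine ⟨fun h => ?_, fun e => e ▸ S.mem_V.2 ⟨c, SD.m_zero S.bd S.xd c⟩⟩
  obtain ⟨c', e⟩ := S.mem_V.1 h
  exact (SD.m_inj S.bd S.xd (e.trans (SD.m_zero S.bd S.xd c').symm)).1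

theorem cv_VW : S.V ≤ S.W := fun _ h => (S.mem_V.1 h).elim fun _ e => e ▸ S.ι_mem _

theorem cv_VA : S.V ≤ S.A := fun _ h => (S.mem_V.1 h).elim fun _ e => e ▸ S.mem _

theorem cv_vsq {a : G} (h : a ∈ S.V) : a * a = 1 := by
  obtain ⟨c, rfl⟩ := S.mem_V.1 h
  rw [← map_mul, ← map_one S.ι]
  simp [Heis.mul_def, Heis.one_def, f4_add]

theorem cv_sq {w : G} (h : w ∈ S.W) : w * w ∈ S.V := by
  obtain ⟨y, c, rfl⟩ := h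
  exact SD.m_sq S.bd S.xd y c ▸ cv_vV _

theorem cv_two {a : G} (h : a * a ∈ S.V) : Two a :=
  ⟨2, by rw [show 2 ^ 2 = 2 * 2 from rfl, pow_mul, pow_two, pow_two, cv_vsq h]⟩

theorem cv_of_mul {w o : G} (hw : w ∈ S.W) (ho : o ∈ S.O) (h : Two (w * o)) : w * o ∈ S.W := by
  rwa [S.eq_one_of_two ho (S.W_cO hw) ⟨2, S.W_pow hw⟩ h, mul_one]

theorem cv_mul {g g' : G} {π σ : Perm (Fin 5)} (h : S.Ac g (pm π)) (h' : S.Ac g' (pm σ)) : S.Ac (g * g') (pm (π * σ)) :=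
  (funext (pm_mul π σ) : pm (π * σ) = pm π ∘ pm σ) ▸ SD.Ac.mul h h'

theorem cv_inv {g : G} {π : Perm (Fin 5)} (h : S.Ac g (pm π)) : S.Ac g⁻¹ (pm π⁻¹) :=
  h.inv fun y => by rw [← pm_mul, inv_mul_cancel, pm_one]

theorem cv_pisq {g : G} {π : Perm (Fin 5)} (h : S.Ac g (pm π)) (h2 : g * g ∈ S.V) : π * π = 1 := by
  obtain ⟨y, c, e⟩ := cv_VW h2
  have e1 := SD.Ac.unique S.bd S.xd (cv_mul h h) (f' := id) (by rw [e]; exact SD.Ac.m S.bd S.xd y c)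
  exact pm_faithful fun i => by rw [e1, pm_one]; rfl

theorem cv_root1 {r : F4} (hr : r ≠ 0) : S.Root (S.ρ r) :=
  ⟨S.bd.sq r, S.bd.ne_one hr, 1, by rw [cj_one]; exact S.bd.memK r⟩

theorem cv_N {a : G} (h : a * S.ρ 1 = S.ρ 1 * a) : a ∈ S.N :=
  S.mem_N_of_comm' (S.bd.sq 1) (S.bd.ne_one (by decide +kernel)) (S.bd.memK 1) h

variable (hw : S.WF)
include hw

theorem cv_pi {g : G} (h1 : g ∈ 𝒞(S.V)) (h2 : g ∈ 𝒩(S.W)) : ∃ π, S.Ac g (pm π) := by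
  obtain ⟨ζ, ε, π, -, a1, a2⟩ := hw.cls g h2
  obtain ⟨rfl, rfl⟩ := cv_zeta ζ ε fun c => cv_v_inj (by
    rw [← a2, ← comm_of_mem h1 (cv_vV c), mul_inv_cancel_right])
  exact ⟨π, gam_ff π ▸ a1⟩

theorem cv_ker {g : G} (h1 : g ∈ 𝒞(S.V)) (h2 : S.Ac g (pm 1)) (h3 : g * g ∈ S.V) : g ∈ S.W := by
  obtain ⟨w, a1, o, a2, rfl⟩ := hw.ker g h1 ((funext pm_one : pm 1 = id) ▸ h2)
  exact cv_of_mul a1 a2 (cv_two h3)

theorem cv_AK (hb : S.Bas1) {a : G} (h1 : a ∈ S.A ⊔ S.K) (h2 : a ∈ 𝒞(S.V)) (h3 : a * a = 1)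
    (h4 : a * S.ρ 1 = S.ρ 1 * a) : a ∈ S.W := by
  obtain ⟨p, k, a1, rfl⟩ := hb.cv a h1 1 (by decide +kernel) (comm_of_mem h2 (cv_vV 1)).symm
  obtain ⟨r, o, a2, rfl⟩ := hw.ck 1 (by decide +kernel) k a1 (by
    rwa [mul_assoc, ← mul_assoc (S.ρ 1), ← S.bd.comm 1 (S.mem p), mul_assoc, mul_left_cancel_iff] at h4)
  have h5 : Two (S.ι p * (S.ρ r * o)) := ⟨1, by rw [pow_one, pow_two, h3]⟩
  rw [← mul_assoc] at h5 ⊢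
  exact cv_of_mul (mul_mem (S.ι_mem p) (S.ρ_mem r)) a2 h5

theorem cv_rconj {d : G} (h1 : d ∈ S.W) (h2 : S.Root d) : ∃ k ∈ S.Hs, k * S.ρ 1 * k⁻¹ = d := by
  obtain ⟨y, c, rfl⟩ := h1
  exact hw.rconj y c ((hw.root y c).1 h2)

theorem cv_iii {d g : G} (h1 : d ∈ S.W) (h2 : S.Root d) (hg : g ∈ 𝒞(S.V)) (h3 : g * d * g⁻¹ ∈ S.W) :
    g ∈ 𝒩(S.W) := by
  obtain ⟨k1, a1, rfl⟩ := cv_rconj hw h1 h2
  obtain ⟨k2, a2, e⟩ := cv_rconj hw h3 (h2.conj g)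
  have a3 : k2⁻¹ * g * k1 * S.ρ 1 = S.ρ 1 * (k2⁻¹ * g * k1) := by
    calc _ = k2⁻¹ * (g * (k1 * S.ρ 1 * k1⁻¹) * g⁻¹) * (g * k1) := by group
      _ = _ := by rw [← e]; group
  have a4 : k2⁻¹ * g * k1 ∈ 𝒞(S.V) := mul_mem (mul_mem (inv_mem (S.Hs_cV a2)) hg) (S.Hs_cV a1)
  have a5 : g = k2 * (k2⁻¹ * g * k1) * k1⁻¹ := by group
  generalize k2⁻¹ * g * k1 = n at a3 a4 a5
  have a6 : n ∈ 𝒩(S.R) := mem_norm_of_cj_le (by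
    rintro _ ⟨_, hr, rfl⟩
    obtain ⟨r, rfl⟩ := (S.bd.memR _).1 hr
    change n * S.ρ r * n⁻¹ ∈ S.R
    have b1 : S.ρ r * S.ρ 1 = S.ρ 1 * S.ρ r := by rw [← S.bd.add, add_comm, S.bd.add]
    obtain ⟨r', o, b2, b3⟩ := hw.ck 1 (by decide +kernel) _ (conj_mem (S.N_le_NK (cv_N a3)) (S.bd.memK r))
      (((show Commute n _ from a3).mul_left b1).mul_left (show Commute n _ from a3).inv_left)
    rw [b3, S.eq_one_of_two b2 (S.W_cO (S.ρ_mem r')) ⟨2, S.W_pow (S.ρ_mem r')⟩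
      ⟨1, by rw [← b3, conj_pow, pow_one, pow_two, S.bd.sq]; group⟩, mul_one]
    exact (S.bd.memR _).2 ⟨r', rfl⟩)
  have a7 : n ∈ 𝒩(S.F) := le_norm_sup (L := zpowers n) (zpowers_le.2 (cent_le_norm _ a4)) (zpowers_le.2 a6)
    (mem_zpowers n)
  exact a5 ▸ mul_mem (mul_mem (S.Hs_nW a2) (hw.nF a7)) (inv_mem (S.Hs_nW a1))

theorem cv_ii (hb : HB G) (hdt : S.DT) (hrf : S.RF) {g : G} (hg : g ∈ 𝒞(S.V)) (h1 : g * S.ρ 1 * g⁻¹ ∈ 𝒩(S.W)) :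
    g * S.ρ 1 * g⁻¹ ∈ S.W := by
  have a1 : g * S.ρ 1 * g⁻¹ ∈ 𝒞(S.V) := mul_mem (mul_mem hg (S.W_cV (S.ρ_mem 1))) (inv_mem hg)
  have a2 := ((cv_root1 (S := S) (r := 1) (by decide +kernel)).conj g).1
  obtain ⟨π, a3⟩ := cv_pi hw a1 h1
  by_cases e : π = 1
  · exact cv_ker hw a1 (e ▸ a3) (a2 ▸ one_mem _)
  rcases Int.units_eq_one_or (Perm.sign π) with s | s
  · exact ((hdt _ a1 (a2 ▸ one_mem _) π a3 e s).2.2 ⟨g, hg, rfl⟩).elim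
  obtain ⟨k, b1, b2⟩ := hrf _ a1 a2 π a3 s
  have b3 : k * g ∈ 𝒞(S.V) := mul_mem (S.Hs_cV b1) hg
  have b4 : ∀ r, (k * g)⁻¹ * S.ρ r * (k * g)⁻¹⁻¹ * S.ρ 1 = S.ρ 1 * ((k * g)⁻¹ * S.ρ r * (k * g)⁻¹⁻¹) := fun r => by
    have := comm_of_mem b2 ((S.bd.memR _).2 ⟨r, rfl⟩)
    calc _ = (k * g)⁻¹ * (S.ρ r * (k * (g * S.ρ 1 * g⁻¹) * k⁻¹)) * (k * g) := by group
      _ = _ := by rw [this]; group
  have b5 : ∀ r, (k * g)⁻¹ * S.ρ r * (k * g)⁻¹⁻¹ ∈ 𝒞(S.V) := fun r =>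
    mul_mem (mul_mem (inv_mem b3) (S.W_cV (S.ρ_mem r))) (inv_mem (inv_mem b3))
  have b6 : ∀ r r', (k * g)⁻¹ * S.ρ r * (k * g)⁻¹⁻¹ * ((k * g)⁻¹ * S.ρ r' * (k * g)⁻¹⁻¹) =
      (k * g)⁻¹ * S.ρ (r + r') * (k * g)⁻¹⁻¹ := fun r r' => by rw [S.bd.add]; group
  have b7 : ∀ r, (k * g)⁻¹ * S.ρ r * (k * g)⁻¹⁻¹ * ((k * g)⁻¹ * S.ρ r * (k * g)⁻¹⁻¹) = 1 := fun r => by
    rw [b6, f4_add, S.bd.zero]; group
  have b8 : ∃ r, r ≠ 0 ∧ (k * g)⁻¹ * S.ρ r * (k * g)⁻¹⁻¹ ∈ S.A ⊔ S.K := by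
    rcases (hb S.toSD).2.2.three _ (cv_N (b4 1)) _ (cv_N (b4 om)) (b5 1) (b5 om) (b7 1) (b7 om)
      (by rw [b6, b6, add_comm]) with c | c | c
    · exact ⟨1, by decide +kernel, c⟩
    · exact ⟨om, by decide +kernel, c⟩
    · exact ⟨1 + om, by decide +kernel, b6 1 om ▸ c⟩
  obtain ⟨r, c1, c2⟩ := b8
  have c3 := cv_iii hw (S.ρ_mem r) (cv_root1 c1) (inv_mem b3) (cv_AK hw (hb S.toSD).1 c2 (b5 r) (b7 r) (b4 r))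
  have c4 : g ∈ 𝒩(S.W) := by simpa using mul_mem (inv_mem (S.Hs_nW b1)) (inv_mem c3)
  exact conj_mem c4 (S.ρ_mem 1)

theorem cv_iv (hdt : S.DT) {b g : G} (hb : b ∈ S.W) (hg : g ∈ 𝒞(S.V)) (h1 : g * b * g⁻¹ ∈ 𝒩(S.W))
    (h2 : g * b * g⁻¹ ∉ S.W) : ∃ k ∈ S.Hs, ⁅k * S.ρ 1 * k⁻¹, g * b * g⁻¹⁆ ∈ S.V := by
  have a1 : g * b * g⁻¹ ∈ 𝒞(S.V) := mul_mem (mul_mem hg (S.W_cV hb)) (inv_mem hg)
  have a2 : g * b * g⁻¹ * (g * b * g⁻¹) ∈ S.V := by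
    rw [conj_mul]; exact conj_mem (cent_le_norm _ hg) (cv_sq hb)
  obtain ⟨π, a3⟩ := cv_pi hw a1 h1
  have e : π ≠ 1 := fun e => h2 (cv_ker hw a1 (e ▸ a3) a2)
  rcases Int.units_eq_one_or (Perm.sign π) with s | s
  · obtain ⟨b1, ⟨n, b2, -⟩, b3⟩ := hdt _ a1 a2 π a3 e s
    obtain ⟨k, b4, rfl⟩ := cv_rconj hw hb ((S.root_conj g).1 ⟨b1, fun e => h2 (e ▸ one_mem _), n, b2⟩)
    exact (b3 ⟨g * k, mul_mem hg (S.Hs_cV b4), by group⟩).elim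
  obtain ⟨y, b1, b2⟩ := cv_fix π (cv_pisq a3 a2) s
  obtain ⟨k, b3, b4⟩ := hw.rconj y 0 b1
  obtain ⟨c, b5⟩ := a3 y 0
  refine ⟨k, b3, ?_⟩
  rw [b2, ← zero_add c, ← SD.m_v S.bd S.xd] at b5
  generalize g * b * g⁻¹ = t at b5
  rw [b4, show ⁅S.mm y 0, t⁆ = S.mm y 0 * (t * S.mm y 0 * t⁻¹)⁻¹ by rw [commutatorElement_def]; group, mm, b5,
    mul_inv_rev, ← mul_assoc]
  exact conj_mem (cent_le_norm _ (S.W_cV (S.mm_mem y 0))) (inv_mem (cv_vV c))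

omit hw in
theorem cv_nc {H B1 U : Subgroup G} {c : G} (h : Cfg H S.V S.W B1 U c) : False := by
  obtain ⟨x, hx, -, -, h1, -⟩ := h.four
  obtain ⟨y, c1, rfl⟩ := h.B1_le hx
  have a1 : ∀ y' c', S.mm y' c' ∈ B1 → y' ≠ 0 → qf y' = qf y := fun y' c' k1 k2 => cv_v_inj (S := S) (by
    rw [← SD.m_sq S.bd S.xd y' c', ← SD.m_sq S.bd S.xd y c1, h.sq _ k1 (mt cv_memV.1 k2), h.sq _ hx h1])
  obtain ⟨y', b1, b2⟩ := cv_bf y (mt cv_memV.2 h1) (qf y)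
  obtain ⟨p, hp, u, hu, e⟩ := (mem_sup_nr (h.comm.trans (cent_le_norm _))).1 (h.sup (S.mm_mem y' 0))
  obtain ⟨y1, d1, rfl⟩ := h.B1_le hp
  obtain ⟨y2, d2, rfl⟩ := h.U_le hu
  obtain rfl := (SD.m_inj S.bd S.xd ((SD.m_mul S.bd S.xd _ _ _ _).symm.trans e)).1
  have a2 : bf y y2 = 0 := by
    have := SD.m_comm S.bd S.xd y y2 c1 d2
    rw [← comm_of_mem (h.comm hx) hu, left_eq_mul, ← S.v_zero] at this
    exact cv_v_inj this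
  rw [cv_bf_add, a2, add_zero] at b1 b2
  have k1 : y1 ≠ 0 := fun e => b1 (e ▸ (cv_bf_self y).2)
  have k2 : y + y1 ≠ 0 := fun e => b1 (cv_m4 e ▸ (cv_bf_self y).1)
  have k3 := a1 _ _ (SD.m_mul S.bd S.xd _ _ _ _ ▸ mul_mem hx hp) k2
  rw [cv_qf_add, a1 _ _ hp k1, f4_add, zero_add] at k3
  exact b2 k3

theorem cv_cV (gs : GS.{u}) (hb : HB G) (hdt : S.DT) (hrf : S.RF) : 𝒞(S.V) ≤ 𝒩(S.W) := by
  have r1 := cv_root1 (S := S) (r := 1) (by decide +kernel)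
  have a1 := gs G 𝒞(S.V) S.V S.W {d | ∃ g ∈ 𝒞(S.V), d = g * S.ρ 1 * g⁻¹} cv_VW S.W_cV
    le_rfl (fun _ => cv_vsq) (fun _ => cv_sq)
    (by
      rintro _ ⟨g, hg, rfl⟩
      exact ⟨mul_mem (mul_mem hg (S.W_cV (S.ρ_mem 1))) (inv_mem hg), (r1.conj g).1,
        fun k hk => ⟨k * g, mul_mem hk hg, by group⟩⟩)
    ⟨S.ρ 1, ⟨1, one_mem _, by group⟩, S.ρ_mem 1⟩
    (by rintro _ ⟨g, hg, rfl⟩; exact cv_ii hw hb hdt hrf hg)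
    (by rintro _ ⟨g, hg, rfl⟩ h1 k hk; exact cv_iii hw h1 (r1.conj g) hk)
    (fun b h1 g hg h2 h3 => by
      obtain ⟨k, k1, k2⟩ := cv_iv hw hdt h1 hg h2 h3
      exact ⟨_, ⟨k, S.Hs_cV k1, rfl⟩, conj_mem (S.Hs_nW k1) (S.ρ_mem 1), k2⟩)
    (fun _ _ _ => cv_nc)
  have a2 : pPrimeCoreOf 2 𝒞(S.V) ≤ S.O := hw.ol _ (Nat.coprime_two_right.1 (pPrimeCoreOf_coprime 2 _))
    (S.W_cV.trans (le_normalizer_pPrimeCoreOf 2 _)) ((pPrimeCoreOf_le 2 _).trans S.cV_le_Cz)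
  refine fun g hg => mem_norm_of_cj_le ?_
  rintro _ ⟨w, h1, rfl⟩
  change g * w * g⁻¹ ∈ S.W
  obtain ⟨w', b1, o, b2, e⟩ := (mem_sup_nr (S.W_cO.trans (cent_le_norm _))).1
    (sup_le_sup_left a2 _ (conj_mem (a1 hg) (mem_sup_left h1)))
  exact e ▸ cv_of_mul b1 b2 ⟨2, by rw [e, conj_pow, S.W_pow h1]; group⟩

theorem cv_cv (hc : 𝒞(S.V) ≤ 𝒩(S.W)) : S.CV := fun n hn => mem_norm_of_cj_le fun y hy => by
  have a0 := norm_le_norm_cent _ hn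
  have a1 : cj n S.W ≤ 𝒞(S.V) := cj_le_of_le S.W_cV a0
  have a2 : 𝒞(S.V) ≤ 𝒩(cj n S.W) := by rw [← cj_norm, ← cj_eq a0]; exact cj_mono n hc
  have a3 : ∀ t ∈ cj n S.W, t * t ∈ S.V := by
    rintro _ ⟨w, h1, rfl⟩
    change n * w * n⁻¹ * (n * w * n⁻¹) ∈ S.V
    rw [conj_mul]; exact conj_mem hn (cv_sq h1)
  obtain ⟨π, a4⟩ := cv_pi hw (a1 hy) (hc (a1 hy))
  by_cases e : π = 1
  · exact cv_ker hw (a1 hy) (e ▸ a4) (a3 y hy)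
  obtain ⟨σ, b1, b2⟩ := cv_mv π (cv_pisq a4 (a3 y hy)) e
  obtain ⟨k, b3, b4⟩ := hw.real σ b1
  exact (b2 (cv_pisq (cv_mul a4 (cv_mul (cv_mul b4 a4) (cv_inv b4)))
    (a3 _ (mul_mem hy (conj_mem (a2 (S.Hs_cV b3)) hy))))).elim

theorem cv_lr (hb : HB G) (hdt : S.DT) (hrf : S.RF) (hc : 𝒞(S.V) ≤ 𝒩(S.W)) : S.LR := fun t ht h1 => by
  have a0 : t ∈ S.W → ∃ g, t ∈ cj g S.K ∧ S.V ≤ cj g S.A ⊔ cj g S.K := fun h2 => by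
    obtain ⟨k, b1, rfl⟩ := cv_rconj hw h2 ht
    exact ⟨k, conj_mem_cj k (S.bd.memK 1),
      ((cj_eq_of_mem_cent (S.Hs_cV b1)).ge.trans (cj_mono k cv_VA)).trans le_sup_left⟩
  obtain ⟨π, a1⟩ := cv_pi hw h1 (hc h1)
  by_cases e : π = 1
  · exact a0 (cv_ker hw h1 (e ▸ a1) (ht.1 ▸ one_mem _))
  rcases Int.units_eq_one_or (Perm.sign π) with s | s
  · obtain ⟨-, ⟨g, b1, b2⟩, -⟩ := hdt t h1 (ht.1 ▸ one_mem _) π a1 e s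
    exact ⟨g, b1, b2.trans le_sup_left⟩
  obtain ⟨k, b1, b2⟩ := hrf t h1 ht.1 π a1 s
  have b3 := (comm_of_mem b2 ((S.bd.memR _).2 ⟨1, rfl⟩)).symm
  have b4 : k * t * k⁻¹ ∈ 𝒞(S.V) := mul_mem (mul_mem (S.Hs_cV b1) h1) (inv_mem (S.Hs_cV b1))
  obtain ⟨c1, c2, g, c3⟩ := ht.conj k
  by_cases b5 : k * t * k⁻¹ ∈ S.A ⊔ S.K
  · exact a0 (by simpa [mul_assoc] using conj_mem' (S.Hs_nW b1) (cv_AK hw (hb S.toSD).1 b5 b4 c1 b3))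
  have b6 := (hb S.toSD).2.2.outV _ (cv_N b3) c1 b4 b5
  have b7 : centralizer {k * t * k⁻¹} ≤ (S.conj g).N := fun x hx =>
    (S.conj g).mem_N_of_comm' c1 c2 (S.conj_K g ▸ c3) (mem_centralizer_singleton_iff.1 hx)
  have b8 : S.V ≤ cj g S.A ⊔ cj g S.K := fun v hv => by
    have := (hb (S.conj g)).2.1.der v (commutator_mono b7 b7 (b6 hv)) (cv_vsq hv)
    rwa [S.conj_K] at this
  refine ⟨k⁻¹ * g, ?_, ?_⟩
  · rw [cj_mul, mem_cj, inv_inv]; exact c3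
  · rw [cj_mul, cj_mul, ← cj_sup, ← cj_eq_of_mem_cent (inv_mem (S.Hs_cV b1))]
    exact cj_mono _ b8

end WS

theorem cVS : CVS.{u} := fun gs _ _ _ _ hb hw hdt hrf =>
  ⟨WS.cv_cv hw (WS.cv_cV hw gs hb hdt hrf), WS.cv_lr hw hb hdt hrf (WS.cv_cV hw gs hb hdt hrf)⟩

end CL.LS
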