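/-
Project LS: centralisers in `K`, the kernel of the action on `W / V`, the normaliser of `F` (jobs D1 and D2).
-/
import Cfsg.Agent.LS.Defs2
import Cfsg.Agent.Inv.ABG.Brauer0

set_option autoImplicit false
set_option linter.unusedSectionVars false
open Cfsg Subgroup CL.Even CL.Grp CL.L34 Equiv
open scoped commutatorElement

namespace CL.LS

universe u v

variable {G : Type u} [Group G] [Finite G]

section
variable {S : SD G} {ρ x : F4 → G} {O Q X : Subgroup G} {τ : G → F4 × F4} {g k n q q' : G}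

theorem d2_e1 (S : SD G) (a c a' c' : F4) : S.e1 a c * S.e1 a' c' = S.e1 (a + a') (c + c') := by
  rw [← map_mul]; simp [Heis.mul_def]

theorem d2_vsq (S : SD G) (c : F4) : S.v c * S.v c = 1 := by
  rw [d2_e1, f4_add, f4_add, SD.e1, ← Heis.one_def, map_one]

theorem d2_tau (hq : S.QD ρ O Q τ) (h : q ∈ Q) {a c : F4} (e : q * ρ 1 * q⁻¹ = ρ 1 * S.e1 a c) : τ q = (a, c) := by
  have := S.inj (mul_left_cancel ((hq.act q h 1).symm.trans e))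
  simp only [one_mul, Heis.mk.injEq] at this
  exact Prod.ext this.1 this.2.2

theorem d2_add (hq : S.QD ρ O Q τ) (h : q ∈ Q) (h' : q' ∈ Q) : τ (q * q') = τ q + τ q' :=
  d2_tau hq (mul_mem h h') (by
    rw [show q * q' * ρ 1 * (q * q')⁻¹ = q * (q' * ρ 1 * q'⁻¹) * q⁻¹ by group, hq.act q' h', ← conj_mul, hq.act q h,
      conj_eq_of_mem (hq.cE h) (S.mem_E1.2 ⟨_, _, rfl⟩), mul_assoc, d2_e1]
    simp)

variable (hb : S.BD ρ O) (hx : S.XD ρ O x)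
include hb

theorem d2_noV {a : G} (ha : a ∈ S.A) (h2 : a * a = 1) (h : a ∈ cj g S.K) : a = 1 :=
  by_contra fun e => hb.noV a ha ⟨h2, e, g, h⟩

theorem d2_odd (hk : k ∈ S.K) (hR : k ∈ 𝒞(S.R)) (ho : Odd (orderOf k)) : k ∈ O := by
  obtain ⟨r, o, h1, rfl⟩ := hb.O_dec k hk hR
  refine mem_of_pow_mem_of_coprime (Nat.coprime_two_right.2 ho) ?_
  rw [(show Commute (ρ r) o from comm_of_mem (hb.O_le h1).2 ((hb.memR _).2 ⟨r, rfl⟩)).mul_pow, pow_two, hb.sq, one_mul]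
  exact pow_mem h1 2

theorem d2_memF : g ∈ S.F ↔ ∃ r c, g = ρ r * S.v c := by
  rw [SD.F, sup_comm, mem_sup_nr (S.sylR.le.trans ((cent_mono fun _ h => (S.mem_V.1 h).elim fun c e =>
    e ▸ S.mem _).trans (cent_le_norm _)))]
  simp only [hb.memR, SD.mem_V]
  exact ⟨fun ⟨_, ⟨r, e⟩, _, ⟨c, e'⟩, e''⟩ => ⟨r, c, by rw [← e'', e, e']⟩, fun ⟨r, c, e⟩ => ⟨_, ⟨r, rfl⟩, _, ⟨c, rfl⟩, e.symm⟩⟩

theorem d2_lin (h : ∀ r, ∃ c, g * ρ r * g⁻¹ = ρ r * S.v c) : ∃ l, ∀ r, g * ρ r * g⁻¹ = ρ r * S.v (l * r) := by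
  obtain ⟨l, e⟩ := h 1
  obtain ⟨g', hg⟩ := hb.rg1 0 l
  simp only [mul_zero] at hg
  have h1 := (S.cj_K_eq (by rw [conj_mul, hb.sq]; group) (fun e => hb.ne_one one_ne_zero (conj_eq_one_iff.1 e))
    (conj_mem_cj g (hb.memK 1)) (by simpa only [one_mul, e] using hg 1)).1
  refine ⟨l, fun r => ?_⟩
  obtain ⟨c, e⟩ := h r
  have h2 := mul_mem (inv_mem (e ▸ conj_mem_cj g (hb.memK r))) (h1 ▸ hg r)
  rw [mul_inv_rev, mul_assoc, inv_mul_cancel_left, inv_eq_of_mul_eq_one_right (d2_vsq S c), d2_e1, add_zero] at h2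
  have h3 : c + r * l = 0 := congrArg Heis.c (S.inj ((d2_noV hb (S.mem _) (d2_vsq S _) h2).trans (map_one _).symm))
  rw [e, show c = l * r by linear_combination h3 - f4_add (r * l)]

omit hb in
theorem d2_sqK (B : S.Bas1) (hn : n ∈ S.N) (hU : n ∈ 𝒞(S.U)) : n ^ 2 ∈ S.K := by
  obtain ⟨c, h⟩ := B.cU n hn hU
  have := pow_mem h 2
  rwa [(show Commute (S.v c) n from comm_of_mem hU ⟨_, rfl⟩).mul_pow, pow_two, d2_vsq, one_mul] at this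

include hx

theorem d2_act (l r c : F4) : x l * (ρ r * S.v c) * (x l)⁻¹ = ρ r * S.v (l * r + c) := by
  rw [← conj_mul, hx.act, ← hx.comm, mul_inv_cancel_right, mul_assoc, d2_e1, add_zero]

theorem d2_fixR {l : F4} (h : ∀ r, g * ρ r * g⁻¹ = ρ r * S.v (l * r)) : x l * g ∈ 𝒞(S.R) ∧ x l * g ∈ S.N := by
  have e : ∀ r, x l * g * ρ r = ρ r * (x l * g) := fun r => mul_inv_eq_iff_eq_mul.1 (by
    rw [show x l * g * ρ r * (x l * g)⁻¹ = x l * (g * ρ r * g⁻¹) * (x l)⁻¹ by group, h, d2_act hb hx, f4_add,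
      SD.v, ← Heis.one_def, map_one, mul_one])
  exact ⟨fun _ h => ((hb.memR _).1 h).elim fun r e' => e' ▸ (e r).symm,
    S.mem_N_of_comm' (hb.sq 1) (hb.ne_one one_ne_zero) (hb.memK 1) (e 1)⟩

theorem d2_d (hq : S.QD ρ O Q τ) (t : F4) : S.w1 * x t * S.w1⁻¹ ∈ Q ∧ τ (S.w1 * x t * S.w1⁻¹) = (t, 0) := by
  have e : ∀ r, S.w1 * x t * S.w1⁻¹ * ρ r * (S.w1 * x t * S.w1⁻¹)⁻¹ = ρ r * S.e1 (t * r) 0 := fun r => by
    have e1 : S.w1 * ρ r * S.w1⁻¹ = ρ r := by rw [hb.comm r S.w1A, mul_inv_cancel_right]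
    rw [← e1, conj_mul, conj_inv, conj_mul, hx.act, ← conj_mul, S.aw1]
  have h := hq.mem _ (fun _ h => (S.mem_E1.1 h).elim fun a ⟨c, e⟩ => by
    rw [e, SD.e1, ← S.aw1, conj_mul, conj_mul, hx.comm]) ⟨1, by rw [conj_pow, pow_one, pow_two, hx.sq]; group⟩
    fun r => ⟨_, _, e r⟩
  exact ⟨h, d2_tau hq h (by rw [e, mul_one])⟩

theorem d2_gen (hq : S.QD ρ O Q τ) (ha : S.AX ρ x Q τ 1) (hA : S.A ≤ X) (hn : ∀ l, x l ∈ 𝒩(X)) :
    (∀ r, ρ r ∈ X) ∧ Q ≤ X := by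
  have h1 : ∀ l, x l ∈ X := fun l => by
    have := mul_mem (hA S.hA) (conj_mem (hn (om * om * l)) (inv_mem (hA S.hA)))
    rwa [inv_eq_of_mul_eq_one_right (hx.sq _), ← mul_assoc, ← mul_assoc, hx.hx, ← hx.add,
      (by decide +kernel : ∀ l, om * om * (om * om * l) + om * om * l = l)] at this
  have h2 : ∀ t, S.w1 * x t * S.w1⁻¹ ∈ X := fun t => mul_mem (mul_mem (hA S.w1A) (h1 t)) (inv_mem (hA S.w1A))
  have h3 : ∀ r, ρ r ∈ X := fun r => by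
    obtain ⟨c, e⟩ := ha.ac _ (d2_d hb hx hq 1).1 (0, r, 0, 0) 0
    have := mul_mem (mul_mem (h2 1) (hA (S.mem ⟨0, r, 0⟩))) (inv_mem (h2 1))
    rw [← SD.m_u hb hx, e, (d2_d hb hx hq 1).2, SD.m, mul_mem_cancel_right (h1 _), mul_mem_cancel_left (hA (S.mem _))] at this
    simpa [Xa] using this
  refine ⟨h3, fun q h => ?_⟩
  obtain ⟨a, r, c, e⟩ := ha.ker _ (mul_mem (d2_d hb hx hq (τ q).1).1 h) (by
    rw [d2_add hq (d2_d hb hx hq _).1 h, (d2_d hb hx hq _).2]; exact f4_add _)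
  exact (mul_mem_cancel_left (h2 _)).1 (by rw [e]; exact mul_mem (mul_mem (hA (S.mem _)) (h3 _)) (h1 _))

theorem d2_oddK (hk : k ∈ S.K) (h : (x 1)⁻¹ * k * x 1 ∈ S.K) : Odd (orderOf k) := by
  refine ((CL.Inv.SE.odd_card_iff (S.K ⊓ cj (x 1) S.K)).2 fun t ht e => ?_).of_dvd_nat
    (orderOf_dvd_natCard _ ⟨hk, mem_cj.2 h⟩)
  have h1 := conj_mem_cj (x 1) (hb.memK 1)
  rw [(S.cj_K_eq (CL.Inv.SE.mul_self_of_inv e) (CL.Inv.SE.ne_one_of_inv e) (g := 1) ((cj_one _).ge ht.1) ht.2).1,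
    cj_one, hx.act, mul_mem_cancel_left (hb.memK 1)] at h1
  exact absurd (S.ι_K h1) (by decide +kernel)

theorem d2_D0 (hq : S.QD ρ O Q τ) (ha : S.AX ρ x Q τ 1) (h : ∀ l, (x l)⁻¹ * k * x l ∈ S.K) : k ∈ O := by
  have h0 : ∀ {k}, (∀ l, (x l)⁻¹ * k * x l ∈ S.K) → k ∈ S.K := fun h => by simpa [hx.zero] using h 0
  have h1 := (d2_gen hb hx hq ha (X := 𝒞(⨅ l, cj (x l) S.K))
    (fun a ha k hk => (comm_of_mem (h0 fun l => mem_cj.1 (mem_iInf.1 hk l)) ha).symm)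
    fun l => norm_le_norm_cent _ (mem_norm_of_cj_le (le_iInf fun l' => (cj_mono _ (iInf_le _ (l + l'))).trans_eq
      (by rw [← cj_mul, ← hx.add, ← add_assoc, f4_add, zero_add])))).1
  exact d2_odd hb (h0 h) (fun _ e => ((hb.memR _).1 e).elim fun r e' =>
    e' ▸ (comm_of_mem (h1 r) (mem_iInf.2 fun l => mem_cj.2 (h l))).symm) (d2_oddK hb hx (h0 h) (h 1))

theorem d2_tr (hn : n ∈ 𝒩(S.F)) : ∃ l, x l * n ∈ S.N ∧ x l * n ∈ 𝒩(S.F) := by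
  obtain ⟨r, c, e⟩ := (d2_memF hb).1 (conj_mem hn (mem_sup_right ((hb.memR _).2 ⟨1, rfl⟩)))
  have h1 : r ≠ 0 := by
    rintro rfl
    rw [hb.zero, one_mul] at e
    exact hb.ne_one one_ne_zero (conj_eq_one_iff.1
      (e.trans (d2_noV hb (S.mem _) (d2_vsq S c) (e ▸ conj_mem_cj n (hb.memK 1)))))
  refine ⟨c * r * r, S.tight _ _ (hb.memK r) (hb.sq r) (hb.ne_one h1) ?_, mul_mem (mem_norm_of_cj_le ?_) hn⟩
  · have := conj_mem_cj (x (c * r * r) * n) (hb.memK 1)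
    rwa [show x (c * r * r) * n * ρ 1 * (x (c * r * r) * n)⁻¹ = x (c * r * r) * (n * ρ 1 * n⁻¹) * (x (c * r * r))⁻¹ by
      group, e, d2_act hb hx, show c * r * r * r + c = 0 by linear_combination c * f4_cube h1 + f4_add c, SD.v,
      ← Heis.one_def, map_one, mul_one] at this
  · rintro _ ⟨_, h, rfl⟩
    obtain ⟨r', c', rfl⟩ := (d2_memF hb).1 h
    exact (d2_memF hb).2 ⟨_, _, d2_act hb hx _ r' c'⟩

omit hx in
theorem d2_nR (h1 : n ∈ S.N) (h2 : n ∈ 𝒩(S.F)) : n ∈ 𝒩(S.R) := mem_norm_of_cj_le (by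
  rintro _ ⟨y, h, rfl⟩
  have h3 := conj_mem (S.N_le_NK h1) (S.sylR.le h)
  obtain ⟨r, c, e⟩ := (d2_memF hb).1 (conj_mem h2 (mem_sup_right h))
  rw [e, mul_mem_cancel_left (hb.memK r)] at h3
  exact (hb.memR _).2 ⟨r, e.trans (by rw [SD.v, S.ι_K h3, map_one, mul_one])⟩)

omit hx in
theorem d2_nV (h1 : n ∈ S.N) (h2 : n ∈ 𝒩(S.F)) (c : F4) : ∃ c', n * S.v c * n⁻¹ = S.v c' := by
  have h3 := conj_mem h1 (S.mem ⟨0, 0, c⟩)
  obtain ⟨r, c', e⟩ := (d2_memF hb).1 (conj_mem h2 (mem_sup_left (S.mem_V.2 ⟨c, rfl⟩)))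
  rw [e, mul_mem_cancel_right (S.mem _)] at h3
  exact ⟨c', by rw [e, d2_noV hb h3 (hb.sq r) ((cj_one _).ge (hb.memK r)), one_mul]⟩

end

theorem d1S : D1S.{u} := fun G _ _ S B => by
  have hb := S.bd
  have hx := S.xd
  have cρ : ∀ r r', S.ρ r * S.ρ r' = S.ρ r' * S.ρ r := fun r r' => by rw [← hb.add, ← hb.add, add_comm]
  refine ⟨fun r hr => ?_, fun Y hY hW hz => ?_⟩
  · have k1 : ∀ k ∈ S.K, k * S.ρ r = S.ρ r * k → ∀ l, (S.x l)⁻¹ * k * S.x l ∈ S.N ∧ (S.x l)⁻¹ * k * S.x l ∈ 𝒞(S.U) :=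
      fun k hk e l => ⟨S.mem_N_of_comm (by rw [conj_mul, hb.sq]; group) (fun e => hb.ne_one hr (conj_eq_one_iff.1 e))
        (conj_mem_cj _ (hb.memK r)) (by
          rw [hx.act, ← mul_assoc, e, mul_assoc, ← comm_of_mem hk (S.mem _), mul_assoc]),
        mul_mem (mul_mem (inv_mem (hx.cU l)) (cent_mono S.sylU.le hk)) (hx.cU l)⟩
    intro k hk e
    obtain ⟨c, h1⟩ := B.cU _ (k1 k hk e 1).1 (k1 k hk e 1).2
    have h2 := mul_mem (hb.memK c) hk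
    refine ⟨c, S.ρ c * k, mem_of_pow_mem_of_coprime (n := 2) (Nat.coprime_two_right.2 (d2_oddK hb hx h2 ?_))
      (d2_D0 hb hx S.q1 S.a1 fun l => ?_), by rw [← mul_assoc, hb.sq, one_mul]⟩
    · have e1 := hx.act 1 c
      rw [inv_eq_of_mul_eq_one_right (hx.sq 1), one_mul] at e1
      have := mul_mem (hb.memK c) h1
      rw [← mul_assoc, ← e1, inv_eq_of_mul_eq_one_right (hx.sq 1)] at this
      simpa only [inv_eq_of_mul_eq_one_right (hx.sq 1), mul_assoc, ← mul_assoc (S.x 1) (S.x 1), hx.sq, one_mul] using this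
    · have h3 := k1 _ h2 (by rw [mul_assoc, e, ← mul_assoc, cρ, mul_assoc]) l
      have := d2_sqK B h3.1 h3.2
      rwa [← inv_inv (S.x l), inv_inv (S.x l)⁻¹, conj_pow, inv_inv] at this
  · have k1 : ∀ r, r ≠ 0 → ∀ y ∈ Y, y * S.ρ r = S.ρ r * y → y ∈ S.N := fun r hr y _ =>
      S.mem_N_of_comm' (hb.sq r) (hb.ne_one hr) (hb.memK r)
    have h1 : Y ≤ S.N := CL.ABG.L3.Pair.le_of_cent ⟨hb.sq 1, hb.sq om, cρ _ _, hb.ne_one one_ne_zero,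
      hb.ne_one (by decide +kernel), fun e => absurd (hb.inj e) (by decide +kernel)⟩ hY (hW (S.ρ_mem 1)) (hW (S.ρ_mem om))
      (k1 1 one_ne_zero) (k1 om (by decide +kernel)) (hb.add 1 om ▸ k1 _ (by decide +kernel))
    have o : ∀ y ∈ Y, (orderOf y).Coprime 2 := fun y hy => Nat.coprime_two_right.2 (hY.of_dvd_nat (orderOf_dvd_natCard _ hy))
    have h2 : Y ≤ S.K := fun y hy => mem_of_pow_mem_of_coprime (o y hy) (d2_sqK B (h1 hy) (by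
      rintro _ ⟨p, rfl⟩
      have h3 := B.nU y (h1 hy) 1 1 one_ne_zero (mul_inv_eq_iff_eq_mul.2 (mem_centralizer_singleton_iff.1 (hz hy)))
      have h4 := eq_one_of_coprime_of_mem S.sylU.isPGroup (o _ (mul_mem hy (conj_mem (hW (S.ι_mem p)) (inv_mem hy))))
        (by simpa only [mul_assoc] using mul_mem (conj_mem h3 ⟨p, rfl⟩) (inv_mem (⟨p, rfl⟩ : S.ι p ∈ S.U)))
      rw [← mul_assoc, ← mul_assoc, mul_inv_eq_one, mul_inv_eq_iff_eq_mul] at h4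
      exact h4.symm))
    exact fun y hy => d2_D0 hb hx S.q1 S.a1 fun l => h2 (conj_mem' (hW (S.x_mem l)) hy)

theorem d2S : D2S.{u} := fun G _ _ S B => by
  have hb := S.bd
  have hx := S.xd
  have cR : ∀ p, S.ι p ∈ 𝒞(S.R) := fun p _ h => (comm_of_mem (S.sylR.le h) (S.mem p)).symm
  refine ⟨fun n _ h => ?_, fun n hn => (d2_tr hb hx hn).imp fun l h => d2_nR hb h.1 h.2, fun n hn => ?_,
    fun g => d2_lin hb, ?_, fun X hX hA => ?_⟩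
  · obtain ⟨l, h1⟩ := d2_lin hb (g := n) fun r => (h (0, 0, r, 0) 0).imp fun c e => by
      rwa [id, ← zero_add c, ← SD.m_v hb hx, SD.m_ρ hx] at e
    obtain ⟨h2, h3⟩ := d2_fixR hb hx h1
    obtain ⟨p, h4⟩ := S.cT _ h3 fun p => (h (p.a, p.b, 0, 0) p.c).elim fun c e => ⟨p.c + c, by
      rw [id, SD.m_u hb hx, SD.m_u hb hx] at e
      rw [show S.x l * n * S.ι p * (S.x l * n)⁻¹ = S.x l * (n * S.ι ⟨p.a, p.b, p.c⟩ * n⁻¹) * (S.x l)⁻¹ by group, e,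
        ← hx.comm, mul_inv_cancel_right]
      simp [Heis.mul_def, ← add_assoc, f4_add]⟩
    obtain ⟨r, o, h5, e⟩ := hb.O_dec _ h4 (mul_mem (cR p) h2)
    exact ⟨_, mul_mem (inv_mem (mul_mem (S.ι_mem p) (S.x_mem l))) (S.ρ_mem r), o, h5, by rw [mul_assoc, ← e]; group⟩
  · obtain ⟨l, h1, h2⟩ := d2_tr hb hx hn
    refine (mul_mem_cancel_left (le_normalizer (S.x_mem l))).1 ?_
    generalize S.x l * n = n at h1 h2
    have h3 := d2_nR hb h1 h2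
    have h4 := (d2_nV hb h1 h2 1).elim fun c e => B.nU n h1 1 c one_ne_zero e
    have h5 : n ∈ 𝒩(S.O) := mem_norm_of_cj_le (by
      rintro _ ⟨o, ho, rfl⟩
      exact d2_odd hb (conj_mem (S.N_le_NK h1) (hb.O_le ho).1) (conj_mem (norm_le_norm_cent _ h3) (hb.O_le ho).2)
        (hb.O_odd.of_dvd_nat (((MulAut.conj n).orderOf_eq o).dvd.trans (orderOf_dvd_natCard _ ho))))
    have h6 : ∀ l, n * S.x l * n⁻¹ ∈ S.W := fun l => by
      obtain ⟨l', h6⟩ := d2_lin hb (g := n * S.x l * n⁻¹) fun r => by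
        obtain ⟨r', e⟩ := (hb.memR _).1 (conj_mem' h3 ((hb.memR _).2 ⟨r, rfl⟩))
        refine (d2_nV hb h1 h2 (l * r')).imp fun c e' => ?_
        rw [← e', show S.ρ r = n * S.ρ r' * n⁻¹ by rw [← e]; group, conj_mul, conj_inv, conj_mul, hx.act, conj_mul]
      obtain ⟨h7, h8⟩ := d2_fixR hb hx h6
      obtain ⟨c, h9⟩ := B.cU _ h8 (mul_mem (hx.cU _) (conj_mem (norm_le_norm_cent _ h4) (hx.cU l)))
      obtain ⟨r, o, ho, e⟩ := hb.O_dec _ h9 (mul_mem (cR _) h7)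
      have w := mul_mem (inv_mem (mul_mem (S.ι_mem ⟨0, 0, c⟩) (S.x_mem l'))) (S.ρ_mem r)
      have e1 : n * S.x l * n⁻¹ = (S.v c * S.x l')⁻¹ * S.ρ r * o := by rw [mul_assoc _ _ o, ← e]; group
      rwa [e1, S.eq_one_of_two ho (S.W_cO w) ⟨2, S.W_pow w⟩ ⟨1, by rw [← e1, conj_pow, pow_one, pow_two, hx.sq]; group⟩,
        mul_one]
    refine mem_norm_of_cj_le ?_
    rintro _ ⟨_, ⟨y, c, rfl⟩, rfl⟩
    obtain ⟨p, e⟩ := conj_mem h4 (⟨⟨y.1, y.2.1, c⟩, rfl⟩ : _ ∈ S.U)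
    obtain ⟨r, e'⟩ := (hb.memR _).1 (conj_mem h3 ((hb.memR _).2 ⟨y.2.2.1, rfl⟩))
    have := mul_mem (mul_mem (e ▸ S.ι_mem p) (e' ▸ S.ρ_mem r)) (h6 y.2.2.2)
    rwa [conj_mul, conj_mul] at this
  · choose σ h1 h2 using S.q1.onto
    have h3 : ∀ a r c, S.τ1 (S.mm (a, 0, r, 0) c) = 0 := fun a r c => d2_tau S.q1 (S.mem_Q1 a r 0 c) (by
      rw [← SD.m_ρ hx, WS.mm, SD.m_comm hb hx, mul_assoc _ (SD.m _ _ _ _ _), SD.m_v hb hx, ← SD.v_m hb hx]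
      simp [bf, mul_assoc])
    rw [← Nat.card_eq_of_bijective (fun e : (F4 × F4) × F4 × F4 × F4 =>
      (⟨σ e.1 * S.mm (e.2.1, 0, e.2.2.1, 0) e.2.2.2, mul_mem (h1 _) (S.mem_Q1 _ _ _ _)⟩ : S.Q1)) ⟨?_, fun q => ?_⟩]
    · simp only [Nat.card_prod, card_F4]; rfl
    · rintro ⟨e, a, r, c⟩ ⟨e', a', r', c'⟩ h
      have h4 := congrArg Subtype.val h
      have h5 := congrArg S.τ1 h4
      simp only [d2_add S.q1 (h1 _) (S.mem_Q1 _ _ _ _), h2, h3, add_zero] at h5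
      subst h5
      simpa [and_assoc] using SD.m_inj hb hx (mul_left_cancel h4)
    · have h4 := mul_mem (inv_mem (h1 (S.τ1 q))) q.2
      have h5 := d2_add S.q1 (h1 (S.τ1 q)) h4
      rw [mul_inv_cancel_left, h2, left_eq_add] at h5
      obtain ⟨a, c, r, e⟩ := S.q1.ker _ h4 h5
      exact ⟨⟨S.τ1 q, a, r, c⟩, Subtype.ext (by simp only [WS.mm, SD.m, hx.zero, mul_one, ← e, mul_inv_cancel_left])⟩
  · have hn : ∀ l, S.x l ∈ 𝒩(X) := fun l => normalizer_eq_top X ▸ mem_top _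
    exact sup_le (d2_gen hb hx S.q1 S.a1 hA hn).2 (d2_gen hb.sw hx.sw S.q2 S.a2 hA hn).2

end CL.LS
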