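/-
Project LS: `A₅` acts on `W / V`; the roots in `W`; the action of `N(W)`.
-/
import Cfsg.Agent.LS.Defs2

set_option autoImplicit false
set_option linter.unusedSectionVars false
open Cfsg Subgroup CL.Even CL.Grp CL.L34 Equiv
open scoped commutatorElement

namespace CL.LS

universe u

namespace D3

/-- the four-group fixing the point `1` -/
def yp (t : F4) : Perm (Fin 5) := swap 0 1 * xp t * swap 0 1
/-- the field automorphisms -/
def fe (ε : Bool) (c : F4) : F4 := cond ε (c * c) c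
/-- the action of `xp t` -/
def X (t : F4) (y : M4) : M4 := Xa (1 * t * t) t y
/-- the action of `yp t` -/
def Y (t : F4) (y : M4) : M4 := sw4 (X t (sw4 y))

theorem pm_X (t : F4) (y : M4) : pm (xp t) y = X t y := pm_xp t y
theorem pm_yp (t : F4) (y : M4) : pm (yp t) y = Y t y := by rw [yp, pm_mul, pm_mul, pm_swap, pm_swap, pm_xp]; rfl
theorem words : ∀ a b : Fin 5, a ≠ b → ∃ s t u v, ∀ i,
    (swap 0 1 * swap a b : Perm (Fin 5)) i = (xp s * yp t * xp u * yp v) i := by decide +kernel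
theorem to_zero : ∀ i : Fin 5, ∃ s t, (yp s * xp t) i = 0 := by decide +kernel
theorem orb : ∀ y, RV y → ∃ s t u v, Y t (X s y) = X u (Y v (0, 0, 1, 0)) := by decide +kernel
theorem XX : ∀ t y, X t (X t y) = y := by decide +kernel
theorem YY (t : F4) (y : M4) : Y t (Y t y) = y := congrArg sw4 (XX t (sw4 y))
theorem span (y : M4) : ∃ a b c d : F4, y = a • pt 0 + b • pt 1 + c • pt 2 + d • pt 3 :=
  ⟨co y 0, co y 1, co y 2, co y 3, by revert y; decide +kernel⟩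
theorem bf_pt : ∀ i j, bf (pt i) (pt j) = if i = j then 0 else 1 := by decide +kernel
theorem qf_pt : ∀ i, qf (pt i) = 0 ∧ pt i ≠ 0 := by decide +kernel
theorem third : ∀ i : Fin 5, ∃ j, i ≠ j ∧ 0 ≠ j := by decide +kernel
theorem canc : ∀ a b c : F4, c ≠ 0 → a * c = b * c → a = b := by decide +kernel
theorem fe_mul : ∀ ε a b, fe ε (a * b) = fe ε a * fe ε b := by decide +kernel
theorem fe_ex : ∀ a b : F4, a ≠ 0 → b ≠ 0 → b + a ≠ 0 → ∃ ε, 0 = a * fe ε 0 ∧ a = a * fe ε 1 ∧ b = a * fe ε om ∧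
    b + a = a * fe ε (om * om) := by decide +kernel
theorem sq_add : ∀ a b : F4, (a + b) * (a + b) = a * a + b * b := by decide +kernel

theorem bf_smul (a b : F4) (y y' : M4) : bf (a • y) (b • y') = a * b * bf y y' := by
  simp only [bf, Prod.smul_fst, Prod.smul_snd, smul_eq_mul]; ring

theorem bf_ext {y y' : M4} (h : ∀ w, bf y w = bf y' w) : y = y' :=
  Prod.ext (by simpa [bf] using h (0, 1, 0, 0)) (Prod.ext (by simpa [bf] using h (1, 0, 0, 0))
    (Prod.ext (by simpa [bf] using h (0, 0, 0, 1)) (by simpa [bf] using h (0, 0, 1, 0))))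

theorem bf_comm (y y' : M4) : bf y y' = bf y' y := by simp only [bf]; ring

theorem bf_zero (y : M4) : bf 0 y = 0 := by simp [bf]

theorem bf_onto {y : M4} (h : y ≠ 0) (d : F4) : ∃ w, bf w y = d := by
  obtain ⟨w, hw⟩ : ∃ w, bf y w ≠ 0 := by
    by_contra! k
    exact h (bf_ext fun w => by rw [k, bf_zero])
  refine ⟨(d * (bf y w * bf y w)) • w, ?_⟩
  rw [← one_smul F4 y, bf_smul, one_smul, bf_comm w]
  linear_combination d * f4_cube hw

theorem gam_add (ζ : F4) (ε : Bool) (π : Perm (Fin 5)) (y y' : M4) : gam ζ ε π (y + y') = gam ζ ε π y + gam ζ ε π y' := by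
  cases ε
  · simp only [gam, cond_false, pm_add, smul_add]
  · simp only [gam, cond_true, pm_add, ← smul_add, Jm, Prod.fst_add, Prod.snd_add, sq_add, Prod.mk_add_mk]

theorem gam_smul (ζ : F4) (ε : Bool) (π : Perm (Fin 5)) (a : F4) (y : M4) :
    gam ζ ε π (a • y) = fe ε a • gam ζ ε π y := by
  cases ε
  · simp only [gam, fe, cond_false, pm_smul, smul_comm ζ]
  · simp only [gam, fe, cond_true, pm_smul, Jm, Prod.smul_fst, Prod.smul_snd, smul_eq_mul, Prod.smul_mk, Prod.mk.injEq]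
    exact ⟨by ring, by ring, by ring, by ring⟩

theorem gam_pt (ζ : F4) (ε : Bool) (π : Perm (Fin 5)) (i : Fin 5) : gam ζ ε π (pt i) = ζ • pt (π i) := by
  rw [gam, pm_pt, herm_pt, Bool.cond_self]

/-- the semisimilarities preserving the five points -/
theorem pure {f : M4 → M4} {ga : F4 → F4} (fa : ∀ y y', f (y + y') = f y + f y') (gad : ∀ c c', ga (c + c') = ga c + ga c')
    (gi : ∀ c, ga c = 0 → c = 0) (fi : Function.Injective f) (hb : ∀ y y', bf (f y) (f y') = ga (bf y y'))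
    (ho : ∀ i, OmV (f (pt i))) : ∃ ζ ε π, ζ ≠ 0 ∧ f = gam ζ ε π ∧ ∀ c, ga c = ζ * ζ * fe ε c := by
  have g1 : ga 1 ≠ 0 := mt (gi _) one_ne_zero
  obtain ⟨ε, e0, e1, e2, e3⟩ := fe_ex (ga 1) (ga om) g1 (mt (gi _) (by decide +kernel))
    (by rw [← gad]; exact mt (gi _) (by decide +kernel))
  have hg : ∀ c, ga c = ga 1 * fe ε c := fun c => by
    rcases f4_cases c with rfl | rfl | rfl | rfl
    exacts [e0 ▸ left_eq_add.1 ((congrArg ga (add_zero 0).symm).trans (gad 0 0)), e1, e2, by rw [← e3, ← gad, om_sq]]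
  have fs : ∀ (a : F4) y, f (a • y) = fe ε a • f y := fun a y => bf_ext fun w => by
    obtain ⟨w, rfl⟩ := Finite.injective_iff_surjective.1 fi w
    rw [hb, ← one_smul F4 (f w), bf_smul, hb, ← one_smul F4 w, bf_smul, one_smul, hg, hg (bf y w), mul_one, fe_mul]
    ring
  choose p ζ hζ e using ho
  have k : ∀ i j, i ≠ j → p i ≠ p j ∧ ζ i * ζ j = ga 1 := fun i j h => by
    have := hb (pt i) (pt j)
    rw [e, e, bf_smul, bf_pt, bf_pt, if_neg h] at this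
    split_ifs at this with h'
    exacts [absurd (by rw [← this, mul_zero]) g1, ⟨h', by rw [← this, mul_one]⟩]
  have z : ∀ i, ζ i = ζ 0 := fun i => by
    obtain ⟨j, h1, h2⟩ := third i
    exact canc _ _ _ (hζ j) ((k i j h1).2.trans (k 0 j h2).2.symm)
  let π : Perm (Fin 5) := Equiv.ofBijective p (Finite.injective_iff_bijective.1 fun i j h => by_contra fun n => (k i j n).1 h)
  have e' : ∀ i, f (pt i) = gam (ζ 0) ε π (pt i) := fun i => by rw [e, gam_pt, z]; rfl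
  refine ⟨ζ 0, ε, π, hζ 0, funext fun y => ?_, fun c => by rw [hg, ← (k 0 1 (by decide)).2, z 1]⟩
  obtain ⟨a, b, c, d, rfl⟩ := span y
  simp only [fa, fs, gam_add, gam_smul, e']

variable {G : Type u} [Group G] [Finite G] (S : WS G)

/-- the permutations realised by `Hs` -/
def Pi : Subgroup (Perm (Fin 5)) where
  carrier := {π | ∃ g ∈ S.Hs, S.Ac g (pm π)}
  one_mem' := ⟨1, one_mem _, fun y c => ⟨c, by simp [pm_one]⟩⟩
  mul_mem' := fun ⟨g, hg, a⟩ ⟨g', hg', a'⟩ => ⟨g * g', mul_mem hg hg', (funext (pm_mul _ _) :) ▸ a.mul a'⟩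
  inv_mem' := fun ⟨g, hg, a⟩ => ⟨g⁻¹, inv_mem hg, WS.Ac.inv a fun y => by rw [← pm_mul, inv_mul_cancel, pm_one]⟩

theorem xp_mem (t : F4) : xp t ∈ Pi S := by
  obtain ⟨q, hq, e⟩ := S.q1.onto (t, 0)
  exact ⟨q, mem_sup_left hq, by simpa only [e] using S.Q1_ac hq⟩

theorem yp_mem (t : F4) : yp t ∈ Pi S := by
  obtain ⟨q, hq, e⟩ := S.q2.onto (t, 0)
  exact ⟨q, mem_sup_right hq, by simpa only [e, yp] using S.Q2_ac hq⟩

theorem real (π : Perm (Fin 5)) : (Perm.sign π = 1 → π ∈ Pi S) ∧ (Perm.sign π = -1 → swap 0 1 * π ∈ Pi S) := by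
  induction π using Perm.swap_induction_on with
  | one => exact ⟨fun _ => one_mem _, fun h => absurd h (by decide)⟩
  | swap_mul π a b h ih =>
    obtain ⟨s, t, u, v, e⟩ := words a b h
    have m : swap 0 1 * swap a b ∈ Pi S :=
      Perm.ext e ▸ mul_mem (mul_mem (mul_mem (xp_mem S s) (yp_mem S t)) (xp_mem S u)) (yp_mem S v)
    rw [map_mul, Perm.sign_swap h, neg_one_mul, neg_eq_iff_eq_neg, neg_inj]
    exact ⟨fun k => by simpa [mul_assoc] using mul_mem (inv_mem m) (ih.2 k), fun k => mul_assoc _ _ π ▸ mul_mem m (ih.1 k)⟩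

theorem wconj (y : M4) (h : y ≠ 0) (c c' : F4) : ∃ w ∈ S.W, w * S.mm y c * w⁻¹ = S.mm y c' := by
  obtain ⟨w, e⟩ := bf_onto h (c + c')
  refine ⟨_, S.mm_mem w 0, mul_inv_eq_iff_eq_mul.2 ?_⟩
  rw [SD.m_comm S.bd S.xd, e, mul_assoc, SD.m_v S.bd S.xd, ← SD.v_m S.bd S.xd, ← mul_assoc, SD.m_v S.bd S.xd, ← add_assoc,
    f4_add, zero_add]

theorem rconj (y : M4) (c : F4) (h : RV y) : ∃ g ∈ S.Hs, g * S.ρ 1 * g⁻¹ = S.mm y c := by
  obtain ⟨s, t, u, v, e⟩ := orb y h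
  obtain ⟨g, hg, a⟩ := mul_mem (mul_mem (mul_mem (xp_mem S s) (yp_mem S t)) (xp_mem S u)) (yp_mem S v)
  obtain ⟨c', e'⟩ := a (0, 0, 1, 0) 0
  rw [SD.m_ρ S.xd, pm_mul, pm_mul, pm_mul, pm_yp, pm_yp, pm_X, pm_X, ← e, YY, XX] at e'
  obtain ⟨w, hw, e2⟩ := wconj S y h.2.1 c' c
  exact ⟨w * g, mul_mem (S.W_le_Hs hw) hg, by rw [← e2, WS.mm, ← e']; group⟩

theorem v_inj {c c' : F4} (e : S.v c = S.v c') : c = c' := congrArg Heis.c (S.inj e)

theorem root (y : M4) (c : F4) : S.Root (S.mm y c) ↔ RV y := by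
  refine ⟨fun h => ⟨v_inj S (by rw [← SD.m_sq S.bd S.xd y c, h.1, S.v_zero]), ?_, ?_⟩, fun h => ?_⟩
  · rintro rfl
    exact S.bd.noV _ (S.mem _) ((congrArg S.Root (SD.m_zero S.bd S.xd c)).mp h)
  · rintro ⟨i, ζ, -, rfl⟩
    obtain ⟨s, t, e⟩ := to_zero i
    obtain ⟨g, -, a⟩ := mul_mem (yp_mem S s) (xp_mem S t)
    obtain ⟨c', e'⟩ := a (ζ • pt i) c
    rw [pm_smul, pm_pt, e, pt_zero, show ζ • ((1, 0, 0, 0) : M4) = (ζ, 0, 0, 0) by simp, SD.m_u S.bd S.xd] at e'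
    exact S.bd.noV _ (S.mem _) ((congrArg S.Root e').mp (h.conj g))
  · obtain ⟨g, -, e⟩ := rconj S y c h
    exact e ▸ SD.Root.conj ⟨S.bd.sq 1, S.bd.ne_one one_ne_zero, 1, by rw [cj_one]; exact S.bd.memK 1⟩ g

theorem cls (n : G) (hn : n ∈ 𝒩(S.W)) : ∃ ζ ε π, ζ ≠ 0 ∧ S.Ac n (gam ζ ε π) ∧
    ∀ c, n * S.v c * n⁻¹ = S.v (ζ * ζ * cond ε (c * c) c) := by
  choose f k e using fun y => conj_mem hn (S.mm_mem y 0)
  have hv : ∀ c, ∃ d, n * S.v c * n⁻¹ = S.v d := fun c => by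
    obtain ⟨y, d, e1⟩ := conj_mem hn (S.ι_mem ⟨0, 0, c⟩)
    obtain rfl : y = 0 := bf_ext fun w => v_inj S (by
      have e2 := S.W_cV (conj_mem' hn (S.mm_mem w 0)) _ (S.mem_V.2 ⟨c, rfl⟩)
      have e3 := SD.m_comm S.bd S.xd y w d 0
      rw [← WS.mm, ← WS.mm, ← e1, show n * S.v c * n⁻¹ * S.mm w 0 = n * (S.v c * (n⁻¹ * S.mm w 0 * n)) * n⁻¹ by group, e2,
        show n * (n⁻¹ * S.mm w 0 * n * S.v c) * n⁻¹ = S.mm w 0 * (n * S.v c * n⁻¹) by group, left_eq_mul] at e3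
      rw [e3, bf_zero, S.v_zero])
    exact ⟨d, e1.trans (SD.m_zero S.bd S.xd d)⟩
  choose ga hg using hv
  have ac : S.Ac n f := fun y c => ⟨k y + ga c, by
    rw [← SD.m_v S.bd S.xd, ← hg, ← WS.mm, ← WS.mm, ← e, conj_mul, SD.m_v S.bd S.xd, zero_add]⟩
  have gi : ∀ c, ga c = 0 → c = 0 := fun c h => v_inj S (by
    rw [S.v_zero, ← conj_eq_one_iff (a := n), hg, h, S.v_zero])
  have hb : ∀ y y', bf (f y) (f y') = ga (bf y y') := fun y y' => v_inj S (by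
    have := SD.m_comm S.bd S.xd (f y) (f y') (k y) (k y')
    rw [← WS.mm, ← WS.mm, ← e, ← e, conj_mul, conj_mul, SD.m_comm S.bd S.xd y, ← conj_mul, hg] at this
    exact (mul_left_cancel this).symm)
  have fa : ∀ y y', f (y + y') = f y + f y' := fun y y' => by
    obtain ⟨c, e1⟩ := ac (y + y') (0 + 0 + y.1 * y'.2.1 + y.2.2.2 * y'.2.2.1)
    rw [← SD.m_mul S.bd S.xd, ← conj_mul, e, e, SD.m_mul S.bd S.xd] at e1
    exact (SD.m_inj S.bd S.xd e1).1.symm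
  have f0 : ∀ y, f y = 0 → y = 0 := fun y h => bf_ext fun w => by rw [bf_zero]; exact gi _ (by rw [← hb, h, bf_zero])
  have va : ∀ c c', S.v (c + c') = S.v c * S.v c' := fun c c' => by
    rw [← SD.m_zero S.bd S.xd c, SD.m_v S.bd S.xd, SD.m_zero S.bd S.xd]
  obtain ⟨ζ, ε, π, h1, h2, h3⟩ := pure (ga := ga) fa (fun c c' => v_inj S (by rw [← hg, va, va, ← hg, ← hg, conj_mul])) gi
    (fun y y' h => by rw [← add_zero y, ← m4_add y', ← add_assoc, f0 (y + y') (by rw [fa, h, m4_add]), zero_add]) hb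
    fun i => by_contra fun o => ((root S _ 0).1 ((S.root_conj n).1 (e (pt i) ▸ (root S _ _).2 ⟨v_inj S (by
      rw [← SD.m_sq S.bd S.xd _ (k (pt i)), ← WS.mm, ← e, conj_mul, SD.m_sq S.bd S.xd, (qf_pt i).1, S.v_zero, mul_one,
        mul_inv_cancel]), mt (f0 _) (qf_pt i).2, o⟩))).2.2 ⟨i, 1, one_ne_zero, (one_smul _ _).symm⟩
  exact ⟨ζ, ε, π, h1, h2 ▸ ac, fun c => by rw [hg, h3]; rfl⟩

end D3

theorem d3S : D3S.{u} := fun _ _ _ S =>
  ⟨fun π h => (D3.real S π).1 h, D3.wconj S, D3.root S, D3.rconj S, D3.cls S⟩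

end CL.LS
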