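/-
Project LS: elements of `C(V)` acting on `W / V` as double transpositions.
-/
import Cfsg.Agent.LS.Defs2
import Cfsg.Agent.LS.C4

set_option autoImplicit false
set_option linter.unusedSectionVars false
open Cfsg Subgroup CL.Even CL.Grp CL.L34 Equiv
open scoped commutatorElement

namespace CL.LS

universe u

namespace DTx

open SD C4x

theorem cls : ∀ π : Perm (Fin 5), π * π = 1 → π ≠ 1 → Perm.sign π = 1 →
    ∃ σ : Perm (Fin 5), σ * π * σ⁻¹ = xp 1 ∧ Perm.sign σ = 1 := by decide +kernel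

theorem xp_sq : xp 1 * xp 1 = 1 := by decide +kernel

variable {G : Type u} [Group G] [Finite G]

/-- the inverse of an element inducing a matrix of determinant one -/
theorem sl_inv {S : SD G} {m : G} {p q t l : F4} (hd : p * l + q * t = 1)
    (h : ∀ a c, m * S.e1 a c * m⁻¹ = S.e1 (p * a + t * c) (q * a + l * c)) (a c : F4) :
    m⁻¹ * S.e1 a c * m⁻¹⁻¹ = S.e1 (l * a + t * c) (q * a + p * c) := by
  have e := h (l * a + t * c) (q * a + p * c)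
  rw [show p * (l * a + t * c) + t * (q * a + p * c) = a by linear_combination a * hd + f4_add (p * t * c),
    show q * (l * a + t * c) + l * (q * a + p * c) = c by linear_combination c * hd + f4_add (q * l * a)] at e
  rw [← e]; group

variable (S : WS G)

theorem xe (l a c : F4) : S.x l * S.e1 a c = S.mm (a, 0, 0, l) c := by
  rw [← S.xd.comm, WS.mm, m, S.bd.zero, mul_one]

theorem v_sq (c : F4) : S.v c * S.v c = 1 := e1_sq 0 c

theorem e2_comm (b c b' c' : F4) : S.e2 b c * S.e2 b' c' = S.e2 b' c' * S.e2 b c := by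
  rw [← map_mul, ← map_mul]; simp [Heis.mul_def, add_comm]

theorem e2_sq' (b c : F4) : S.e2 b c * S.e2 b c = 1 := by
  rw [← map_mul, ← map_one S.ι]; simp [Heis.mul_def, Heis.one_def, f4_add]

variable {S}

theorem red (hW : S.WF) {y : G} (hy : y ∈ 𝒞(S.V)) (h2 : y * y ∈ S.V) (ha : S.Ac y (pm (xp 1))) :
    y ∈ S.Q1 ∧ y * y = 1 ∧ (S.τ1 y).1 = 1 := by
  obtain ⟨q, hq, hτ⟩ := S.q1.onto (1, 0)
  have a1 : S.Ac q (pm (xp 1)) := by simpa only [hτ] using S.Q1_ac hq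
  have inv : ∀ z, pm (xp 1) (pm (xp 1) z) = z := fun z => by rw [← pm_mul, xp_sq, pm_one]
  have a2 : S.Ac (q⁻¹ * y) id := by
    convert Ac.mul (a1.inv inv) ha using 1
    exact funext fun z => (inv z).symm
  obtain ⟨w, hw, o, ho, e⟩ := hW.ker _ (mul_mem (inv_mem (S.Hs_cV (mem_sup_left hq))) hy) a2
  have e1 : y = q * w * o := by rw [mul_assoc, ← e]; group
  obtain ⟨c0, hc0⟩ := S.mem_V.1 h2
  obtain rfl : o = 1 := by
    refine S.eq_one_of_two ho (mul_mem (S.q1.cO hq) (S.W_cO hw)) ?_ ⟨2, ?_⟩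
    · exact isPGroup_iff_forall.1 (isPGroup_sup S.q1.two S.W_two (le_sup_left.trans S.Hs_nW)) _
        (mul_mem (mem_sup_left hq) (mem_sup_right hw))
    · rw [← e1, show 2 ^ 2 = 2 * 2 from rfl, pow_mul, sq y, hc0, sq, v_sq]
  obtain ⟨⟨a, b, r, l⟩, c, rfl⟩ := hw
  have e2 : S.mm (a, b, r, l) c = S.mm (a, 0, r, l) (c + a * b) * S.mm (0, b, 0, 0) 0 := by
    rw [WS.mm, WS.mm, WS.mm, m_mul S.bd S.xd]
    simp [add_assoc, f4_add]
  obtain ⟨d, hd, e3⟩ : ∃ d ∈ S.Q1, y = d * S.mm (0, b, 0, 0) 0 :=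
    ⟨_, mul_mem hq (S.mem_Q1 a r l (c + a * b)), by rw [e1, e2]; group⟩
  have ht : (S.τ1 d).1 = 1 := by
    have := congrFun (Ac.unique S.bd S.xd (Ac.mul (S.a1.ac d hd) (Ac.m S.bd S.xd (0, b, 0, 0) 0)) (e3 ▸ ha))
      (0, 1, 0, 0)
    rw [pm_xp] at this
    simpa [Xa] using congrArg (·.2.2.2) this
  obtain ⟨β, hβ⟩ := S.a1.sq d hd
  obtain ⟨c1, e4⟩ := S.a1.ac d hd (0, b, 0, 0) 0
  have e5 : y * y = d * S.mm (0, b, 0, 0) 0 * d⁻¹ * (d * d) * S.mm (0, b, 0, 0) 0 := by rw [e3]; group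
  rw [hc0, e4, hβ, ← m_zero S.bd S.xd, SD.e1, ← m_u S.bd S.xd, m_mul S.bd S.xd, WS.mm, m_mul S.bd S.xd] at e5
  have e6 := (m_inj S.bd S.xd e5).1
  simp only [Xa, ht, Prod.mk_add_mk, mul_one, mul_zero, zero_add, add_zero, one_mul] at e6
  obtain rfl : b = 0 := (congrArg (·.2.2.2) e6).symm
  obtain rfl : β = 0 := by simpa using (congrArg (·.1) e6).symm
  have e7 : y = d := by rw [e3, WS.mm, m_u S.bd S.xd, ← Heis.one_def, map_one, mul_one]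
  subst e7
  exact ⟨hd, by rw [hβ, zero_mul, zero_mul, SD.e1, ← Heis.one_def, map_one], ht⟩

theorem four (hW : S.WF) {n g : G} (hn : S.ND n) {b c : F4} (h : g * S.ρ 1 * g⁻¹ = S.x 1 * S.e1 b (c + b * b)) (r : F4) :
    ∃ r', S.x r * S.e1 (r * b) (r * c + r * b * (r * b)) = g * S.ρ r' * g⁻¹ := by
  obtain ⟨g2, h2⟩ := S.bd.rg2 b c
  have e : ∀ s, n * (S.ρ s * S.e2 (s * b) (s * c)) * n⁻¹ = S.x s * S.e1 (s * b) (s * c + s * b * (s * b)) := fun s => by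
    rw [← hn.nρ, ← hn.ne2]; group
  have e1 : n * (S.ρ 1 * S.e2 (1 * b) (1 * c)) * n⁻¹ = g * S.ρ 1 * g⁻¹ := by rw [e, h, one_mul, one_mul]
  have h3 : ∀ s, n * (S.ρ s * S.e2 (s * b) (s * c)) * n⁻¹ ∈ cj (n * g2) S.K := fun s => by
    rw [cj_mul]; exact conj_mem_cj n (h2 s)
  have h4 := (S.cj_K_eq (t := g * S.ρ 1 * g⁻¹) (by rw [conj_mul, S.bd.sq]; simp)
    (fun e => S.bd.ne_one one_ne_zero (conj_eq_one_iff.1 e)) (conj_mem_cj g (S.bd.memK 1)) (e1 ▸ h3 1)).1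
  have pr : ∀ s s', S.ρ s * S.e2 (s * b) (s * c) * (S.ρ s' * S.e2 (s' * b) (s' * c)) =
      S.ρ (s + s') * (S.e2 (s * b) (s * c) * S.e2 (s' * b) (s' * c)) := fun s s' => by
    rw [S.bd.add, mul_assoc, ← mul_assoc (S.e2 _ _), S.bd.comm s' (S.mem _)]; group
  obtain ⟨r', o, ho, e2⟩ := hW.ck 1 one_ne_zero _ (mem_cj.1 (h4 ▸ h3 r)) (by
    have : S.ρ 1 = g⁻¹ * (n * (S.ρ 1 * S.e2 (1 * b) (1 * c)) * n⁻¹) * g := by rw [e1]; group
    rw [this]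
    simp only [← mul_assoc, mul_inv_cancel_right, inv_mul_cancel_right]
    simp only [mul_assoc]
    congr 2
    have := pr r 1
    rw [add_comm, e2_comm, ← pr 1 r] at this
    simp only [← mul_assoc] at this ⊢
    rw [this])
  obtain rfl : o = 1 := by
    refine S.eq_one_of_two ho (S.W_cO (S.ρ_mem r')) (two_of_sq (S.bd.sq r')) (two_of_sq ?_)
    rw [← e2, show ∀ z : G, g⁻¹ * (n * z * n⁻¹) * g * (g⁻¹ * (n * z * n⁻¹) * g) = g⁻¹ * n * (z * z) * n⁻¹ * g from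
      fun z => by group, pr, f4_add, S.bd.zero, e2_sq']
    group
  exact ⟨r', by rw [← e, ← mul_one (S.ρ r'), ← e2]; group⟩

theorem four' (hW : S.WF) {n g : G} (hn : S.ND n) {b c : F4} (h : g * S.ρ 1 * g⁻¹ = S.x 1 * S.e1 b (c + b * b))
    (r' : F4) : ∃ r, S.x r * S.e1 (r * b) (r * c + r * b * (r * b)) = g * S.ρ r' * g⁻¹ := by
  choose f hf using four hW hn h
  have : Function.Injective f := fun r s e => by
    have := (hf r).trans (e ▸ (hf s).symm)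
    rw [xe, xe] at this
    exact congrArg (·.2.2.2) (m_inj S.bd S.xd this).1
  obtain ⟨r, rfl⟩ := Finite.surjective_of_injective this r'
  exact ⟨r, hf r⟩

theorem root_e2 (hB : HB G) (a c : F4) : ∃ g, S.ρ 1 * S.e2 a c ∈ cj g S.K ∧ ∀ b' c', S.e2 b' c' ∈ cj g S.A := by
  by_cases h : a = 0 ∧ c = 0
  · refine ⟨1, ?_, fun b' c' => ?_⟩
    · rw [cj_one, h.1, h.2, e2, ← Heis.one_def, map_one, mul_one]
      exact S.bd.memK 1
    · rw [cj_one]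
      exact S.mem _
  obtain ⟨m', hm, p, q, hd, h1⟩ := (hB S.toSD.sw).1.sl2 a c h
  have h2 := sl_inv hd h1
  simp only [sw_e1] at h1 h2
  refine ⟨m' * S.x 1, ?_, fun b' c' => ?_⟩
  · convert conj_mem_cj (m' * S.x 1) (S.bd.memK 1) using 1
    have h3 := h1 0 1
    rw [mul_zero, mul_zero, zero_add, zero_add, mul_one, mul_one] at h3
    calc _ = m' * (S.ρ 1 * S.v (1 * 1)) * m'⁻¹ := by
          rw [← h3, mul_one, ← mul_assoc m', S.bd.comm 1 (show m' ∈ S.A from hm)]; group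
      _ = _ := by rw [← S.xd.act]; group
  · rw [mem_cj, show (m' * S.x 1)⁻¹ * S.e2 b' c' * (m' * S.x 1) = (S.x 1)⁻¹ * (m'⁻¹ * S.e2 b' c' * m'⁻¹⁻¹ * S.x 1) by
      group, h2, S.xd.comm, inv_mul_cancel_left]
    exact S.mem _

theorem core (hB : HB G) (hW : S.WF) {n d : G} (hn : S.ND n) (hd : d ∈ S.Q1) (h2 : d * d = 1) (ht : (S.τ1 d).1 = 1) :
    (∃ g, d ∈ cj g S.K ∧ S.V ≤ cj g S.A) ∧ ¬ ∃ g ∈ 𝒞(S.V), d = g * S.ρ 1 * g⁻¹ := by
  obtain ⟨m0, hm, p, q, hdet, h1⟩ := (hB S.toSD).1.sl2 1 (S.τ1 d).2 (fun h => one_ne_zero h.1)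
  have h3 := sl_inv hdet h1
  obtain ⟨h4, h5⟩ := nrm S.bd S.q1 (inv_mem hm) _ _ h3 hd
  rw [ht, mul_one, one_mul, f4_add, show q * 1 + p * (S.τ1 d).2 = 1 by rw [add_comm]; exact hdet] at h5
  obtain ⟨a, r, c, e⟩ := S.a1.ker _ h4 (by rw [h5])
  rw [h5] at e
  obtain rfl : r = 0 := by
    have := m_sq S.bd S.xd (a, 0, r, 1) c
    rw [← e, conj_mul, h2] at this
    simpa [qf] using v_one (S := S.toSD) (c := qf (a, 0, r, 1)) (by rw [← this]; group)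
  obtain ⟨c1, rfl⟩ : ∃ c1, c = c1 + a * a := ⟨c + a * a, by rw [add_assoc, f4_add, add_zero]⟩
  rw [← WS.mm, ← xe] at e
  have hv : ∀ c0, m0⁻¹ * S.v c0 * m0⁻¹⁻¹ = S.e1 c0 (p * c0) := fun c0 => by simpa using h3 0 c0
  constructor
  · obtain ⟨g0, k1, k2⟩ := root_e2 (S := S) hB a c1
    refine ⟨m0 * n * g0, ?_, fun z hz => ?_⟩
    · rw [cj_mul, cj_mul, mem_cj]
      convert conj_mem_cj n k1 using 1
      rw [show m0⁻¹ * d * m0 = m0⁻¹ * d * m0⁻¹⁻¹ by group, e, ← hn.nρ, ← hn.ne2]; group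
    · obtain ⟨c0, rfl⟩ := S.mem_V.1 hz
      rw [cj_mul, cj_mul, mem_cj]
      convert conj_mem_cj n (k2 c0 (p * c0 + c0 * c0)) using 1
      rw [hn.ne2, add_assoc, f4_add, add_zero, ← hv, inv_inv]
  · rintro ⟨g, hg, rfl⟩
    have hv' : ∀ c0, m0⁻¹ * g * S.v c0 * (m0⁻¹ * g)⁻¹ = S.e1 c0 (p * c0) := fun c0 => by
      rw [← hv, mul_assoc m0⁻¹, ← comm_of_mem hg (S.mem_V.2 ⟨c0, rfl⟩)]; group
    have k1 : m0⁻¹ * g * S.ρ 1 * (m0⁻¹ * g)⁻¹ = S.x 1 * S.e1 a (c1 + a * a) := by rw [← e]; group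
    have k3 : ∀ r', m0⁻¹ * g * S.x 1 * S.ρ r' * (m0⁻¹ * g * S.x 1)⁻¹ =
        m0⁻¹ * g * S.ρ r' * (m0⁻¹ * g)⁻¹ * S.e1 r' (p * r') := fun r' => by
      calc _ = m0⁻¹ * g * (S.x 1 * S.ρ r' * (S.x 1)⁻¹) * (m0⁻¹ * g)⁻¹ := by group
        _ = _ := by rw [S.xd.act, one_mul, ← hv']; group
    have k2 : m0⁻¹ * g * S.x 1 * S.ρ 1 * (m0⁻¹ * g * S.x 1)⁻¹ =
        S.x 1 * S.e1 (a + 1) (c1 + p + 1 + (a + 1) * (a + 1)) := by
      rw [k3, k1, mul_assoc, e1_mul]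
      congr 2
      linear_combination (-1) * f4_add a - f4_add 1
    obtain ⟨r', k4⟩ := four hW hn k2 om
    obtain ⟨r3, k5⟩ := four' hW hn k1 r'
    rw [k3, ← k5, mul_assoc (S.x r3), e1_mul, xe, xe] at k4
    obtain ⟨k6, k7⟩ := m_inj S.bd S.xd k4
    obtain rfl : om = r3 := congrArg (·.2.2.2) k6
    have k8 : om * (a + 1) = om * a + r' := congrArg (·.1) k6
    revert k7 k8
    exact (by decide +kernel : ∀ a c1 p r' : F4, om * (c1 + p + 1) + om * (a + 1) * (om * (a + 1)) =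
      om * c1 + om * a * (om * a) + p * r' → om * (a + 1) = om * a + r' → False) a c1 p r'

end DTx

open DTx

theorem dTS : DTS.{u} := by
  intro G _ _ S n hB hW hn y hy h2 π ha h1 hs
  have hπ : π * π = 1 := by
    obtain ⟨c, hc⟩ := S.mem_V.1 h2
    have := SD.Ac.unique S.bd S.xd (SD.Ac.mul ha ha) (by
      rw [hc, ← SD.m_zero S.bd S.xd]
      exact SD.Ac.m S.bd S.xd _ _)
    exact pm_faithful fun i => by rw [pm_mul, pm_one]; exact congrFun this _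
  obtain ⟨σ, e, hσ⟩ := cls π hπ h1 hs
  obtain ⟨k, hk, ak⟩ := hW.real σ hσ
  have hkV := S.Hs_cV hk
  have ay : S.Ac (k * y * k⁻¹) (pm (xp 1)) := by
    convert SD.Ac.mul (SD.Ac.mul ak ha) (ak.inv (f' := pm σ⁻¹) fun z => by rw [← pm_mul, inv_mul_cancel, pm_one])
      using 1
    exact funext fun z => by rw [← e, pm_mul, pm_mul]; rfl
  obtain ⟨k1, k2, k3⟩ := red hW (mul_mem (mul_mem hkV hy) (inv_mem hkV))
    (by rw [conj_mul]; exact conj_mem (cent_le_norm _ hkV) h2) ay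
  obtain ⟨⟨g, k4, k5⟩, k6⟩ := core hB hW hn k1 k2 k3
  refine ⟨by rwa [conj_mul, conj_eq_one_iff] at k2, ⟨k⁻¹ * g, ?_, ?_⟩, ?_⟩
  · rw [cj_mul, mem_cj, inv_inv]
    exact k4
  · rw [cj_mul, le_cj_iff, inv_inv, cj_eq_of_mem_cent hkV]
    exact k5
  · rintro ⟨g, hg, rfl⟩
    exact k6 ⟨k * g, mul_mem hkV hg, by group⟩

end CL.LS
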