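/-
Project LS: the element `j`.
-/
import Cfsg.Agent.LS.Defs2

set_option autoImplicit false
set_option linter.unusedSectionVars false
open Cfsg Subgroup CL.Even CL.Grp CL.L34 Equiv
open scoped commutatorElement

namespace CL.LS

universe u v

theorem j_herm_add {y y' : M4} (h : Herm y) (h' : Herm y') : Herm (y + y') := by
  have : ∀ y y' : M4, Jm (y + y') = Jm y + Jm y' := by
    have k : ∀ a b : F4, (a + b) * (a + b) = a * a + b * b := by decide +kernel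
    intro y y'; simp only [Jm, Prod.fst_add, Prod.snd_add, k, Prod.mk_add_mk]
  rw [Herm, this, h, h']

theorem j_herm_ind {P : M4 → Prop} (h0 : P 0) (h1 : ∀ y i, Herm y → P y → P (y + pt i)) (y : M4) (hy : Herm y) : P y := by
  have key : ∀ y : M4, Herm y → ∃ a b c d : Bool,
      y = 0 + cond a (pt 0) 0 + cond b (pt 1) 0 + cond c (pt 2) 0 + cond d (pt 3) 0 := by decide +kernel
  have st : ∀ (y : M4) (i) (a : Bool), Herm y ∧ P y → Herm (y + cond a (pt i) 0) ∧ P (y + cond a (pt i) 0) := by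
    rintro y i (_ | _) h
    · simpa using h
    · exact ⟨j_herm_add h.1 (herm_pt i), h1 y i h.1 h.2⟩
  obtain ⟨a, b, c, d, rfl⟩ := key y hy
  exact (st _ _ _ (st _ _ _ (st _ _ _ (st _ _ _ ⟨by decide +kernel, h0⟩)))).2

theorem j_bf_add (p y y' : M4) : bf p (y + y') = bf p y + bf p y' := by
  simp only [bf, Prod.fst_add, Prod.snd_add]; ring

theorem j_bf_zero : ∀ y : M4, (∀ i, bf y (pt i) = 0) → y = 0 := by decide +kernel

set_option synthInstance.maxSize 2000 in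
theorem j_dual : ∀ a b c d : Bool, ∃ p : M4, bf p (pt 0) = cond a 1 0 ∧
    bf p (pt 1) = cond b 1 0 ∧ bf p (pt 2) = cond c 1 0 ∧ bf p (pt 3) = cond d 1 0 ∧
    bf p (pt 4) = bf p (pt 0) + bf p (pt 1) + bf p (pt 2) + bf p (pt 3) := by decide +kernel

theorem j_odd : ∀ π : Perm (Fin 5), π 0 = 0 → Perm.sign π = -1 →
    ∃ t al : F4, al ≠ 0 ∧ ∀ r, Jm (pm (xp t * π) (0, 0, r, 0)) = (0, 0, al * (r * r), 0) := by decide +kernel

namespace WS

variable {G : Type u} [Group G] (S : WS G)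

theorem j_mconj (y0 y : M4) (c0 c : F4) : S.mm y0 c0 * S.mm y c * (S.mm y0 c0)⁻¹ = S.mm y (c + bf y0 y) := by
  rw [mm, mm, mm, SD.m_comm S.bd S.xd, ← SD.m_v S.bd S.xd, mul_assoc (S.toSD.m S.ρ S.x y c), SD.m_v S.bd S.xd,
    ← SD.v_m S.bd S.xd]
  group

theorem j_ρe (r a c : F4) : S.ρ r * S.e1 a c = S.mm (a, 0, r, 0) c := by
  rw [← S.bd.comm r (S.mem _), mm, SD.m, S.xd.zero, mul_one]

theorem j_z_ne : S.z ≠ 1 := fun e => by
  have := S.inj (e.trans (map_one S.ι).symm)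
  revert this; decide +kernel

theorem j_z_sq : S.z * S.z = 1 := by
  rw [← map_mul, ← map_one S.ι]; exact congrArg _ (by decide +kernel)

theorem j_cV {g : G} (h : g ∈ 𝒞(S.V)) (c : F4) : g * S.v c * g⁻¹ = S.v c := by
  rw [← comm_of_mem h (S.mem_V.2 ⟨c, rfl⟩), mul_inv_cancel_right]

theorem j_nV [Finite G] {g : G} {f : F4 → F4} (h : ∀ c, g * S.v c * g⁻¹ = S.v (f c)) : cj g S.V ≤ S.V := by
  rintro _ ⟨_, hx, rfl⟩
  obtain ⟨c, rfl⟩ := S.mem_V.1 hx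
  exact S.mem_V.2 ⟨_, h c⟩

variable {S} {n : G}

theorem ND.j_w (h : S.ND n) (a d : F4) :
    n * S.w2 * n⁻¹ * S.e1 a d * (n * S.w2 * n⁻¹)⁻¹ = S.e1 (d + a * a) (d * d) := by
  have e1 := h.ne2 a (d + a * a)
  have e2 := h.ne2 (d + a * a) a
  rw [(by decide +kernel : ∀ a d : F4, d + a * a + a * a = d)] at e1
  rw [(by decide +kernel : ∀ a d : F4, a + (d + a * a) * (d + a * a) = d * d), SD.e2, ← S.aw2] at e2
  rw [← e1, ← e2]; group

theorem ND.kd (h : S.ND n) : S.KD := by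
  have key : ∀ c, n * S.w2 * n⁻¹ * S.e2 1 0 * S.w1 * S.v c * (n * S.w2 * n⁻¹ * S.e2 1 0 * S.w1)⁻¹ =
      S.e1 (c + c * c) (c * c) := fun c => by
    have e1 : S.e2 1 0 * S.e1 c 0 * (S.e2 1 0)⁻¹ = S.e1 c c := by
      rw [← map_inv, ← map_mul, ← map_mul]; exact congrArg _ (by revert c; decide +kernel)
    rw [← h.j_w, ← e1, SD.e1, ← S.aw1 0 c]; group
  refine ⟨_, mem_centralizer_singleton_iff.2 (mul_inv_eq_iff_eq_mul.1 ((key 1).trans ?_)), om * om, (key om).trans ?_⟩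
  · exact congrArg _ (by decide +kernel)
  · exact congrArg _ (by decide +kernel)

theorem ND.j0 (h : S.ND n) : ∃ j ∈ 𝒞(S.O), ∀ a c, j * S.e1 a c * j⁻¹ = S.e1 (a * a) (a + c * c) := by
  have hn := S.Hs_cO h.mem
  refine ⟨S.w1 * (n * S.w2 * n⁻¹) * S.w1, mul_mem (mul_mem (S.A_cO S.w1A)
    (mul_mem (mul_mem hn (S.A_cO S.w2A)) (inv_mem hn))) (S.A_cO S.w1A), fun a c => ?_⟩
  have e := h.j_w c a
  rw [SD.e1, SD.e1, ← S.aw1 a c] at e
  rw [SD.e1, SD.e1, ← S.aw1 (a + c * c), ← e]; group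

variable [Finite G]

theorem j_not_odd (hW : S.WF) {j : G} (hj : ∀ a c, j * S.e1 a c * j⁻¹ = S.e1 (a * a) (a + c * c)) {π : Perm (Fin 5)}
    (ha : S.Ac j (gam 1 true π)) (h0 : π 0 = 0) : Perm.sign π ≠ -1 := fun hs => by
  obtain ⟨t, al, h1, h2⟩ := j_odd π h0 hs
  obtain ⟨q, hq, e⟩ := S.q1.onto (t, 0)
  have a1 := S.Q1_ac hq
  rw [e] at a1
  have hqE : ∀ a c, q * S.e1 a c * q⁻¹ = S.e1 a c := fun a c => by
    rw [← comm_of_mem (S.q1.cE hq) (S.mem_E1.2 ⟨a, c, rfl⟩), mul_inv_cancel_right]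
  have hg : ∀ a c, q * j * S.e1 a c * (q * j)⁻¹ = S.e1 (a * a) (a + c * c) := fun a c => by
    rw [← hqE (a * a), ← hj]; group
  have a2 : ∀ r, (pm (xp t) ∘ gam 1 true π) (0, 0, r, 0) = (0, 0, al * (r * r), 0) := fun r => by
    rw [Function.comp, gam_tt, ← Jm_pm, ← pm_mul, h2]
  have hF : q * j ∈ 𝒩(S.F) := mem_norm_of_cj_le (by
    rw [SD.F, cj_sup]
    refine sup_le ((S.j_nV (f := fun c => 0 + c * c) fun c => by simpa using hg 0 c).trans le_sup_left) ?_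
    rintro _ ⟨_, hx, rfl⟩
    obtain ⟨r, rfl⟩ := (S.bd.memR _).1 hx
    obtain ⟨c, e1⟩ := a1.mul ha (0, 0, r, 0) 0
    rw [a2, SD.m_ρ S.xd, ← zero_add c, ← SD.v_m S.bd S.xd, SD.m_ρ S.xd] at e1
    show q * j * S.ρ r * (q * j)⁻¹ ∈ _
    rw [e1]
    exact mul_mem (mem_sup_left (S.mem_V.2 ⟨c, rfl⟩)) (mem_sup_right ((S.bd.memR _).2 ⟨_, rfl⟩)))
  obtain ⟨l, hl⟩ := hW.tr _ hF
  set g := S.x l * (q * j) with hgd
  have gE : ∀ a c, g * S.e1 a c * g⁻¹ = S.e1 (a * a) (a + c * c) := fun a c => by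
    have := S.xd.comm l ⟨a * a, 0, a + c * c⟩
    rw [hgd, show S.x l * (q * j) * S.e1 a c * (S.x l * (q * j))⁻¹ =
      S.x l * (q * j * S.e1 a c * (q * j)⁻¹) * (S.x l)⁻¹ by group, hg, ← this, mul_inv_cancel_right]
  have gR : ∀ r, g * S.ρ r * g⁻¹ = S.ρ (al * (r * r)) := fun r => by
    obtain ⟨r', e1⟩ := (S.bd.memR _).1 (conj_mem hl ((S.bd.memR _).2 ⟨r, rfl⟩))
    obtain ⟨c, e2⟩ := (SD.Ac.m S.bd S.xd (0, 0, 0, l) 0).mul (a1.mul ha) (0, 0, r, 0) 0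
    rw [SD.m_x S.bd, SD.m_ρ S.xd, Function.comp, a2, id, ← hgd, e1, ← SD.m_ρ S.xd] at e2
    rw [e1, (Prod.mk.inj (Prod.mk.inj (Prod.mk.inj (SD.m_inj S.bd S.xd e2).1).2).2).1]
  obtain ⟨g1, b1⟩ := S.bd.rg1 1 0
  obtain ⟨g2, b2⟩ := S.bd.rg1 (al * al) (al * al)
  have b3 : ∀ r, S.mm (r * r, 0, al * (r * r), 0) r ∈ cj (g * g1) S.K := fun r => by
    have := conj_mem_cj g (b1 r)
    rw [← cj_mul, show g * (S.ρ r * S.e1 (r * 1) (r * 0)) * g⁻¹ = g * S.ρ r * g⁻¹ * (g * S.e1 (r * 1) (r * 0) * g⁻¹) by group,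
      gR, gE, j_ρe] at this
    simpa using this
  have b4 : ∀ s, S.mm (s, 0, al * s, 0) s ∈ cj g2 S.K := fun s => by
    have := b2 (al * s)
    rwa [j_ρe, show al * s * (al * al) = s by rw [← one_mul s, ← f4_cube h1]; ring_nf; rw [show al ^ 6 = al ^ 3 * al ^ 3 by ring,
      show al ^ 3 = 1 by rw [← f4_cube h1]; ring]; ring] at this
  have b5 := (S.cj_K_eq (by rw [mm, SD.m_sq S.bd S.xd]; simpa [qf] using S.v_zero)
    (fun e => by simpa using (SD.m_eq_one S.bd S.xd e).2) (b4 1) (g' := g * g1) (by simpa only [mul_one] using b3 1)).1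
  have b6 := mul_mem (b5 ▸ b3 om) (b4 (om * om))
  rw [mm, mm, SD.m_mul S.bd S.xd, m4_add, SD.m_zero S.bd S.xd] at b6
  refine S.bd.noV S.z (S.mem _) ⟨S.j_z_sq, S.j_z_ne, g2, ?_⟩
  simpa [(by decide +kernel : om + om * om = 1)] using b6

theorem j_ex1 (hW : S.WF) (h : S.ND n) (hC : S.CV) :
    ∃ j ∈ 𝒞(S.O), S.Ac j Jm ∧ ∀ c, j * S.v c * j⁻¹ = S.v (c * c) := by
  obtain ⟨j, hO, hj⟩ := h.j0
  have hv : ∀ c, j * S.v c * j⁻¹ = S.v (c * c) := fun c => by simpa using hj 0 c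
  obtain ⟨ζ, ε, π, h1, h2, h3⟩ := hW.cls j (hC (mem_norm_of_cj_le (S.j_nV hv)))
  obtain ⟨rfl, rfl⟩ := (by decide +kernel : ∀ (ζ : F4) (ε : Bool), (∀ c, c * c = ζ * ζ * cond ε (c * c) c) → ζ = 1 ∧ ε = true)
    ζ ε fun c => congrArg Heis.c (S.inj ((hv c).symm.trans (h3 c)))
  have h0 : π 0 = 0 := by
    obtain ⟨c, e⟩ := h2 (1, 0, 0, 0) 0
    rw [SD.m_u S.bd S.xd, hj, SD.e1, ← SD.m_u S.bd S.xd, gam_tt, mul_one, ← pt_zero, pm_pt, herm_pt] at e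
    exact (pt_inj (SD.m_inj S.bd S.xd e).1).symm
  have hs := (Int.units_eq_one_or _).resolve_right (j_not_odd hW hj h2 h0)
  obtain ⟨k, hk, a1⟩ := hW.real π⁻¹ (by rw [Perm.sign_inv, hs])
  refine ⟨k * j, mul_mem (S.Hs_cO hk) hO, ?_, fun c => ?_⟩
  · convert a1.mul h2 using 1
    funext y
    rw [Function.comp, gam_tt, ← Jm_pm, ← pm_mul, inv_mul_cancel, pm_one]
  · rw [← S.j_cV (S.Hs_cV hk) (c * c), ← hv]; group

theorem j_ex2 (hW : S.WF) (h : S.ND n) (hC : S.CV) :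
    ∃ j ∈ 𝒞(S.O), S.Ac j Jm ∧ (∀ c, j * S.v c * j⁻¹ = S.v (c * c)) ∧ j * j ∈ S.W := by
  obtain ⟨j, hO, h1, h2⟩ := j_ex1 hW h hC
  have hV : j * j ∈ 𝒞(S.V) := fun _ hx => by
    obtain ⟨c, rfl⟩ := S.mem_V.1 hx
    rw [eq_comm, ← mul_inv_eq_iff_eq_mul, show j * j * S.v c * (j * j)⁻¹ = j * (j * S.v c * j⁻¹) * j⁻¹ by group, h2, h2,
      (by decide +kernel : ∀ c : F4, c * c * (c * c) = c)]
  have hA : S.Ac (j * j) id := (funext Jm_Jm : Jm ∘ Jm = id) ▸ h1.mul h1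
  obtain ⟨w, hw, o, ho, e⟩ := hW.ker _ hV hA
  obtain ⟨k, hk⟩ := S.bd.O_odd.of_dvd_nat (orderOf_dvd_natCard _ ho)
  have hP : ∀ i : ℕ, S.Ac ((j * j) ^ i) id := fun i => by
    induction i with
    | zero => exact fun y c => ⟨c, by simp⟩
    | succ i ih => rw [pow_succ]; exact ih.mul hA
  refine ⟨(j * j) ^ k * j, mul_mem (pow_mem (mul_mem hO hO) k) hO, (hP k).mul h1, fun c => ?_, ?_⟩
  · rw [← S.j_cV (pow_mem hV k) (c * c), ← h2]; group
  · rw [show (j * j) ^ k * j * ((j * j) ^ k * j) = (j * j) ^ (2 * k + 1) by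
        rw [← pow_two j, ← pow_mul, ← pow_mul, ← pow_succ, ← pow_add]; congr 1; ring, ← hk, e,
      (show Commute w o from (comm_of_mem (S.W_cO hw) ho).symm).mul_pow, pow_orderOf_eq_one, mul_one]
    exact pow_mem hw _

theorem j_ex (hW : S.WF) (h : S.ND n) (hC : S.CV) : ∃ j, S.JD j := by
  obtain ⟨j, hO, h1, h2, h3⟩ := j_ex2 hW h hC
  choose φ hφ using fun y => h1 y 0
  have h4 : ∀ y c, Herm y → j * S.mm y c * j⁻¹ = S.mm y (φ y + c * c) := fun y c hy => by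
    have := hφ y
    rw [hy] at this
    rw [mm, mm, ← SD.m_v S.bd S.xd, ← this, ← h2, ← zero_add c, ← SD.m_v S.bd S.xd, zero_add]; group
  have h5 : ∀ y y', Herm y → Herm y' → φ (y + y') + φ (y + y') * φ (y + y') = φ y + φ y * φ y + (φ y' + φ y' * φ y') := by
    intro y y' hy hy'
    have e := h4 _ (0 + 0 + y.1 * y'.2.1 + y.2.2.2 * y'.2.2.1) (j_herm_add hy hy')
    rw [mm, ← SD.m_mul S.bd S.xd, ← conj_mul, h4 _ _ hy, h4 _ _ hy', mm, mm, SD.m_mul S.bd S.xd] at e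
    have := (SD.m_inj S.bd S.xd e).2
    rw [add_assoc _ (y.1 * _), add_assoc _ (y.1 * _)] at this
    exact (by decide +kernel : ∀ a b c β : F4, a + 0 * 0 + (b + 0 * 0) + β = c + (0 + 0 + β) * (0 + 0 + β) →
      c + c * c = a + a * a + (b + b * b)) _ _ _ _ this
  obtain ⟨p, p0, p1, p2, p3, p4⟩ := j_dual
    (decide (φ (pt 0) + φ (pt 0) * φ (pt 0) = 1)) (decide (φ (pt 1) + φ (pt 1) * φ (pt 1) = 1))
    (decide (φ (pt 2) + φ (pt 2) * φ (pt 2) = 1)) (decide (φ (pt 3) + φ (pt 3) * φ (pt 3) = 1))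
  have hb : ∀ a : F4, cond (decide (a + a * a = 1)) 1 0 = a + a * a := by decide +kernel
  rw [hb] at p0 p1 p2 p3
  have h6 : ∀ i, bf p (pt i) = φ (pt i) + φ (pt i) * φ (pt i) := fun i => by
    fin_cases i
    exacts [p0, p1, p2, p3, by
      refine p4.trans ?_
      have a := herm_pt
      rw [p0, p1, p2, p3, ← h5 _ _ (a _) (a _), ← h5 _ _ (j_herm_add (a _) (a _)) (a _),
        ← h5 _ _ (j_herm_add (j_herm_add (a _) (a _)) (a _)) (a _),
        (by decide +kernel : pt 0 + pt 1 + pt 2 + pt 3 = pt 4)]; rfl]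
  have h7 : ∀ y, Herm y → bf p y = φ y + φ y * φ y := j_herm_ind (by
    have := h5 0 0 (by decide +kernel) (by decide +kernel)
    rw [add_zero, f4_add] at this
    rw [this]; simp [bf]) fun y i hy e => by rw [j_bf_add, h5 _ _ hy (herm_pt i), e, h6]
  have h8 : ∀ y c, Herm y → S.mm (om • p) 0 * j * S.mm y c * (S.mm (om • p) 0 * j)⁻¹ =
      S.mm y (φ y + c * c + om * (φ y + φ y * φ y)) := fun y c hy => by
    rw [← h7 y hy, show om * bf p y = bf (om • p) y by simp [bf]; ring, ← S.j_mconj _ _ 0, ← h4 _ _ hy]; group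
  have h9 : ∀ c, S.mm (om • p) 0 * j * S.v c * (S.mm (om • p) 0 * j)⁻¹ = S.v (c * c) := fun c => by
    rw [← S.j_cV (S.W_cV (S.mm_mem (om • p) 0)) (c * c), ← h2]; group
  refine ⟨S.mm (om • p) 0 * j, mul_mem (S.W_cO (S.mm_mem _ _)) hO, (SD.Ac.m S.bd S.xd _ _).mul h1, h9, fun y c hy => ?_, ?_⟩
  · rw [h8 y c hy]
    exact ((by decide +kernel : ∀ a c : F4, a + c * c + om * (a + a * a) = c ∨ a + c * c + om * (a + a * a) = c + 1)
      (φ y) c).imp (congrArg _) (congrArg _)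
  · set i := S.mm (om • p) 0 * j with hi
    obtain ⟨y1, c1, e⟩ : i * i ∈ S.W := by
      rw [show i * i = S.mm (om • p) 0 * (j * S.mm (om • p) 0 * j⁻¹) * (j * j) by rw [hi]; group]
      exact mul_mem (mul_mem (S.mm_mem _ _) (conj_mem h1.norm (S.mm_mem _ _))) h3
    obtain rfl : y1 = 0 := j_bf_zero _ fun k => by
      have e1 := S.j_mconj y1 (pt k) c1 0
      rw [← e, show i * i * S.mm (pt k) 0 * (i * i)⁻¹ = i * (i * S.mm (pt k) 0 * i⁻¹) * i⁻¹ by group, h8 _ _ (herm_pt k),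
        h8 _ _ (herm_pt k), zero_add, (by decide +kernel : ∀ a : F4, a + (a + 0 * 0 + om * (a + a * a)) *
          (a + 0 * 0 + om * (a + a * a)) + om * (a + a * a) = 0)] at e1
      exact (SD.m_inj S.bd S.xd e1).2.symm
    rw [mm, SD.m_zero S.bd S.xd] at e
    have e1 := h9 c1
    rw [← e, show i * (i * i) * i⁻¹ = i * i by group, e] at e1
    rcases (by decide +kernel : ∀ c : F4, c = c * c → c = 0 ∨ c = 1) c1 (congrArg Heis.c (S.inj e1)) with rfl | rfl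
    exacts [.inl (e.trans S.v_zero), .inr e]

end WS

theorem jS : JS.{u} := fun _ _ _ _ _ hW h hC => ⟨WS.j_ex hW h hC, h.kd⟩

end CL.LS
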