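/-
Project LS: the matrices in `PSL₃(4)`.
-/
import Cfsg.Agent.LS.Defs
import Cfsg.Agent.Cls.SLnBasic
import Cfsg.Agent.Cls.SLnCard

set_option autoImplicit false
set_option linter.unusedSectionVars false
open Cfsg Subgroup CL.Even CL.Grp CL.L34 Matrix
open scoped commutatorElement

namespace CL.LS

universe u v

variable {F : Type v} [Field F]

theorem m1_eps [Fintype F] (hF : Fintype.card F = 4) : (2 : F) = 0 ∧ ∃ e : F4 →+* F, Function.Bijective e := by
  classical
  have h4 : ∀ x : F, x ^ 4 = x := fun x => hF ▸ FiniteField.pow_card x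
  have h2 : (2 : F) = 0 := by
    have : ((4 : ℕ) : F) = 0 := hF ▸ FiniteField.cast_card_eq_zero F
    exact pow_eq_zero_iff (two_ne_zero (α := ℕ)) |>.1 (by rw [← this]; norm_num)
  have : CharP F 2 := CharTwo.of_one_ne_zero_of_two_eq_zero one_ne_zero h2
  obtain ⟨w, -, hw⟩ := Finset.exists_mem_notMem_of_card_lt_card (s := ({0, 1} : Finset F)) (t := Finset.univ)
    (Finset.card_le_two.trans_lt (by rw [Finset.card_univ, hF]; norm_num))
  simp only [Finset.mem_insert, Finset.mem_singleton, not_or] at hw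
  have h3 : w * w = 1 + w := by
    refine mul_left_cancel₀ (mul_ne_zero hw.1 (sub_ne_zero.2 hw.2)) ?_
    linear_combination h4 w - (w ^ 3 - w) * h2
  let c := ZMod.castHom (dvd_refl 2) F
  let e : F4 →+* F :=
    { toFun := fun z => c z.re + c z.im * w
      map_one' := by simp [QuadraticAlgebra.re_one, QuadraticAlgebra.im_one]
      map_mul' := fun x y => by
        simp only [QuadraticAlgebra.re_mul, QuadraticAlgebra.im_mul, map_add, map_mul, map_one]
        linear_combination -(c x.im * c y.im) * h3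
      map_zero' := by simp
      map_add' := fun x y => by
        simp only [QuadraticAlgebra.re_add, QuadraticAlgebra.im_add, map_add]
        ring }
  refine ⟨h2, e, (Nat.bijective_iff_injective_and_card e).2 ⟨(injective_iff_map_eq_zero e).2 fun z hz => ?_,
    by rw [card_F4, Nat.card_eq_fintype_card, hF]⟩⟩
  by_contra h
  have := congrArg e (f4_cube h)
  simp [hz] at this

/-- unitriangular matrices -/
def m1u (e : F4 →+* F) : Heis F4 →* SpecialLinearGroup (Fin 3) F where
  toFun p := ⟨!![1, e p.a, e p.c; 0, 1, e p.b; 0, 0, 1], by simp [det_fin_three]⟩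
  map_one' := Subtype.ext (by simp [one_fin_three])
  map_mul' p q := Subtype.ext (by
    change _ = !![1, e p.a, e p.c; 0, 1, e p.b; 0, 0, 1] * !![1, e q.a, e q.c; 0, 1, e q.b; 0, 0, 1]
    simp [add_comm, add_left_comm, add_assoc])

theorem m1u_coe (e : F4 →+* F) (p : Heis F4) :
    (m1u e p : Matrix (Fin 3) (Fin 3) F) = !![1, e p.a, e p.c; 0, 1, e p.b; 0, 0, 1] := rfl

theorem m1_neg (h2 : (2 : F) = 0) : (-1 : F) = 1 := by linear_combination -h2

theorem m1S : M1S.{v} := fun F _ _ hF => by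
  obtain ⟨h2, e, he⟩ := m1_eps hF
  have c3 : ∀ x : F, x ≠ 0 → x ^ 3 = 1 := fun x hx => by
    have := FiniteField.pow_card_sub_one_eq_one x hx
    rwa [hF] at this
  have o3 : e om * e om * e om = 1 := by rw [← map_mul, ← map_mul, f4_cube (by decide +kernel), map_one]
  let π := QuotientGroup.mk' (center (SpecialLinearGroup (Fin 3) F))
  let h : SpecialLinearGroup (Fin 3) F := ⟨!![e om, 0, 0; 0, 1, 0; 0, 0, e om * e om], by
    simp [det_fin_three, ← mul_assoc, o3]⟩
  let w1 : SpecialLinearGroup (Fin 3) F := ⟨!![1, 0, 0; 0, 0, 1; 0, 1, 0], by simp [det_fin_three, m1_neg h2]⟩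
  let w2 : SpecialLinearGroup (Fin 3) F := ⟨!![0, 1, 0; 1, 0, 0; 0, 0, 1], by simp [det_fin_three, m1_neg h2]⟩
  have cjg : ∀ {x y z : SpecialLinearGroup (Fin 3) F}, x.1 * y.1 = z.1 * x.1 → π x * π y * (π x)⁻¹ = π z := fun k => by
    rw [mul_inv_eq_iff_eq_mul, ← map_mul, ← map_mul]
    exact congrArg π (Subtype.ext k)
  have inj : Function.Injective (π.comp (m1u e)) := (injective_iff_map_eq_one _).2 fun p hp => by
    obtain ⟨r, -, hr⟩ := Matrix.SpecialLinearGroup.mem_center_iff.1 ((QuotientGroup.eq_one_iff (m1u e p)).1 hp)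
    have k := fun i j => congrFun (congrFun hr i) j
    exact Heis.ext (he.1 (by simpa [m1u_coe] using (k 0 1).symm)) (he.1 (by simpa [m1u_coe] using (k 1 2).symm))
      (he.1 (by simpa [m1u_coe] using (k 0 2).symm))
  refine ⟨π.comp (m1u e), π h, π w1, π w2, inj, ?_, ?_, fun p => cjg ?_, fun a c => cjg ?_, fun b c => cjg ?_, ?_, ?_⟩
  · have h1 : Nat.card (π.comp (m1u e)).range = 2 ^ 6 := by
      rw [← Nat.card_congr (MonoidHom.ofInjective inj).toEquiv, Heis.card, card_F4]; rfl
    have h3 := CL.SLn.card_PSL_mul (ι := Fin 3) (F := F)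
    rw [CL.SLn.card_SL_three, hF, Fintype.card_fin, ← (π.comp (m1u e)).range.card_mul_index, h1] at h3
    refine ⟨le_top, IsPGroup.of_card h1, ?_⟩
    rw [relIndex_top_right]
    norm_num at h3
    omega
  · rw [← map_pow, ← π.map_one, pow_three']
    refine congrArg π (Subtype.ext ?_)
    change h.1 * h.1 * h.1 = 1
    have : e om * e om * (e om * e om) * (e om * e om) = 1 := by linear_combination (e om * e om * e om + 1) * o3
    simp [h, one_fin_three, o3, this]
  · have a1 : e om * e p.b * (e om * e om) = e p.b := by linear_combination e p.b * o3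
    have a2 : e om * e om * e p.c * (e om * e om) = e om * e p.c := by linear_combination (e om * e p.c) * o3
    simp [h, m1u_coe, dg, a1, a2]
  · simp [w1, m1u_coe]
  · simp [w2, m1u_coe]
  · set H := (π.comp (m1u e)).range ⊔ closure {π h, π w1, π w2}
    have a0 : ∀ p, π (m1u e p) ∈ H := fun p => mem_sup_left ⟨p, rfl⟩
    have a1 : π w1 ∈ H := mem_sup_right (subset_closure (by simp))
    have a2 : π w2 ∈ H := mem_sup_right (subset_closure (by simp))
    have b : ∀ {x y z : SpecialLinearGroup (Fin 3) F}, π x ∈ H → π y ∈ H → x.1 * y.1 = z.1 * x.1 → π z ∈ H :=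
      fun hx hy k => cjg k ▸ H.mul_mem (H.mul_mem hx hy) (H.inv_mem hx)
    have h1 : H.comap π = ⊤ := CL.SLn.eq_top_of_transvection_mem _ fun i j hij c => by
      obtain ⟨a, rfl⟩ := he.2 c
      have t21 : π (SpecialLinearGroup.transvection (show (2 : Fin 3) ≠ 1 by decide) (e a)) ∈ H :=
        b a1 (a0 ⟨0, a, 0⟩) (by
          ext i j
          fin_cases i <;> fin_cases j <;> simp [w1, m1u_coe, SpecialLinearGroup.transvection_coe, add_mul, single_apply, mul_apply, Fin.sum_univ_three])
      change π _ ∈ H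
      fin_cases i <;> fin_cases j
      all_goals first | exact (hij rfl).elim | exact t21 | skip
      · refine b (x := 1) (by simp) (a0 ⟨a, 0, 0⟩) ?_
        ext i j
        fin_cases i <;> fin_cases j <;> simp [m1u_coe, SpecialLinearGroup.transvection_coe]
      · refine b (x := 1) (by simp) (a0 ⟨0, 0, a⟩) ?_
        ext i j
        fin_cases i <;> fin_cases j <;> simp [m1u_coe, SpecialLinearGroup.transvection_coe]
      · refine b a2 (a0 ⟨a, 0, 0⟩) ?_
        ext i j
        fin_cases i <;> fin_cases j <;> simp [w2, m1u_coe, SpecialLinearGroup.transvection_coe, add_mul, single_apply, mul_apply, Fin.sum_univ_three]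
      · refine b (x := 1) (by simp) (a0 ⟨0, a, 0⟩) ?_
        ext i j
        fin_cases i <;> fin_cases j <;> simp [m1u_coe, SpecialLinearGroup.transvection_coe]
      · refine b a2 t21 ?_
        ext i j
        fin_cases i <;> fin_cases j <;> simp [w2, SpecialLinearGroup.transvection_coe, add_mul, mul_add, single_apply, mul_apply, Fin.sum_univ_three]
    intro x _
    obtain ⟨y, rfl⟩ := QuotientGroup.mk'_surjective _ x
    exact h1.ge (mem_top y)
  · intro x c hc hx
    obtain ⟨M, rfl⟩ := QuotientGroup.mk'_surjective _ x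
    obtain ⟨z, hz, h1⟩ := (QuotientGroup.mk'_eq_mk' _).1
      (show π (M * m1u e ⟨0, 0, c⟩) = π (m1u e ⟨0, 0, c⟩ * M) by simpa only [map_mul] using! hx)
    obtain ⟨r, -, hr⟩ := Matrix.SpecialLinearGroup.mem_center_iff.1 hz
    have h3 := congrArg Subtype.val h1
    change M.1 * (m1u e _).1 * z.1 = (m1u e _).1 * M.1 at h3
    simp only [← hr, m1u_coe, map_zero] at h3
    have hd := M.2
    have hc' : e c ≠ 0 := fun k => hc (he.1 (k.trans (map_zero e).symm))
    have k := fun i j => congrFun (congrFun h3 i) j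
    have k00 := k 0 0
    have k01 := k 0 1
    have k02 := k 0 2
    have k10 := k 1 0
    have k11 := k 1 1
    have k12 := k 1 2
    have k20 := k 2 0
    have k21 := k 2 1
    simp [mul_apply, Fin.sum_univ_three] at k00 k01 k02 k10 k11 k12 k20 k21
    rw [det_fin_three] at hd
    obtain rfl : r = 1 := by
      linear_combination (1 - r) * hd + (M.1 0 0 * M.1 2 2 - M.1 0 2 * M.1 2 0) * k11 - M.1 0 0 * M.1 1 2 * k21 +
        (M.1 0 2 * M.1 2 1 - M.1 0 1 * M.1 2 2) * k10 + M.1 0 1 * M.1 1 2 * k20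
    have a20 : M.1 2 0 = 0 := mul_left_cancel₀ hc' (by linear_combination -k00)
    have a21 : M.1 2 1 = 0 := mul_left_cancel₀ hc' (by linear_combination -k01)
    have a10 : M.1 1 0 = 0 := mul_left_cancel₀ hc' (by linear_combination k12)
    have a22 : M.1 2 2 = M.1 0 0 := mul_left_cancel₀ hc' (by linear_combination -k02)
    rw [a20, a21, a10, a22] at hd
    have d3 := c3 (M.1 0 0) fun k => by simp [k] at hd
    have a11 : M.1 1 1 = M.1 0 0 := by linear_combination M.1 0 0 * hd - M.1 1 1 * d3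
    obtain ⟨a, ha⟩ := he.2 (M.1 0 1 * M.1 0 0 ^ 2)
    obtain ⟨b, hb⟩ := he.2 (M.1 1 2 * M.1 0 0 ^ 2)
    obtain ⟨d, hd'⟩ := he.2 ((M.1 0 2 + e a * M.1 1 2) * M.1 0 0 ^ 2)
    refine ⟨⟨a, b, d⟩, (QuotientGroup.eq_one_iff (m1u e ⟨a, b, d⟩ * M)).2
      (Matrix.SpecialLinearGroup.mem_center_iff.2 ⟨M.1 0 0, d3, ?_⟩)⟩
    change _ = (m1u e _).1 * M.1
    ext i j
    fin_cases i <;> fin_cases j <;> simp [m1u_coe, mul_apply, Fin.sum_univ_three, a20, a21, a10, a22, a11]
    · linear_combination -M.1 0 0 * ha - M.1 0 1 * d3 - M.1 0 1 * h2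
    · linear_combination -M.1 0 0 * hd' - (M.1 0 2 + e a * M.1 1 2) * d3 - (M.1 0 2 + e a * M.1 1 2) * h2
    · linear_combination -M.1 0 0 * hb - M.1 1 2 * d3 - M.1 1 2 * h2

end CL.LS
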