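/-
Project LS: the element interchanging the two root groups; reflections and fixed roots.
-/
import Cfsg.Agent.LS.Defs2

set_option autoImplicit false
set_option linter.unusedSectionVars false
open Cfsg Subgroup CL.Even CL.Grp CL.L34 Equiv
open scoped commutatorElement

namespace CL.LS

universe u v

theorem n1_qf : ∀ (π : Perm (Fin 5)) (c : F4), qf (pm π (c, 1, 0, 0)) = c ∧ qf (Jm (pm π (c, 1, 0, 0))) = c * c := by
  decide +kernel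

theorem n1_odd : ∀ π : Perm (Fin 5), π * π = 1 → Perm.sign π = -1 →
    ∃ σ : Perm (Fin 5), Perm.sign σ = 1 ∧ σ * π * σ⁻¹ = swap 0 1 := by
  decide +kernel

set_option synthInstance.maxSize 2000 in
theorem n1_fix : ∀ π : Perm (Fin 5), π * π = 1 → π ≠ 1 → ∃ y, RV y ∧ Jm (pm π y) = y := by
  decide +kernel

theorem n1_sx : pm (xp 1) ∘ pm (swap 0 1 * xp 1 * swap 0 1) ∘ pm (xp 1) = sx := by
  funext y; revert y; decide +kernel

theorem n1_d : sx ∘ pm (swap 0 1 * xp 1 * swap 0 1) ∘ sx = Xa 1 1 := by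
  funext y; revert y; decide +kernel

theorem n1_sxsx (y : M4) : sx (sx y) = y := rfl

section
variable {G : Type u} [Group G] [Finite G] {S : WS G}

theorem n1_cv {g : G} (hg : g ∈ 𝒞(S.V)) (c : F4) : g * S.v c * g⁻¹ = S.v c := by
  rw [← comm_of_mem hg (S.mem_V.2 ⟨c, rfl⟩), mul_inv_cancel_right]

theorem n1_shift {g : G} (hg : g ∈ 𝒞(S.V)) {y y' : M4} {c c' : F4} (e : g * S.mm y c * g⁻¹ = S.mm y' c') (d : F4) :
    g * S.mm y (c + d) * g⁻¹ = S.mm y' (c' + d) := by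
  rw [WS.mm, WS.mm, ← SD.m_v S.bd S.xd, ← SD.m_v S.bd S.xd, ← WS.mm, ← WS.mm, ← e]
  nth_rewrite 2 [← n1_cv hg d]
  group

theorem n1_ρ (l r c : F4) : S.ρ l * S.mm (0, 0, 0, r) c * (S.ρ l)⁻¹ = S.mm (0, 0, 0, r) (c + l * r) := by
  rw [← SD.m_ρ S.xd, WS.mm, SD.m_comm S.bd S.xd, mul_assoc _ (SD.m _ _ _ _ _), SD.m_v S.bd S.xd, ← SD.v_m S.bd S.xd,
    ← mul_assoc, mul_inv_cancel_right, SD.m_v S.bd S.xd]
  simp [bf]

theorem n1_h (r c : F4) : S.h * S.mm (0, 0, 0, om * r) c * S.h⁻¹ = S.mm (0, 0, 0, r) (om * om * c) := by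
  have e1 := S.ah ⟨0, 0, c⟩
  have e2 := S.xd.hx (om * r)
  rw [(by decide +kernel : ∀ r, om * om * (om * r) = r)] at e2
  simp only [dg, mul_zero] at e1
  simp only [SD.m, S.bd.zero, mul_one, ← e1, ← e2]
  group

/-- an element of `Hs` acting as `sx` which maps `R` onto `{x l}` -/
theorem n1_first : ∃ n ∈ S.Hs, S.Ac n sx ∧ ∀ r, n * S.ρ r * n⁻¹ = S.x r := by
  obtain ⟨d1, h1, -, t1⟩ := S.a1.inv (1, 0)
  obtain ⟨d2, h2, -, t2⟩ := S.a2.inv (1, 0)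
  have a1 := S.Q1_ac h1
  have a2 := S.Q2_ac h2
  rw [t1] at a1
  rw [t2] at a2
  obtain ⟨n, hn, an⟩ : ∃ n ∈ S.Hs, S.Ac n sx :=
    ⟨_, mul_mem (mem_sup_left h1) (mul_mem (mem_sup_right h2) (mem_sup_left h1)), n1_sx ▸ a1.mul (a2.mul a1)⟩
  choose φ hφ using fun r => an (0, 0, r, 0) 0
  simp only [SD.m_ρ S.xd, sx] at hφ
  have add : ∀ r r', φ (r + r') = φ r + φ r' := fun r r' => by
    have e : n * S.ρ (r + r') * n⁻¹ = n * S.ρ r * n⁻¹ * (n * S.ρ r' * n⁻¹) := by rw [S.bd.add]; group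
    rw [hφ, hφ, hφ, SD.m_mul S.bd S.xd] at e
    simpa using (SD.m_inj S.bd S.xd e).2
  have k1 : ∀ r, S.mm (0, 0, 0, r) (om * om * φ (om * r)) ∈ cj (S.h * n) S.K := fun r => by
    rw [← n1_h, WS.mm, ← hφ, cj_mul]
    exact conj_mem_cj _ (conj_mem_cj _ (S.bd.memK _))
  have k2 : ∀ l r, S.mm (0, 0, 0, r) (φ r + l * r) ∈ cj (S.ρ l * n) S.K := fun l r => by
    rw [← n1_ρ, WS.mm, ← hφ, cj_mul]
    exact conj_mem_cj _ (conj_mem_cj _ (S.bd.memK _))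
  have k3 := k2 (φ 1 + om * om * φ om) 1
  rw [mul_one, ← add_assoc, f4_add, zero_add] at k3
  have k4 := (S.cj_K_eq (by rw [WS.mm, SD.m_sq S.bd S.xd]; simp [qf, S.v_zero])
    (fun e => by simpa using (SD.m_eq_one S.bd S.xd e).1) (by simpa only [mul_one] using k1 1) k3).1
  have k5 := mul_mem (k1 om) (k4 ▸ k2 _ om)
  rw [WS.mm, WS.mm, SD.m_mul S.bd S.xd, m4_add, SD.m_zero S.bd S.xd] at k5
  have k6 : φ om = om * φ 1 := by
    by_contra e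
    refine S.bd.noV _ (S.mem _) ⟨?_, fun e' => e ?_, _, k5⟩
    · rw [← map_mul, ← map_one S.ι]
      simp [Heis.mul_def, Heis.one_def, f4_add]
    · have := congrArg Heis.c (S.inj (e'.trans (map_one _).symm))
      rw [om_sq, add] at this
      revert this
      generalize φ om = p, φ 1 = q
      revert p q
      decide +kernel
  have k7 : ∀ r, φ r + φ 1 * r = 0 := fun r => by
    have e0 := add 0 0
    rw [add_zero, left_eq_add] at e0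
    rcases f4_cases r with rfl | rfl | rfl | rfl
    · rw [e0, mul_zero, add_zero]
    · rw [mul_one, f4_add]
    · rw [k6, mul_comm, f4_add]
    · rw [om_sq, add, k6]
      linear_combination f4_add ((om + 1) * φ 1)
  refine ⟨S.ρ (φ 1) * n, mul_mem (S.W_le_Hs (S.ρ_mem _)) hn, ?_, fun r => ?_⟩
  · rw [← SD.m_ρ S.xd]
    exact (SD.Ac.m S.bd S.xd _ _).mul an
  · rw [← SD.m_x (x := S.x) S.bd, show S.m S.ρ S.x (0, 0, 0, r) 0 = S.mm (0, 0, 0, r) (φ r + φ 1 * r) by rw [k7], ← n1_ρ,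
      WS.mm, ← hφ]
    group

end

theorem n1S : N1S.{u} := fun G _ _ S => by
  obtain ⟨n, hn, an, nρ⟩ := n1_first (S := S)
  obtain ⟨d, hd, dd, td⟩ := S.a2.inv (1, 0)
  have ad := S.Q2_ac hd
  rw [td] at ad
  choose ψ hψ using fun b => an (0, b, 0, 0) 0
  have ne : ∀ b c, n * S.e2 b c * n⁻¹ = S.e1 b (ψ b + c) := fun b c => by
    simpa only [sx, WS.mm, SD.m_u S.bd S.xd, zero_add] using n1_shift (S.Hs_cV hn) (hψ b) c
  have dx : ∀ r, n * d * n⁻¹ * S.x r * (n * d * n⁻¹)⁻¹ = S.x r * S.e1 r (ψ r) := fun r => by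
    have e := S.q2.act d hd r
    rw [td, SD.sw_e1, mul_one, mul_zero] at e
    rw [← nρ, ← add_zero (ψ r), ← ne]
    calc _ = n * (d * S.ρ r * d⁻¹) * n⁻¹ := by group
      _ = _ := by rw [e]; group
  have dd' : n * d * n⁻¹ * (n * d * n⁻¹) = 1 := by
    rw [show n * d * n⁻¹ * (n * d * n⁻¹) = n * (d * d) * n⁻¹ by group, dd]; group
  have ad' : S.Ac (n * d * n⁻¹) (Xa 1 1) := by
    rw [← n1_d, mul_assoc]
    exact an.mul (ad.mul (WS.Ac.inv an n1_sxsx))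
  have dρ : ∀ r, ∃ c, n * d * n⁻¹ * S.ρ r * (n * d * n⁻¹)⁻¹ = S.ρ r * S.e1 r c := fun r => by
    obtain ⟨c, e⟩ := ad' (0, 0, r, 0) 0
    rw [SD.m_ρ S.xd] at e
    exact ⟨c, by rw [e, ← S.bd.comm _ (S.mem _)]; simp [SD.m, Xa, S.xd.zero]⟩
  have dQ : n * d * n⁻¹ ∈ S.Q1 := by
    refine S.q1.mem _ (fun _ h => ?_) ⟨1, by rw [pow_one, pow_two, dd']⟩ fun r => ⟨r, dρ r⟩
    obtain ⟨a, c, rfl⟩ := S.mem_E1.1 h
    have e := comm_of_mem (S.q2.cE hd) (S.mem_E2.2 ⟨a, ψ a + c, rfl⟩)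
    rw [show S.e1 a c = n * S.e2 a (ψ a + c) * n⁻¹ by rw [ne, ← add_assoc, f4_add, zero_add]]
    calc _ = n * (S.e2 a (ψ a + c) * d) * n⁻¹ := by group
      _ = _ := by rw [e]; group
  have t1 : (S.τ1 (n * d * n⁻¹)).1 = 1 := by
    obtain ⟨c, e⟩ := dρ 1
    rw [S.q1.act _ dQ, mul_right_inj] at e
    simpa using congrArg Heis.a (S.inj e)
  have hl : ∀ l, ψ l = l * (l + (S.τ1 (n * d * n⁻¹)).2) := fun l => by
    have e := S.a1.cx _ dQ dd' (by rw [t1]; exact one_ne_zero) l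
    rw [dx, mul_right_inj, t1] at e
    simpa using congrArg Heis.c (S.inj e)
  generalize (S.τ1 (n * d * n⁻¹)).2 = l' at hl
  refine ⟨S.e2 l' 0 * n, mul_mem (S.W_le_Hs (S.ι_mem _)) hn, ?_, fun b c => ?_, fun r => ?_⟩
  · rw [SD.e2, ← SD.m_u S.bd S.xd]
    exact (SD.Ac.m S.bd S.xd _ _).mul an
  · rw [show S.e2 l' 0 * n * S.e2 b c * (S.e2 l' 0 * n)⁻¹ = S.e2 l' 0 * (n * S.e2 b c * n⁻¹) * (S.e2 l' 0)⁻¹ by group,
      ne, hl, ← map_inv, ← map_mul, ← map_mul]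
    congr 1
    clear hl
    revert b c l'
    decide +kernel
  · rw [show S.e2 l' 0 * n * S.ρ r * (S.e2 l' 0 * n)⁻¹ = S.e2 l' 0 * (n * S.ρ r * n⁻¹) * (S.e2 l' 0)⁻¹ by group, nρ,
      S.xd.comm, mul_inv_cancel_right]

section
variable {G : Type u} [Group G] [Finite G] {S : WS G}

theorem n1_pow {y : G} (yy : y * y = 1) {π : Perm (Fin 5)} {f : M4 → M4} (h : S.Ac y f)
    (hf : ∀ m, f (f m) = pm π (pm π m)) : π * π = 1 := by
  have e := (h.mul h).unique S.bd S.xd (f' := id) fun m c => ⟨c, by rw [yy]; simp⟩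
  exact pm_faithful fun i => by rw [pm_mul, ← hf, pm_one]; exact congrFun e _

theorem n1_v {y : G} {f : M4 → M4} (h : S.Ac y f) (c : F4) : y * S.v c * y⁻¹ = S.v (qf (f (c, 1, 0, 0))) := by
  obtain ⟨c', e⟩ := h (c, 1, 0, 0) 0
  have e1 := SD.m_sq S.bd S.xd (c, 1, 0, 0) 0
  rw [show qf (c, 1, 0, 0) = c by simp [qf]] at e1
  rw [← SD.m_sq S.bd S.xd _ c', ← e, ← e1]
  group

theorem n1_lin (F : S.WF) {y : G} (h : S.Ac y sw4) : ∃ l, ∀ r, y * S.ρ r * y⁻¹ = S.ρ r * S.v (l * r) :=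
  F.lin y fun r => by
    obtain ⟨c, e⟩ := h (0, 0, r, 0) 0
    rw [SD.m_ρ S.xd] at e
    exact ⟨c, by rw [e, ← SD.m_ρ S.xd r, SD.m_v S.bd S.xd, zero_add]; rfl⟩

theorem n1_cR {y : G} (h : ∀ r, y * S.ρ r * y⁻¹ = S.ρ r * S.v (0 * r)) : y ∈ 𝒞(S.R) := fun _ hr => by
  obtain ⟨r, rfl⟩ := (S.bd.memR _).1 hr
  have := h r
  rw [zero_mul, S.v_zero, mul_one, mul_inv_eq_iff_eq_mul] at this
  exact this.symm

theorem n1_RF {n : G} (H : HB G) (F : S.WF) (D : S.ND n) : S.RF := fun y hy yy π ay hπ => by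
  obtain ⟨σ, hσ, e⟩ := n1_odd π (n1_pow yy ay fun _ => rfl) hπ
  obtain ⟨k, hk, ak⟩ := F.real σ hσ
  have a1 : S.Ac (k * y * k⁻¹) sw4 := by
    convert (ak.mul ay).mul (WS.Ac.inv ak (f' := pm σ⁻¹) fun m => by rw [← pm_mul, inv_mul_cancel, pm_one]) using 1
    funext m
    simp only [Function.comp, ← pm_mul, ← mul_assoc, e, pm_swap]
  have c1 : k * y * k⁻¹ ∈ 𝒞(S.V) := mul_mem (mul_mem (S.Hs_cV hk) hy) (inv_mem (S.Hs_cV hk))
  have yy' : k * y * k⁻¹ * (k * y * k⁻¹) = 1 := by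
    rw [show k * y * k⁻¹ * (k * y * k⁻¹) = k * (y * y) * k⁻¹ by group, yy]; group
  suffices k * y * k⁻¹ ∈ 𝒞(S.R) ∨ n⁻¹ * (k * y * k⁻¹) * n ∈ 𝒞(S.R) from this.elim (fun h => ⟨k, hk, h⟩)
    fun h => ⟨n⁻¹ * k, mul_mem (inv_mem D.mem) hk, by simpa only [mul_inv_rev, inv_inv, mul_assoc] using h⟩
  generalize k * y * k⁻¹ = t at a1 c1 yy'
  obtain ⟨l, hl⟩ := n1_lin F a1
  obtain ⟨μ, hμ⟩ := n1_lin F (y := n⁻¹ * t * n) (((WS.Ac.inv D.ac n1_sxsx).mul a1).mul D.ac)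
  have hx : t * S.x l * t⁻¹ = S.x l * S.v (μ * l) := by
    rw [← D.nρ, ← n1_cv (S.Hs_cV D.mem) (μ * l)]
    calc _ = n * (n⁻¹ * t * n * S.ρ l * (n⁻¹ * t * n)⁻¹) * n⁻¹ := by group
      _ = _ := by rw [hμ]; group
  have hN : t * S.x l ∈ S.N := S.mem_N_of_comm' (S.bd.sq 1) (S.bd.ne_one one_ne_zero) (S.bd.memK 1) (by
    rw [← mul_inv_eq_iff_eq_mul]
    calc _ = t * (S.x l * S.ρ 1 * (S.x l)⁻¹) * t⁻¹ := by group
      _ = t * S.ρ 1 * t⁻¹ * (t * S.v (l * 1) * t⁻¹) := by rw [S.xd.act]; group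
      _ = _ := by
        rw [hl, n1_cv c1, mul_assoc, ← map_mul]
        simp [Heis.mul_def, f4_add, S.v_zero])
  have := (H S.toSD).2.2.tsq _ hN (fun ⟨a, b, c⟩ => ?_) (μ * l) (by
    calc _ = t * S.x l * t⁻¹ * (t * t) * S.x l := by group
      _ = _ := by rw [yy', hx, mul_one, mul_assoc, S.xd.comm, ← mul_assoc, S.xd.sq, one_mul])
  · rcases f4_mul_eq_zero.1 this with rfl | rfl
    exacts [Or.inr (n1_cR hμ), Or.inl (n1_cR hl)]
  · obtain ⟨c', e⟩ := a1 (a, b, 0, 0) c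
    rw [sw4, SD.m_u S.bd S.xd, SD.m_u S.bd S.xd] at e
    refine ⟨c' + (c + a * b), ?_⟩
    calc _ = t * (S.x l * S.ι ⟨a, b, c⟩) * (S.x l)⁻¹ * t⁻¹ := by group
      _ = t * S.ι ⟨a, b, c⟩ * t⁻¹ := by rw [← S.xd.comm]; group
      _ = _ := by
        rw [e]
        congr 1
        clear e
        revert a b c c'
        decide +kernel

theorem n1_FX (F : S.WF) (R : S.RF) : S.FX := fun y _ yy ε π ay hπ hε => by
  cases ε
  · rw [gam_ff] at ay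
    obtain ⟨k, hk, e⟩ := R y (fun _ h => by
      obtain ⟨c, rfl⟩ := S.mem_V.1 h
      rw [eq_comm, ← mul_inv_eq_iff_eq_mul, n1_v ay, (n1_qf π c).1]) yy π ay (hε rfl)
    obtain ⟨y0, c, e'⟩ := conj_mem' (S.Hs_nW hk) (S.ρ_mem 1)
    have e1 := comm_of_mem e ((S.bd.memR _).2 ⟨1, rfl⟩)
    refine ⟨y0, c, (F.root y0 c).1 ?_, ?_⟩
    · simpa only [← e', inv_inv] using
        SD.Root.conj ⟨S.bd.sq 1, S.bd.ne_one one_ne_zero, 1, (cj_one S.K).symm ▸ S.bd.memK 1⟩ k⁻¹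
    · rw [← e']
      calc _ = k⁻¹ * (k * y * k⁻¹ * S.ρ 1) * k := by group
        _ = _ := by rw [← e1]; group
  · rw [show gam 1 true π = fun m => Jm (pm π m) from funext (gam_tt π)] at ay
    obtain ⟨y0, h0, e0⟩ := n1_fix π (n1_pow yy ay fun m => by rw [Jm_pm, Jm_Jm]) hπ
    obtain ⟨c1, e1⟩ := ay y0 0
    simp only [e0] at e1
    have e2 : ∀ c, y * S.mm y0 c * y⁻¹ = S.mm y0 (c1 + c * c) := fun c => by
      rw [WS.mm, WS.mm, ← SD.m_v S.bd S.xd, ← e1, ← (n1_qf π c).2, ← n1_v ay, ← zero_add c, ← SD.m_v S.bd S.xd, zero_add]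
      group
    have e3 := e2 c1
    rw [WS.mm, ← e1, show y * (y * S.m S.ρ S.x y0 0 * y⁻¹) * y⁻¹ = y * y * S.m S.ρ S.x y0 0 * (y * y)⁻¹ by group, yy,
      one_mul, inv_one, mul_one] at e3
    obtain ⟨c, hc⟩ := (by decide +kernel : ∀ c1 : F4, 0 = c1 + c1 * c1 → ∃ c, c1 + c * c = c) c1
      (SD.m_inj S.bd S.xd e3).2
    exact ⟨y0, c, h0, by rw [← mul_inv_eq_iff_eq_mul, e2, hc]⟩

end

theorem rFS : RFS.{u} := fun _ _ _ _ _ H F D => ⟨n1_RF H F D, n1_FX F (n1_RF H F D)⟩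

end CL.LS
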