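/-
Project LS: involutions of `C(z)` commute with a root; the conjugates of `z` and `ρ 1` in `C(z)`.
-/
import Cfsg.Agent.LS.Defs2

set_option autoImplicit false
set_option linter.unusedSectionVars false
open Cfsg Subgroup CL.Even CL.Grp CL.L34 Equiv
open scoped commutatorElement

namespace CL.LS

universe u

namespace Pts

variable {G : Type u} [Group G] [Finite G] {S : WS G} {a b g g' k y : G}

theorem mem_Cz : g ∈ S.Cz ↔ g * S.z = S.z * g := mem_centralizer_singleton_iff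

theorem sq_conj (h : b * b = 1) (g : G) : g * b * g⁻¹ * (g * b * g⁻¹) = 1 := by
  rw [conj_mul, h, mul_one, mul_inv_cancel]

theorem sq_conj' (h : b * b = 1) (g : G) : g⁻¹ * b * g * (g⁻¹ * b * g) = 1 := by simpa using sq_conj h g⁻¹

theorem v_inj {c c' : F4} (e : S.v c = S.v c') : c = c' := congrArg Heis.c (S.inj e)

theorem zz : S.z * S.z = 1 := by rw [← map_mul, ← map_one S.ι]; exact congrArg S.ι (by decide +kernel)

theorem z1 : S.z ≠ 1 := fun e => absurd (v_inj (e.trans S.v_zero.symm)) (by decide +kernel)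

theorem Hs_Cz : S.Hs ≤ S.Cz := S.Hs_cV.trans S.cV_le_Cz

/-- the conclusion of `Beta` -/
def BB (S : WS G) (b : G) : Prop :=
  ∃ s g, s ∈ cj g S.K ∧ s * s = 1 ∧ s ≠ 1 ∧ S.z ∈ cj g S.A ∧ s * b = b * s

theorem bb_conj (hk : k ∈ S.Cz) (h : BB S (k * b * k⁻¹)) : BB S b := by
  obtain ⟨s, g, h1, h2, h3, h4, h5⟩ := h
  refine ⟨k⁻¹ * s * k, k⁻¹ * g, ?_, sq_conj' h2 k, fun e => h3 (by simpa using conj_eq_one_iff.1 (show k⁻¹ * s * k⁻¹⁻¹ = 1 by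
    rwa [inv_inv])), ?_, ?_⟩
  · rw [cj_mul]; simpa using conj_mem_cj k⁻¹ h1
  · rw [cj_mul, mem_cj, inv_inv, mem_Cz.1 hk, mul_inv_cancel_right]; exact h4
  · calc k⁻¹ * s * k * b = k⁻¹ * (s * (k * b * k⁻¹)) * k := by group
      _ = _ := by rw [h5]; group

theorem bb_rho (h : b * S.ρ 1 = S.ρ 1 * b) : BB S b :=
  ⟨S.ρ 1, 1, (cj_one _).ge (S.bd.memK 1), S.bd.sq 1, S.bd.ne_one one_ne_zero, (cj_one _).ge (S.mem _), h.symm⟩

theorem bb_root (W : S.WF) {y : M4} {c : F4} (hy : RV y) (h : b * S.mm y c = S.mm y c * b) : BB S b := by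
  obtain ⟨g, hg, e⟩ := W.rconj y c hy
  refine bb_conj (inv_mem (Hs_Cz hg)) (bb_rho ?_)
  rw [← e] at h
  calc g⁻¹ * b * g⁻¹⁻¹ * S.ρ 1 = g⁻¹ * (b * (g * S.ρ 1 * g⁻¹)) * g := by group
    _ = _ := by rw [h]; group

theorem bb_W (W : S.WF) (hb : b ∈ S.W) (h2 : b * b = 1) : BB S b := by
  obtain ⟨y, c, rfl⟩ := hb
  rw [WS.mm, SD.m_sq S.bd S.xd] at h2
  have hq := v_inj (h2.trans S.v_zero.symm)
  by_cases h0 : y = 0
  · rw [h0, WS.mm, SD.m_zero S.bd S.xd]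
    exact bb_rho (S.bd.comm 1 (S.mem _))
  by_cases h1 : OmV y
  · obtain ⟨i, ζ, -, rfl⟩ := h1
    obtain ⟨π, p1, p2⟩ := (by decide +kernel : ∀ i : Fin 5, ∃ π : Perm (Fin 5), Perm.sign π = 1 ∧ π i = 0) i
    obtain ⟨g, hg, ac⟩ := W.real π p1
    obtain ⟨c', e⟩ := ac (ζ • pt i) c
    refine bb_conj (Hs_Cz hg) (bb_rho ?_)
    rw [pm_smul, pm_pt, p2, pt_zero, show ζ • ((1, 0, 0, 0) : M4) = (ζ, 0, 0, 0) by simp, SD.m_u S.bd S.xd] at e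
    rw [WS.mm, e]
    exact S.bd.comm 1 (S.mem _)
  · exact bb_root W ⟨hq, h0, h1⟩ rfl

theorem bb_Q {j : G} {Q : Subgroup G} (W : S.WF) (kd : S.KD) (qe : S.QE j Q) (zd : S.ZD Q) (hb : b ∈ Q)
    (h2 : b * b = 1) (hv : b * S.v om * b⁻¹ = S.v (om * om)) : BB S b := by
  obtain ⟨k, hk, e⟩ : ∃ k ∈ S.Cz, b * (k * S.v om * k⁻¹) = k * S.v om * k⁻¹ * b := by
    obtain ⟨k, hk, c, e⟩ := kd
    have h1 : S.e1 1 c ∈ Q := (qe.mem _).2 ⟨(1, 0, 0, 0), c, by decide +kernel, .inl (SD.m_u S.bd S.xd _ _ _).symm⟩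
    rcases qe.cmt b hb _ h1 with h | h
    · exact ⟨k, hk, e ▸ commutatorElement_eq_one_iff_mul_comm.1 h⟩
    refine ⟨S.e2 om 0 * k, mul_mem (S.cV_le_Cz (S.W_cV (S.ι_mem _))) hk, mul_inv_eq_iff_eq_mul.1 ?_⟩
    have e1 : S.e2 om 0 * k * S.v om * (S.e2 om 0 * k)⁻¹ = S.e1 1 c * S.v om := by
      rw [show S.e2 om 0 * k * S.v om * (S.e2 om 0 * k)⁻¹ = S.e2 om 0 * (k * S.v om * k⁻¹) * (S.e2 om 0)⁻¹ by group, e,
        ← map_inv, ← map_mul, ← map_mul, ← map_mul]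
      exact congrArg S.ι (by generalize c = c'; revert c'; decide +kernel)
    rw [e1, ← conj_mul, hv, show b * S.e1 1 c * b⁻¹ = ⁅b, S.e1 1 c⁆ * S.e1 1 c by rw [commutatorElement_def]; group, h,
      ← map_mul, ← map_mul, ← map_mul]
    exact congrArg S.ι (by generalize c = c'; revert c'; decide +kernel)
  have e' : k⁻¹ * b * k * S.v om * (k⁻¹ * b * k)⁻¹ = S.v om := by
    calc _ = k⁻¹ * (b * (k * S.v om * k⁻¹)) * b⁻¹ * k := by group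
      _ = _ := by rw [e]; group
  refine bb_conj (inv_mem hk) (bb_W W ?_ (sq_conj h2 _))
  rw [inv_inv]
  obtain ⟨y, c, -, h | h⟩ := (qe.mem _).1 (conj_mem' (zd.nQ hk) hb)
  · exact ⟨y, c, h⟩
  · rw [h, show S.mm y c * j * S.v om * (S.mm y c * j)⁻¹ = S.mm y c * (j * S.v om * j⁻¹) * (S.mm y c)⁻¹ by group,
      qe.jd.jv, ← comm_of_mem (S.W_cV (S.mm_mem y c)) (S.mem_V.2 ⟨_, rfl⟩), mul_inv_cancel_right] at e'
    exact absurd (v_inj e') (by decide +kernel)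

end Pts

open Pts

theorem betaS : BetaS.{u} := by
  intro G _ _ S j Q W cv dt fx kd qe ad zd b0 hb0 h20
  obtain ⟨k, hk, e⟩ := ad.fix (zpowers b0) (zpowers_le.2 ⟨hb0, zd.nQ hb0⟩)
    (isPGroup_zpowers (k := 1) (by rw [pow_one, pow_two, h20]))
  refine bb_conj hk.1 ?_
  have hV := e (conj_mem_cj k (mem_zpowers b0))
  have hb : k * b0 * k⁻¹ ∈ S.Cz := mul_mem (mul_mem hk.1 hb0) (inv_mem hk.1)
  have h2 := sq_conj h20 k
  generalize k * b0 * k⁻¹ = b at *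
  by_cases h1 : b = 1
  · exact bb_rho (by rw [h1, one_mul, mul_one])
  obtain ⟨ζ, ε, π, -, ac, hv⟩ := W.cls b (cv hV)
  obtain rfl : ζ = 1 := by
    have := hv 1
    rw [mem_Cz.1 hb, mul_inv_cancel_right] at this
    exact (by decide +kernel : ∀ (ζ : F4) (ε : Bool), 1 = ζ * ζ * cond ε (1 * 1) 1 → ζ = 1) ζ ε (v_inj this)
  have hc : ε = false → b ∈ 𝒞(S.V) := by
    rintro rfl _ h
    obtain ⟨c, rfl⟩ := S.mem_V.1 h
    exact (mul_inv_eq_iff_eq_mul.1 ((hv c).trans (by simp))).symm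
  by_cases hπ : π = 1
  · subst hπ
    cases ε
    · obtain ⟨w, hw, o, ho, rfl⟩ := W.ker b (hc rfl) (by rwa [gam_ff, funext pm_one] at ac)
      obtain rfl := S.eq_one_of_two ho (S.W_cO hw) ⟨2, S.W_pow hw⟩ ⟨1, by rw [pow_one, pow_two, h2]⟩
      exact bb_W W (mul_mem hw (one_mem _)) h2
    · refine bb_Q W kd qe zd (qe.jq b ⟨hb, hV⟩ h2 ?_) h2 ((hv om).trans (by simp))
      rwa [show gam 1 true 1 = Jm from funext fun y => by rw [gam_tt, pm_one]] at ac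
  by_cases hs : ε = false ∧ Perm.sign π = 1
  · obtain ⟨rfl, hs⟩ := hs
    obtain ⟨-, ⟨g, a1, a2⟩, -⟩ := dt b (hc rfl) (h2 ▸ one_mem _) π (gam_ff π ▸ ac) hπ hs
    exact ⟨b, g, a1, h2, h1, a2 (S.mem_V.2 ⟨1, rfl⟩), rfl⟩
  · obtain ⟨y, c, hy, e⟩ := fx b ⟨hb, hV⟩ h2 ε π ac hπ fun h =>
      (Int.units_eq_one_or _).resolve_left fun h' => hs ⟨h, h'⟩
    exact bb_root W hy e

namespace Pts

variable {G : Type u} [Group G] [Finite G] {S : WS G} {a b g g' k y : G}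

theorem W_inf_K : S.W ⊓ S.K = S.R := by
  refine le_antisymm ?_ fun x hx => ⟨let ⟨r, e⟩ := (S.bd.memR x).1 hx; e ▸ S.ρ_mem r, S.sylR.le hx⟩
  rintro _ ⟨⟨⟨a, b, r, l⟩, c, rfl⟩, hK⟩
  have key : ∀ a' b', bf (a, b, r, l) (a', b', 0, 0) = 0 := fun a' b' => by
    have e := SD.m_comm S.bd S.xd (a, b, r, l) (a', b', 0, 0) c 0
    rw [SD.m_u S.bd S.xd, comm_of_mem hK (S.mem _), left_eq_mul] at e
    exact v_inj (e.trans S.v_zero.symm)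
  obtain rfl : a = 0 := by simpa [bf] using key 0 1
  obtain rfl : b = 0 := by simpa [bf] using key 1 0
  have e : S.h * S.mm (0, 0, r, l) c * S.h⁻¹ = S.mm (0, 0, r, om * om * l) (om * om * c) := by
    simp only [SD.m]
    rw [← conj_mul, ← conj_mul, S.xd.hx, S.bd.comm r S.hA, mul_inv_cancel_right, S.ah]
    exact congrArg (fun p => S.ι p * _ * _) (by generalize c = c'; revert c'; decide +kernel)
  rw [comm_of_mem hK S.hA, mul_inv_cancel_right] at e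
  obtain ⟨e1, e2⟩ := SD.m_inj S.bd S.xd e
  have k : ∀ c : F4, c = om * om * c → c = 0 := by decide +kernel
  rw [k c e2, k l (congrArg (fun y : M4 => y.2.2.2) e1)]
  exact (S.bd.memR _).2 ⟨r, SD.m_ρ S.xd r⟩

theorem K_nR (cv : S.CV) : S.K ≤ 𝒩(S.R) := W_inf_K (S := S) ▸ le_norm_inf
  ((cent_mono fun _ h => let ⟨_, e⟩ := S.mem_V.1 h; e ▸ S.mem _).trans ((cent_le_norm _).trans cv)) le_normalizer

theorem N_nR (cv : S.CV) : S.N ≤ 𝒩(S.R) := fun n hn => by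
  obtain ⟨k, hk, e⟩ := syl_conj S.sylR (syl_cj_of_mem_norm S.sylR (S.N_le_NK hn))
  rw [cj_eq (K_nR cv hk)] at e
  exact cj_eq_iff_mem.1 e.symm

theorem N_nO (cv : S.CV) : S.N ≤ 𝒩(S.O) := fun n hn => mem_norm_of_cj_le (by
  rintro _ ⟨o, ho, rfl⟩
  change n * o * n⁻¹ ∈ S.O
  obtain ⟨r, o', ho', e⟩ := S.bd.O_dec _ (conj_mem (S.N_le_NK hn) (S.bd.O_le ho).1)
    (conj_mem (norm_le_norm_cent _ (N_nR cv hn)) (S.bd.O_le ho).2)
  obtain ⟨m, hm⟩ := S.bd.O_odd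
  have p : ∀ o ∈ S.O, o ^ (2 * m + 1) = 1 := fun o ho => hm ▸ orderOf_dvd_iff_pow_eq_one.1 (orderOf_dvd_natCard _ ho)
  have e1 : (n * o * n⁻¹) ^ (2 * m + 1) = 1 := by rw [conj_pow, p o ho, mul_one, mul_inv_cancel]
  rw [e, (show Commute (S.ρ r) o' from comm_of_mem (S.bd.O_le ho').2 ((S.bd.memR _).2 ⟨r, rfl⟩)).mul_pow, p o' ho',
    mul_one, pow_succ, pow_mul, pow_two, S.bd.sq, one_pow, one_mul] at e1
  rwa [e, e1, one_mul])

theorem K_two (cv : S.CV) (hk : k ∈ S.K) (h2 : k * k = 1) : ∃ r, k = S.ρ r := by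
  obtain ⟨g, hg, e⟩ := syl_conj_le S.sylR (isPGroup_zpowers (k := 1) (by rw [pow_one, pow_two, h2])) (zpowers_le.2 hk)
  rw [cj_le_iff, cj_eq (K_nR cv (inv_mem hg))] at e
  exact (S.bd.memR _).1 (e (mem_zpowers k))

theorem root_ρ : S.Root (S.ρ 1) := ⟨S.bd.sq 1, S.bd.ne_one one_ne_zero, 1, (cj_one _).ge (S.bd.memK 1)⟩

/-- `a` is the conjugate of `z` or `ρ 1` by `g` -/
def On (S : WS G) (a g : G) : Prop := a = g * S.z * g⁻¹ ∨ a = g * S.ρ 1 * g⁻¹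

theorem On.conj (h : On S (g⁻¹ * a * g) g') : On S a (g * g') :=
  h.imp (fun e => by rw [show a = g * (g⁻¹ * a * g) * g⁻¹ by group, e]; group)
    fun e => by rw [show a = g * (g⁻¹ * a * g) * g⁻¹ by group, e]; group

theorem uniq {Q : Subgroup G} (cv : S.CV) (zd : S.ZD Q) (h : On S a g) (h' : On S a g') (hg : g ∈ 𝒩(S.O)) :
    g' ∈ 𝒩(S.O) := by
  have k : ∀ {t : G}, a = g * t * g⁻¹ → a = g' * t * g'⁻¹ → g⁻¹ * g' * t = t * (g⁻¹ * g') := fun {t} e e' => by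
    calc g⁻¹ * g' * t = g⁻¹ * (g' * t * g'⁻¹) * g' := by group
      _ = _ := by rw [← e', e]; group
  have n : ∀ {g g' : G}, a = g * S.z * g⁻¹ → a ≠ g' * S.ρ 1 * g'⁻¹ := fun {g g'} e e' =>
    S.bd.noV _ (S.mem _) ((S.root_conj g).1 (e ▸ e' ▸ root_ρ.conj g'))
  refine (mul_mem_cancel_left (inv_mem hg)).1 ?_
  rcases h with e | e <;> rcases h' with e' | e'
  · exact zd.nO (mem_Cz.2 (k e e'))
  · exact absurd e' (n e)
  · exact absurd e (n e')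
  · exact N_nO cv (S.mem_N_of_comm' (S.bd.sq 1) (S.bd.ne_one one_ne_zero) (S.bd.memK 1) (k e e'))

theorem rv_ρ : ∀ r : F4, r ≠ 0 → RV (0, 0, r, 0) := by decide +kernel

theorem root_on (W : S.WF) (cv : S.CV) (h : S.Root b) : ∃ g, b = g * S.ρ 1 * g⁻¹ := by
  obtain ⟨h2, h1, g, hg⟩ := h
  obtain ⟨r, e⟩ := K_two cv (mem_cj.1 hg) (sq_conj' h2 g)
  obtain ⟨k, -, e'⟩ := W.rconj _ 0 (rv_ρ r fun h0 => h1 (by
    rw [show b = g * (g⁻¹ * b * g) * g⁻¹ by group, e, h0, S.bd.zero]; group))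
  rw [WS.mm, SD.m_ρ S.xd, ← e] at e'
  exact ⟨g * k, by rw [show b = g * (g⁻¹ * b * g) * g⁻¹ by group, ← e']; group⟩

theorem p1 (B : S.Bas1) (W : S.WF) (cv : S.CV) (hy : y ∈ S.A ⊔ S.K) (h2 : y * y = 1) (h1 : y ≠ 1) :
    ∃ g ∈ 𝒩(S.O), On S y g := by
  obtain ⟨a, ha, k, hk, rfl, a2, k2⟩ := B.split y hy h2
  obtain ⟨r, rfl⟩ := K_two cv hk k2
  have hA : ∀ m ∈ S.A, m⁻¹ ∈ 𝒩(S.O) := fun m hm => inv_mem (cent_le_norm _ (S.A_cO hm))
  by_cases h0 : r = 0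
  · rw [h0, S.bd.zero, mul_one] at h1 ⊢
    obtain ⟨m, hm, e⟩ := B.cls a ha a2 h1
    exact ⟨m⁻¹, hA m hm, .inl (by rw [← e]; group)⟩
  obtain ⟨m, hm, c, e⟩ : ∃ m ∈ S.A, ∃ c, m * a * m⁻¹ = S.v c := by
    by_cases h : a = 1
    · exact ⟨1, one_mem _, 0, by rw [h, S.v_zero]; group⟩
    · exact (B.cls a ha a2 h).imp fun _ e => ⟨e.1, 1, e.2⟩
  obtain ⟨g, hg, e'⟩ := W.rconj _ c (rv_ρ r h0)
  have e1 : S.mm (0, 0, r, 0) c = m * (a * S.ρ r) * m⁻¹ := by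
    rw [← conj_mul, e, S.bd.comm r hm, mul_inv_cancel_right]
    simp [SD.m, S.xd.zero]
  refine ⟨m⁻¹ * g, mul_mem (hA m hm) (cent_le_norm _ (S.Hs_cO hg)), .inr ?_⟩
  rw [show m⁻¹ * g * S.ρ 1 * (m⁻¹ * g)⁻¹ = m⁻¹ * (g * S.ρ 1 * g⁻¹) * m by group, e', e1]; group

variable {Q : Subgroup G} (H : HB G) (W : S.WF) (cv : S.CV) (zd : S.ZD Q)
include H W cv zd

theorem p2 (h : S.Root b) (hb : b ∈ S.N) : ∃ g ∈ 𝒩(S.O), On S b g := by
  obtain ⟨B1, B2, B3⟩ := H S.toSD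
  by_cases h0 : b ∈ S.A ⊔ S.K
  · exact p1 B1 W cv h0 h.1 h.2.1
  obtain ⟨y, hA, hy, y2, y1, -⟩ := B3.out b hb h.1 h0
  obtain ⟨g, e⟩ := root_on W cv h
  have hle : centralizer {b} ≤ cj g S.N := fun x hx => mem_cj.2
    (S.mem_N_of_comm h.1 h.2.1 (e ▸ conj_mem_cj g (S.bd.memK 1)) (mem_centralizer_singleton_iff.1 hx))
  have h3 := commutator_mono hle hle hy
  rw [← cj_commutator, mem_cj] at h3
  obtain ⟨g2, a1, a2⟩ := p1 B1 W cv (B2.der _ h3 (sq_conj' y2 g)) (sq_conj' y2 g) fun e =>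
    y1 (by rw [show y = g * (g⁻¹ * y * g) * g⁻¹ by group, e]; group)
  obtain ⟨g3, a3, a4⟩ := p1 B1 W cv (mem_sup_left hA) y2 y1
  exact ⟨g, (mul_mem_cancel_right a1).1 (uniq cv zd a4 a2.conj a3), .inr e⟩

theorem p3 (β : S.Beta) (h : S.Root b) (hb : b ∈ S.Cz) : ∃ g ∈ 𝒩(S.O), On S b g := by
  obtain ⟨s, g, s1, s2, s3, s4, s5⟩ := β b hb h.1
  obtain ⟨m, hm, e⟩ := (H S.toSD).1.cls _ (mem_cj.1 s4) (sq_conj' zz g) fun e =>
    z1 (by rw [show S.z = g * (g⁻¹ * S.z * g) * g⁻¹ by group, e]; group)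
  have hg : g ∈ 𝒩(S.O) := (mul_mem_cancel_right (inv_mem (cent_le_norm _ (S.A_cO hm)))).1 (zd.nO (mem_Cz.2 (by
    nth_rewrite 1 [← e]; group)))
  obtain ⟨g2, a1, a2⟩ := p2 H W cv zd (by simpa using h.conj g⁻¹) (S.mem_N_of_comm s2 s3 s1 s5.symm)
  exact ⟨_, mul_mem hg a1, a2.conj⟩

end Pts

theorem ptsS : PtsS.{u} := by
  intro G _ _ S Q H W cv zd β g hg
  rcases hg with hg | hg
  · obtain ⟨s, k, s1, s2, s3, s4, s5⟩ := β _ hg (sq_conj zz g)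
    have hs : S.Root s := ⟨s2, s3, k, s1⟩
    obtain ⟨g2, a1, a2⟩ := p3 H W cv zd β hs (mem_Cz.2 (comm_of_mem (cj_cent k S.A ▸ s1) s4).symm)
    obtain ⟨g3, a3, a4⟩ := p3 H W cv zd β (b := g⁻¹ * s * g) (by simpa using hs.conj g⁻¹) (mem_Cz.2 (by
      calc g⁻¹ * s * g * S.z = g⁻¹ * (s * (g * S.z * g⁻¹)) * g := by group
        _ = _ := by rw [s5]; group))
    exact (mul_mem_cancel_right a3).1 (uniq cv zd a2 a4.conj a1)
  · obtain ⟨g2, a1, a2⟩ := p3 H W cv zd β (root_ρ.conj g) hg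
    exact uniq cv zd a2 (.inr rfl) a1

end CL.LS
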