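/-
Project LS: the extraspecial group `Q` of order `2 ^ 7`.
-/
import Cfsg.Agent.LS.J
import Cfsg.Agent.Grp.ExtraIndex

set_option autoImplicit false
set_option linter.unusedSectionVars false
open Cfsg Subgroup CL.Even CL.Grp CL.L34 Equiv
open scoped commutatorElement

namespace CL.LS

universe u v

theorem qe_qf : ∀ y : M4, Herm y → qf y = 0 ∨ qf y = 1 := by decide +kernel
theorem qe_bf : ∀ y : M4, Herm y → ∀ y' : M4, Herm y' → bf y y' = 0 ∨ bf y y' = 1 := by decide +kernel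
theorem qe_herm : ∀ y : M4, (∀ i, bf y (pt i) = 0 ∨ bf y (pt i) = 1) → Herm y := by decide +kernel
theorem qe_zero : ∀ y : M4, Herm y → (∀ i, bf y (om • pt i) = 0 ∨ bf y (om • pt i) = 1) → y = 0 := by decide +kernel
theorem qe_herm0 : Herm 0 := by decide +kernel
theorem qe_card : Fintype.card ({y : M4 // Herm y} × F4 × Bool) = 2 ^ 7 := by decide +kernel

theorem qe_gam {y : M4} (h : Herm y) (ε : Bool) (π : Perm (Fin 5)) : gam 1 ε π y = pm π y ∧ Herm (pm π y) := by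
  have e : Herm (pm π y) := by rw [Herm, Jm_pm, h]
  refine ⟨?_, e⟩
  cases ε
  · rw [gam_ff]
  · rw [gam_tt, e]

namespace WS

variable {G : Type u} [Group G] (S : WS G)

/-- the group generated by `z` -/
def qeZ : Subgroup G where
  carrier := {g | g = 1 ∨ g = S.z}
  mul_mem' := by
    rintro _ _ (rfl | rfl) (rfl | rfl)
    exacts [.inl (mul_one _), .inr (one_mul _), .inr (mul_one _), .inl S.j_z_sq]
  one_mem' := .inl rfl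
  inv_mem' := by
    rintro _ (rfl | rfl)
    exacts [.inl inv_one, .inr (inv_eq_of_mul_eq_one_right S.j_z_sq)]

theorem qe_vZ {c : F4} : S.v c ∈ S.qeZ ↔ c = 0 ∨ c = 1 :=
  ⟨Or.imp (fun e => congrArg Heis.c (S.inj (e.trans S.v_zero.symm))) fun e => congrArg Heis.c (S.inj e),
    Or.imp (fun e => e ▸ S.v_zero) fun e => e ▸ rfl⟩

theorem qe_Zv {t : G} (h : t ∈ S.qeZ) : ∃ c, t = S.v c := by
  rcases h with rfl | rfl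
  exacts [⟨0, S.v_zero.symm⟩, ⟨1, rfl⟩]

theorem qe_Zc {a t : G} (ha : a ∈ S.Cz) (h : t ∈ S.qeZ) : a * t * a⁻¹ = t := by
  rcases h with rfl | rfl
  · simp
  · rw [mem_centralizer_singleton_iff.1 ha, mul_inv_cancel_right]

theorem qe_mul {a b c : G} (ha : a ∈ S.Cz) (h1 : ⁅a, c⁆ ∈ S.qeZ) (h2 : ⁅b, c⁆ ∈ S.qeZ) : ⁅a * b, c⁆ ∈ S.qeZ := by
  rw [show ⁅a * b, c⁆ = a * ⁅b, c⁆ * a⁻¹ * ⁅a, c⁆ by simp only [commutatorElement_def]; group, S.qe_Zc ha h2]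
  exact mul_mem h2 h1

theorem qe_symm {a b : G} (h : ⁅a, b⁆ ∈ S.qeZ) : ⁅b, a⁆ ∈ S.qeZ := by
  rw [← commutatorElement_inv]; exact inv_mem h

theorem qe_inv {a c : G} (ha : a ∈ S.Cz) (h : ⁅a, c⁆ ∈ S.qeZ) : ⁅a⁻¹, c⁆ ∈ S.qeZ := by
  rw [show ⁅a⁻¹, c⁆ = a⁻¹ * ⁅c, a⁆ * a⁻¹⁻¹ by simp only [commutatorElement_def]; group,
    S.qe_Zc (inv_mem ha) (S.qe_symm h)]
  exact S.qe_symm h

theorem qe_cmt (y y' : M4) (c c' : F4) : ⁅S.mm y c, S.mm y' c'⁆ = S.v (bf y y') := by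
  rw [commutatorElement_def, j_mconj, mm, ← SD.v_m S.bd S.xd, mul_inv_cancel_right]

theorem qe_fix {g : G} {f : M4 → M4} (h : S.Ac g f) {y : M4} {c : F4} (hc : ⁅g, S.mm y c⁆ ∈ S.qeZ) : f y = y := by
  obtain ⟨c1, e1⟩ := h y c
  obtain ⟨c2, e2⟩ := S.qe_Zv hc
  rw [commutatorElement_def, e1, mul_inv_eq_iff_eq_mul, mm, SD.v_m S.bd S.xd] at e2
  exact (SD.m_inj S.bd S.xd e2).1

/-- the preimage of the Hermitian vectors -/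
def qe0 : Subgroup G where
  carrier := {g | ∃ y c, Herm y ∧ g = S.mm y c}
  mul_mem' := by
    rintro _ _ ⟨y, c, h, rfl⟩ ⟨y', c', h', rfl⟩; exact ⟨_, _, j_herm_add h h', SD.m_mul S.bd S.xd _ _ _ _⟩
  one_mem' := ⟨0, 0, qe_herm0, ((SD.m_zero S.bd S.xd 0).trans (map_one S.ι)).symm⟩
  inv_mem' := by
    rintro _ ⟨y, c, h, rfl⟩
    refine ⟨y, c + qf y, h, inv_eq_of_mul_eq_one_right ?_⟩
    rw [mm, mm, ← SD.m_v S.bd S.xd, ← mul_assoc, SD.m_sq S.bd S.xd, ← map_mul, ← map_one S.ι]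
    simp [Heis.mul_def, Heis.one_def, f4_add]

theorem qe_v0 (c : F4) : S.v c ∈ S.qe0 := ⟨0, c, qe_herm0, (SD.m_zero S.bd S.xd c).symm⟩
theorem qe_Z0 : S.qeZ ≤ S.qe0 := fun _ h => (S.qe_Zv h).elim fun c e => e ▸ S.qe_v0 c
theorem qe_0W : S.qe0 ≤ S.W := fun _ ⟨y, c, _, e⟩ => ⟨y, c, e⟩

variable [Finite G]

theorem qe_n0 {g : G} {ε : Bool} {π : Perm (Fin 5)} (h : S.Ac g (gam 1 ε π)) : g ∈ 𝒩(S.qe0) :=
  mem_norm_of_cj_le (by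
    rintro _ ⟨_, ⟨y, c, hy, rfl⟩, rfl⟩
    obtain ⟨c', e⟩ := h y c
    exact ⟨_, c', (qe_gam hy ε π).2, e.trans (by rw [(qe_gam hy ε π).1])⟩)

variable {S} {j : G}

theorem qe_cls (hW : S.WF) (hC : S.CV) {g : G} (hg : g ∈ S.Cz ⊓ 𝒩(S.V)) :
    ∃ ε π, S.Ac g (gam 1 ε π) ∧ ∀ c, g * S.v c * g⁻¹ = S.v (cond ε (c * c) c) := by
  obtain ⟨ζ, ε, π, -, h2, h3⟩ := hW.cls g (hC hg.2)
  obtain rfl := (by decide +kernel : ∀ (ζ : F4) (ε : Bool), 1 = ζ * ζ * cond ε (1 * 1) 1 → ζ = 1) ζ ε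
    (congrArg Heis.c (S.inj ((S.qe_Zc hg.1 (.inr rfl)).symm.trans (h3 1))))
  exact ⟨ε, π, h2, fun c => by simpa using h3 c⟩

theorem qe_cV {g : G} (h : ∀ c, g * S.v c * g⁻¹ = S.v c) : g ∈ 𝒞(S.V) := fun _ hx => by
  obtain ⟨c, rfl⟩ := S.mem_V.1 hx
  exact (mul_inv_eq_iff_eq_mul.1 (h c)).symm

theorem qe_ker (hW : S.WF) {g : G} (hg : g ∈ 𝒞(S.V)) (ha : S.Ac g id) (h : ∀ i, ⁅g, S.mm (pt i) 0⁆ ∈ S.qeZ) :
    ∃ q ∈ S.qe0, ∃ o ∈ S.O, g = q * o := by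
  obtain ⟨_, ⟨y, c, rfl⟩, o, ho, rfl⟩ := hW.ker g hg ha
  refine ⟨_, ⟨y, c, qe_herm y fun i => S.qe_vZ.1 ?_, rfl⟩, o, ho, rfl⟩
  have e := comm_of_mem (S.W_cO (S.mm_mem (pt i) 0)) ho
  have := h i
  rwa [show ⁅S.mm y c * o, S.mm (pt i) 0⁆ = S.mm y c * (o * S.mm (pt i) 0) * o⁻¹ * (S.mm y c)⁻¹ * (S.mm (pt i) 0)⁻¹ by
    rw [commutatorElement_def]; group, e, ← mul_assoc, mul_inv_cancel_right, ← commutatorElement_def, qe_cmt] at this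

theorem JD.qe_ac (h : S.JD j) : S.Ac j (gam 1 true 1) := by
  convert h.ac using 1
  funext y
  rw [gam_tt, pm_one]

theorem JD.qe_cz (h : S.JD j) : j ∈ S.Cz :=
  mem_centralizer_singleton_iff.2 (mul_inv_eq_iff_eq_mul.1 ((h.jv 1).trans (by rw [mul_one])))

theorem JD.qe_cm (h : S.JD j) {g : G} (hg : g ∈ S.qe0) : ⁅j, g⁆ ∈ S.qeZ := by
  obtain ⟨y, c, hy, rfl⟩ := hg
  rw [commutatorElement_def]
  rcases h.fix y c hy with e | e <;> rw [e]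
  · exact .inl (mul_inv_cancel _)
  · exact .inr (by rw [mm, ← SD.v_m S.bd S.xd, mul_inv_cancel_right])

theorem JD.qe_jinv (h : S.JD j) {g : G} (ha : S.Ac g Jm) (hv : ∀ c, g * S.v c * g⁻¹ = S.v (c * c)) :
    g * j⁻¹ ∈ 𝒞(S.V) ∧ S.Ac (g * j⁻¹) id := by
  refine ⟨qe_cV fun c => ?_, (funext Jm_Jm : Jm ∘ Jm = id) ▸ ha.mul (h.ac.inv Jm_Jm)⟩
  have e := h.jv (c * c)
  rw [(by decide +kernel : ∀ c : F4, c * c * (c * c) = c)] at e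
  conv_lhs => rw [← e]
  rw [show g * j⁻¹ * (j * S.v (c * c) * j⁻¹) * (g * j⁻¹)⁻¹ = g * S.v (c * c) * g⁻¹ by group, hv,
    (by decide +kernel : ∀ c : F4, c * c * (c * c) = c)]

/-- the extraspecial group -/
def JD.qeQ (h : S.JD j) : Subgroup G where
  carrier := {g | ∃ q ∈ S.qe0, g = q ∨ g = q * j}
  mul_mem' := by
    have n := S.qe_n0 h.qe_ac
    rintro _ _ ⟨q, hq, rfl | rfl⟩ ⟨q', hq', rfl | rfl⟩
    · exact ⟨_, mul_mem hq hq', .inl rfl⟩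
    · exact ⟨_, mul_mem hq hq', .inr (by group)⟩
    · exact ⟨_, mul_mem hq (conj_mem n hq'), .inr (by group)⟩
    · exact ⟨_, mul_mem (mul_mem hq (conj_mem n hq')) (S.qe_Z0 h.sq), .inl (by group)⟩
  one_mem' := ⟨1, one_mem _, .inl rfl⟩
  inv_mem' := by
    rintro _ ⟨q, hq, rfl | rfl⟩
    · exact ⟨_, inv_mem hq, .inl rfl⟩
    · exact ⟨_, mul_mem (conj_mem' (S.qe_n0 h.qe_ac) (inv_mem hq)) (inv_mem (S.qe_Z0 h.sq)), .inr (by group)⟩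

theorem JD.qe_le (h : S.JD j) : S.qe0 ≤ h.qeQ := fun q hq => ⟨q, hq, .inl rfl⟩
theorem JD.qe_j (h : S.JD j) : j ∈ h.qeQ := ⟨1, one_mem _, .inr (one_mul _).symm⟩

theorem JD.qe_leH (h : S.JD j) {H : Subgroup G} (h1 : S.W ≤ H) (h2 : j ∈ H) : h.qeQ ≤ H := by
  rintro _ ⟨q, hq, rfl | rfl⟩
  exacts [h1 (S.qe_0W hq), mul_mem (h1 (S.qe_0W hq)) h2]

theorem JD.qe_Qz (h : S.JD j) : h.qeQ ≤ S.Cz := h.qe_leH (S.W_cV.trans S.cV_le_Cz) h.qe_cz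

theorem JD.qe_cmt (h : S.JD j) {g : G} (hg : g ∈ h.qeQ) {g' : G} (hg' : g' ∈ h.qeQ) : ⁅g, g'⁆ ∈ S.qeZ := by
  have a1 : ∀ g ∈ h.qeQ, ∀ q ∈ S.qe0, ⁅g, q⁆ ∈ S.qeZ := by
    have a0 : ∀ g ∈ S.qe0, ∀ q ∈ S.qe0, ⁅g, q⁆ ∈ S.qeZ := by
      rintro _ ⟨y, c, hy, rfl⟩ _ ⟨y', c', hy', rfl⟩
      rw [WS.qe_cmt]; exact S.qe_vZ.2 (qe_bf y hy y' hy')
    rintro _ ⟨g, hg, rfl | rfl⟩ q hq
    exacts [a0 _ hg q hq, S.qe_mul (h.qe_Qz (h.qe_le hg)) (a0 _ hg q hq) (h.qe_cm hq)]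
  obtain ⟨q, hq, rfl | rfl⟩ := hg'
  · exact a1 g hg _ hq
  · refine S.qe_symm (S.qe_mul (h.qe_Qz (h.qe_le hq)) (S.qe_symm (a1 g hg q hq)) ?_)
    obtain ⟨q, hq, rfl | rfl⟩ := hg
    · exact h.qe_cm hq
    · exact S.qe_symm (S.qe_mul (h.qe_Qz (h.qe_le hq)) (S.qe_symm (h.qe_cm hq)) (.inl (commutatorElement_self j)))

theorem JD.qe_sq (h : S.JD j) {g : G} (hg : g ∈ h.qeQ) : g * g ∈ S.qeZ := by
  have a0 : ∀ g ∈ S.qe0, g * g ∈ S.qeZ := by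
    rintro _ ⟨y, c, hy, rfl⟩
    rw [mm, SD.m_sq S.bd S.xd]; exact S.qe_vZ.2 (qe_qf y hy)
  obtain ⟨q, hq, rfl | rfl⟩ := hg
  · exact a0 _ hq
  · rw [show q * j * (q * j) = q * ⁅j, q⁆ * q⁻¹ * (q * q) * (j * j) by rw [commutatorElement_def]; group,
      S.qe_Zc (h.qe_Qz (h.qe_le hq)) (h.qe_cm hq)]
    exact mul_mem (mul_mem (h.qe_cm hq) (a0 q hq)) h.sq

theorem JD.qe_pow (h : S.JD j) {g : G} (hg : g ∈ h.qeQ) : g ^ 2 ^ 2 = 1 := by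
  rw [show 2 ^ 2 = 2 * 2 from rfl, pow_mul, pow_two g]
  rcases h.qe_sq hg with e | e <;> rw [e]
  exacts [one_pow _, (pow_two _).trans S.j_z_sq]

theorem JD.qe_nc (h : S.JD j) {w : G} (hw : w ∈ S.W) : w * j * S.v om ≠ S.v om * (w * j) := fun e => by
  rw [← mul_inv_eq_iff_eq_mul, show w * j * S.v om * (w * j)⁻¹ = w * (j * S.v om * j⁻¹) * w⁻¹ by group, h.jv,
    S.j_cV (S.W_cV hw)] at e
  exact absurd (congrArg Heis.c (S.inj e)) (by decide +kernel)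

theorem JD.qe_cen (h : S.JD j) {g : G} (hg : g ∈ h.qeQ) (hc : g ∈ 𝒞(h.qeQ)) : g ∈ S.qeZ := by
  obtain ⟨_, ⟨y, c, hy, rfl⟩, rfl | rfl⟩ := hg
  · obtain rfl : y = 0 := j_bf_zero y fun i => by
      have e := S.qe_cmt y (pt i) c 0
      rw [commutatorElement_eq_one_iff_mul_comm.2 (comm_of_mem hc (h.qe_le ⟨_, _, herm_pt i, rfl⟩)).symm, ← S.v_zero] at e
      exact (congrArg Heis.c (S.inj e)).symm
    rw [mm, SD.m_zero S.bd S.xd] at hc ⊢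
    have e := h.jv c
    rw [comm_of_mem hc h.qe_j, mul_inv_cancel_right] at e
    exact S.qe_vZ.2 ((by decide +kernel : ∀ c : F4, c = c * c → c = 0 ∨ c = 1) c (congrArg Heis.c (S.inj e)))
  · exact absurd (comm_of_mem hc (h.qe_le (S.qe_v0 om))).symm (h.qe_nc (S.mm_mem _ _))

theorem JD.qe_card (h : S.JD j) : Nat.card h.qeQ = 2 ^ 7 := by
  have key : ∀ w ∈ S.W, ∀ w' ∈ S.W, w ≠ w' * j := fun w hw w' hw' e =>
    h.qe_nc hw' (by rw [← e, comm_of_mem (S.W_cV hw) (S.mem_V.2 ⟨_, rfl⟩)])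
  rw [← LS.qe_card, ← Nat.card_eq_fintype_card]
  refine (Nat.card_congr (Equiv.ofBijective (fun a : {y : M4 // Herm y} × F4 × Bool =>
    (⟨S.mm a.1.1 a.2.1 * cond a.2.2 j 1, _, ⟨_, a.2.1, a.1.2, rfl⟩, by cases a.2.2 <;> simp⟩ : h.qeQ)) ⟨?_, ?_⟩)).symm
  · rintro ⟨⟨y, hy⟩, c, b⟩ ⟨⟨y', hy'⟩, c', b'⟩ e
    have e := congrArg Subtype.val e
    cases b <;> cases b' <;> simp only [cond_true, cond_false, mul_one, mul_left_inj] at e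
    · obtain ⟨rfl, rfl⟩ := SD.m_inj S.bd S.xd e; rfl
    · exact absurd e (key _ (S.mm_mem _ _) _ (S.mm_mem _ _))
    · exact absurd e.symm (key _ (S.mm_mem _ _) _ (S.mm_mem _ _))
    · obtain ⟨rfl, rfl⟩ := SD.m_inj S.bd S.xd e; rfl
  · rintro ⟨_, _, ⟨y, c, hy, rfl⟩, rfl | rfl⟩
    exacts [⟨⟨⟨y, hy⟩, c, false⟩, Subtype.ext (mul_one _)⟩, ⟨⟨⟨y, hy⟩, c, true⟩, rfl⟩]

theorem JD.qe_Zc (h : S.JD j) : S.qeZ ≤ 𝒞(h.qeQ) := fun _ ht _ hg =>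
  mul_inv_eq_iff_eq_mul.1 (S.qe_Zc (h.qe_Qz hg) ht)

theorem JD.qe_extra (h : S.JD j) : IsExtraspecial 2 h.qeQ := by
  refine isExtraspecial_subgroup_of (isPGroup_iff_forall.2 fun _ hg => ⟨2, h.qe_pow hg⟩) ?_
    ((commutator_le.2 fun _ hg _ hg' => h.qe_cmt hg hg').trans h.qe_Zc) fun hc => ?_
  · rw [show h.qeQ ⊓ 𝒞(h.qeQ) = S.qeZ from
      le_antisymm (fun _ hg => h.qe_cen hg.1 hg.2) (le_inf (S.qe_Z0.trans h.qe_le) h.qe_Zc)]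
    exact Set.ncard_pair S.j_z_ne.symm
  · refine h.qe_nc (one_mem _) ?_
    rw [one_mul]
    exact congrArg Subtype.val (hc.is_comm.comm ⟨j, h.qe_j⟩ ⟨_, h.qe_le (S.qe_v0 om)⟩)

theorem JD.qe_cmm (h : S.JD j) (hW : S.WF) (hC : S.CV) {g : G} (hg : g ∈ S.Cz ⊓ 𝒩(S.V))
    (hc : ∀ i, ⁅g, S.mm (pt i) 0⁆ ∈ S.qeZ) : ∃ q ∈ h.qeQ, ∃ o ∈ S.O, g = q * o := by
  obtain ⟨ε, π, h1, h2⟩ := qe_cls hW hC hg
  obtain rfl : π = 1 := pm_faithful fun i => by rw [← (qe_gam (herm_pt i) ε π).1, S.qe_fix h1 (hc i), pm_one]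
  cases ε
  · obtain ⟨q, hq, o, ho, e⟩ := qe_ker hW (qe_cV h2) (by rwa [gam_ff, (funext pm_one : pm 1 = id)] at h1) hc
    exact ⟨q, h.qe_le hq, o, ho, e⟩
  · obtain ⟨a1, a2⟩ := h.qe_jinv (by rwa [SD.Ac.unique S.bd S.xd h.qe_ac h.ac] at h1) h2
    obtain ⟨q, hq, o, ho, e⟩ := qe_ker hW a1 a2 fun i =>
      S.qe_mul hg.1 (hc i) (S.qe_inv h.qe_cz (h.qe_cm ⟨_, _, herm_pt i, rfl⟩))
    exact ⟨q * j, ⟨q, hq, .inr rfl⟩, o, ho, by rw [mul_assoc, ← comm_of_mem h.cO ho, ← mul_assoc, ← e]; group⟩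

theorem JD.qe_nH (h : S.JD j) (hW : S.WF) (hC : S.CV) : S.Cz ⊓ 𝒩(S.V) ≤ 𝒩(h.qeQ) := fun g hg =>
  mem_norm_of_cj_le (by
    rintro _ ⟨q, hq, rfl⟩
    show g * q * g⁻¹ ∈ _
    obtain ⟨ε, π, h1, -⟩ := qe_cls hW hC hg
    have hq' : q ∈ S.Cz ⊓ 𝒩(S.V) := ⟨h.qe_Qz hq,
      h.qe_leH (S.W_cV.trans (centralizer_le_normalizer _)) (mem_norm_of_cj_le (S.j_nV h.jv)) hq⟩
    obtain ⟨q', hq1, o, ho, e⟩ := h.qe_cmm hW hC (mul_mem (mul_mem hg hq') (inv_mem hg)) fun i => by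
      have := h.qe_cmt hq (h.qe_le (conj_mem' (S.qe_n0 h1) ⟨_, 0, herm_pt i, rfl⟩))
      rw [show ⁅g * q * g⁻¹, S.mm (pt i) 0⁆ = g * ⁅q, g⁻¹ * S.mm (pt i) 0 * g⁆ * g⁻¹ by
        simp only [commutatorElement_def]; group, S.qe_Zc hg.1 this]
      exact this
    obtain rfl := S.eq_one_of_two ho (h.qe_leH S.W_cO h.cO hq1) ⟨2, h.qe_pow hq1⟩
      ⟨2, by rw [← e, conj_pow, h.qe_pow hq]; group⟩
    rwa [e, mul_one])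

theorem JD.qe_fixW (h : S.JD j) {g : G} (hg : g ∈ h.qeQ) (hc : ∀ w ∈ S.W, ⁅g, w⁆ ∈ S.qeZ) : g ∈ S.V := by
  obtain ⟨_, ⟨y, c, hy, rfl⟩, rfl | rfl⟩ := hg
  · obtain rfl : y = 0 := qe_zero y hy fun i => S.qe_vZ.1 (S.qe_cmt y _ c 0 ▸ hc _ (S.mm_mem _ _))
    exact S.mem_V.2 ⟨c, SD.m_zero S.bd S.xd c⟩
  · exact absurd (S.qe_fix ((SD.Ac.m S.bd S.xd y c).mul h.ac) (hc _ (S.mm_mem (om • pt 0) 0))) (by decide +kernel)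

theorem JD.qe_jq (h : S.JD j) (hW : S.WF) (hC : S.CV) {g : G} (hg : g ∈ S.Cz ⊓ 𝒩(S.V)) (h2 : g * g = 1)
    (ha : S.Ac g Jm) : g ∈ h.qeQ := by
  obtain ⟨ε, π, h1, hv⟩ := qe_cls hW hC hg
  cases ε
  · have e := SD.Ac.unique S.bd S.xd h1 ha
    have e1 := pm_smul π om (pt 0)
    rw [← gam_ff, e] at e1
    exact absurd e1 (by decide +kernel)
  obtain ⟨a1, a2⟩ := h.qe_jinv ha hv
  obtain ⟨_, ⟨y, c, rfl⟩, o, ho, e⟩ := hW.ker _ a1 a2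
  have e1 : g = S.mm y c * j * o := by rw [mul_assoc, ← comm_of_mem h.cO ho, ← mul_assoc, ← e]; group
  obtain ⟨c1, e2⟩ := h.ac y c
  obtain ⟨c2, e3⟩ := S.qe_Zv h.sq
  have e4 : S.mm y c * j * (S.mm y c * j) = S.mm (y + Jm y) (c + c1 + y.1 * (Jm y).2.1 + y.2.2.2 * (Jm y).2.2.1 + c2) := by
    rw [mm, mm, ← SD.m_v S.bd S.xd, ← SD.m_mul S.bd S.xd, ← e2, ← e3]; group
  obtain rfl := S.eq_one_of_two ho (mul_mem (S.W_cO (S.mm_mem y c)) h.cO)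
    ⟨3, by rw [show 2 ^ 3 = 2 * 2 ^ 2 from rfl, pow_mul, pow_two (S.mm y c * j), e4, S.W_pow (S.mm_mem _ _)]⟩
    ⟨1, by rw [← e1, pow_one, pow_two, h2]⟩
  rw [mul_one] at e1
  rw [← e1, h2] at e4
  have e5 := (SD.m_eq_one S.bd S.xd e4.symm).1
  exact ⟨_, ⟨y, c, by rw [Herm, ← zero_add (Jm y), ← m4_add y, add_assoc, e5, add_zero], rfl⟩, .inr e1⟩

end WS

theorem qES : QES.{u} := fun _ _ _ S _ hW hC h => ⟨h.qeQ,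
  { jd := h
    mem := fun _ => ⟨fun ⟨_, ⟨y, c, hy, e⟩, e'⟩ => ⟨y, c, hy, e ▸ e'⟩, fun ⟨y, c, hy, e⟩ => ⟨_, ⟨y, c, hy, rfl⟩, e⟩⟩
    sq := fun _ => h.qe_sq
    cmt := fun _ hg _ => h.qe_cmt hg
    card := h.qe_card
    extra := h.qe_extra
    cen := fun _ => h.qe_cen
    cz := h.qe_Qz
    cO := h.qe_leH S.W_cO h.cO
    cm := fun _ hg hc => h.qe_cmm hW hC hg fun i => hc _ _ (herm_pt i)
    nH := h.qe_nH hW hC
    fixW := fun _ => h.qe_fixW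
    jq := fun _ => h.qe_jq hW hC }⟩

end CL.LS
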