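/-
Project LS: the conjugates of `V` in `Q` (AD) and the structure of `C(z)` (ZD).
-/
import Cfsg.Agent.LS.Defs2

set_option autoImplicit false
set_option linter.unusedSectionVars false
open Cfsg Subgroup CL.Even CL.Grp CL.L34 Equiv
open scoped commutatorElement

namespace CL.LS

universe u v

variable {G : Type u} [Group G]

theorem zd_zp {z x : G} (h : z * z = 1) : x ∈ zpowers z ↔ x = 1 ∨ x = z := by
  refine ⟨?_, by rintro (rfl | rfl) <;> simp⟩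
  rintro ⟨k, rfl⟩
  obtain ⟨m, rfl | rfl⟩ := k.even_or_odd' <;> simp [zpow_add, zpow_mul, zpow_ofNat, sq, h]

theorem zd_cop {H : Subgroup G} {g : G} {m n : ℕ} (h : m.Coprime n) (hm : g ^ m ∈ H) (hn : g ^ n ∈ H) : g ∈ H := by
  have := mul_mem (zpow_mem hm (m.gcdA n)) (zpow_mem hn (m.gcdB n))
  rwa [← zpow_natCast, ← zpow_natCast, ← zpow_mul, ← zpow_mul, ← zpow_add, ← Nat.gcd_eq_gcd_ab, h, Nat.cast_one,
    zpow_one] at this

theorem zd_five : ∀ i < 5, 0 < i → Nat.Coprime i 5 := by decide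

/-- the elements which centralise or invert `a` -/
def zdSt (a : G) : Subgroup G where
  carrier := {h | h * a * h⁻¹ = a ∨ h * a * h⁻¹ = a⁻¹}
  one_mem' := .inl (by simp)
  mul_mem' := fun {x y} hx hy => by
    have e : x * y * a * (x * y)⁻¹ = x * (y * a * y⁻¹) * x⁻¹ := by group
    rcases hy with hy | hy <;> rw [Set.mem_ofPred_eq, e, hy]
    · exact hx
    · rw [← conj_inv]
      exact hx.symm.imp (fun e => by rw [e, inv_inv]) fun e => by rw [e]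
  inv_mem' := fun {x} hx => Or.imp (fun e => (congrArg (x⁻¹ * · * x⁻¹⁻¹) e).symm.trans (by group))
    (fun e => by
      conv_lhs => rw [← inv_inv a, ← e]
      group) hx

theorem zd_prod {a b : ℕ → G} (h : ∀ i < 5, ∀ j < i, Commute (a i) (b j)) :
    a 0 * a 1 * a 2 * a 3 * a 4 * (b 0 * b 1 * b 2 * b 3 * b 4) =
      a 0 * b 0 * (a 1 * b 1) * (a 2 * b 2) * (a 3 * b 3) * (a 4 * b 4) := by
  rw [((((h 4 (by decide) 0 (by decide)).mul_right (h 4 (by decide) 1 (by decide))).mul_right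
      (h 4 (by decide) 2 (by decide))).mul_right (h 4 (by decide) 3 (by decide))).mul_mul_mul_comm,
    (((h 3 (by decide) 0 (by decide)).mul_right (h 3 (by decide) 1 (by decide))).mul_right
      (h 3 (by decide) 2 (by decide))).mul_mul_mul_comm,
    ((h 2 (by decide) 0 (by decide)).mul_right (h 2 (by decide) 1 (by decide))).mul_mul_mul_comm,
    (h 1 (by decide) 0 (by decide)).mul_mul_mul_comm]

/-- The configuration produces a quaternion group fixed modulo `z` by an element `g` with `g ^ 5 ∈ C(Q)`. -/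
theorem zd_cfg {z c g : G} {Q B1 U : Subgroup G} (zz : z * z = 1) (z1 : z ≠ 1) (sq : ∀ q ∈ Q, q * q = 1 ∨ q * q = z)
    (cmt : ∀ q ∈ Q, ∀ q' ∈ Q, ⁅q, q'⁆ = 1 ∨ ⁅q, q'⁆ = z) (cen : ∀ q ∈ Q, q ∈ 𝒞(Q) → q = 1 ∨ q = z)
    (cz : Q ≤ centralizer {z}) (h : Cfg (centralizer {z}) (zpowers z) Q B1 U c) (gz : g ∈ centralizer {z})
    (gQ : g ∈ 𝒩(Q)) (g5 : g ^ 5 ∈ 𝒞(Q)) : ∃ X ∈ Q, ∃ Y ∈ Q, (X * X = z ∧ g ∈ zdSt X) ∧ (Y * Y = z ∧ g ∈ zdSt Y) ∧
      X * Y * (X * Y) = z ∧ g ∈ zdSt (X * Y) := by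
  obtain ⟨x, hx, y, hy, x1, y1, xy⟩ := h.four
  have cQ : ∀ a ∈ Q, a ∈ 𝒞(B1) → a ∈ 𝒞(U) → a ∈ zpowers z := fun a ha h1 h2 =>
    (zd_zp zz).2 (cen a ha (cent_mono h.sup (cent_sup B1 U ▸ ⟨h1, h2⟩)))
  obtain rfl : c = z := by
    refine (h.sq x hx x1 ▸ sq x (h.B1_le hx)).resolve_left fun e => x1 (cQ x (h.B1_le hx) (fun b hb => ?_) (h.comm hx))
    have k : ∀ a ∈ B1, a⁻¹ = a := fun a ha => inv_eq_of_mul_eq_one_right (by
      by_cases h1 : a ∈ zpowers z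
      · rcases (zd_zp zz).1 h1 with rfl | rfl
        exacts [one_mul _, zz]
      · rw [h.sq a ha h1, e])
    rw [← k _ (mul_mem hb hx), mul_inv_rev, k x hx, k b hb]
  have zc : ∀ {a}, a ∈ centralizer {c} → a * c = c * a := mem_centralizer_singleton_iff.1
  have nz : ∀ {a}, a ∈ centralizer {c} → a ∈ 𝒩(zpowers c) := fun ha => cent_le_norm _ (by
    rwa [zpowers_eq_closure, centralizer_closure])
  have st : ∀ a ∈ B1, a ∉ zpowers c → ∀ k, a * (k * a * k⁻¹) ∈ zpowers c → k ∈ zdSt a := fun a ha a1 k e => by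
    rcases (zd_zp zz).1 e with e | e
    · exact Or.inr (eq_inv_of_mul_eq_one_right e)
    · exact Or.inl (mul_left_cancel (e.trans (h.sq a ha a1).symm))
  have nc : ∀ a ∈ B1, ∀ b ∈ B1, a ∉ zpowers c → b ∉ zpowers c → a * b ∉ zpowers c → a * b * a⁻¹ = c * b :=
    fun a ha b hb a1 b1 ab => by
      rw [← mul_inv_eq_iff_eq_mul]
      refine (cmt a (h.B1_le ha) b (h.B1_le hb)).resolve_left fun e => z1 ?_
      rw [← h.sq _ (mul_mem ha hb) ab, (commutatorElement_eq_one_iff_commute.1 e).symm.mul_mul_mul_comm, h.sq a ha a1,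
        h.sq b hb b1, zz]
  obtain ⟨A, hA⟩ : ∃ A : G → ℕ → G, ∀ a i, A a i = g ^ i * a * (g ^ i)⁻¹ := ⟨_, fun _ _ => rfl⟩
  have A0 : ∀ a, A a 0 = a := fun a => by simp [hA]
  have As : ∀ a i, A a (i + 1) = g * A a i * g⁻¹ := fun a i => by rw [hA, hA, pow_succ']; group
  by_cases hU : g ∈ 𝒩(U)
  · have hB : B1 = Q ⊓ 𝒞(U) := le_antisymm (le_inf h.B1_le h.comm) fun q hq => by
      obtain ⟨b, hb, u, hu, rfl⟩ := (mem_sup_nr (h.comm.trans (cent_le_norm U))).1 (h.sup hq.1)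
      exact mul_mem hb (h.ZB (cQ u (h.U_le hu) (fun b hb => (comm_of_mem (h.comm hb) hu).symm)
        ((mul_mem_cancel_left (h.comm hb)).1 hq.2)))
    have gB : g ∈ 𝒩(B1) := hB ▸ le_norm_inf (L := zpowers g) (zpowers_le.2 gQ)
      (zpowers_le.2 (norm_le_norm_cent U hU)) (mem_zpowers g)
    have key : ∀ a ∈ B1, a ∉ zpowers c → a * a = c ∧ g ∈ zdSt a := fun a ha a1 => ⟨h.sq a ha a1, by
      by_contra hg
      have s5 : ∀ i, 0 < i → i < 5 → a * A a i ∉ zpowers c := fun i i0 i5 e => hg (zd_cop (zd_five i i5 i0)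
        (st a ha a1 _ (hA a i ▸ e)) (Or.inl (conj_eq_of_mem g5 (h.B1_le ha))))
      have cj1 : ∀ {b}, g * b * g⁻¹ ∈ zpowers c ↔ b ∈ zpowers c := fun {b} => (mem_normalizer_iff.1 (nz gz) b).symm
      have b : ∀ i, A a i ∈ B1 := fun i => hA a i ▸ conj_mem (pow_mem gB i) ha
      have c1 : A a 1 ∉ zpowers c := by rw [As, A0]; exact mt cj1.1 a1
      have c2 : A a 2 ∉ zpowers c := by rw [As]; exact mt cj1.1 c1
      have d1 := s5 1 (by decide) (by decide)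
      have d3 : A a 1 * A a 2 ∉ zpowers c := by
        rw [show A a 1 * A a 2 = g * (a * A a 1) * g⁻¹ by rw [As a 1, ← conj_mul, As a 0, A0]]
        exact mt cj1.1 d1
      have d4 : a * (A a 1 * A a 2) ∈ zpowers c := by
        by_contra e
        have e1 := nc a ha _ (mul_mem (b 1) (b 2)) a1 d3 e
        rw [← conj_mul, nc a ha _ (b 1) a1 c1 d1, nc a ha _ (b 2) a1 c2 (s5 2 (by decide) (by decide)), mul_assoc c,
          mul_right_inj, ← mul_assoc, mul_left_inj, mul_eq_left] at e1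
        exact z1 e1
      have d5 := cj1.2 d4
      rw [← conj_mul, ← conj_mul, ← As, ← As, ← A0 a, ← As, A0] at d5
      refine s5 3 (by decide) (by decide) ?_
      convert mul_mem (mul_mem d4 (inv_mem (h.sq _ (mul_mem (b 1) (b 2)) d3 ▸ mem_zpowers c :
        A a 1 * A a 2 * (A a 1 * A a 2) ∈ zpowers c))) d5 using 1
      group⟩
    exact ⟨x, h.B1_le hx, y, h.B1_le hy, key x hx x1, key y hy y1, key _ (mul_mem hx hy) xy⟩
  have cm0 : ∀ a ∈ B1, ∀ b ∈ B1, ∀ i < 5, 0 < i → Commute (A a i) b := fun a ha b hb i i5 i0 =>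
    comm_of_mem (h.comm hb) (((h.mv (g ^ i) ⟨pow_mem gz i, pow_mem gQ i⟩).resolve_left fun e =>
      hU (zd_cop (zd_five i i5 i0) e (cent_le_norm U (cent_mono h.U_le g5)))) (hA a i ▸ conj_mem_cj _ ha))
  have cm : ∀ a ∈ B1, ∀ b ∈ B1, ∀ i < 5, ∀ j < i, Commute (A a i) (A b j) := fun a ha b hb i i5 j ji => by
    obtain ⟨k, rfl⟩ := Nat.exists_eq_add_of_le ji.le
    have := (cm0 a ha b hb k (by omega) (by omega)).conj (g ^ j)
    rwa [← hA b, hA a k, show g ^ j * (g ^ k * a * (g ^ k)⁻¹) * (g ^ j)⁻¹ = A a (j + k) by rw [hA, pow_add]; group] at this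
  obtain ⟨X, hX⟩ : ∃ X : G → G, ∀ a, X a = A a 0 * A a 1 * A a 2 * A a 3 * A a 4 := ⟨_, fun _ => rfl⟩
  have Xm : ∀ a ∈ B1, ∀ b ∈ B1, X a * X b = X (a * b) := fun a ha b hb => by
    rw [hX, hX, hX, zd_prod (cm a ha b hb)]
    simp only [hA, conj_mul]
  have XQ : ∀ a ∈ B1, X a ∈ Q := fun a ha => by
    have : ∀ i, A a i ∈ Q := fun i => hA a i ▸ conj_mem (pow_mem gQ i) (h.B1_le ha)
    rw [hX]
    exact mul_mem (mul_mem (mul_mem (mul_mem (this 0) (this 1)) (this 2)) (this 3)) (this 4)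
  have key : ∀ a ∈ B1, a ∉ zpowers c → X a * X a = c ∧ g ∈ zdSt (X a) := fun a ha a1 => ⟨by
    have : ∀ i, A c i = c := fun i => by rw [hA, zc (pow_mem gz i), mul_inv_cancel_right]
    simp only [Xm a ha a ha, h.sq a ha a1, hX c, this, zz, one_mul], Or.inl (by
    have e : A a 5 = a := by rw [hA, conj_eq_of_mem g5 (h.B1_le ha)]
    have k := cm0 a ha a ha
    rw [hX, ← conj_mul, ← conj_mul, ← conj_mul, ← conj_mul, ← As, ← As, ← As, ← As, ← As, e, A0,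
      ((((k 1 (by decide) (by decide)).mul_left (k 2 (by decide) (by decide))).mul_left
        (k 3 (by decide) (by decide))).mul_left (k 4 (by decide) (by decide))).eq]
    group)⟩
  exact ⟨X x, XQ x hx, X y, XQ y hy, key x hx x1, key y hy y1, Xm x hx y hy ▸ key _ (mul_mem hx hy) xy⟩

namespace WS

variable [Finite G] {S : WS G} {j : G} {Q : Subgroup G}

theorem zd_vv (c c' : F4) : S.v c * S.v c' = S.v (c + c') := by rw [← map_mul]; simp [Heis.mul_def]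

theorem zd_zz : S.z * S.z = 1 := by rw [zd_vv, f4_add, S.v_zero]

theorem zd_vinj {c c' : F4} (h : S.v c = S.v c') : c = c' := congrArg Heis.c (S.inj h)

theorem zd_z1 : S.z ≠ 1 := fun e => one_ne_zero (zd_vinj (e.trans S.v_zero.symm))

theorem zd_zV : zpowers S.z ≤ S.V := zpowers_le.2 (S.mem_V.2 ⟨1, rfl⟩)

theorem zd_cz {a : G} (h : a ∈ S.Cz) : a * S.z * a⁻¹ = S.z :=
  mul_inv_eq_iff_eq_mul.2 (mem_centralizer_singleton_iff.1 h)

theorem zd_norm {X : Subgroup G} {g : G} (hz : S.z ∈ X) (h : ∀ x ∈ X, ⁅g, x⁆ = 1 ∨ ⁅g, x⁆ = S.z) : g ∈ 𝒩(X) :=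
  mem_norm_of_cj_le (by
    rintro _ ⟨x, hx, rfl⟩
    have := mul_mem (zpowers_le.2 hz ((zd_zp zd_zz).2 (h x hx))) hx
    rwa [commutatorElement_def, inv_mul_cancel_right] at this)

theorem QE.zd_mm_mem (hq : S.QE j Q) {y : M4} (h : Herm y) (c : F4) : S.mm y c ∈ Q := (hq.mem _).2 ⟨y, c, h, .inl rfl⟩

theorem QE.zd_v_mem (hq : S.QE j Q) (c : F4) : S.v c ∈ Q := SD.m_zero S.bd S.xd c ▸ hq.zd_mm_mem (by decide +kernel) c

theorem QE.zd_V_le (hq : S.QE j Q) : S.V ≤ Q := fun _ h => (S.mem_V.1 h).elim fun c e => e ▸ hq.zd_v_mem c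

theorem QE.zd_le_norm (hq : S.QE j Q) {X : Subgroup G} (h : X ≤ Q) (hz : S.z ∈ X) : Q ≤ 𝒩(X) := fun g hg =>
  zd_norm hz fun x hx => hq.cmt g hg x (h hx)

theorem QE.zd_four (hq : S.QE j Q) {q : G} (h : q ∈ Q) : q ^ 2 ^ 2 = 1 := by
  rw [show 2 ^ 2 = 2 * 2 from rfl, pow_mul, pow_two q]
  rcases hq.sq q h with e | e <;> rw [e]
  exacts [one_pow 2, (pow_two _).trans zd_zz]

theorem QE.zd_two (hq : S.QE j Q) : IsPGroup 2 Q := isPGroup_iff_forall.2 fun _ h => ⟨2, hq.zd_four h⟩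

theorem QE.zd_Hs_le (hq : S.QE j Q) : S.Hs ≤ S.Cz ⊓ 𝒩(Q) := fun _ h =>
  ⟨S.cV_le_Cz (S.Hs_cV h), hq.nH ⟨S.cV_le_Cz (S.Hs_cV h), cent_le_norm _ (S.Hs_cV h)⟩⟩

theorem ad_gen (hw : S.WF) (hk : S.KD) (hq : S.QE j Q) (Y : Subgroup G) (hz : S.z ∈ Y)
    (h : ∀ k ∈ S.Cz, k * S.v om * k⁻¹ ∈ Q → k * S.v om * k⁻¹ ∈ Y) (y : M4) (c : F4) (hy : Herm y) : S.mm y c ∈ Y := by
  have h1 : S.v om ∈ Y := by simpa using h 1 (one_mem _) (by simpa using hq.zd_v_mem om)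
  have h2 : ∀ c, S.v c ∈ Y := fun c => by
    rcases f4_cases c with rfl | rfl | rfl | rfl
    exacts [S.v_zero ▸ one_mem _, hz, h1, by rw [om_sq, ← zd_vv]; exact mul_mem h1 hz]
  have h3 : ∀ y c c', S.mm y c ∈ Y → S.mm y c' ∈ Y := fun y c c' e => by
    have := mul_mem e (h2 (c' - c))
    rwa [SD.m_v S.bd S.xd, add_sub_cancel] at this
  have h4 : ∀ i c, S.mm (pt i) c ∈ Y := fun i c => by
    obtain ⟨k, hk, c0, e⟩ := hk
    obtain ⟨σ, h5, rfl⟩ := (by decide +kernel : ∀ i : Fin 5, ∃ σ : Perm (Fin 5), Perm.sign σ = 1 ∧ σ 0 = i) i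
    obtain ⟨g, hg, ha⟩ := hw.real σ h5
    obtain ⟨c1, e1⟩ := ha (pt 0) c0
    rw [pm_pt, pt_zero, SD.m_u S.bd S.xd, ← SD.e1, ← e,
      show g * (k * S.v om * k⁻¹) * g⁻¹ = g * k * S.v om * (g * k)⁻¹ by group] at e1
    refine h3 _ c1 _ ?_
    rw [mm, ← e1]
    exact h _ (mul_mem (hq.zd_Hs_le hg).1 hk) (e1 ▸ hq.zd_mm_mem (herm_pt _) c1)
  rcases (by decide +kernel : ∀ y, Herm y → y = 0 ∨ (∃ i, y = pt i) ∨ ∃ i k, y = pt i + pt k) y hy with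
    rfl | ⟨i, rfl⟩ | ⟨i, k, rfl⟩
  · rw [mm, SD.m_zero S.bd S.xd]
    exact h2 c
  · exact h4 i c
  · exact h3 _ _ _ (SD.m_mul S.bd S.xd _ _ 0 0 ▸ mul_mem (h4 i 0) (h4 k 0))

theorem ad_a2 (hw : S.WF) (hk : S.KD) (hq : S.QE j Q) (h1 : S.A1 Q) {k : G} (hc : k ∈ S.Cz)
    (h : k * S.v om * k⁻¹ ∈ 𝒩(S.V)) : k ∈ 𝒩(Q) := by
  have zQ := hq.zd_v_mem 1
  have kz : ∀ {X : Subgroup G}, S.z ∈ X → S.z ∈ cj k X := fun hx => zd_cz hc ▸ conj_mem_cj k hx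
  have h2 : Q ≤ 𝒩(cj k S.V) := hq.zd_le_norm (by
    rintro _ ⟨x, hx, rfl⟩
    obtain ⟨c, rfl⟩ := S.mem_V.1 hx
    change k * S.v c * k⁻¹ ∈ Q
    rcases f4_cases c with rfl | rfl | rfl | rfl
    · simp [S.v_zero]
    · rwa [zd_cz hc]
    · exact h1 k hc h
    · rw [om_sq, ← zd_vv, ← conj_mul, zd_cz hc]
      exact mul_mem (h1 k hc h) zQ) (kz (zd_zV (mem_zpowers _)))
  have h3 := ad_gen hw hk hq (cj k Q) (kz zQ) fun k' hk' e => by
    have := h2 e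
    rw [← cj_norm, mem_cj, show k⁻¹ * (k' * S.v om * k'⁻¹) * k = k⁻¹ * k' * S.v om * (k⁻¹ * k')⁻¹ by group] at this
    rw [mem_cj, show k⁻¹ * (k' * S.v om * k'⁻¹) * k = k⁻¹ * k' * S.v om * (k⁻¹ * k')⁻¹ by group]
    exact h1 _ (mul_mem (inv_mem hc) hk') this
  refine mem_norm_of_cj_le ?_
  rintro _ ⟨g, hg, rfl⟩
  have h4 : ∀ x ∈ cj k Q, ⁅k * g * k⁻¹, x⁆ = 1 ∨ ⁅k * g * k⁻¹, x⁆ = S.z := by
    rintro _ ⟨x, hx, rfl⟩
    rw [show ⁅k * g * k⁻¹, (MulAut.conj k).toMonoidHom x⁆ = k * ⁅g, x⁆ * k⁻¹ from (conjugate_commutatorElement _ _ _).symm]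
    exact (hq.cmt g hg x hx).imp (fun e => by simp [e]) fun e => by rw [e, zd_cz hc]
  obtain ⟨q, hq', o, ho, e⟩ := hq.cm (k * g * k⁻¹) (mem_inf.2 ⟨mul_mem (mul_mem hc (hq.cz hg)) (inv_mem hc),
    zd_norm (zd_zV (mem_zpowers _)) fun x hx => by
      obtain ⟨c, rfl⟩ := S.mem_V.1 hx
      exact h4 _ (SD.m_zero S.bd S.xd c ▸ h3 0 c (by decide +kernel))⟩) fun y c hy => h4 _ (h3 y c hy)
  change k * g * k⁻¹ ∈ Q
  rwa [e, S.eq_one_of_two ho (hq.cO hq') ⟨2, hq.zd_four hq'⟩ ⟨2, by rw [← e, conj_pow, hq.zd_four hg]; group⟩, mul_one]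

theorem ad_fix (hq : S.QE j Q) (P : Subgroup G) (hP : P ≤ S.Cz ⊓ 𝒩(Q)) (h2 : IsPGroup 2 P) :
    ∃ k ∈ S.Cz ⊓ 𝒩(Q), cj k P ≤ 𝒩(S.V) := by
  obtain ⟨T, hT, hW⟩ := exists_isSylowIn_ge S.W_two (S.W_le_Hs.trans hq.zd_Hs_le)
  have hn : T ≤ 𝒩(Q) := hT.le.trans inf_le_right
  obtain ⟨i, h3, h4⟩ := exists_iter_not_le (A := zpowers S.z) (exists_iter_eq_bot hq.zd_two hT.isPGroup hn) fun e => by
    rcases (zd_zp zd_zz).1 (e (hq.zd_v_mem om)) with e | e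
    exacts [absurd (zd_vinj (e.trans S.v_zero.symm)) (by decide +kernel), absurd (zd_vinj e) (by decide +kernel)]
  obtain ⟨q, h5, h6⟩ := SetLike.not_le_iff_exists.1 h3
  have h7 : ∀ t ∈ T, ⁅q, t⁆ ∈ zpowers S.z := fun t ht => h4 (commutator_mem_commutator h5 ht)
  obtain ⟨c, rfl⟩ := S.mem_V.1 (hq.fixW q (iter_le hn i h5) fun w hw => (zd_zp zd_zz).1 (h7 w (hW hw)))
  obtain ⟨k, hk, h8⟩ := syl_conj_le hT h2 hP
  refine ⟨k, hk, h8.trans fun t ht => mem_norm_of_cj_le ?_⟩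
  rintro _ ⟨x, hx, rfl⟩
  obtain ⟨c', rfl⟩ := S.mem_V.1 hx
  change t * S.v c' * t⁻¹ ∈ S.V
  have h9 : t * S.v c * t⁻¹ ∈ S.V := by
    have := mul_mem (inv_mem (zd_zV (h7 t ht))) (S.mem_V.2 ⟨c, rfl⟩)
    rwa [commutatorElement_inv, commutatorElement_def, inv_mul_cancel_right] at this
  rcases (by decide +kernel : ∀ c c' : F4, c = 0 ∨ c = 1 ∨ c' = 0 ∨ c' = 1 ∨ c' = c ∨ c' = c + 1) c c' with
    rfl | rfl | rfl | rfl | rfl | rfl
  · exact absurd (S.v_zero ▸ one_mem _) h6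
  · exact absurd (mem_zpowers _) h6
  · simp [S.v_zero]
  · exact (zd_cz (hT.le ht).1).symm ▸ zd_zV (mem_zpowers _)
  · exact h9
  · rw [← zd_vv, ← conj_mul, zd_cz (hT.le ht).1]
    exact mul_mem h9 (zd_zV (mem_zpowers _))

theorem ad_nc (hw : S.WF) (hq : S.QE j Q) (B1 U : Subgroup G) (c : G) : ¬ Cfg S.Cz (zpowers S.z) Q B1 U c := fun h => by
  obtain ⟨g, hg, ha⟩ := hw.real (finRotate 5) (by decide)
  have h1 : ∀ n : ℕ, S.Ac (g ^ n) (pm (finRotate 5 ^ n)) := fun n => by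
    induction n with
    | zero => exact fun y c => ⟨c, by simp [pm_one]⟩
    | succ n ih =>
      rw [pow_succ, pow_succ, funext (pm_mul _ _)]
      exact SD.Ac.mul ih ha
  obtain ⟨w, hw', o, ho, e⟩ := hw.ker (g ^ 5) (S.Hs_cV (pow_mem hg 5)) (by
    have := h1 5
    rwa [show finRotate 5 ^ 5 = 1 by decide, funext pm_one] at this)
  have h2 : ∀ X ∈ S.W, X * X = S.z ∧ g ^ 4 ∈ zdSt X → False := by
    rintro _ ⟨y, c, rfl⟩ ⟨h2, h3⟩
    obtain ⟨c', e'⟩ := h1 4 y c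
    have h4 : (S.mm y c)⁻¹ = S.mm y (c + 1) := inv_eq_of_mul_eq_one_right (by
      rw [mm, mm, ← SD.m_v S.bd S.xd, ← mul_assoc, h2, zd_zz])
    have h5 : y = 0 := (by decide +kernel : ∀ y, pm (finRotate 5 ^ 4) y = y → y = 0) y (h3.elim
      (fun e => (SD.m_inj S.bd S.xd (e'.symm.trans e)).1) fun e => (SD.m_inj S.bd S.xd (e'.symm.trans (e.trans h4))).1)
    rw [h5, mm, SD.m_zero S.bd S.xd, zd_vv, f4_add, S.v_zero] at h2
    exact zd_z1 h2.symm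
  obtain ⟨X, hX, Y, hY, a1, a2, a3⟩ := zd_cfg zd_zz zd_z1 hq.sq hq.cmt hq.cen hq.cz h (hq.zd_Hs_le (pow_mem hg 4)).1
    (hq.zd_Hs_le (pow_mem hg 4)).2 (by
      rw [← pow_mul, mul_comm, pow_mul, e, (show Commute o w from comm_of_mem (S.W_cO hw') ho).symm.mul_pow,
        show w ^ 4 = 1 from S.W_pow hw', one_mul]
      exact le_centralizer_iff.1 hq.cO (pow_mem ho 4))
  obtain ⟨y, c, -, rfl | rfl⟩ := (hq.mem X).1 hX
  · exact h2 _ (S.mm_mem y c) a1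
  obtain ⟨y', c', -, rfl | rfl⟩ := (hq.mem Y).1 hY
  · exact h2 _ (S.mm_mem y' c') a2
  refine h2 _ ?_ a3
  rw [show S.mm y c * j * (S.mm y' c' * j) = S.mm y c * (j * S.mm y' c' * j⁻¹) * (j * j) by group]
  refine mul_mem (mul_mem (S.mm_mem y c) (conj_mem hq.jd.ac.norm (S.mm_mem y' c'))) ?_
  rcases hq.jd.sq with e | e <;> rw [e]
  exacts [one_mem _, S.ι_mem _]

end WS

open WS

theorem aDS : ADS.{u} := fun _ _ _ _ _ _ hw hk hq h1 =>
  ⟨ad_gen hw hk hq, fun k hc h => ⟨h1 k hc h, ad_a2 hw hk hq h1 hc h⟩, ad_fix hq, ad_nc hw hq⟩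

theorem zDS : ZDS.{u} := by
  intro gs G _ _ S j Q hw hq ha
  have zQ := hq.zd_v_mem 1
  have QV : Q ≤ 𝒩(S.V) := hq.zd_le_norm hq.zd_V_le (zd_zV (mem_zpowers _))
  have h1 := gs G S.Cz (zpowers S.z) Q {d | ∃ k ∈ S.Cz, d = k * S.v om * k⁻¹} (zpowers_le.2 zQ) hq.cz
    (by rw [zpowers_eq_closure, centralizer_closure])
    (fun z hz => by
      rcases (zd_zp zd_zz).1 hz with rfl | rfl
      exacts [one_mul _, zd_zz])
    (fun b hb => (zd_zp zd_zz).2 (hq.sq b hb))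
    (by
      rintro _ ⟨k, hk, rfl⟩
      exact ⟨mul_mem (mul_mem hk (hq.cz (hq.zd_v_mem _))) (inv_mem hk), by rw [conj_mul, zd_vv, f4_add, S.v_zero]; group,
        fun g hg => ⟨g * k, mul_mem hg hk, by group⟩⟩)
    ⟨_, ⟨1, one_mem _, by group⟩, hq.zd_v_mem om⟩
    (by
      rintro _ ⟨k, hk, rfl⟩ hn
      obtain ⟨k', hk', e⟩ := ha.fix (zpowers (k * S.v om * k⁻¹))
        (zpowers_le.2 (mem_inf.2 ⟨mul_mem (mul_mem hk (hq.cz (hq.zd_v_mem _))) (inv_mem hk), hn⟩))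
        (isPGroup_zpowers (k := 2) (by rw [conj_pow, hq.zd_four (hq.zd_v_mem _)]; group))
      have e1 := e (conj_mem_cj k' (mem_zpowers _))
      have e2 : k' * (k * S.v om * k⁻¹) * k'⁻¹ = k' * k * S.v om * (k' * k)⁻¹ := by group
      exact (mem_normalizer_iff.1 hk'.2 _).2 (e2 ▸ (ha.a2 _ (mul_mem hk'.1 hk) (e2 ▸ e1)).1))
    (by
      rintro _ ⟨k, hk, rfl⟩ hd g hg e
      rw [show g * (k * S.v om * k⁻¹) * g⁻¹ = g * k * S.v om * (g * k)⁻¹ by group] at e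
      exact (mul_mem_cancel_right (ha.a2 k hk (QV hd)).2).1 (ha.a2 _ (mul_mem hg hk) (QV e)).2)
    (fun b hb g hg hn _ => by
      have yz : g * b * g⁻¹ ∈ S.Cz := mul_mem (mul_mem hg (hq.cz hb)) (inv_mem hg)
      obtain ⟨k, hk, e⟩ := ha.fix (zpowers (g * b * g⁻¹)) (zpowers_le.2 ⟨yz, hn⟩)
        (isPGroup_zpowers (k := 2) (by rw [conj_pow, hq.zd_four hb]; group))
      generalize g * b * g⁻¹ = y at yz e
      obtain ⟨c, hc⟩ := S.mem_V.1 (conj_mem (e (conj_mem_cj k (mem_zpowers _))) (S.mem_V.2 ⟨om, rfl⟩))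
      have y1 := zd_cz (mul_mem (mul_mem hk.1 yz) (inv_mem hk.1))
      refine ⟨k⁻¹ * S.v om * k, ⟨k⁻¹, inv_mem hk.1, by group⟩, conj_mem' hk.2 (hq.zd_v_mem _), (zd_zp zd_zz).2 ?_⟩
      rw [show ⁅k⁻¹ * S.v om * k, y⁆ = k⁻¹ * (S.v om * (k * y * k⁻¹ * S.v om * (k * y * k⁻¹)⁻¹)⁻¹) * k⁻¹⁻¹ by group, hc]
      rcases f4_cases c with rfl | rfl | rfl | rfl
      · rw [S.v_zero, conj_eq_one_iff, ← S.v_zero] at hc
        exact absurd (zd_vinj hc) (by decide +kernel)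
      · exact absurd (zd_vinj (mul_left_cancel (mul_right_cancel (hc.trans y1.symm)))) (by decide +kernel)
      · exact .inl (by group)
      · rw [om_sq, ← zd_vv, mul_inv_rev, ← mul_assoc (S.v om), inv_eq_of_mul_eq_one_right (zd_zz (S := S)),
          zd_cz (hq.cz (hq.zd_v_mem om)), zd_cz (inv_mem hk.1)]
        exact .inr rfl)
    ha.nc
  have h2 : pPrimeCoreOf 2 S.Cz ≤ S.O := hw.ol _ (Nat.coprime_two_right.1 (pPrimeCoreOf_coprime 2 _))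
    ((S.W_cV.trans S.cV_le_Cz).trans (le_normalizer_pPrimeCoreOf 2 _)) (pPrimeCoreOf_le 2 _)
  have nQ : S.Cz ≤ 𝒩(Q) := fun k hk => mem_norm_of_cj_le (by
    rintro _ ⟨q, hq', rfl⟩
    obtain ⟨a, ha, o, ho, e⟩ := (mem_sup_nr ((hq.cO.trans (cent_mono h2)).trans (cent_le_norm _))).1
      (conj_mem (h1 hk) (mem_sup_left hq'))
    change k * q * k⁻¹ ∈ Q
    rwa [← e, S.eq_one_of_two (h2 ho) (hq.cO ha) ⟨2, hq.zd_four ha⟩ ⟨2, by rw [e, conj_pow, hq.zd_four hq']; group⟩, mul_one])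
  have cQ : ∀ g ∈ 𝒞(Q), ∃ o ∈ S.O, g = o ∨ g = S.z * o := fun g hg => by
    obtain ⟨q, hq', o, ho, rfl⟩ := hq.cm g ⟨S.cV_le_Cz (cent_mono hq.zd_V_le hg), cent_le_norm _ (cent_mono hq.zd_V_le hg)⟩
      fun y c hy => .inl (commutatorElement_eq_one_iff_mul_comm.2 (comm_of_mem hg (hq.zd_mm_mem hy c)).symm)
    exact ⟨o, ho, (hq.cen q hq' ((mul_mem_cancel_right (le_centralizer_iff.1 hq.cO ho)).1 hg)).imp
      (fun e => by rw [e, one_mul]) fun e => by rw [e]⟩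
  refine ⟨nQ, cQ, fun k hk => mem_norm_of_cj_le ?_, ?_⟩
  · rintro _ ⟨o, ho, rfl⟩
    obtain ⟨o', ho', e⟩ := cQ _ (conj_mem (norm_le_norm_cent Q (nQ hk)) (le_centralizer_iff.1 hq.cO ho))
    refine mem_of_pow_mem_of_coprime (n := 2) (by
      rw [MulEquiv.coe_toMonoidHom, MulEquiv.orderOf_eq]
      exact Nat.coprime_two_right.2 (S.bd.O_odd.of_dvd_nat (orderOf_dvd_natCard _ ho))) ?_
    change (k * o * k⁻¹) ^ 2 ∈ S.O
    rcases e with e | e <;> rw [e]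
    · exact pow_mem ho' 2
    · rw [(show Commute o' S.z from comm_of_mem (hq.cO zQ) ho').symm.mul_pow, sq, zd_zz, one_mul]
      exact pow_mem ho' 2
  · obtain ⟨T, hT⟩ := exists_isSylowIn 2 S.Cz
    have hQ : Q ≤ T := hT.le_of_normalized hq.zd_two hq.cz nQ
    have h3 : 𝒩(T) ≤ S.Cz := fun n hn => by
      obtain ⟨o, ho, e⟩ := cQ _ (cent_mono hQ (conj_mem (norm_le_norm_cent T hn)
        (fun t ht => mem_centralizer_singleton_iff.1 (hT.le ht) : S.z ∈ 𝒞(T))))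
      have h4 : Two (n * S.z * n⁻¹) := ⟨1, by rw [conj_pow, pow_one, sq, zd_zz]; group⟩
      rcases e with e | e
      · rw [S.eq_one_of_two ho (one_mem _) ⟨0, one_pow _⟩ (by rwa [one_mul, ← e]), conj_eq_one_iff] at e
        exact absurd e zd_z1
      · rw [S.eq_one_of_two ho (hq.cO zQ) ⟨2, hq.zd_four zQ⟩ (e ▸ h4), mul_one, mul_inv_eq_iff_eq_mul] at e
        exact mem_centralizer_singleton_iff.2 e
    refine ⟨T, isSylowIn_of_maximal le_top hT.isPGroup fun U hU hTU _ => ?_, hT.le, hQ zQ⟩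
    by_contra hne
    have h4 := lt_inf_normalizer_of_isPGroup hU (lt_of_le_of_ne hTU (Ne.symm hne))
    exact h4.ne' (hT.eq_of_le (hU.to_le inf_le_left) h4.le (inf_le_right.trans h3))

end CL.LS
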